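import Cfsg.Agent.Classical.SUConj

/-! Normal 2-coverings, part 1: the general framework (`CovZ`, `covZ_lin`) and the linear groups. -/

set_option autoImplicit false

namespace Cfsg.Agent.Classical.Cov

open Module Polynomial Matrix Cfsg.Agent.Geom Cfsg.Agent.Geom.Formed

/-- `G` is the union of the conjugates of two proper subgroups containing the centre. -/
def CovZ (G : Type*) [Group G] : Prop := ∃ H K : Subgroup G, Subgroup.center G ≤ H ∧
  Subgroup.center G ≤ K ∧ H ≠ ⊤ ∧ K ≠ ⊤ ∧ ∀ g, ∃ x, x * g * x⁻¹ ∈ H ∨ x * g * x⁻¹ ∈ K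

theorem map_mk_ne_top {G : Type*} [Group G] {N H : Subgroup G} [N.Normal] (h : N ≤ H) (h' : H ≠ ⊤) :
    H.map (QuotientGroup.mk' N) ≠ ⊤ := fun e => h' (by
  have := congrArg (Subgroup.comap (QuotientGroup.mk' N)) e
  rwa [Subgroup.comap_map_eq, QuotientGroup.ker_mk', sup_eq_left.2 h, Subgroup.comap_top] at this)

theorem CovZ.quot {G : Type*} [Group G] (h : CovZ G) :
    ∃ H K : Subgroup (G ⧸ Subgroup.center G), H ≠ ⊤ ∧ K ≠ ⊤ ∧
      ∀ g, ∃ x, x * g * x⁻¹ ∈ H ∨ x * g * x⁻¹ ∈ K := by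
  obtain ⟨H, K, h1, h2, h3, h4, h5⟩ := h
  refine ⟨_, _, map_mk_ne_top h1 h3, map_mk_ne_top h2 h4, fun g => ?_⟩
  obtain ⟨g, rfl⟩ := QuotientGroup.mk_surjective g
  obtain ⟨x, hx⟩ := h5 g
  exact ⟨x, hx.imp (fun h => ⟨_, h, rfl⟩) fun h => ⟨_, h, rfl⟩⟩

variable {F : Type*} [Field F] {V : Type*} [AddCommGroup V] [Module F V]

/-- `H` is a proper subgroup of `G` containing the scalars, with the same determinants as `G`. -/
structure Good {C : Type*} [Group C] (d : (V ≃ₗ[F] V) →* C) (G H : Subgroup (V ≃ₗ[F] V)) : Prop where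
  scal : ∀ g ∈ G, (∃ c : F, ∀ v, g v = c • v) → g ∈ H
  det : ∀ g ∈ G, ∃ h ∈ G, h ∈ H ∧ d h = d g
  ne : ∃ g ∈ G, g ∉ H

/-- `j` identifies `S` with the kernel of `d` on `G`, up to a kernel; central elements are scalars. -/
structure Model {S C : Type*} [Group S] [Group C] (j : S →* (V ≃ₗ[F] V)) (d : (V ≃ₗ[F] V) →* C)
    (G : Subgroup (V ≃ₗ[F] V)) : Prop where
  range : ∀ g, g ∈ j.range ↔ g ∈ G ∧ d g = 1
  cent : ∀ z ∈ Subgroup.center S, ∃ c : F, ∀ v, j z v = c • v

theorem Good.conj {S C : Type*} [Group S] [Group C] {j : S →* (V ≃ₗ[F] V)} {d : (V ≃ₗ[F] V) →* C}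
    {G H : Subgroup (V ≃ₗ[F] V)} (h : Good d G H) (hj : Model j d G) {x : V ≃ₗ[F] V} (hx : x ∈ G) :
    ∃ y : S, ∃ k ∈ H, j y = k⁻¹ * x := by
  obtain ⟨k, hk, hk', hd⟩ := h.det x hx
  obtain ⟨y, hy⟩ := (hj.range (k⁻¹ * x)).2 ⟨G.mul_mem (G.inv_mem hk) hx, by simp [hd]⟩
  exact ⟨y, k, hk', hy⟩

theorem Good.ne_top {S C : Type*} [Group S] [Group C] {j : S →* (V ≃ₗ[F] V)} {d : (V ≃ₗ[F] V) →* C}
    {G H : Subgroup (V ≃ₗ[F] V)} (h : Good d G H) (hj : Model j d G) : H.comap j ≠ ⊤ := fun e => by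
  obtain ⟨g, hg, hg'⟩ := h.ne
  obtain ⟨y, k, hk, hy⟩ := h.conj hj hg
  have : j y ∈ H := (e ▸ Subgroup.mem_top y : y ∈ H.comap j)
  rw [hy] at this
  exact hg' (by simpa using H.mul_mem hk this)

theorem covZ_lin {S C : Type*} [Group S] [Group C] {j : S →* (V ≃ₗ[F] V)} {d : (V ≃ₗ[F] V) →* C}
    {G H K : Subgroup (V ≃ₗ[F] V)} (hj : Model j d G) (hH : Good d G H) (hK : Good d G K)
    (h : ∀ g ∈ G, d g = 1 → ∃ x ∈ G, x * g * x⁻¹ ∈ H ∨ x * g * x⁻¹ ∈ K) : CovZ S := by
  refine ⟨H.comap j, K.comap j, fun z hz => hH.scal _ ((hj.range _).1 ⟨z, rfl⟩).1 (hj.cent z hz),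
    fun z hz => hK.scal _ ((hj.range _).1 ⟨z, rfl⟩).1 (hj.cent z hz),
    hH.ne_top hj, hK.ne_top hj, fun g => ?_⟩
  obtain ⟨h1, h2⟩ := (hj.range (j g)).1 ⟨g, rfl⟩
  have key : ∀ {L : Subgroup (V ≃ₗ[F] V)} {x}, Good d G L → x ∈ G → x * j g * x⁻¹ ∈ L →
      ∃ y, y * g * y⁻¹ ∈ L.comap j := fun {L x} hL hx h => by
    obtain ⟨y, k, hk, hy⟩ := hL.conj hj hx
    refine ⟨y, ?_⟩
    rw [Subgroup.mem_comap, map_mul, map_mul, map_inv, hy]
    convert L.mul_mem (L.mul_mem (L.inv_mem hk) h) hk using 1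
    group
  obtain ⟨x, hx, h | h⟩ := h _ h1 h2
  · exact (key hH hx h).imp fun _ => Or.inl
  · exact (key hK hx h).imp fun _ => Or.inr

theorem conj_mem_stab {g x : V ≃ₗ[F] V} {U : Submodule F V} (hg : g ∈ stab U) :
    x * g * x⁻¹ ∈ stab (U.map (x : V →ₗ[F] V)) := fun v => by
  obtain ⟨v, rfl⟩ := x.surjective v
  simpa using hg v

theorem scal_mem_stab (U : Submodule F V) (g : V ≃ₗ[F] V) (h : ∃ c : F, ∀ v, g v = c • v) :
    g ∈ stab U := fun v => by
  obtain ⟨c, hc⟩ := h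
  by_cases h0 : c = 0
  · have : v = 0 := g.injective (by rw [hc, h0, zero_smul, map_zero])
    simp [this]
  · rw [hc, U.smul_mem_iff h0]

theorem mem_stab_span {g : V ≃ₗ[F] V} {v : V} {c : F} (h : g v = c • v) : g ∈ stab (F ∙ v) :=
  mem_stab_of_le fun w hw => by
    obtain ⟨a, rfl⟩ := Submodule.mem_span_singleton.1 hw
    rw [map_smul, h]
    exact Submodule.smul_mem _ _ (Submodule.smul_mem _ _ (Submodule.mem_span_singleton_self v))

/-- The centraliser of an endomorphism. -/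
def centr (A : End F V) : Subgroup (V ≃ₗ[F] V) where
  carrier := {g | ∀ v, g (A v) = A (g v)}
  mul_mem' := fun {a b} ha hb v => by simp only [LinearEquiv.mul_apply]; rw [hb, ha]
  one_mem' := fun _ => rfl
  inv_mem' := fun {a} ha v => a.injective (by rw [ha]; simp)

theorem exists_irred (F : Type*) [Field F] [Finite F] {r : ℕ} (hr : 0 < r) :
    ∃ f : F[X], Irreducible f ∧ f.Monic ∧ f.natDegree = r := by
  obtain ⟨p, hp⟩ := CharP.exists F
  have : Fact p.Prime := ⟨CharP.char_is_prime F p⟩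
  have : NeZero r := ⟨hr.ne'⟩
  obtain ⟨a, ha⟩ := Field.exists_primitive_element_of_finite_top F (FiniteField.Extension F p r)
  have hi : IsIntegral F a := .of_finite F a
  exact ⟨minpoly F a, minpoly.irreducible hi, minpoly.monic hi,
    ((Field.primitive_element_iff_minpoly_natDegree_eq F a).1 ha).trans
      (FiniteField.finrank_extension F p r)⟩

theorem exists_dvd_comp [Finite F] {f p : F[X]} (hf : Irreducible f) (hp : Irreducible p)
    (h : f.natDegree ∣ p.natDegree) : ∃ a : F[X], p ∣ f.comp a := by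
  have := Fact.mk hf
  have := Fact.mk hp
  have h1 : Module.Finite F (AdjoinRoot p) := (AdjoinRoot.powerBasis hp.ne_zero).finite
  have : Finite (AdjoinRoot p) := Module.finite_of_finite F
  have h2 : ∀ {g : F[X]}, finrank F (AdjoinRoot g) = g.natDegree := fun {g} =>
    finrank_quotient_span_eq_natDegree (f := g)
  obtain ⟨φ⟩ := FiniteField.nonempty_algHom_of_finrank_dvd (F := F) (K := AdjoinRoot f)
    (L := AdjoinRoot p) (by rwa [h2, h2])
  obtain ⟨a, ha⟩ := AdjoinRoot.mk_surjective (φ (AdjoinRoot.root f))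
  refine ⟨a, AdjoinRoot.mk_eq_zero.1 ?_⟩
  rw [← AdjoinRoot.aeval_eq, aeval_comp, AdjoinRoot.aeval_eq, ha, aeval_algHom_apply,
    AdjoinRoot.aeval_eq, AdjoinRoot.mk_self, map_zero]

theorem exists_dvd_pow {y χ : F[X]} (h0 : χ ≠ 0) (h : ∀ p, Irreducible p → p ∣ χ → p ∣ y) :
    ∃ k, χ ∣ y ^ k := by
  induction χ using WfDvdMonoid.induction_on_irreducible with
  | zero => exact absurd rfl h0
  | unit u hu => exact ⟨0, hu.dvd⟩
  | mul a p ha hp ih =>
    obtain ⟨k, hk⟩ := ih ha fun q hq hd => h q hq (hd.mul_left _)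
    exact ⟨k + 1, by rw [pow_succ']; exact mul_dvd_mul (h p hp (dvd_mul_right _ _)) hk⟩

theorem comp_pow_card [Fintype F] (f a : F[X]) (k : ℕ) :
    f.comp (a ^ Fintype.card F ^ k) = f.comp a ^ Fintype.card F ^ k := by
  induction k with
  | zero => simp
  | succ k ih =>
    rw [pow_succ, pow_mul, pow_mul, ← ih, ← pow_comp, ← FiniteField.expand_card f,
      expand_eq_comp_X_pow, comp_assoc]
    simp

theorem exists_aeval_root [Finite F] {g : End F V} {χ f : F[X]} (h0 : χ ≠ 0) (hχ : aeval g χ = 0)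
    (hf : Irreducible f) (h : ∀ p, Irreducible p → p ∣ χ → f.natDegree ∣ p.natDegree) :
    ∃ a : F[X], aeval (aeval g a) f = 0 := by
  classical
  have := Fintype.ofFinite F
  let S := (UniqueFactorizationMonoid.normalizedFactors χ).toFinset
  have hS : ∀ p : S, Irreducible p.1 ∧ p.1.Monic ∧ p.1 ∣ χ := fun p =>
    (Polynomial.mem_normalizedFactors_iff h0).1 (Multiset.mem_toFinset.1 p.2)
  choose a ha using fun p : S => exists_dvd_comp hf (hS p).1 (h _ (hS p).1 (hS p).2.2)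
  obtain ⟨r, hr⟩ := Ideal.exists_forall_sub_mem_ideal (I := fun p : S => Ideal.span {p.1})
    (fun p p' hne => (Ideal.isCoprime_span_singleton_iff _ _).2 (isCoprime_of_ne (hS p).1 (hS p).2.1
      (hS p').1 (hS p').2.1 fun e => hne (Subtype.ext e))) a
  obtain ⟨k, hk⟩ := exists_dvd_pow (y := f.comp r) h0 fun p hp hd => by
    obtain ⟨p', h1, h2⟩ := UniqueFactorizationMonoid.exists_mem_normalizedFactors_of_dvd h0 hp hd
    let s : S := ⟨p', Multiset.mem_toFinset.2 h1⟩
    refine h2.dvd.trans ?_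
    have h3 : p' ∣ r - a s := Ideal.mem_span_singleton.1 (hr s)
    have h4 : r - a s ∣ f.comp r - f.comp (a s) := by
      have := sub_dvd_eval_sub r (a s) (f.map C)
      simpa only [eval_map, Polynomial.comp] using this
    simpa using dvd_add (h3.trans h4) (ha s)
  refine ⟨r ^ Fintype.card F ^ k, ?_⟩
  rw [← aeval_comp, comp_pow_card]
  obtain ⟨c, hc⟩ := hk.trans (pow_dvd_pow _ (Nat.lt_pow_self (Fintype.one_lt_card (α := F))).le)
  rw [hc, map_mul, hχ, zero_mul]

theorem exists_eigen_of_dvd [FiniteDimensional F V] {g : End F V} {p : F[X]} (hp : p.natDegree = 1)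
    (h : p ∣ g.charpoly) : ∃ v, v ≠ 0 ∧ ∃ c : F, g v = c • v := by
  obtain ⟨c, hc⟩ := exists_root_of_degree_eq_one ((degree_eq_iff_natDegree_eq_of_pos one_pos).2 hp)
  obtain ⟨v, hv⟩ := ((Module.End.hasEigenvalue_iff_isRoot_charpoly g c).2 (hc.dvd h)).exists_hasEigenvector
  exact ⟨v, hv.2, c, hv.apply_eq_smul⟩

theorem good_line [FiniteDimensional F V] (h2 : 2 ≤ finrank F V) {v : V} (hv : v ≠ 0) :
    Good LinearEquiv.det ⊤ (stab (F ∙ v)) := by
  refine ⟨fun g _ => scal_mem_stab _ g, fun g _ => ?_, ?_⟩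
  · obtain ⟨φ, hφ⟩ := Module.Projective.exists_dual_eq_one F hv
    have hd := LinearMap.transvection.det (((LinearEquiv.det g : Fˣ) - 1 : F) • φ) v
    simp only [LinearMap.smul_apply, hφ, smul_eq_mul, mul_one, add_sub_cancel] at hd
    refine ⟨LinearMap.equivOfDetNeZero _ (hd.trans_ne (Units.ne_zero _)), trivial,
      mem_stab_span (c := (LinearEquiv.det g : Fˣ)) ?_, Units.ext ((LinearEquiv.coe_det _).trans hd)⟩
    change LinearMap.transvection _ v v = _
    simp [LinearMap.transvection.apply, hφ, sub_smul]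
  · obtain ⟨w, hw⟩ := exists_linearIndependent_pair_of_one_lt_finrank (R := F) (by omega) hv
    obtain ⟨φ, hφ⟩ := LinearMap.exists_extend ((Basis.span hw).coord 0)
    have h0 : φ v = 1 := by
      have := LinearMap.congr_fun hφ (Basis.span hw 0)
      rw [Basis.coord_apply, Basis.repr_self] at this
      simpa using this
    have h1 : φ w = 0 := by
      have := LinearMap.congr_fun hφ (Basis.span hw 1)
      rw [Basis.coord_apply, Basis.repr_self] at this
      simpa using this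
    refine ⟨LinearEquiv.transvection h1, trivial, fun h => ?_⟩
    obtain ⟨c, hc⟩ := Submodule.mem_span_singleton.1 ((h v).1 (Submodule.mem_span_singleton_self v))
    rw [LinearEquiv.transvection.apply, h0, one_smul] at hc
    have := (LinearIndependent.pair_iff.1 hw (1 - c) 1 (by rw [sub_smul, hc]; simp)).2
    exact one_ne_zero this

theorem good_centr [Finite F] [FiniteDimensional F V] [Nontrivial V] {A : End F V} {f : F[X]}
    (hf : Irreducible f) (hm : f.Monic) (h1 : f.natDegree ≠ 1) (hA : aeval A f = 0) :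
    Good LinearEquiv.det ⊤ (centr A) := by
  obtain ⟨k, hk, hD⟩ := elemDiv_of_irreducible hf hm hA
  have hk0 : k ≠ 0 := by
    rintro rfl
    exact (finrank_pos (R := F) (M := V)).ne (by rw [← hk, zero_mul])
  refine ⟨fun g _ ⟨c, hc⟩ v => by rw [hc, hc, map_smul], fun g _ => ?_, ?_⟩
  · obtain ⟨z, hz, hd⟩ := exists_commute_det hf (hD ▸ Multiset.mem_replicate.2 ⟨hk0, rfl⟩ : f ∈ elemDiv A)
      (LinearEquiv.det g : Fˣ)
    exact ⟨LinearMap.equivOfDetNeZero _ (hd ▸ Units.ne_zero _), trivial,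
      fun v => LinearMap.congr_fun hz v, Units.ext ((LinearEquiv.coe_det _).trans hd)⟩
  · by_contra! h
    obtain ⟨v, hv⟩ := exists_ne (0 : V)
    obtain ⟨φ, hφ⟩ := Module.Projective.exists_dual_eq_one F hv
    have h2 : ∀ w, φ w = 0 → A w = φ (A v) • w := fun w hw => by
      have := h (LinearEquiv.transvection hw) trivial v
      simp only [LinearEquiv.transvection.apply, hφ, one_smul, map_add, add_right_inj] at this
      exact this.symm
    by_cases h3 : ∀ w, φ w = 0 → w = 0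
    · have h4 : finrank F V ≤ 1 := by
        simpa using LinearMap.finrank_le_finrank_of_injective ((injective_iff_map_eq_zero φ).2 h3)
      have h5 := hf.natDegree_pos
      have : f.natDegree ≤ k * f.natDegree := Nat.le_mul_of_pos_left _ (Nat.pos_of_ne_zero hk0)
      omega
    · push Not at h3
      obtain ⟨w, hw, hw0⟩ := h3
      have h4 := Module.End.aeval_apply_of_hasEigenvector (p := f)
        (⟨Module.End.mem_eigenspace_iff.2 (h2 w hw), hw0⟩ : A.HasEigenvector (φ (A v)) w)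
      rw [hA, LinearMap.zero_apply, eq_comm, smul_eq_zero_iff_left hw0] at h4
      exact h1 (natDegree_eq_of_degree_eq_some (degree_eq_one_of_irreducible_of_root hf h4))

theorem model_SL (n : ℕ) : Model ((glEquiv (Fin n) F).toMonoidHom.comp SpecialLinearGroup.toGL)
    LinearEquiv.det ⊤ := by
  refine ⟨fun g => ?_, fun z hz => ?_⟩
  · obtain ⟨g, rfl⟩ := (glEquiv (Fin n) F).surjective g
    rw [linearEquiv_det_glEquiv, ← MonoidHom.mem_ker, ← range_toGL]
    simp
  · obtain ⟨c, -, hc⟩ := Matrix.SpecialLinearGroup.mem_center_iff.1 hz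
    exact ⟨c, fun v => by simp [← hc]⟩

theorem covZ_SL [Finite F] {n r : ℕ} (hr : 2 ≤ r) (hn : 2 ≤ n) (hd : r ∣ n)
    (h : ∀ a b, a + b = n → 2 ≤ a → b ≠ 1 → r ∣ a) : CovZ (SpecialLinearGroup (Fin n) F) := by
  obtain ⟨f, hf, hm, hdeg⟩ := exists_irred F (r := r) (by omega)
  obtain ⟨k, hk⟩ := hd
  obtain ⟨A, hA⟩ := exists_elemDiv_eq (V := Fin n → F) (D := Multiset.replicate k f)
    (fun a ha => (Multiset.eq_of_mem_replicate ha) ▸ isPP_of_irreducible hf hm) (by simp [hk, hdeg, mul_comm])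
  have hA0 : aeval A f = 0 := aeval_eq_zero_iff.2 fun a ha => by
    rw [hA] at ha; rw [Multiset.eq_of_mem_replicate ha]
  have : Nontrivial (Fin n → F) := Module.nontrivial_of_finrank_pos (R := F) (by simp; omega)
  obtain ⟨v₀, hv₀⟩ := exists_ne (0 : Fin n → F)
  refine covZ_lin (model_SL n) (good_line (by simpa) hv₀) (good_centr hf hm (by omega) hA0)
    fun g _ _ => ?_
  by_cases he : ∃ v, v ≠ 0 ∧ ∃ c : F, g v = c • v
  · obtain ⟨v, hv, c, hc⟩ := he
    obtain ⟨x, hx⟩ := Submodule.exists_linearEquiv_restrict_eq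
      (LinearEquiv.ofFinrankEq (F ∙ v) (F ∙ v₀) (by rw [finrank_span_singleton hv, finrank_span_singleton hv₀]))
    refine ⟨x, trivial, .inl ?_⟩
    convert conj_mem_stab (x := x) (mem_stab_span hc)
    refine (Submodule.eq_of_le_of_finrank_le ?_ ?_).symm
    · rintro _ ⟨w, hw, rfl⟩
      exact hx ⟨w, hw⟩ ▸ Subtype.property _
    · rw [LinearEquiv.finrank_map_eq, finrank_span_singleton hv, finrank_span_singleton hv₀]
  · have h0 := (LinearMap.charpoly_monic (g : End F (Fin n → F))).ne_zero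
    obtain ⟨a, ha⟩ := exists_aeval_root h0 (LinearMap.aeval_self_charpoly _) hf fun p hp ⟨c, hc⟩ => by
      have h1 : ∀ {s}, s ∣ (g : End F (Fin n → F)).charpoly → s.natDegree ≠ 1 := fun hs e =>
        he (exists_eigen_of_dvd e hs)
      have h2 := congrArg natDegree hc
      rw [LinearMap.charpoly_natDegree, natDegree_mul hp.ne_zero (right_ne_zero_of_mul (hc ▸ h0))] at h2
      have := hp.natDegree_pos
      have := h1 ⟨c, hc⟩
      exact hdeg ▸ h _ _ (by simpa using h2.symm) (by omega) (h1 ⟨p, by rw [hc, mul_comm]⟩)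
    obtain ⟨k', hk', hD⟩ := elemDiv_of_irreducible hf hm ha
    obtain rfl : k' = k := by
      rw [hdeg, finrank_fin_fun, hk, mul_comm] at hk'
      exact Nat.eq_of_mul_eq_mul_left (by omega) hk'
    obtain ⟨x, hx⟩ := exists_equiv_iff.2 (hD.trans hA.symm)
    refine ⟨x, trivial, .inr fun v => ?_⟩
    obtain ⟨v, rfl⟩ := x.surjective v
    simp only [LinearEquiv.mul_apply, ← hx, LinearEquiv.coe_inv, LinearEquiv.symm_apply_apply]
    exact congrArg x (aeval_semiconj (g : End F (Fin n → F)) (fun _ => rfl) a v)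

end Cfsg.Agent.Classical.Cov
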