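import Cfsg.Agent.Classical.Cov1
import Cfsg.Prelude.Def_G2

/-! Normal 2-coverings, part 6: `G₂(2^a)` is covered by the stabilisers of the two classes of
two-dimensional composition subalgebras of the split octonions. -/

set_option autoImplicit false

namespace Cfsg.Agent.Classical.Cov

open Module Matrix Cfsg.Lie Cfsg.Agent.Geom Cfsg.Agent.Geom.Formed QuadraticMap

variable {F : Type*} [Field F]

/-- The action of `G₂` on the octonions. -/
noncomputable def g2Lin : G2 F →* ((Fin 8 → F) ≃ₗ[F] (Fin 8 → F)) :=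
  (glEquiv (Fin 8) F).toMonoidHom.comp (G2 F).subtype

theorem g2_mul (g : G2 F) (x y : Fin 8 → F) : g2Lin g (zornMul x y) = zornMul (g2Lin g x) (g2Lin g y) :=
  g.2 x y

/-- `x` and `y` are conjugate under `G₂`. -/
def OR (x y : Fin 8 → F) : Prop := ∃ g : G2 F, g2Lin g x = y

theorem OR.trans {x y z : Fin 8 → F} (h : OR x y) (h' : OR y z) : OR x z := by
  obtain ⟨g, rfl⟩ := h
  obtain ⟨k, rfl⟩ := h'
  exact ⟨k * g, by simp⟩

theorem or_of (f f' : (Fin 8 → F) → (Fin 8 → F)) (h1 : ∀ x y, f (x + y) = f x + f y)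
    (h2 : ∀ (c : F) x, f (c • x) = c • f x) (h3 : ∀ x y, f (zornMul x y) = zornMul (f x) (f y))
    (h4 : ∀ x, f' (f x) = x) (x : Fin 8 → F) : OR x (f x) :=
  ⟨⟨(glEquiv (Fin 8) F).symm (LinearEquiv.ofInjectiveEndo ⟨⟨f, h1⟩, h2⟩
    (Function.LeftInverse.injective h4)), fun x y => by
      simp only [Units.coeHom_apply, glEquiv_symm_mulVec]; exact h3 x y⟩, glEquiv_symm_mulVec _ _⟩

theorem or_swap (x : Fin 8 → F) : OR x ![x 7, -x 4, -x 5, -x 6, -x 1, -x 2, -x 3, x 0] :=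
  or_of (fun x => ![x 7, -x 4, -x 5, -x 6, -x 1, -x 2, -x 3, x 0])
    (fun x => ![x 7, -x 4, -x 5, -x 6, -x 1, -x 2, -x 3, x 0])
    (fun x y => by ext i; fin_cases i <;> simp <;> ring) (fun c x => by ext i; fin_cases i <;> simp)
    (fun x y => by ext i; fin_cases i <;> simp [zornMul, dot3, cross3] <;> ring)
    (fun x => by ext i; fin_cases i <;> simp) x

theorem or_cyc (x : Fin 8 → F) : OR x ![x 0, x 2, x 3, x 1, x 5, x 6, x 4, x 7] :=
  or_of (fun x => ![x 0, x 2, x 3, x 1, x 5, x 6, x 4, x 7])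
    (fun x => ![x 0, x 3, x 1, x 2, x 6, x 4, x 5, x 7])
    (fun x y => by ext i; fin_cases i <;> simp) (fun c x => by ext i; fin_cases i <;> simp)
    (fun x y => by ext i; fin_cases i <;> simp [zornMul, dot3, cross3] <;> ring)
    (fun x => by ext i; fin_cases i <;> simp) x

theorem or_long (s t : F) (x : Fin 8 → F) :
    OR x ![x 0, x 1 + s * x 2 + t * x 3, x 2, x 3, x 4, x 5 - s * x 4, x 6 - t * x 4, x 7] :=
  or_of (fun x => ![x 0, x 1 + s * x 2 + t * x 3, x 2, x 3, x 4, x 5 - s * x 4, x 6 - t * x 4, x 7])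
    (fun x => ![x 0, x 1 - s * x 2 - t * x 3, x 2, x 3, x 4, x 5 + s * x 4, x 6 + t * x 4, x 7])
    (fun x y => by ext i; fin_cases i <;> simp <;> ring) (fun c x => by ext i; fin_cases i <;> simp <;> ring)
    (fun x y => by ext i; fin_cases i <;> simp [zornMul, dot3, cross3] <;> ring)
    (fun x => by ext i; fin_cases i <;> simp; ring) x

theorem or_long' (s t : F) (x : Fin 8 → F) :
    OR x ![x 0, x 1, x 2 - s * x 1, x 3 - t * x 1, x 4 + s * x 5 + t * x 6, x 5, x 6, x 7] :=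
  or_of (fun x => ![x 0, x 1, x 2 - s * x 1, x 3 - t * x 1, x 4 + s * x 5 + t * x 6, x 5, x 6, x 7])
    (fun x => ![x 0, x 1, x 2 + s * x 1, x 3 + t * x 1, x 4 - s * x 5 - t * x 6, x 5, x 6, x 7])
    (fun x y => by ext i; fin_cases i <;> simp <;> ring) (fun c x => by ext i; fin_cases i <;> simp <;> ring)
    (fun x y => by ext i; fin_cases i <;> simp [zornMul, dot3, cross3] <;> ring)
    (fun x => by ext i; fin_cases i <;> simp; ring) x

theorem or_diag {s t : F} (h : s * t = 1) (x : Fin 8 → F) :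
    OR x ![x 0, s * x 1, t * x 2, x 3, t * x 4, s * x 5, x 6, x 7] :=
  or_of (fun x => ![x 0, s * x 1, t * x 2, x 3, t * x 4, s * x 5, x 6, x 7])
    (fun x => ![x 0, t * x 1, s * x 2, x 3, s * x 4, t * x 5, x 6, x 7])
    (fun x y => by ext i; fin_cases i <;> simp <;> ring) (fun c x => by ext i; fin_cases i <;> simp <;> ring)
    (fun x y => by ext i; fin_cases i <;> simp [zornMul, dot3, cross3] <;> grind)
    (fun x => by ext i; fin_cases i <;> simp <;> grind) x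

theorem or_short (t : F) (x : Fin 8 → F) : OR x ![x 0 + t * x 4, x 1 + t * (x 7 - x 0) - t ^ 2 * x 4,
    x 2, x 3, x 4, x 5 + t * x 3, x 6 - t * x 2, x 7 - t * x 4] :=
  or_of (fun x => ![x 0 + t * x 4, x 1 + t * (x 7 - x 0) - t ^ 2 * x 4,
      x 2, x 3, x 4, x 5 + t * x 3, x 6 - t * x 2, x 7 - t * x 4])
    (fun x => ![x 0 - t * x 4, x 1 - t * (x 7 - x 0) - t ^ 2 * x 4,
      x 2, x 3, x 4, x 5 - t * x 3, x 6 + t * x 2, x 7 + t * x 4])
    (fun x y => by ext i; fin_cases i <;> simp <;> ring) (fun c x => by ext i; fin_cases i <;> simp <;> ring)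
    (fun x y => by ext i; fin_cases i <;> simp [zornMul, dot3, cross3] <;> ring)
    (fun x => by ext i; fin_cases i <;> simp; ring) x

variable (F) in
/-- The norm form of the split octonions. -/
def zN : QuadraticForm F (Fin 8 → F) := proj 0 7 - proj 1 4 - proj 2 5 - proj 3 6

theorem zN_apply (x : Fin 8 → F) : zN F x = x 0 * x 7 - x 1 * x 4 - x 2 * x 5 - x 3 * x 6 := by simp [zN]

variable (F) in
/-- The identity of the split octonions. -/
def zE : Fin 8 → F := ![1, 0, 0, 0, 0, 0, 0, 1]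

theorem zN_B (x y : Fin 8 → F) : (ofQuad (zN F)).B x y = x 0 * y 7 + x 7 * y 0 - x 1 * y 4 - x 4 * y 1 -
    x 2 * y 5 - x 5 * y 2 - x 3 * y 6 - x 6 * y 3 := by
  simp [polar, zN_apply]; ring

theorem zN_nondeg : (ofQuad (zN F)).Nondeg := fun x hx => by
  have h := fun i => hx (Pi.single i 1)
  simp only [zN_B] at h
  ext i
  fin_cases i
  exacts [by simpa using h 7, by simpa using h 4, by simpa using h 5, by simpa using h 6,
    by simpa using h 1, by simpa using h 2, by simpa using h 3, by simpa using h 0]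

theorem zE_mul (x : Fin 8 → F) : zornMul (zE F) x = x ∧ zornMul x (zE F) = x :=
  ⟨by ext i; fin_cases i <;> simp [zornMul, dot3, cross3, zE],
    by ext i; fin_cases i <;> simp [zornMul, dot3, cross3, zE]⟩

theorem zorn_sq (x : Fin 8 → F) : zornMul x x = (x 0 + x 7) • x - zN F x • zE F := by
  ext i; fin_cases i <;> simp [zornMul, dot3, cross3, zE, zN_apply] <;> ring

theorem g2_zE (g : G2 F) : g2Lin g (zE F) = zE F := by
  obtain ⟨y, hy⟩ := (g2Lin g).surjective (zE F)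
  have := g2_mul g (zE F) y
  rw [(zE_mul y).1, hy, (zE_mul _).2] at this
  exact this.symm

theorem g2_inv (g : G2 F) (x : Fin 8 → F) :
    g2Lin g x 0 + g2Lin g x 7 = x 0 + x 7 ∧ zN F (g2Lin g x) = zN F x := by
  have h := g2_mul g x x
  rw [zorn_sq, zorn_sq, map_sub, map_smul, map_smul, g2_zE] at h
  by_cases h1 : g2Lin g x 0 + g2Lin g x 7 = x 0 + x 7
  · rw [h1, sub_right_inj] at h
    exact ⟨h1, by simpa [zE] using (congrFun h 0).symm⟩
  · have h2 : g2Lin g x = ((g2Lin g x 0 + g2Lin g x 7 - (x 0 + x 7))⁻¹ * (zN F (g2Lin g x) - zN F x)) • zE F := by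
      rw [mul_smul, eq_inv_smul_iff₀ (sub_ne_zero.2 h1), sub_smul, sub_smul, sub_eq_sub_iff_sub_eq_sub, h]
    generalize (_ * _ : F) = c at h2
    rw [← g2_zE g, ← map_smul, (g2Lin g).injective.eq_iff] at h2
    rw [h2, map_smul, g2_zE]
    exact ⟨rfl, rfl⟩

theorem OR.inv {x y : Fin 8 → F} (h : OR x y) : y 0 + y 7 = x 0 + x 7 ∧ zN F y = zN F x := by
  obtain ⟨g, rfl⟩ := h
  exact g2_inv g x

theorem or_norm_of_ne {x : Fin 8 → F} (h1 : x 0 + x 7 = 1) (h2 : zN F x ≠ 0) (h4 : x 4 ≠ 0) :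
    OR x ![0, 1, 0, 0, -zN F x, 0, 0, 1] := by
  obtain ⟨y, a1, a2, a3⟩ : ∃ y, OR x y ∧ y 0 = 0 ∧ y 4 = x 4 :=
    ⟨_, or_short (-x 0 / x 4) x, by simp [div_mul_cancel₀ _ h4], rfl⟩
  obtain ⟨z, b1, b2, b3, b4⟩ : ∃ z, OR x z ∧ z 0 = 0 ∧ z 5 = 0 ∧ z 6 = 0 :=
    ⟨_, a1.trans (or_long (y 5 / x 4) (y 6 / x 4) y), a2, by simp [a3, div_mul_cancel₀ _ h4],
      by simp [a3, div_mul_cancel₀ _ h4]⟩
  have b5 : z 1 ≠ 0 := fun e => h2 (by rw [← b1.inv.2, zN_apply, b2, b3, b4, e]; ring)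
  have c1 := (b1.trans (or_long' (z 2 / z 1) (z 3 / z 1) z)).trans (or_diag (inv_mul_cancel₀ b5) _)
  convert c1 using 1
  have c2 := b1.inv
  rw [zN_apply z, b2, b3, b4, h1] at c2
  ext i
  fin_cases i <;> simp [b2, b3, b4, b5, ← c2.2]
  simpa using c2.1.symm

theorem or_norm [CharP F 2] {x : Fin 8 → F} (h1 : x 0 + x 7 = 1) (h2 : zN F x ≠ 0) :
    OR x ![0, 1, 0, 0, -zN F x, 0, 0, 1] := by
  have key : ∀ y, OR x y → y 4 ≠ 0 → OR x ![0, 1, 0, 0, -zN F x, 0, 0, 1] := fun y h h4 =>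
    h.trans (h.inv.2 ▸ or_norm_of_ne (h.inv.1.trans h1) (h.inv.2 ▸ h2) h4)
  have key2 : ∀ y, OR x y → y 4 ≠ 0 ∨ y 5 ≠ 0 ∨ y 6 ≠ 0 → OR x ![0, 1, 0, 0, -zN F x, 0, 0, 1] := by
    rintro y h (h4 | h4 | h4)
    exacts [key y h h4, key _ (h.trans (or_cyc y)) h4, key _ ((h.trans (or_cyc y)).trans (or_cyc _)) h4]
  by_cases h3 : x 4 ≠ 0 ∨ x 5 ≠ 0 ∨ x 6 ≠ 0
  · exact key2 x ⟨1, by simp⟩ h3
  by_cases h4 : x 1 = 0
  · refine key _ ((or_short 1 x).trans (or_swap _)) ?_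
    push Not at h3
    simp [h3.1, h4, CharTwo.sub_eq_add, add_comm (x 7), h1]
  · exact key _ (or_swap x) (by simpa using h4)

theorem exists_fixed_coset (g : G2 F) : ∃ x : Fin 8 → F, x 0 + x 7 = 1 ∧ g2Lin g x - x ∈ F ∙ zE F := by
  have hn := zN_nondeg (F := F)
  have hg : ∀ k : G2 F, g2Lin k ∈ (ofQuad (zN F)).isom := fun k => mem_isom_ofQuad.2 fun x => (g2_inv k x).2
  have h1 : ∀ y, (ofQuad (zN F)).B (zE F) y = y 0 + y 7 := fun y => by rw [zN_B]; simp [zE, add_comm]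
  obtain ⟨w, hw, h2⟩ := hn.exists_perp_eq_one' (x := zE F) (H := ((ofQuad (zN F)).perp (F ∙ zE F)).map
    ((g2Lin g⁻¹ : End F (Fin 8 → F)) - 1)) (by
      rintro ⟨y, hy, h⟩
      have h3 := (g2_inv g⁻¹ y).2
      have h4 := (mem_perp_span_singleton _).1 hy
      rw [show g2Lin g⁻¹ y = y + zE F from eq_add_of_sub_eq' h, zN_apply, zN_apply] at h3
      rw [h1] at h4
      simp [zE] at h3
      exact one_ne_zero (α := F) (by linear_combination h3 - h4))
  refine ⟨w, (h1 w).symm.trans h2, hn.perp_perp (F ∙ zE F) ▸ fun y hy => ?_⟩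
  have h3 := hw _ ⟨y, hy, rfl⟩
  have h4 := (hg g).1 (g2Lin g⁻¹ y) w
  rw [← LinearEquiv.mul_apply, ← map_mul, mul_inv_cancel, map_one] at h4
  rw [LinearMap.sub_apply, B_sub_left] at h3
  rw [map_sub]
  exact h4 ▸ h3

/-- The stabiliser of the subalgebra generated by `x`. -/
noncomputable def g2St (x : Fin 8 → F) : Subgroup (G2 F) := (stab ((F ∙ zE F) ⊔ F ∙ x)).comap g2Lin

theorem g2St_ne (n : F) : g2St ![0, 1, 0, 0, n, 0, 0, 1] ≠ ⊤ := fun h => by
  obtain ⟨g, hg⟩ := or_cyc ![0, 1, 0, 0, n, 0, 0, 1]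
  have h1 := ((h ▸ Subgroup.mem_top g : g ∈ g2St ![0, 1, 0, 0, n, 0, 0, 1]) _).1
    (Submodule.mem_sup_right (Submodule.mem_span_singleton_self _))
  rw [hg, ← Submodule.span_insert, Submodule.mem_span_pair] at h1
  obtain ⟨a, b, h1⟩ := h1
  simpa [zE] using congrFun h1 3

theorem conj_mem_g2St {g : G2 F} {x y : Fin 8 → F} (hx : g2Lin g x - x ∈ F ∙ zE F) (h : OR x y) :
    ∃ k, k * g * k⁻¹ ∈ g2St y := by
  obtain ⟨k, rfl⟩ := h
  have h1 : g2Lin g ∈ stab ((F ∙ zE F) ⊔ F ∙ x) := mem_stab_of_le fun v hv => by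
    rw [← Submodule.span_insert, Submodule.mem_span_pair] at hv
    obtain ⟨a, b, rfl⟩ := hv
    rw [map_add, map_smul, map_smul, g2_zE, ← sub_add_cancel (g2Lin g x) x]
    have a1 := Submodule.mem_span_singleton_self (R := F) x
    exact add_mem (Submodule.smul_mem _ _ (Submodule.mem_sup_left (Submodule.mem_span_singleton_self _)))
      (Submodule.smul_mem _ _ (add_mem (Submodule.mem_sup_left hx) (Submodule.mem_sup_right a1)))
  refine ⟨k, ?_⟩
  have h2 := conj_mem_stab (x := g2Lin k) h1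
  rw [Submodule.map_sup, Submodule.map_span, Submodule.map_span, Set.image_singleton, Set.image_singleton,
    LinearEquiv.coe_coe, g2_zE, ← map_inv, ← map_mul, ← map_mul] at h2
  exact h2

theorem cov_G2 [Fintype F] [CharP F 2] (h : 2 < Fintype.card F) : ∃ H K : Subgroup (G2 F), H ≠ ⊤ ∧ K ≠ ⊤ ∧
    ∀ g, ∃ x, x * g * x⁻¹ ∈ H ∨ x * g * x⁻¹ ∈ K := by
  classical
  have h2 := CharTwo.two_eq_zero (R := F)
  obtain ⟨ζ, hζ⟩ := exists_irreducible_quad F
  obtain ⟨c, hc⟩ : ∃ c : F, c ∉ ({0, 1} : Finset F) := by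
    by_contra! h'
    have := Finset.card_le_card fun x (_ : x ∈ Finset.univ) => h' x
    have := Finset.card_le_two (a := (0 : F)) (b := 1)
    rw [Finset.card_univ] at *
    omega
  have hc' : c ^ 2 + c ≠ 0 := fun e => hc (by
    rw [show c ^ 2 + c = c * (c - 1) by linear_combination c * h2, mul_eq_zero, sub_eq_zero] at e
    simpa using e)
  refine ⟨_, _, g2St_ne (-ζ), g2St_ne (-(c ^ 2 + c)), fun g => ?_⟩
  obtain ⟨x, h3, h4⟩ := exists_fixed_coset g
  have key : ∀ s n, n ≠ 0 → s ^ 2 + s + zN F x = n → ∃ k, k * g * k⁻¹ ∈ g2St ![0, 1, 0, 0, -n, 0, 0, 1] :=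
    fun s n h0 hs => by
      have h5 : zN F (x + s • zE F) = n := by
        rw [← hs, zN_apply, zN_apply]; simp [zE]; linear_combination s * h3
      refine conj_mem_g2St (x := x + s • zE F) (by simpa [g2_zE] using h4) (h5 ▸ or_norm ?_ (h5 ▸ h0))
      simp [zE]
      linear_combination h3 + s * h2
  by_cases h5 : ∀ t, t ^ 2 + t + zN F x ≠ 0
  · obtain ⟨s, t, -, h6, h7⟩ := exists_shift_eq hζ h5
    obtain rfl : t = 1 := by linear_combination h6 - s * h2
    exact (key s ζ (by simpa using hζ 0) (by simpa using h7)).imp fun _ => .inl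
  · push Not at h5
    obtain ⟨t, ht⟩ := h5
    exact (key (t + c) _ hc' (by linear_combination ht + t * c * h2)).imp fun _ => .inr

end Cfsg.Agent.Classical.Cov
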