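import Cfsg.Agent.Classical.Uc5

/-! Unipotent blocks of isometries in characteristic two: Gram data `G`, the quadratic functions `qq`,
normalisation of generators (`kill`, `joint`). -/

set_option autoImplicit false

namespace Cfsg.Agent.Classical.Cv

open Module Cfsg.Agent.Elu Cfsg.Agent.Geom Cfsg.Agent.Geom.Formed Cfsg.Agent.Classical.Uc

universe u

variable {F : Type*} [Field F] {V W : Type u} [AddCommGroup V] [Module F V] [AddCommGroup W] [Module F W]
  {Φ : Formed (RingHom.id F) V} {Ψ : Formed (RingHom.id F) W} {f : End F V} {g : End F W}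

/-- an isometry of a symplectic or orthogonal space in characteristic two -/
structure Ok (Φ : Formed (RingHom.id F) V) (f : End F V) : Prop where
  two : (2 : F) = 0
  alt : ∀ x, Φ.B x x = 0
  tau : Φ.τ = 0 ∨ Φ.τ = 1
  iso : Iso Φ f

theorem Ok.res (h : Ok Φ f) {U : Submodule F V} (hU : Inv f U) : Ok (Φ.restrict U) hU.res :=
  ⟨h.two, fun x => h.alt x, h.tau, h.iso.res hU⟩

/-- Gram data -/
def G (Φ : Formed (RingHom.id F) V) (f : End F V) (x y : V) (i j : ℕ) : F :=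
  Φ.B (((f - 1) ^ i) x) (((f - 1) ^ j) y)

/-- the quadratic functions -/
def qq (Φ : Formed (RingHom.id F) V) (f : End F V) : ℕ → V → F
  | 0, v => Φ.Q v
  | i + 1, v => G Φ f v v (i + 1) i

/-- the coefficient of the polar form -/
def cf (Φ : Formed (RingHom.id F) V) : ℕ → F
  | 0 => Φ.τ
  | _ + 1 => 1

theorem tt (f : End F V) (i j : ℕ) (x : V) : ((f - 1) ^ i) (((f - 1) ^ j) x) = ((f - 1) ^ (i + j)) x := by
  rw [pow_add, End.mul_apply]

theorem t_zero {m n : ℕ} {y : V} (h : ((f - 1) ^ m) y = 0) (hn : m ≤ n) : ((f - 1) ^ n) y = 0 := by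
  obtain ⟨k, rfl⟩ := Nat.exists_eq_add_of_le' hn
  rw [← tt, h, map_zero]

variable {x y z : V} {i j m n : ℕ} {c : F}

theorem G_add (x y z : V) (i j : ℕ) : G Φ f x (y + z) i j = G Φ f x y i j + G Φ f x z i j := by simp [G]

theorem G_smul (c : F) (x y : V) (i j : ℕ) : G Φ f x (c • y) i j = c * G Φ f x y i j := by simp [G]

theorem G_add' (x y z : V) (i j : ℕ) : G Φ f (x + y) z i j = G Φ f x z i j + G Φ f y z i j := by simp [G]

theorem G_smul' (c : F) (x y : V) (i j : ℕ) : G Φ f (c • x) y i j = c * G Φ f x y i j := by simp [G]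

theorem G_t (x y : V) (i j k : ℕ) : G Φ f x (((f - 1) ^ k) y) i j = G Φ f x y i (j + k) := by simp [G, tt]

theorem G_t' (x y : V) (i j k : ℕ) : G Φ f (((f - 1) ^ k) x) y i j = G Φ f x y (i + k) j := by simp [G, tt]

theorem qq_smul (i : ℕ) (c : F) (x : V) : qq Φ f i (c • x) = c * c * qq Φ f i x := by
  cases i
  · exact Φ.Q_smul c x
  · simp [qq, G_smul, G_smul', mul_assoc]

theorem qq_zero (i : ℕ) : qq Φ f i 0 = 0 := by simpa using qq_smul (Φ := Φ) (f := f) i 0 0

namespace Ok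

variable (h : Ok Φ f)
include h

theorem symm (x y : V) : Φ.B y x = Φ.B x y := by
  have := h.alt (x + y)
  simp only [map_add, LinearMap.add_apply, h.alt] at this
  linear_combination this - Φ.B x y * h.two

theorem G_symm (x y : V) (i j : ℕ) : G Φ f x y i j = G Φ f y x j i := h.symm _ _

theorem G_self (x : V) (i : ℕ) : G Φ f x x i i = 0 := h.alt _

theorem B_t (x y : V) : Φ.B ((f - 1) x) ((f - 1) y) = Φ.B ((f - 1) x) y + Φ.B x ((f - 1) y) := by
  simp only [LinearMap.sub_apply, End.one_apply, map_sub, h.iso.1]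
  linear_combination (2 * Φ.B x y - Φ.B x (f y) - Φ.B (f x) y) * h.two

theorem G_rec (x y : V) (i j : ℕ) : G Φ f x y (i + 1) (j + 1) = G Φ f x y (i + 1) j + G Φ f x y i (j + 1) := by
  simp only [G, pow_succ', End.mul_apply, h.B_t]

theorem G_zero (hy : ((f - 1) ^ m) y = 0) (hm : m ≤ i + j) (x : V) : G Φ f x y i j = 0 := by
  rw [G, h.symm]
  exact B_ker_range h.iso (by rw [tt]; exact t_zero hy hm) x

theorem G_top (hy : ((f - 1) ^ (m + 1)) y = 0) (x : V) : ∀ i j, i + j = m → G Φ f x y i j = G Φ f x y 0 m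
  | 0, j, e => by rw [← e, zero_add]
  | i + 1, j, e => by
    have h1 := h.G_rec x y i j
    rw [h.G_zero hy (by omega), G_top hy x i (j + 1) (by omega)] at h1
    linear_combination -h1 - G Φ f x y 0 m * h.two

theorem qq_add (i : ℕ) (x y : V) : qq Φ f i (x + y) = qq Φ f i x + qq Φ f i y + cf Φ i * G Φ f x y i i := by
  cases i with
  | zero => exact Φ.Q_add x y
  | succ i => simp only [qq, cf, G_add, G_add', h.G_rec x y, h.G_symm y x]; ring

theorem qq_t (i j : ℕ) (x : V) : qq Φ f i (((f - 1) ^ (j + 1)) x) = cf Φ i * qq Φ f (i + (j + 1)) x := by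
  cases i with
  | zero =>
    have h1 := Φ.Q_add (((f - 1) ^ j) x) (((f - 1) ^ (j + 1)) x)
    have h2 : ((f - 1) ^ j) x + ((f - 1) ^ (j + 1)) x = f (((f - 1) ^ j) x) := by simp [pow_succ']
    rw [h2, h.iso.2, h.symm] at h1
    rw [zero_add]
    simp only [qq, cf, G]
    linear_combination -h1 - Φ.τ * Φ.B (((f - 1) ^ (j + 1)) x) (((f - 1) ^ j) x) * h.two
  | succ i =>
    rw [show i + 1 + (j + 1) = i + (j + 1) + 1 by omega]
    simp [qq, cf, G_t, G_t', show i + 1 + (j + 1) = i + (j + 1) + 1 by omega]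

theorem qq_big (hy : ((f - 1) ^ m) y = 0) (hn : m + 1 ≤ 2 * n) : qq Φ f n y = 0 := by
  obtain ⟨n, rfl⟩ : ∃ k, n = k + 1 := ⟨n - 1, by omega⟩
  exact h.G_zero hy (by omega) y

theorem cf_or (i : ℕ) : cf Φ i = 1 ∨ (i = 0 ∧ Φ.τ = 0 ∧ ∀ x, qq Φ f i x = 0) := by
  cases i with
  | succ i => exact .inl rfl
  | zero =>
    refine h.tau.symm.imp_right fun e => ⟨rfl, e, fun x => ?_⟩
    obtain ⟨d, hd, -⟩ := Φ.trace x
    rw [qq, ← hd, e, zero_mul]

theorem qq_mod (i j : ℕ) (c : F) (x y : V) : qq Φ f i (x + c • ((f - 1) ^ (j + 1)) y) =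
    qq Φ f i x + cf Φ i * (c * c * qq Φ f (i + (j + 1)) y + c * G Φ f x y i (i + (j + 1))) := by
  rw [h.qq_add, qq_smul, h.qq_t, G_smul, G_t]; ring

theorem step (hy : ((f - 1) ^ (m + 1)) y = 0) (e : 2 * i + (j + 1) = m) (h1 : G Φ f x y 0 m = 1)
    (h2 : ∀ n, i + (j + 1) ≤ n → qq Φ f n y = 0) : ∃ c : F, qq Φ f i (x + c • ((f - 1) ^ (j + 1)) y) = 0 ∧
      ∀ n, i < n → qq Φ f n (x + c • ((f - 1) ^ (j + 1)) y) = qq Φ f n x := by
  refine ⟨qq Φ f i x, ?_, fun n hn => by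
    rw [h.qq_mod, h2 _ (by omega), h.G_zero hy (by omega)]; simp⟩
  rcases h.cf_or i with e' | ⟨-, -, e'⟩
  · rw [h.qq_mod, h2 _ le_rfl, h.G_top hy _ _ _ (by omega), h1, e']
    linear_combination qq Φ f i x * h.two
  · exact e' _

/-- killing the lower quadratic values of a cyclic generator -/
theorem kill {k : ℕ} (hy : ((f - 1) ^ (2 * k + 2)) y = 0) (h1 : qq Φ f (k + 1) y = 1) (r : ℕ) (hr : r ≤ k) :
    ∃ x, ((f - 1) ^ (2 * k + 2)) x = 0 ∧ G Φ f x y 0 (2 * k + 1) = 1 ∧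
      ∀ n, k - r ≤ n → qq Φ f n x = if n < k then 0 else qq Φ f n y := by
  induction r with
  | zero =>
    refine ⟨y, hy, ?_, fun n hn => (if_neg (by omega)).symm⟩
    rw [← h.G_top hy y (k + 1) k (by omega)]; exact h1
  | succ r ih =>
    obtain ⟨x, a1, a2, a3⟩ := ih (by omega)
    obtain ⟨c, b1, b2⟩ := h.step (i := k - (r + 1)) (j := 2 * r + 2) hy (by omega) a2
      fun n hn => h.qq_big hy (by omega)
    refine ⟨x + c • ((f - 1) ^ (2 * r + 2 + 1)) y, ?_, ?_, fun n hn => ?_⟩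
    · rw [map_add, map_smul, tt, a1, t_zero hy (by omega)]; simp
    · rw [G_add', G_smul', G_t', a2, h.G_zero hy (by omega)]; simp
    · rcases hn.eq_or_lt with rfl | hn
      · rw [b1, if_pos (by omega)]
      · rw [b2 n hn, a3 n (by omega)]

theorem G_lev (hy : ((f - 1) ^ (m + 1)) y = 0) (h2 : ∀ n, m + 1 ≤ 2 * n → qq Φ f n y = 0) (e : m ≤ i + j) :
    G Φ f y y i j = 0 := by
  rcases e.eq_or_lt with e | e
  · rw [h.G_top hy y i j e.symm]
    obtain ⟨l, rfl | rfl⟩ := m.even_or_odd'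
    · rw [← h.G_top hy y l l (by omega), h.G_self]
    · rw [← h.G_top hy y (l + 1) l (by omega)]
      exact h2 (l + 1) (by omega)
  · exact h.G_zero hy e y

/-- normalising the second generator of a pair -/
theorem joint {u v : V} (hu : ((f - 1) ^ (m + 1)) u = 0) (hv : ((f - 1) ^ (m + 1)) v = 0)
    (qu : ∀ n, m + 1 ≤ 2 * n → qq Φ f n u = 0) (qv : ∀ n, m + 1 ≤ 2 * n → qq Φ f n v = 0)
    (h1 : G Φ f u v 0 m = 1) (r : ℕ) (hr : r ≤ m) : ∃ x, ((f - 1) ^ (m + 1)) x = 0 ∧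
      (∀ n, m - r ≤ n → G Φ f u x 0 n = if n = m then 1 else 0) ∧
      ∀ i, m - r ≤ 2 * i → qq Φ f i x = if 2 * i = m then qq Φ f i v else 0 := by
  induction r with
  | zero =>
    refine ⟨v, hv, fun n hn => ?_, fun i hi => ?_⟩
    · split_ifs with e
      · rw [e, h1]
      · exact h.G_zero hv (by omega) u
    · split_ifs with e
      · rfl
      · exact qv i (by omega)
  | succ r ih =>
    obtain ⟨x, a1, a2, a3⟩ := ih (by omega)
    have a4 : ∀ n, m + 1 ≤ 2 * n → qq Φ f n x = 0 := fun n hn => by rw [a3 n (by omega), if_neg (by omega)]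
    obtain ⟨x, a1, a2, a3⟩ : ∃ x, ((f - 1) ^ (m + 1)) x = 0 ∧
        (∀ n, m - (r + 1) ≤ n → G Φ f u x 0 n = if n = m then 1 else 0) ∧
        ∀ i, m - r ≤ 2 * i → qq Φ f i x = if 2 * i = m then qq Φ f i v else 0 := by
      refine ⟨x + G Φ f u x 0 (m - (r + 1)) • ((f - 1) ^ (r + 1)) x, ?_, fun n hn => ?_, fun i hi => ?_⟩
      · rw [map_add, map_smul, tt, a1, t_zero a1 (by omega)]; simp
      · rw [G_add, G_smul, G_t, a2 (n + (r + 1)) (by omega)]
        rcases hn.eq_or_lt with rfl | hn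
        · rw [if_pos (by omega), if_neg (by omega)]
          linear_combination G Φ f u x 0 (m - (r + 1)) * h.two
        · rw [if_neg (by omega), a2 n (by omega)]; simp
      · rw [h.qq_mod, a4 (i + (r + 1)) (by omega), h.G_lev a1 a4 (by omega), a3 i hi]; simp
    obtain ⟨i, e | e⟩ := (m - (r + 1)).even_or_odd'; swap
    · exact ⟨x, a1, a2, fun i hi => a3 i (by omega)⟩
    obtain ⟨c, b1, b2⟩ := h.step (x := x) (i := i) (j := r) hu (by omega) (by
      rw [h.G_symm, h.G_top a1 u m 0 rfl, a2 m (by omega), if_pos rfl]) fun n hn => qu n (by omega)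
    refine ⟨x + c • ((f - 1) ^ (r + 1)) u, ?_, fun n hn => ?_, fun n hn => ?_⟩
    · rw [map_add, map_smul, tt, a1, t_zero hu (by omega)]; simp
    · rw [G_add, G_smul, G_t, h.G_lev hu qu (by omega), a2 n hn]; simp
    · rcases (show i ≤ n by omega).eq_or_lt with rfl | hn
      · rw [b1, if_neg (by omega)]
      · rw [b2 n hn, a3 n (by omega)]

end Ok

end Cfsg.Agent.Classical.Cv
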