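import Cfsg.Agent.Classical.Cv1

/-! Normalised blocks `Gen`, their spans `sp`, uniqueness, and decompositions `Dec` of isometries in
characteristic two. -/

set_option autoImplicit false

namespace Cfsg.Agent.Classical.Cv

open Module Cfsg.Agent.Elu Cfsg.Agent.Geom Cfsg.Agent.Geom.Formed Cfsg.Agent.Classical.Uc

universe u

variable {F : Type*} [Field F] {V W : Type u} [AddCommGroup V] [Module F V] [AddCommGroup W] [Module F W]
  {Φ : Formed (RingHom.id F) V} {Ψ : Formed (RingHom.id F) W} {f : End F V} {g : End F W}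

theorem exists_iso_fam {ι : Type} (x : ι → V) (y : ι → W) (hτ : Ψ.τ = Φ.τ) {A : Submodule F V}
    {A' : Submodule F W} (hA : Submodule.span F (Set.range x) = A) (hA' : Submodule.span F (Set.range y) = A')
    (hn : Nd Φ A) (hn' : Nd Ψ A') (hB : ∀ i j, Ψ.B (y i) (y j) = Φ.B (x i) (x j))
    (hQ : ∀ i, Ψ.Q (y i) = Φ.Q (x i)) (hf : ∀ i, ∃ j, f (x i) = x i + x j ∧ g (y i) = y i + y j)
    (hI : Inv f A) (hI' : Inv g A') : ∃ e : A ≃ₗ[F] A', (∀ v, e (hI.res v) = hI'.res (e v)) ∧
      (Φ.restrict A).IsIso (Ψ.restrict A') e := by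
  rw [← Finsupp.range_linearCombination] at hA hA'
  subst hA hA'
  set φ := Finsupp.linearCombination F x
  set ψ := Finsupp.linearCombination F y
  have h1 : ∀ a b, Ψ.B (ψ a) (ψ b) = Φ.B (φ a) (φ b) := fun a b => by
    induction a using Finsupp.induction_linear with
    | zero => simp
    | add a a' h h' => simp [h, h']
    | single i c =>
      induction b using Finsupp.induction_linear with
      | zero => simp
      | add a a' h h' => rw [map_add, map_add, map_add, map_add, h, h']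
      | single j d => simp [φ, ψ, hB]
  have h2 : ∀ a, Ψ.Q (ψ a) = Φ.Q (φ a) := fun a => by
    induction a using Finsupp.induction_linear with
    | zero => simp
    | add a a' h h' => rw [map_add, map_add, Q_add, Q_add, h, h', h1, hτ]
    | single i c => simp [φ, ψ, Q_smul, hQ]
  have h3 : ∀ a, ∃ a', φ a' = f (φ a) ∧ ψ a' = g (ψ a) := fun a => by
    induction a using Finsupp.induction_linear with
    | zero => exact ⟨0, by simp⟩
    | add a a' h h' =>
      obtain ⟨⟨b, h1, h2⟩, b', h3, h4⟩ := And.intro h h'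
      exact ⟨b + b', by simp [h1, h3], by simp [h2, h4]⟩
    | single i c =>
      obtain ⟨j, h1, h2⟩ := hf i
      exact ⟨.single i c + .single j c, by simp [φ, h1], by simp [ψ, h2]⟩
  obtain ⟨s, hs⟩ := φ.rangeRestrict.exists_rightInverse_of_surjective φ.range_rangeRestrict
  have h4 : ∀ v, φ (s v) = v := fun v => congrArg Subtype.val (LinearMap.congr_fun hs v)
  have h5 : ∀ a, ψ (s ⟨φ a, a, rfl⟩) = ψ a := fun a => sub_eq_zero.1 (nd_iff.1 hn' _
    (sub_mem ⟨_, rfl⟩ ⟨_, rfl⟩) (by rintro _ ⟨b, rfl⟩; rw [← map_sub, h1, map_sub, h4, sub_self]; simp))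
  refine ⟨.ofBijective (ψ.rangeRestrict ∘ₗ s) ⟨(injective_iff_map_eq_zero _).2 fun v hv =>
    Subtype.ext (nd_iff.1 hn _ v.2 ?_), ?_⟩, ?_, fun a b => ?_, fun a => ?_⟩
  · rintro _ ⟨b, rfl⟩
    rw [← h4, ← h1, show ψ (s v) = 0 from congrArg Subtype.val hv]; simp
  · rintro ⟨_, a, rfl⟩
    exact ⟨⟨φ a, a, rfl⟩, Subtype.ext (h5 a)⟩
  · rintro ⟨_, a, rfl⟩
    obtain ⟨a', e1, e2⟩ := h3 a
    refine Subtype.ext ?_
    change ψ (s ⟨f (φ a), _⟩) = g (ψ (s ⟨φ a, a, rfl⟩))
    rw [h5, ← e2, ← h5 a']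
    congr 3
    exact e1.symm
  · exact (h1 _ _).trans (by rw [h4, h4]; rfl)
  · exact (h2 _).trans (by rw [h4]; rfl)

/-- the generating family -/
def fam (f : End F V) (u v : V) (p : Bool × ℕ) : V := ((f - 1) ^ p.2) (cond p.1 u v)

/-- the invariant subspace generated by two vectors -/
def sp (f : End F V) (u v : V) : Submodule F V := Submodule.span F (Set.range (fam f u v))

theorem mem_sp (u v : V) (j : ℕ) : ((f - 1) ^ j) u ∈ sp f u v ∧ ((f - 1) ^ j) v ∈ sp f u v :=
  ⟨Submodule.subset_span ⟨(true, j), rfl⟩, Submodule.subset_span ⟨(false, j), rfl⟩⟩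

theorem inv_sp (f : End F V) (u v : V) : Inv f (sp f u v) := inv_sub_one.1 (inv_iff_map.1 (by
  rw [sp, Submodule.map_span_le]
  rintro _ ⟨p, rfl⟩
  exact Submodule.subset_span ⟨(p.1, p.2 + 1), by simp [fam, pow_succ']⟩))

theorem hull [FiniteDimensional F V] [Finite F] (h : Iso Φ f) (hn : Φ.Nondeg) {k : ℕ} {u v : V}
    (hu : ((f - 1) ^ (k + 1)) u = 0) (hv : ((f - 1) ^ (k + 1)) v = 0)
    (hT : ∀ t ∈ Submodule.span F {u, v}, (∀ s ∈ Submodule.span F {u, v}, Φ.B s (((f - 1) ^ k) t) = 0) → t = 0) :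
    Nd Φ (sp f u v) ∧ Jt (inv_sp f u v).res (.replicate (finrank F (Submodule.span F {u, v})) (k + 1)) := by
  have hW := inv_sp f u v
  have h2 := inv_sub_one.2 hW
  set T := Submodule.span F {u, v}
  set W := sp f u v
  set N := f - 1
  have h1 : ∀ j, T.map (N ^ j) ≤ W := fun j => by
    rw [Submodule.map_span_le]
    rintro _ (rfl | rfl)
    exacts [(mem_sp _ _ j).1, (mem_sp _ _ j).2]
  have hk : W ≤ LinearMap.ker (N ^ (k + 1)) := Submodule.span_le.2 (by
    rintro _ ⟨⟨s, j⟩, rfl⟩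
    change (N ^ (k + 1)) ((N ^ j) _) = 0
    rw [tt]
    cases s
    exacts [t_zero hv (by omega), t_zero hu (by omega)])
  have h3 : W ≤ T ⊔ W.map N := Submodule.span_le.2 (by
    rintro _ ⟨⟨s, _ | j⟩, rfl⟩
    · exact Submodule.mem_sup_left (Submodule.subset_span (by cases s <;> simp [fam]))
    · exact Submodule.mem_sup_right ⟨_, Submodule.subset_span ⟨(s, j), rfl⟩, by simp [fam, pow_succ', N]⟩)
  have h4 : finrank F (T.map (N ^ k)) = finrank F T := by
    rw [← LinearMap.range_domRestrict]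
    exact LinearMap.finrank_range_of_inj ((injective_iff_map_eq_zero _).2 fun t ht =>
      Subtype.ext (hT t t.2 fun s _ => by rw [show (N ^ k) t = 0 from ht, map_zero]))
  have h5 : T.map (N ^ k) ≤ W ⊓ LinearMap.ker N := le_inf (h1 k) (by
    rintro _ ⟨t, ht, rfl⟩
    rw [LinearMap.mem_ker, ← End.mul_apply, ← pow_succ']; exact hk (h1 0 ⟨t, ht, rfl⟩))
  have h6 : finrank F ↥(W ⊓ LinearMap.ker N) = finrank F (LinearMap.ker (N.domRestrict W)) := by
    rw [LinearMap.ker_domRestrict, ← Submodule.finrank_map_subtype_eq, Submodule.map_comap_subtype]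
  have h7 := LinearMap.finrank_range_add_finrank_ker (N.domRestrict W)
  rw [LinearMap.range_domRestrict] at h7
  have h8 := (Submodule.finrank_mono h3).trans (Submodule.finrank_add_le_finrank_add_finrank _ _)
  have h9 := Submodule.eq_of_le_of_finrank_le h5 (by omega)
  have hk' : (hW.res - 1) ^ (k + 1) = 0 := LinearMap.ext fun x => Subtype.ext (by rw [res_sub_pow]; exact hk x.2)
  constructor
  · rw [nd_iff]
    by_contra! h0
    obtain ⟨w, a1, a2, a3⟩ := h0
    obtain ⟨w, hw, h10, h11⟩ := exists_fixed_of_nil hk' (R := (Φ.perp W).comap W.subtype)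
      (fun x hx => inv_sub_one.2 (h.inv_perp hn hW) _ hx) fun e => a3 (congrArg Subtype.val
        ((Submodule.eq_bot_iff _).1 e ⟨w, a1⟩ (Φ.mem_perp'.2 a2)))
    obtain ⟨t, ht, e⟩ := (h9 ▸ ⟨w.2, congrArg Subtype.val h11⟩ : w.1 ∈ T.map (N ^ k))
    exact h10 (Subtype.ext (by
      rw [← e, hT t ht fun s hs => e ▸ Φ.mem_perp.1 hw s (h1 0 ⟨s, hs, rfl⟩), map_zero]; rfl))
  · obtain ⟨μ, h10, -, h11⟩ := exists_jordan hk'
    have h12 := Jt.rank h11 hk'
    have h13 := Jt.kd h11 1
    rw [Multiset.map_congr rfl (g := fun _ => 1) fun a ha => min_eq_right (h10 a ha).1] at h13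
    have h14 : LinearMap.ker ((hW.res - 1) ^ 1) = LinearMap.ker (N.domRestrict W) := by
      ext x; simp only [LinearMap.mem_ker, Subtype.ext_iff, pow_one]; rfl
    have h15 : finrank F T ≤ μ.count (k + 1) := by
      rw [← h12, ← h4, ← Submodule.finrank_map_subtype_eq W]
      refine Submodule.finrank_mono ?_
      rintro _ ⟨t, ht, rfl⟩
      exact ⟨_, ⟨⟨t, h1 0 ⟨t, ht, rfl⟩⟩, rfl⟩, res_sub_pow hW k _⟩
    have h16 := Multiset.count_le_card (k + 1) μ
    rw [h14] at h13
    simp only [Multiset.map_const', Multiset.sum_replicate, smul_eq_mul, mul_one] at h13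
    rw [h9, h6, h13] at h4
    rwa [← h4, ← Multiset.eq_replicate_card.2 fun b hb =>
      (Multiset.count_eq_card.1 (by omega) b hb).symm]

/-- values of `qq` on the first generator -/
def da (δ : F) (b i : ℕ) : F :=
  if b % 4 < 2 then (if 2 * i = b / 4 then 1 else if 2 * i + 2 = b / 4 ∧ b % 2 = 0 then δ else 0)
  else if 2 * i + 1 = b / 4 ∧ b % 2 = 0 then 1 else 0

/-- values of `qq` on the second generator -/
def db (δ : F) (b i : ℕ) : F := if 2 ≤ b % 4 ∧ 2 * i + 1 = b / 4 ∧ b % 2 = 0 then δ else 0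

/-- normalised generators of a block with key `b`: Jordan size `b / 4`, two generators iff `2 ≤ b % 4`,
twisted iff `b` is even -/
structure Gen (δ : F) (Φ : Formed (RingHom.id F) V) (f : End F V) (b : ℕ) (u v : V) : Prop where
  pos : 0 < b / 4
  tu : ((f - 1) ^ (b / 4)) u = 0
  tv : ((f - 1) ^ (b / 4)) v = 0
  v0 : b % 4 < 2 → v = 0 ∧ b / 4 % 2 = 0
  od : b % 4 = 2 → b / 4 % 2 = 1
  qu : ∀ i, qq Φ f i u = da δ b i
  qv : ∀ i, qq Φ f i v = db δ b i
  uv : ∀ n, G Φ f u v 0 n = if 2 ≤ b % 4 ∧ n + 1 = b / 4 then 1 else 0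

variable {δ : F} {b : ℕ} {u v : V}

theorem G_res {U : Submodule F V} (hU : Inv f U) (x y : U) (i j : ℕ) :
    G (Φ.restrict U) hU.res x y i j = G Φ f x y i j := by
  rw [G, G, ← res_sub_pow hU, ← res_sub_pow hU]; rfl

theorem qq_res {U : Submodule F V} (hU : Inv f U) (i : ℕ) (x : U) :
    qq (Φ.restrict U) hU.res i x = qq Φ f i x := by
  cases i
  exacts [rfl, G_res hU x x _ _]

theorem Gen.up {U : Submodule F V} {hU : Inv f U} {u v : U} (h : Gen δ (Φ.restrict U) hU.res b u v) :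
    Gen δ Φ f b u v :=
  ⟨h.pos, by rw [← res_sub_pow hU, h.tu]; rfl, by rw [← res_sub_pow hU, h.tv]; rfl,
    fun e => ⟨by rw [(h.v0 e).1]; rfl, (h.v0 e).2⟩, h.od, fun i => qq_res hU i u ▸ h.qu i,
    fun i => qq_res hU i v ▸ h.qv i, fun n => G_res hU u v 0 n ▸ h.uv n⟩

theorem Gen.blk [FiniteDimensional F V] [Finite F] (H : Gen δ Φ f b u v) (h : Ok Φ f) (hn : Φ.Nondeg) :
    Nd Φ (sp f u v) ∧ Jt (inv_sp f u v).res (.replicate (if b % 4 < 2 then 1 else 2) (b / 4)) := by
  obtain ⟨k, hk⟩ : ∃ k, b / 4 = k + 1 := ⟨b / 4 - 1, by have := H.pos; omega⟩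
  have hu := hk ▸ H.tu
  have hv := hk ▸ H.tv
  rw [hk]
  split_ifs with e
  · obtain ⟨rfl, e'⟩ := H.v0 e
    have h1 : G Φ f u u 0 k = 1 := by
      rw [← h.G_top hu u (k / 2 + 1) (k / 2) (by omega)]
      exact (H.qu (k / 2 + 1)).trans (by rw [da, if_pos e, if_pos (by omega)])
    have h2 : Submodule.span F {u, 0} = F ∙ u := by rw [Set.pair_comm, Submodule.span_insert_zero]
    have := hull h.iso hn hu hv (by
      rw [h2]
      intro t ht H
      obtain ⟨a, rfl⟩ := Submodule.mem_span_singleton.1 ht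
      have := (G_smul a u u 0 k).symm.trans (H u (Submodule.mem_span_singleton_self u))
      rw [h1, mul_one] at this
      rw [this, zero_smul])
    rwa [h2, finrank_span_singleton (by rintro rfl; simp [G] at h1)] at this
  · have h1 : G Φ f u v 0 k = 1 := (H.uv k).trans (if_pos ⟨by omega, hk.symm⟩)
    have h2 : G Φ f v u 0 k = 1 := by rw [h.G_symm, h.G_top hv u k 0 rfl, h1]
    have h3 : G Φ f u u 0 k = 0 := h.G_lev hu (fun n hn => (H.qu n).trans (by
      rw [da, if_neg e, if_neg (by omega)])) (by omega)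
    have h4 : G Φ f v v 0 k = 0 := h.G_lev hv (fun n hn => (H.qv n).trans (if_neg (by omega))) (by omega)
    have h5 : ∀ a c : F, G Φ f u (a • u + c • v) 0 k = 0 → G Φ f v (a • u + c • v) 0 k = 0 → a = 0 ∧ c = 0 :=
      fun a c h5 h6 => by
        simp only [G_add, G_smul, h1, h2, h3, h4, mul_zero, mul_one, zero_add, add_zero] at h5 h6
        exact ⟨h6, h5⟩
    have := hull h.iso hn hu hv (by
      intro t ht H
      obtain ⟨a, c, rfl⟩ := Submodule.mem_span_pair.1 ht
      obtain ⟨rfl, rfl⟩ := h5 a c (H u (Submodule.subset_span (by simp))) (H v (Submodule.subset_span (by simp)))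
      simp)
    rwa [show ({u, v} : Set V) = Set.range ![u, v] by simp [Set.pair_comm], finrank_span_eq_card
      (LinearIndependent.pair_iff.2 fun a c h0 => h5 a c (by simp [h0, G]) (by simp [h0, G]))] at this

theorem G_eq_of_qq (h : Ok Φ f) (h' : Ok Ψ g) {x : V} {y : W} (H : ∀ i, qq Ψ g i y = qq Φ f i x) (i j : ℕ) :
    G Ψ g y y i j = G Φ f x x i j := by
  have h1 : ∀ d i, G Ψ g y y (i + d) i = G Φ f x x (i + d) i := fun d => by
    induction d using Nat.twoStepInduction with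
    | zero => intro i; rw [add_zero, h.G_self, h'.G_self]
    | one => exact fun i => H (i + 1)
    | more d h1 h2 =>
      intro i
      have a1 := h.G_rec x x (i + d + 1) i
      have a2 := h'.G_rec y y (i + d + 1) i
      have a3 := h1 (i + 1)
      have a4 := h2 (i + 1)
      rw [show i + 1 + d = i + d + 1 by omega] at a3
      rw [show i + 1 + (d + 1) = i + d + 1 + 1 by omega] at a4
      rw [show i + (d + 2) = i + d + 1 + 1 by omega]
      linear_combination a4 - a2 + a1 - a3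
  rcases le_total i j with e | e <;> obtain ⟨d, rfl⟩ := Nat.exists_eq_add_of_le e
  · rw [h.G_symm, h'.G_symm, h1]
  · exact h1 d j

theorem G_eq_of_row (h : Ok Φ f) (h' : Ok Ψ g) {x y : V} {x' y' : W} {m : ℕ} (hy : ((f - 1) ^ m) y = 0)
    (hy' : ((g - 1) ^ m) y' = 0) (H : ∀ n, G Ψ g x' y' 0 n = G Φ f x y 0 n) (i : ℕ) :
    ∀ j, G Ψ g x' y' i j = G Φ f x y i j := by
  induction i with
  | zero => exact H
  | succ i ih =>
    have h1 : ∀ d j, m ≤ j + d → G Ψ g x' y' (i + 1) j = G Φ f x y (i + 1) j := fun d => by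
      induction d with
      | zero => intro j hj; rw [h.G_zero hy (by omega), h'.G_zero hy' (by omega)]
      | succ d h1 =>
        intro j hj
        linear_combination h1 (j + 1) (by omega) - h'.G_rec x' y' i j + h.G_rec x y i j - ih (j + 1)
    exact fun j => h1 m j (by omega)

theorem Gen.iso [FiniteDimensional F V] [FiniteDimensional F W] [Finite F] {u' v' : W} (H : Gen δ Φ f b u v)
    (H' : Gen δ Ψ g b u' v') (h : Ok Φ f) (h' : Ok Ψ g) (hn : Φ.Nondeg) (hn' : Ψ.Nondeg) (hτ : Ψ.τ = Φ.τ) :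
    ∃ e : sp f u v ≃ₗ[F] sp g u' v', (∀ x, e ((inv_sp f u v).res x) = (inv_sp g u' v').res (e x)) ∧
      (Φ.restrict _).IsIso (Ψ.restrict _) e := by
  have h1 := G_eq_of_row h h' H.tv H'.tv fun n => (H'.uv n).trans (H.uv n).symm
  have h2 := fun i => (H'.qu i).trans (H.qu i).symm
  have h3 := fun i => (H'.qv i).trans (H.qv i).symm
  refine exists_iso_fam (fam f u v) (fam g u' v') hτ rfl rfl (H.blk h hn).1 (H'.blk h' hn').1 ?_ ?_
    (fun p => ⟨(p.1, p.2 + 1), by simp [fam, pow_succ'], by simp [fam, pow_succ']⟩) _ _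
  · rintro ⟨_ | _, i⟩ ⟨_ | _, j⟩
    exacts [G_eq_of_qq h h' h3 i j, (h'.G_symm v' u' i j).trans ((h1 j i).trans (h.G_symm u v j i)), h1 i j,
      G_eq_of_qq h h' h2 i j]
  · have : ∀ {x : V} {y : W}, (∀ i, qq Ψ g i y = qq Φ f i x) → ∀ j : ℕ,
        Ψ.Q (((g - 1) ^ j) y) = Φ.Q (((f - 1) ^ j) x) := fun {x y} H j => by
      cases j with
      | zero => exact H 0
      | succ j => exact (h'.qq_t 0 j y).trans ((h.qq_t 0 j x).trans (by rw [H, cf, cf, hτ])).symm
    rintro ⟨_ | _, i⟩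
    exacts [this h3 i, this h2 i]

end Cfsg.Agent.Classical.Cv
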