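import Cfsg.Agent.Classical.Cv2

/-! Decompositions `Dec` of an isometry in characteristic two into normalised blocks: uniqueness
(`Dec.conj`) and existence of normal forms (`exists_dec`). -/

set_option autoImplicit false

namespace Cfsg.Agent.Classical.Cv

open Module Cfsg.Agent.Elu Cfsg.Agent.Geom Cfsg.Agent.Geom.Formed Cfsg.Agent.Classical.Uc

universe u

variable {F : Type*} [Field F]

/-- `f` is an orthogonal sum of blocks with the given keys and a part without eigenvalue one -/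
def Dec (δ : F) : List ℕ → ∀ {V : Type u} [AddCommGroup V] [Module F V],
    Formed (RingHom.id F) V → End F V → Prop
  | [], _, _, _, _, f => IsUnit (f - 1)
  | b :: L, _, _, _, Φ, f => ∃ u v, Gen δ Φ f b u v ∧
      ∃ hU : Inv f (Φ.perp (sp f u v)), Dec δ L (Φ.restrict _) hU.res

variable {δ : F}

theorem Dec.gen {b : ℕ} (L : List ℕ) : ∀ {V : Type u} [AddCommGroup V] [Module F V]
    {Φ : Formed (RingHom.id F) V} {f : End F V}, Dec δ L Φ f → b ∈ L → ∃ u v, Gen δ Φ f b u v := by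
  induction L with
  | nil => simp
  | cons a L ih =>
    rintro V _ _ Φ f ⟨u, v, h, hU, h'⟩ hb
    rcases List.mem_cons.1 hb with rfl | hb
    · exact ⟨u, v, h⟩
    · obtain ⟨u, v, h⟩ := ih h' hb
      exact ⟨u, v, h.up⟩

theorem Dec.two {m : ℕ} (L : List ℕ) : ∀ {V : Type u} [AddCommGroup V] [Module F V]
    {Φ : Formed (RingHom.id F) V} {f : End F V}, Dec δ L Φ f → 2 ≤ L.countP (· / 2 = 2 * m) →
    ∃ b b' u u', b / 2 = 2 * m ∧ b' / 2 = 2 * m ∧ Gen δ Φ f b u 0 ∧ Gen δ Φ f b' u' 0 ∧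
      ∀ i j, G Φ f u u' i j = 0 := by
  induction L with
  | nil => simp
  | cons a L ih =>
    rintro V _ _ Φ f ⟨u, v, h, hU, h'⟩ hb
    by_cases e : a / 2 = 2 * m
    · obtain ⟨b, h1, h2⟩ := List.countP_pos_iff.1 (show 0 < L.countP (· / 2 = 2 * m) by
        simp only [List.countP_cons, e, decide_true, if_true] at hb; omega)
      obtain ⟨u', v', h3⟩ := h'.gen L h1
      have h2 : b / 2 = 2 * m := by simpa using h2
      obtain ⟨rfl, -⟩ := h3.v0 (by omega)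
      obtain ⟨rfl, -⟩ := h.v0 (by omega)
      exact ⟨a, b, u, u', e, h2, h, h3.up, fun i j =>
        (inv_sub_one.2 hU).pow j _ u'.2 _ (mem_sp u 0 i).1⟩
    · obtain ⟨b, b', w, w', h1, h2, h3, h4, h5⟩ := ih h' (by simpa [e] using hb)
      exact ⟨b, b', w, w', h1, h2, h3.up, h4.up, fun i j => G_res hU w w' i j ▸ h5 i j⟩

variable [Finite F]

theorem Dec.ct (k : ℕ) (L : List ℕ) : ∀ {V : Type u} [AddCommGroup V] [Module F V] [FiniteDimensional F V]
    {Φ : Formed (RingHom.id F) V} {f : End F V}, Φ.Nondeg → Ok Φ f → Dec δ L Φ f →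
    ct f (k + 1) = L.countP (· / 2 = 2 * (k + 1)) + 2 * L.countP (· / 2 = 2 * (k + 1) + 1) := by
  induction L with
  | nil => exact fun _ _ h => unit_iff.1 h k
  | cons a L ih =>
    rintro V _ _ _ Φ f hn h ⟨u, v, H, hU, h'⟩
    obtain ⟨h1, h2⟩ := H.blk h hn
    rw [ct_add (hn.isCompl_perp h1) (inv_sp f u v) hU, ih (hn.restrict_perp h1) (h.res hU) h', Jt.ct h2,
      Multiset.count_replicate]
    simp only [List.countP_cons, decide_eq_true_eq]
    split_ifs <;> omega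

theorem Dec.conj (L : List ℕ) : ∀ {V W : Type u} [AddCommGroup V] [Module F V] [AddCommGroup W] [Module F W]
    [FiniteDimensional F V] [FiniteDimensional F W] {Φ : Formed (RingHom.id F) V}
    {Ψ : Formed (RingHom.id F) W} {f : End F V} {g : End F W}, Φ.Nondeg → Ψ.Nondeg → Ψ.τ = Φ.τ →
    Ok Φ f → Ok Ψ g → Dec δ L Φ f → Dec δ L Ψ g → elemDiv f = elemDiv g →
      ∃ e : V ≃ₗ[F] W, (∀ v, e (f v) = g (e v)) ∧ Φ.IsIso Ψ e := by
  induction L with
  | nil =>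
    intro V W _ _ _ _ _ _ Φ Ψ f g hn hn' hτ h h' H H' hs
    obtain ⟨e, he⟩ := exists_equiv_iff.2 hs
    obtain ⟨x, rfl⟩ := h.iso.exists_isom hn
    obtain ⟨y, rfl⟩ := h'.iso.exists_isom hn'
    have h1 := (End.isUnit_iff _).1 H
    have h2 : ∀ a : F, a * a = 1 → a = 1 := fun a e => by
      have : (a - 1) ^ 2 = 0 := by linear_combination e + (1 - a) * h.two
      exact sub_eq_zero.1 (eq_zero_of_pow_eq_zero this)
    obtain ⟨E, h3, h4⟩ := exists_intertwine_isom hn hn' ((h2 _ Ψ.εε).trans (h2 _ Φ.εε).symm) x.2.1 y.2.1 e he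
      (.inr fun v hv => h1.1 (h1.1 (by
        simp only [LinearMap.sub_apply, End.one_apply, map_sub, LinearEquiv.coe_coe, hv, map_zero]
        rw [show v - x.1 v - (x.1 v - v) = (2 : F) • (v - x.1 v) by rw [two_smul]; abel, h.two, zero_smul])))
    refine ⟨E, h3, h4, fun v => ?_⟩
    obtain ⟨w, rfl⟩ := h1.2 v
    have h5 := h.qq_t 0 0 w
    have h6 := h'.qq_t 0 0 (E w)
    simp only [qq, cf, G, zero_add, pow_one, pow_zero, End.one_apply] at h5 h6
    have h7 : E ((x.1.toLinearMap - 1 : End F V) w) = (y.1.toLinearMap - 1 : End F W) (E w) := by simp [h3]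
    rw [h5, h7, h6, hτ, ← h7, h4]
  | cons a L ih =>
    rintro V W _ _ _ _ _ _ Φ Ψ f g hn hn' hτ h h' ⟨u, v, H, hU', H1⟩ ⟨u', v', H', hY', H2⟩ hs
    obtain ⟨a1, a2⟩ := H.blk h hn
    obtain ⟨b1, b2⟩ := H'.blk h' hn'
    obtain ⟨e, c1, c2⟩ := H.iso H' h h' hn hn' hτ
    have hU := inv_sp f u v
    obtain ⟨e', c3, c4⟩ := ih (hn.restrict_perp a1) (hn'.restrict_perp b1) hτ (h.res hU') (h'.res hY') H1 H2
      (add_left_cancel (a := elemDiv hU.res) (by
        rw [← elemDiv_of_isCompl (hn.isCompl_perp a1), hs,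
          elemDiv_of_isCompl (hn'.isCompl_perp b1) (inv_sp g u' v') hY', a2, b2]))
    obtain ⟨E, c5, c6, c7⟩ := exists_isIso_of_compl hτ (hn.isCompl_perp a1) le_rfl (hn'.isCompl_perp b1) le_rfl
      c2 c4
    refine ⟨E, fun v => ?_, c5⟩
    obtain ⟨a, b, rfl⟩ := exists_add_of_isCompl (hn.isCompl_perp a1) v
    rw [map_add, map_add, map_add, map_add, ← hU.coe_res, ← hU'.coe_res, c6, c6, c7, c7, c1, c3]; rfl

/-- a block with key `b` is linked to level `i` -/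
def Lk (i b : ℕ) : Prop := b / 2 = 4 * i + 4 ∨ b / 4 = 2 * i + 1 ∨ b / 2 = 4 * i

/-- the relation between earlier and later keys in a normal form -/
def Rk (b b' : ℕ) : Prop := b' ≤ b ∧ (b % 2 = 0 → ¬ Lk ((b / 4 - 1) / 2) b')

/-- normal lists of keys -/
def Nm (L : List ℕ) : Prop := L.Pairwise Rk ∧ ∀ m, L.countP (· / 2 = 2 * m) ≤ 2

variable {V : Type u} [AddCommGroup V] [Module F V] {Φ : Formed (RingHom.id F) V} {f : End F V}

theorem Ok.sq (h : Ok Φ f) (a : F) : ∃ c, c * c = a :=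
  Finite.surjective_of_injective (f := fun c : F => c * c) (fun x y e => by
    have : (x - y) ^ 2 = 0 := by linear_combination e + (y * y - x * y) * h.two
    exact sub_eq_zero.1 (eq_zero_of_pow_eq_zero this)) a

omit [Finite F] in
theorem Gen.link {b i : ℕ} {u v : V} (H : Gen δ Φ f b u v) (h : Ok Φ f) (hb : Lk i b) (hi : cf Φ i = 1) :
    ∃ w, ((f - 1) ^ (2 * i + 1)) w = 0 ∧ qq Φ f i w ≠ 0 := by
  rcases hb with e | e | e
  · refine ⟨((f - 1) ^ (0 + 1 : ℕ)) u, by rw [tt]; exact t_zero H.tu (by omega), ?_⟩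
    rw [h.qq_t, hi, H.qu, da, if_pos (by omega), if_pos (by omega)]; simp
  · have h1 : 2 ≤ b % 4 := by_contra fun e' => by have := (H.v0 (by omega)).2; omega
    have h2 := h.qq_add i u v
    have hu := e ▸ H.tu
    have hv := e ▸ H.tv
    rw [hi, h.G_top hv u i i (two_mul i).symm, H.uv, if_pos ⟨h1, e.symm⟩] at h2
    by_contra! h3
    rw [h3 u hu, h3 v hv, h3 _ (by rw [map_add, hu, hv, add_zero])] at h2
    simp at h2
  · exact ⟨u, t_zero H.tu (by omega), by rw [H.qu, da, if_pos (by omega), if_pos (by omega)]; simp⟩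

omit [Finite F] in
theorem Ok.genV (h : Ok Φ f) {k s : ℕ} {y : V} (hy : ((f - 1) ^ (2 * k + 2)) y = 0) (h1 : qq Φ f (k + 1) y = 1)
    (hs : s < 2) (h2 : qq Φ f k y = if s = 0 then δ else 0) : ∃ x, Gen δ Φ f (4 * (2 * k + 2) + s) x 0 := by
  obtain ⟨x, a1, -, a3⟩ := h.kill hy h1 k le_rfl
  have e : (4 * (2 * k + 2) + s) / 4 = 2 * k + 2 := by omega
  refine ⟨x, by omega, e.symm ▸ a1, map_zero _, fun _ => ⟨rfl, by omega⟩, by omega, fun i => ?_,
    fun i => by rw [qq_zero, db, if_neg (by omega)], fun n => by rw [if_neg (by omega)]; simp [G]⟩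
  rw [a3 i (by omega), da, if_pos (show _ % 4 < 2 by omega), e]
  rcases lt_trichotomy i k with e | rfl | e
  · rw [if_pos e, if_neg (by omega), if_neg (by omega)]
  · rw [if_neg (by omega), h2, if_neg (show ¬ 2 * i = _ by omega)]
    exact if_congr (by omega) rfl rfl
  · rw [if_neg (by omega)]
    split_ifs with e1 e2
    · rw [show i = k + 1 by omega, h1]
    · omega
    · exact h.qq_big hy (by omega)

omit [Finite F] in
theorem Ok.genW (h : Ok Φ f) {m s : ℕ} {u v : V} (hu : ((f - 1) ^ (m + 1)) u = 0)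
    (hv : ((f - 1) ^ (m + 1)) v = 0) (qu : ∀ n, m + 1 = 2 * n → qq Φ f n u = 0)
    (qv : ∀ n, m + 1 = 2 * n → qq Φ f n v = 0) (h1 : G Φ f u v 0 m = 1) (hs : s < 2) (hm : s = 0 → m % 2 = 0)
    (h2 : ∀ i, 2 * i = m → qq Φ f i u = if s = 0 then 1 else 0)
    (h3 : ∀ i, 2 * i = m → qq Φ f i v = if s = 0 then δ else 0) :
    ∃ x y, Gen δ Φ f (4 * (m + 1) + 2 + s) x y := by
  have qu : ∀ n, m + 1 ≤ 2 * n → qq Φ f n u = 0 := fun n hn => hn.eq_or_lt.elim (qu n) (h.qq_big hu)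
  have qv : ∀ n, m + 1 ≤ 2 * n → qq Φ f n v = 0 := fun n hn => hn.eq_or_lt.elim (qv n) (h.qq_big hv)
  obtain ⟨x, a1, a2, a3⟩ := h.joint hv hu qv qu (by rw [h.G_symm, h.G_top hv u m 0 rfl, h1]) m le_rfl
  obtain ⟨y, b1, b2, b3⟩ := h.joint a1 hv (fun n hn => by rw [a3 n (by omega), if_neg (by omega)]) qv
    (by rw [h.G_symm, h.G_top a1 v m 0 rfl, a2 m (by omega), if_pos rfl]) m le_rfl
  have e : (4 * (m + 1) + 2 + s) / 4 = m + 1 := by omega
  refine ⟨x, y, by omega, e.symm ▸ a1, e.symm ▸ b1, by omega, by omega, fun i => ?_, fun i => ?_, fun n => ?_⟩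
  · rw [a3 i (by omega), da, if_neg (show ¬ _ % 4 < 2 by omega), e]
    split_ifs with e1 e2 e2
    · rw [h2 i e1, if_pos (by omega)]
    · rw [h2 i e1, if_neg (by omega)]
    · omega
    · rfl
  · rw [b3 i (by omega), db, e]
    split_ifs with e1 e2 e2
    · rw [h3 i e1, if_pos (by omega)]
    · rw [h3 i e1, if_neg (by omega)]
    · omega
    · rfl
  · rw [b2 n (by omega), e]
    exact if_congr (by omega) rfl rfl

omit [Finite F] in
theorem Ok.genW0 (h : Ok Φ f) {l : ℕ} {u v : V} (hu : ((f - 1) ^ (2 * l + 1)) u = 0)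
    (hv : ((f - 1) ^ (2 * l + 1)) v = 0) (h1 : G Φ f u v 0 (2 * l) = 1) (h2 : qq Φ f l u = 0) :
    ∃ x y, Gen δ Φ f (4 * (2 * l + 1) + 2 + 1) x y := by
  have h3 : G Φ f v u l l = 1 := by rw [h.G_symm, h.G_top hv u l l (two_mul l).symm, h1]
  refine h.genW (v := v + qq Φ f l v • u) hu (by simp [hu, hv]) (by omega) (by omega) ?_ one_lt_two (by omega)
    (fun i e => by rw [show i = l by omega, h2]; rfl) fun i e => ?_
  · rw [G_add, G_smul, ← h.G_top hu u l l (two_mul l).symm, h.G_self, h1]; simp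
  · obtain rfl : i = l := by omega
    rcases h.cf_or i with e' | ⟨-, -, e'⟩
    · rw [h.qq_add, qq_smul, G_smul, h2, h3, e']
      simp only [one_ne_zero, if_false]
      linear_combination qq Φ f i v * h.two
    · exact e' _

omit [Finite F] in
theorem G_perp {u v w : V} (hw : w ∈ Φ.perp (sp f u v)) (hU : Inv f (Φ.perp (sp f u v))) (i j : ℕ) :
    G Φ f u w i j = 0 ∧ G Φ f v w i j = 0 :=
  ⟨(inv_sub_one.2 hU).pow j _ hw _ (mem_sp u v i).1, (inv_sub_one.2 hU).pow j _ hw _ (mem_sp u v i).2⟩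

omit [Finite F] in
theorem Gen.link' {U : Submodule F V} (hU : Inv f U) {b i : ℕ} {u v : U} (H : Gen δ Φ f b u v) (h : Ok Φ f)
    (hb : Lk i b) (hi : cf Φ i = 1) : ∃ w ∈ U, ((f - 1) ^ (2 * i + 1)) w = 0 ∧ qq Φ f i w ≠ 0 := by
  obtain ⟨w, a1, a2⟩ := Gen.link (u := u) (v := v) (f := hU.res) (δ := δ) (b := b)
    ⟨H.pos, Subtype.ext (by rw [res_sub_pow]; exact H.tu), Subtype.ext (by rw [res_sub_pow]; exact H.tv),
      fun e => ⟨Subtype.ext (H.v0 e).1, (H.v0 e).2⟩, H.od, fun i => (qq_res _ i u).trans (H.qu i),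
      fun i => (qq_res _ i v).trans (H.qv i), fun n => (G_res _ u v 0 n).trans (H.uv n)⟩
    (h.res _) hb (by cases i <;> exact hi)
  exact ⟨w, w.2, by rw [← res_sub_pow hU, a1]; rfl, qq_res hU i w ▸ a2⟩

/-- a good first block of size `k + 1` exists -/
def Hd (δ : F) (Φ : Formed (RingHom.id F) V) (f : End F V) (k : ℕ) : Prop := ∃ b u v, Gen δ Φ f b u v ∧
  b / 4 = k + 1 ∧ (∀ b' (u' v' : Φ.perp (sp f u v)), b' / 4 ≤ k + 1 → Gen δ Φ f b' u' v' → Rk b b') ∧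
  (b % 4 < 2 → ∀ b₁ b₂ (u₁ u₂ : Φ.perp (sp f u v)), b₁ / 2 = 2 * (k + 1) → b₂ / 2 = 2 * (k + 1) →
    Gen δ Φ f b₁ u₁ 0 → Gen δ Φ f b₂ u₂ 0 → G Φ f u₁ u₂ 0 k ≠ 0)

/-- the choice of a first block -/
theorem exists_head [FiniteDimensional F V] (hδ : ∀ a : F, ∃ c, a + c * c + c = 0 ∨ a + c * c + c = δ)
    (hn : Φ.Nondeg) (h : Ok Φ f) {k : ℕ} (hk : ∀ v, ((f - 1) ^ (k + 2)) v = 0 → ((f - 1) ^ (k + 1)) v = 0)
    {x : V} (hx : ((f - 1) ^ (k + 1)) x = 0) (hx' : ((f - 1) ^ k) x ≠ 0) : Hd δ Φ f k := by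
  obtain ⟨y, hy, hy'⟩ : ∃ y, ((f - 1) ^ (k + 1)) y = 0 ∧ G Φ f y x 0 k ≠ 0 := by
    by_contra! H
    obtain ⟨w, hw⟩ := (perp_ker hn h.iso (k + 1)).le (x := ((f - 1) ^ k) x) fun u hu => H u hu
    refine hx' (hw ▸ hk w ?_)
    rw [show k + 2 = 1 + (k + 1) by omega, ← tt, hw, tt, add_comm, hx]
  have hU := fun u v => h.iso.inv_perp hn (inv_sp f u v)
  have sc : ∀ {u v : V}, G Φ f u v 0 k ≠ 0 → G Φ f u ((G Φ f u v 0 k)⁻¹ • v) 0 k = 1 := fun e => by
    rw [G_smul, inv_mul_cancel₀ e]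
  have rt : ∀ {a : F}, a ≠ 0 → ∀ d, ∃ c, c * c * a = d := fun {a} e d =>
    (h.sq (d / a)).imp fun c hc => by rw [hc, div_mul_cancel₀ _ e]
  obtain ⟨l, rfl | rfl⟩ := k.even_or_odd'
  · have W0 : ∀ {u v : V}, ((f - 1) ^ (2 * l + 1)) u = 0 → ((f - 1) ^ (2 * l + 1)) v = 0 →
        G Φ f u v 0 (2 * l) = 1 → qq Φ f l u = 0 → Hd δ Φ f (2 * l) := fun hu hv h1 h2 => by
      obtain ⟨u, v, H⟩ := h.genW0 (δ := δ) hu hv h1 h2
      exact ⟨_, u, v, H, by omega, fun b' _ _ e _ => ⟨by omega, by omega⟩, by omega⟩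
    by_cases h1 : qq Φ f l y = 0
    · exact W0 hy (by simp [hx]) (sc hy') h1
    obtain ⟨c, hc⟩ := rt h1 1
    have c0 : c ≠ 0 := by rintro rfl; simp at hc
    have hi := (h.cf_or l).resolve_right fun e => h1 (e.2.2 y)
    rw [← qq_smul] at hc
    obtain ⟨u, hu, v, hv, h2, h3⟩ : ∃ u, ((f - 1) ^ (2 * l + 1)) u = 0 ∧ ∃ v, ((f - 1) ^ (2 * l + 1)) v = 0 ∧
        qq Φ f l u = 1 ∧ G Φ f u v 0 (2 * l) = 1 :=
      ⟨c • y, by simp [hy], _, by simp [hx], hc, sc (v := x) (by rw [G_smul']; exact mul_ne_zero c0 hy')⟩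
    obtain ⟨d, hd⟩ := hδ (qq Φ f l v)
    have h4 : qq Φ f l (v + d • u) = qq Φ f l v + d * d + d := by
      rw [h.qq_add, qq_smul, G_smul, h2, hi, h.G_symm, h.G_top hv u l l (two_mul l).symm, h3]; ring
    have h5 : G Φ f u (v + d • u) 0 (2 * l) = 1 := by
      rw [G_add, G_smul, ← h.G_top hu u l l (two_mul l).symm, h.G_self, h3]; simp
    have h6 : ((f - 1) ^ (2 * l + 1)) (v + d • u) = 0 := by simp [hu, hv]
    rcases hd with hd | hd
    · exact W0 h6 hu (by rw [h.G_symm, h.G_top h6 u (2 * l) 0 rfl, h5]) (h4.trans hd)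
    obtain ⟨u, v, H⟩ := h.genW (δ := δ) (s := 0) hu h6 (by omega) (by omega) h5 two_pos (by omega)
      (fun i e => by rw [show i = l by omega, h2]; rfl) fun i e => by rw [show i = l by omega, h4, hd]; rfl
    have e : (4 * (2 * l + 1) + 2 + 0) / 4 = 2 * l + 1 := by omega
    by_cases hl : ∃ w ∈ Φ.perp (sp f u v), ((f - 1) ^ (2 * l + 1)) w = 0 ∧ qq Φ f l w ≠ 0
    · obtain ⟨w, a1, a2, a3⟩ := hl
      obtain ⟨c, hc⟩ := rt a3 1
      have hu := e ▸ H.tu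
      have hv := e ▸ H.tv
      refine W0 (u := u + c • w) (by simp [hu, a2]) hv ?_ ?_
      · rw [G_add', G_smul', h.G_symm w, (G_perp a1 (hU u v) _ _).2, H.uv, if_pos (by omega)]; simp
      · rw [h.qq_add, qq_smul, G_smul, (G_perp a1 (hU u v) _ _).1, hc, H.qu, da, if_neg (by omega),
          if_pos (by omega)]
        linear_combination h.two
    have nl : ∀ b' (u' v' : Φ.perp (sp f u v)), Gen δ Φ f b' u' v' → ¬ Lk l b' := fun b' u' v' H' hb =>
      hl (H'.link' (hU u v) h hb hi)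
    refine ⟨_, u, v, H, e, fun b' u' v' e' H' => ⟨?_, fun _ => ?_⟩, by omega⟩
    · have := nl b' u' v' H'
      rw [Lk] at this; omega
    · rw [show (_ / 4 - 1) / 2 = l by omega]; exact nl b' u' v' H'
  by_cases hW : ∃ u v, ((f - 1) ^ (2 * l + 2)) u = 0 ∧ ((f - 1) ^ (2 * l + 2)) v = 0 ∧ qq Φ f (l + 1) u = 0 ∧
      qq Φ f (l + 1) v = 0 ∧ G Φ f u v 0 (2 * l + 1) ≠ 0
  · obtain ⟨u, v, hu, hv, h1, h2, h3⟩ := hW
    obtain ⟨u, v, H⟩ := h.genW (δ := δ) (s := 1) (v := _ • v) hu (by simp [hv])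
      (fun n e => by rw [show n = l + 1 by omega, h1]) (fun n e => by
        rw [show n = l + 1 by omega, qq_smul, h2, mul_zero]) (sc h3) one_lt_two (by omega) (by omega) (by omega)
    exact ⟨_, u, v, H, by omega, fun b' _ _ e _ => ⟨by omega, by omega⟩, by omega⟩
  have nW : ∀ b' u' v', Gen δ Φ f b' u' v' → b' / 2 ≠ 2 * (2 * l + 2) + 1 := fun b' u' v' H' e => by
    have e' : b' / 4 = 2 * l + 2 := by omega
    refine hW ⟨u', v', e' ▸ H'.tu, e' ▸ H'.tv, ?_, ?_, ?_⟩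
    · rw [H'.qu, da, if_neg (by omega), if_neg (by omega)]
    · rw [H'.qv, db, if_neg (by omega)]
    · rw [H'.uv, if_pos (by omega)]; simp
  have two : ∀ s u, Gen δ Φ f (4 * (2 * l + 2) + s) u 0 → s < 2 → ∀ b₁ b₂ (u₁ u₂ : Φ.perp (sp f u 0)),
      b₁ / 2 = 2 * (2 * l + 1 + 1) → b₂ / 2 = 2 * (2 * l + 1 + 1) → Gen δ Φ f b₁ u₁ 0 → Gen δ Φ f b₂ u₂ 0 →
      G Φ f u₁ u₂ 0 (2 * l + 1) ≠ 0 := fun s u H hs b₁ b₂ u₁ u₂ e₁ e₂ H₁ H₂ h0 => by
    have q1 : ∀ {b w}, Gen δ Φ f b w 0 → b / 2 = 2 * (2 * l + 2) →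
        ((f - 1) ^ (2 * l + 2)) w = 0 ∧ qq Φ f (l + 1) w = 1 := fun {b w} H e =>
      ⟨(show b / 4 = 2 * l + 2 by omega) ▸ H.tu, by rw [H.qu, da, if_pos (by omega), if_pos (by omega)]⟩
    obtain ⟨⟨a1, a2⟩, ⟨a3, a4⟩, a5, a6⟩ := And.intro (q1 H (by omega)) (And.intro (q1 H₁ e₁) (q1 H₂ e₂))
    refine hW ⟨u + u₁, u + u₂, by simp [a1, a3], by simp [a1, a5], ?_, ?_, ?_⟩
    · rw [h.qq_add, a2, a4, (G_perp u₁.2 (hU u 0) _ _).1]; linear_combination h.two
    · rw [h.qq_add, a2, a6, (G_perp u₂.2 (hU u 0) _ _).1]; linear_combination h.two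
    · rw [G_add, G_add', G_add', h0, (G_perp u₂.2 (hU u 0) _ _).1, h.G_symm u₁, (G_perp u₁.2 (hU u 0) _ _).1,
        ← h.G_top a1 u (l + 1) l (by omega), show G Φ f u u (l + 1) l = 1 from a2]
      simp
  have V0 : ∀ {v : V}, ((f - 1) ^ (2 * l + 2)) v = 0 → qq Φ f (l + 1) v = 1 → qq Φ f l v = 0 →
      Hd δ Φ f (2 * l + 1) := fun hv h1 h2 => by
      obtain ⟨u, H⟩ := h.genV (δ := δ) (s := 1) hv h1 one_lt_two h2
      exact ⟨_, u, 0, H, by omega, fun b' u' v' e H' => ⟨by have := nW _ _ _ H'; omega, by omega⟩,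
        fun _ => two 1 u H one_lt_two⟩
  obtain ⟨v, hv, h1⟩ : ∃ v, ((f - 1) ^ (2 * l + 2)) v = 0 ∧ qq Φ f (l + 1) v = 1 := by
    obtain ⟨v, hv, h1⟩ : ∃ v, ((f - 1) ^ (2 * l + 2)) v = 0 ∧ qq Φ f (l + 1) v ≠ 0 := by
      by_contra! H
      exact hW ⟨y, x, hy, hx, H y hy, H x hx, hy'⟩
    obtain ⟨c, hc⟩ := rt h1 1
    exact ⟨c • v, by simp [hv], (qq_smul _ _ _).trans hc⟩
  by_cases h2 : qq Φ f l v = 0
  · exact V0 hv h1 h2
  have hi := (h.cf_or l).resolve_right fun e => h2 (e.2.2 v)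
  obtain ⟨d, hd⟩ := hδ (qq Φ f l v)
  have h3 : ((f - 1) ^ (2 * l + 2)) (v + d • ((f - 1) ^ (0 + 1 : ℕ)) v) = 0 := by
    rw [map_add, map_smul, tt, hv, t_zero hv (by omega)]; simp
  have h4 : qq Φ f (l + 1) (v + d • ((f - 1) ^ (0 + 1 : ℕ)) v) = 1 := by
    rw [h.qq_mod, h.qq_big (n := l + 1 + (0 + 1)) hv (by omega), h.G_zero hv (by omega), h1]; simp
  have h5 : qq Φ f l (v + d • ((f - 1) ^ (0 + 1 : ℕ)) v) = qq Φ f l v + d * d + d := by
    rw [h.qq_mod, hi, h.G_symm, zero_add, h1, show G Φ f v v (l + 1) l = 1 from h1]; ring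
  rcases hd with hd | hd
  · exact V0 h3 h4 (h5.trans hd)
  obtain ⟨u, H⟩ := h.genV (δ := δ) (s := 0) h3 h4 two_pos (h5.trans hd)
  have e : (4 * (2 * l + 2) + 0) / 4 = 2 * l + 2 := by omega
  by_cases hl : ∃ w ∈ Φ.perp (sp f u 0), ((f - 1) ^ (2 * l + 1)) w = 0 ∧ qq Φ f l w ≠ 0
  · obtain ⟨w, a1, a2, a3⟩ := hl
    obtain ⟨c, hc⟩ := rt a3 δ
    have hu := e ▸ H.tu
    refine V0 (v := u + c • w) (by rw [map_add, map_smul, hu, t_zero a2 (by omega)]; simp) ?_ ?_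
    · rw [h.qq_add, qq_smul, G_smul, (G_perp a1 (hU u 0) _ _).1, h.qq_big a2 (by omega), H.qu, da,
        if_pos (by omega), if_pos (by omega)]
      simp
    · rw [h.qq_add, qq_smul, G_smul, (G_perp a1 (hU u 0) _ _).1, hc, H.qu, da, if_pos (by omega),
        if_neg (by omega), if_pos (by omega)]
      linear_combination δ * h.two
  have nl : ∀ b' (u' v' : Φ.perp (sp f u 0)), Gen δ Φ f b' u' v' → ¬ Lk l b' := fun b' u' v' H' hb =>
      hl (H'.link' (hU u 0) h hb hi)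
  refine ⟨_, u, 0, H, e, fun b' u' v' e' H' => ⟨?_, fun _ => ?_⟩, fun _ => two 0 u H two_pos⟩
  · have := nl b' u' v' H'
    have := nW _ _ _ H'
    rw [Lk] at *; omega
  · rw [show (_ / 4 - 1) / 2 = l by omega]; exact nl b' u' v' H'

theorem exists_dec (hδ : ∀ a : F, ∃ c, a + c * c + c = 0 ∨ a + c * c + c = δ) (n : ℕ) :
    ∀ {V : Type u} [AddCommGroup V] [Module F V] [FiniteDimensional F V] {Φ : Formed (RingHom.id F) V}
      {f : End F V}, finrank F V = n → Φ.Nondeg → Ok Φ f → ∀ m,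
      (∀ v, ((f - 1) ^ (m + 1)) v = 0 → ((f - 1) ^ m) v = 0) →
      ∃ L, Dec δ L Φ f ∧ (∀ b ∈ L, b / 4 ≤ m) ∧ Nm L := by
  induction n using Nat.strong_induction_on with
  | _ n ih =>
  intro V _ _ _ Φ f hV hn h m
  induction m with
  | zero =>
    exact fun H => ⟨[], (End.isUnit_iff _).2 ⟨(injective_iff_map_eq_zero _).2 fun v hv => by simpa using H v hv,
      LinearMap.surjective_of_injective ((injective_iff_map_eq_zero _).2 fun v hv => by simpa using H v hv)⟩,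
      by simp, by simp [Nm]⟩
  | succ k ihk =>
    intro H
    by_cases h0 : ∀ v, ((f - 1) ^ (k + 1)) v = 0 → ((f - 1) ^ k) v = 0
    · exact (ihk h0).imp fun L hL => ⟨hL.1, fun b hb => (hL.2.1 b hb).trans k.le_succ, hL.2.2⟩
    push Not at h0
    obtain ⟨x, hx, hx'⟩ := h0
    obtain ⟨b, u, v, G1, e, h1, h2⟩ := exists_head hδ hn h H hx hx'
    obtain ⟨a1, a2⟩ := G1.blk h hn
    have hU := h.iso.inv_perp hn (inv_sp f u v)
    have a3 := hn.finrank_add_finrank_perp (sp f u v)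
    have a4 := a2.sum
    obtain ⟨L, b1, b2, b3, b4⟩ := ih _ (by
      rw [Multiset.sum_replicate, e] at a4
      split_ifs at a4 <;> simp at a4 <;> omega) rfl (hn.restrict_perp a1) (h.res hU) (k + 1) fun w hw =>
        Subtype.ext (by rw [res_sub_pow]; exact H _ (by rw [← res_sub_pow hU, hw]; rfl))
    refine ⟨b :: L, ⟨u, v, G1, hU, b1⟩, List.forall_mem_cons.2 ⟨e.le, b2⟩,
      List.pairwise_cons.2 ⟨fun b' hb => ?_, b3⟩, fun m => ?_⟩
    · obtain ⟨u', v', H'⟩ := b1.gen L hb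
      exact h1 b' u' v' (b2 b' hb) H'.up
    · have := b4 m
      rw [List.countP_cons]
      split_ifs with e'; swap
      · exact this
      have e' : b / 2 = 2 * m := by simpa using e'
      by_contra h3
      obtain ⟨b₁, b₂, u₁, u₂, e₁, e₂, H₁, H₂, h4⟩ := b1.two (m := m) L (by omega)
      exact h2 (by omega) b₁ b₂ u₁ u₂ (by omega) (by omega) H₁.up H₂.up (G_res hU u₁ u₂ 0 k ▸ h4 0 k)

end Cfsg.Agent.Classical.Cv
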