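import Cfsg.Agent.Classical.Cv3

/-! Counting the normal forms of `Cv3`: level codes, their weight sums `Z`, and the fibre bound `card_fib`. -/

set_option autoImplicit false

namespace Cfsg.Agent.Classical.Cv

open Finset

/-- level codes -/
abbrev Lc : Type := Fin 3 × Bool

/-- admissible sequences of level codes -/
def ok : (N : ℕ) → Bool → (Fin N → Lc) → Prop
  | 0, _, _ => True
  | N + 1, σ, c => ((c 0).2 = true → σ = false) ∧ ok N (decide ((c 0).1 ≠ 0)) (Fin.tail c)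

/-- weight of a level code -/
def wl (j : ℕ) (d : Lc) : ℕ := (j + 1) * d.1 + if d.1 = 0 ∧ d.2 = true then 2 * j + 1 else 0

/-- weight of a code -/
def wc (j : ℕ) {N : ℕ} (c : Fin N → Lc) : ℕ := ∑ i : Fin N, wl (j + i) (c i)

open _root_.Classical in
/-- weight sum -/
noncomputable def Z (N j : ℕ) (σ : Bool) : ℝ := ∑ c : Fin N → Lc, if ok N σ c then (1 / 2) ^ wc j c else 0

theorem sum_cons {N : ℕ} (g : (Fin (N + 1) → Lc) → ℝ) : ∑ c, g c = ∑ d, ∑ c, g (Fin.cons d c) := by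
  rw [← (Fin.consEquiv fun _ => Lc).sum_comp, Fintype.sum_prod_type]; rfl

theorem wc_cons {N : ℕ} (j : ℕ) (d : Lc) (c : Fin N → Lc) :
    wc j (Fin.cons d c : Fin (N + 1) → Lc) = wl j d + wc (j + 1) c := by
  simp [wc, Fin.sum_univ_succ, add_assoc, add_comm 1]

theorem Z_succ (N j : ℕ) (σ : Bool) : Z (N + 1) j σ = ∑ d : Lc, if d.2 = true → σ = false then
    (1 / 2) ^ wl j d * Z N (j + 1) (decide (d.1 ≠ 0)) else 0 := by
  rw [Z, sum_cons]
  refine sum_congr rfl fun d _ => ?_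
  have e : ∀ c : Fin N → Lc, ok (N + 1) σ (Fin.cons d c) ↔
    (d.2 = true → σ = false) ∧ ok N (decide (d.1 ≠ 0)) c := fun c => Iff.rfl
  simp only [wc_cons, pow_add, Z, mul_sum]
  split_ifs with h
  · exact sum_congr rfl fun c _ => by rw [mul_ite, mul_zero, propext ((e c).trans (and_iff_right h))]
  · exact sum_eq_zero fun c _ => if_neg fun h' => h ((e c).1 h').1

theorem Z_rec (N j : ℕ) : Z (N + 1) j false = (1 + (1 / 2) ^ (2 * j + 1)) * Z N (j + 1) false +
    2 * ((1 / 2) ^ (j + 1) + ((1 / 2) ^ (j + 1)) ^ 2) * Z N (j + 1) true ∧ Z (N + 1) j true =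
    Z N (j + 1) false + ((1 / 2) ^ (j + 1) + ((1 / 2) ^ (j + 1)) ^ 2) * Z N (j + 1) true := by
  simp [Z_succ, Fintype.sum_prod_type, Fin.sum_univ_three, wl, pow_mul]
  constructor <;> ring

theorem Z_zero (j : ℕ) (σ : Bool) : Z 0 j σ = 1 := by simp [Z, ok, wc]

theorem Z_nonneg (N j : ℕ) (σ : Bool) : 0 ≤ Z N j σ := sum_nonneg fun _ _ => by split_ifs <;> positivity

theorem Z_tail (N : ℕ) : ∀ j, 12 ≤ j → ∀ σ, Z N j σ ≤ 1 + 2.01 * (1 / 2) ^ j := by
  induction N with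
  | zero => intro j _ σ; rw [Z_zero]; exact le_add_of_nonneg_right (by positivity)
  | succ N ih =>
    intro j hj σ
    have h1 := ih (j + 1) (by omega) false
    have h2 := ih (j + 1) (by omega) true
    have h3 := Z_nonneg N (j + 1) false
    have h4 := Z_nonneg N (j + 1) true
    have h5 : (1 / 2 : ℝ) ^ j ≤ (1 / 2) ^ 12 := pow_le_pow_of_le_one (by norm_num) (by norm_num) hj
    have h6 : (0 : ℝ) < (1 / 2) ^ j := by positivity
    obtain ⟨e1, e2⟩ := Z_rec N j
    rw [pow_succ _ (2 * j), pow_mul', pow_succ _ j] at *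
    set t : ℝ := (1 / 2) ^ j
    have h7 : (1 + t + t ^ 2) * (1 + 2.01 * (t * (1 / 2))) ≤ 1 + 2.01 * t := by nlinarith
    have h8 := mul_le_mul_of_nonneg_left h1 (show 0 ≤ 1 + t ^ 2 * (1 / 2) by positivity)
    have h9 := mul_le_mul_of_nonneg_left h2 (show 0 ≤ t * (1 / 2) + (t * (1 / 2)) ^ 2 by positivity)
    have h10 := mul_nonneg (show 0 ≤ t * (1 / 2) + (t * (1 / 2)) ^ 2 by positivity) h4
    have h11 := mul_nonneg (show 0 ≤ t ^ 2 * (1 / 2) by positivity) h3
    cases σ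
    · rw [e1]; nlinarith
    · rw [e2]; nlinarith

/-- bounds for the weight sums -/
def Zb (j : ℕ) (a p : ℝ) : Prop := ∀ N, Z N j false ≤ a ∧ Z N j true ≤ p

theorem Zb.step {j : ℕ} {a p a' p' : ℝ} (h : Zb (j + 1) a p) (h0 : 1 ≤ a' ∧ 1 ≤ p')
    (h1 : (1 + (1 / 2) ^ (2 * j + 1)) * a + 2 * ((1 / 2) ^ (j + 1) + ((1 / 2) ^ (j + 1)) ^ 2) * p ≤ a')
    (h2 : a + ((1 / 2) ^ (j + 1) + ((1 / 2) ^ (j + 1)) ^ 2) * p ≤ p') : Zb j a' p'
  | 0 => by simpa [Z_zero] using h0
  | N + 1 => by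
    obtain ⟨⟨e1, e2⟩, a1, a2⟩ := And.intro (Z_rec N j) (h N)
    rw [e1, e2]
    exact ⟨le_trans (by gcongr) h1, le_trans (by gcongr) h2⟩

theorem zb : Zb 2 1.6690973 1.4590172 ∧ Zb 0 7.3719908 4.3834005 := by
  have h12 : Zb 12 1.0004908 1.0004908 := fun N => by
    have := Z_tail N 12 le_rfl
    constructor <;> exact (this _).trans (by norm_num)
  have h11 : Zb 11 1.0009796 1.0007352 := h12.step (by norm_num) (by norm_num) (by norm_num)
  have h10 : Zb 10 1.0019579 1.0014685 := h11.step (by norm_num) (by norm_num) (by norm_num)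
  have h9 : Zb 9 1.0039178 1.0029369 := h10.step (by norm_num) (by norm_num) (by norm_num)
  have h8 : Zb 8 1.0078509 1.0058805 := h9.step (by norm_num) (by norm_num) (by norm_num)
  have h7 : Zb 7 1.0157708 1.0117955 := h8.step (by norm_num) (by norm_num) (by norm_num)
  have h6 : Zb 6 1.0318277 1.0237373 := h7.step (by norm_num) (by norm_num) (by norm_num)
  have h5 : Zb 5 1.0648232 1.0480736 := h6.step (by norm_num) (by norm_num) (by norm_num)
  have h4 : Zb 4 1.1344546 1.0985991 := h5.step (by norm_num) (by norm_num) (by norm_num)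
  have h3 : Zb 3 1.2892253 1.2074085 := h4.step (by norm_num) (by norm_num) (by norm_num)
  have h2 : Zb 2 1.6690973 1.4590172 := h3.step (by norm_num) (by norm_num) (by norm_num)
  have h1 : Zb 1 2.7896203 2.1250402 := h2.step (by norm_num) (by norm_num) (by norm_num)
  have h0 : Zb 0 7.3719908 4.3834005 := h1.step (by norm_num) (by norm_num) (by norm_num)
  exact ⟨h2, h0⟩

/-- admissible codes for orthogonal groups after erasing one bit -/
def okO {N : ℕ} (c : Fin (N + 2) → Lc) : Prop := ((c 0).2 = true → (c 0).1 = 0 ∧ (c 1).1 ≠ 0) ∧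
  ((c 1).2 = true → (c 0).1 = 0 ∧ (c 1).1 = 0) ∧ ok N (decide ((c 1).1 ≠ 0)) (Fin.tail (Fin.tail c))

open _root_.Classical in
theorem sum_okO (N : ℕ) : ∑ c : Fin (N + 2) → Lc, (if okO c then (1 / 2 : ℝ) ^ wc 0 c else 0) ≤ 4.16 := by
  have h : ∀ d e : Lc, ∑ c : Fin N → Lc, (if okO (Fin.cons d (Fin.cons e c) : Fin (N + 2) → Lc) then
      (1 / 2 : ℝ) ^ wc 0 (Fin.cons d (Fin.cons e c) : Fin (N + 2) → Lc) else 0) =
      if (d.2 = true → d.1 = 0 ∧ e.1 ≠ 0) ∧ (e.2 = true → d.1 = 0 ∧ e.1 = 0) then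
        (1 / 2) ^ wl 0 d * (1 / 2) ^ wl 1 e * Z N 2 (decide (e.1 ≠ 0)) else 0 := fun d e => by
    simp only [okO, Fin.cons_zero, Fin.tail_cons, Fin.cons_one, wc_cons, pow_add, Z, mul_sum]
    split_ifs with h
    · exact sum_congr rfl fun c _ => by simp [mul_assoc, and_iff_right h.1, and_iff_right h.2]
    · simp [← and_assoc, h]
  obtain ⟨h1, h2⟩ := zb.1 N
  simp only [sum_cons, h]
  simp [Fintype.sum_prod_type, Fin.sum_univ_three, wl]
  linarith

open PowerSeries Kn in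
theorem dm_two {q : ℝ} (hq : 2 ≤ q) (N : ℕ) :
    Dm √q⁻¹ (∏ k ∈ range (N + 1), Wf q q (2 * (k + 1))) 3.463 := fun n => by
  have h0 : 0 < q := by linarith
  have a1 : ∀ k, Bd √q⁻¹ (Wf q q (2 * (k + 1 + 1))) (1 - (1 / 2 : ℝ) ^ (k + 1))⁻¹ := fun k => by
    have h1 : q * √q⁻¹ ^ (2 * (k + 1 + 1)) ≤ (1 / 2) ^ (k + 1) := by
      rw [pow_mul, Real.sq_sqrt (by positivity), pow_succ', mul_inv_cancel_left₀ h0.ne', one_div]
      gcongr
    have h2 : (1 / 2 : ℝ) ^ (k + 1) < 1 := pow_lt_one₀ (by norm_num) (by norm_num) k.succ_ne_zero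
    have := bd_of_mul (by positivity) (nn_Wf h0.le h0.le _) h0.le le_rfl
      (by simpa using Wf_mul (a := q) (q := q) (i := 2 * (k + 1 + 1)) (by omega)) (h1.trans_lt h2)
    refine ⟨this.1, fun n => (this.2 n).trans ?_⟩
    rw [zero_mul, add_zero, one_div]
    gcongr
  have a2 : Dm √q⁻¹ (Wf q q 2) 1 := fun n => by
    simp only [Wf, coeff_mk]
    split_ifs with h
    · obtain ⟨m, rfl⟩ := h
      rw [pow_mul, Real.sq_sqrt (by positivity), Nat.mul_div_cancel_left _ two_pos]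
      cases m <;> simp [wt, ← pow_succ', show q ≠ 0 by positivity]
    · simp
  have a3 : ∏ k ∈ range N, (1 - (1 / 2 : ℝ) ^ (k + 1))⁻¹ ≤ 3.463 := by
    have h0 : ∀ i, 0 < 1 - (1 / 2 : ℝ) ^ (i + 1) := fun i =>
      sub_pos.2 (pow_lt_one₀ (by norm_num) (by norm_num) (by omega))
    refine prod_le_of_tail (y := 1 / 2) (t := 0.501) (D := 3.5) (N := 14) (by norm_num)
      (fun i => (one_le_inv₀ (h0 i)).2 (sub_le_self _ (by positivity))) (fun i hi => ?_) (by positivity)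
      (by norm_num) (by norm_num) (by norm_num [prod_range_succ]) N
    have h1 : (1 / 2 : ℝ) ^ i ≤ (1 / 2) ^ 14 := pow_le_pow_of_le_one (by norm_num) (by norm_num) hi
    rw [inv_le_iff_one_le_mul₀ (h0 i), pow_succ]
    nlinarith [pow_pos (show (0 : ℝ) < 1 / 2 by norm_num) i]
  rw [prod_range_succ', mul_comm (∏ _ ∈ _, _)]
  exact (a2.mul (by positivity) zero_le_one (bd_prod (by positivity) _ fun k _ => a1 k) n).trans (by simpa using a3)

open Module Cfsg.Agent.Elu Cfsg.Agent.Geom Cfsg.Agent.Geom.Formed Cfsg.Agent.Classical.Uc Cfsg.Agent.Classical.Kn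
  Cfsg.Agent.Classical.Eig

universe u
variable {F : Type u} [Field F] [Finite F] {V : Type u} [AddCommGroup V] [Module F V] [FiniteDimensional F V]
  {Φ : Formed (RingHom.id F) V}

theorem card_fib (h2 : (2 : F) = 0) (hn : Φ.Nondeg) {X : Type*} (f : X → End F V) (hf : ∀ x, Iso Φ (f x))
    (r : ℕ → ℕ) (h1 : ∀ x k, ∃ s, ct (f x) (k + 1) = r k + 2 * s)
    (hi : ∀ x y, elemDiv (f x) = elemDiv (f y) → x = y) {n w : ℕ} (hV : finrank F V = 2 * (n + 1))
    (hw : ∑ k ∈ range (finrank F V), (k + 1) * r k = 2 * w) :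
    (Nat.card X : ℝ) ≤ 3.463 * (1 / 2) ^ w * Nat.card F ^ (n + 1) := by
  classical
  obtain ⟨p, _⟩ := CharP.exists F
  have hp := Fact.mk (CharP.char_is_prime F p)
  have := Fintype.ofFinite F
  obtain ⟨j, -, hj⟩ := FiniteField.card F p
  rw [Fintype.card_eq_nat_card] at hj
  have hq : 1 < p ^ (j : ℕ) := hj ▸ Finite.one_lt_card
  rcases isEmpty_or_nonempty X with hX | ⟨⟨x₀⟩⟩
  · rw [Nat.card_of_isEmpty, Nat.cast_zero]; positivity
  choose u hu using fun x => exists_hasJ (f := f x) (by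
    obtain ⟨g, e⟩ := (hf x).exists_isom hn
    exact e ▸ (End.isUnit_iff _).2 g.1.bijective)
  choose ρ hr hr' using fun m => exists_rank (card_bil' (K := AlgebraicClosure F) hq False m)
  have h4 : ∀ x k, (u x (k + 1)).count 1 = ct (f x) (k + 1) :=
    fun x k => by convert (hu x).count _ 1 k.succ_pos; rw [mp_one, ct]
  obtain ⟨E, h5, h6⟩ : ∃ E : X → ℕ → Multiset (Kb F), (∀ x k, u x (k + 1) = E x k + .replicate (r k) 1) ∧ ∀ x k,
      ((E x k).map (· ^ p ^ (j : ℕ)) = E x k ∧ (E x k).map (·⁻¹) = E x k ∧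
        (E x k).card = 2 * ((E x k).card / 2) ∧ (E x k).prod = 1) ∧ (False → 1 ∉ E x k) := by
    have h5 : ∀ x k, Multiset.replicate (r k) (1 : Kb F) ≤ u x (k + 1) := fun x k =>
      Multiset.le_count_iff_replicate_le.1 (by obtain ⟨s, h⟩ := h1 x k; rw [h4]; omega)
    choose E hE using fun x k => Multiset.le_iff_exists_add.1 (h5 x k)
    refine ⟨E, fun x k => (hE x k).trans (add_comm _ _), fun x k => ?_⟩
    obtain ⟨⟨s, h⟩, h4⟩ := And.intro (h1 x k) (h4 x k)
    have h7 := (hu x).frob hj (k + 1)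
    have h8 := (hu x).dual (p := p) (j := 0) hn (by simp) (by simpa using du_neg) (hf x) (k + 1)
    rw [hE] at h4 h7 h8
    simp at h4 h7 h8
    obtain ⟨h9, h10⟩ := inv_even _ h8 fun ξ e => by
      obtain rfl : ξ = 1 := Units.ext (by
        have e1 : (ξ : AlgebraicClosure F) * ξ = 1 := by rw [← Units.val_mul, inv_eq_iff_mul_eq_one.1 e]; rfl
        have e2 : (2 : AlgebraicClosure F) = 0 := by rw [← map_ofNat (algebraMap F _) 2, h2, map_zero]
        have : ((ξ : AlgebraicClosure F) - 1) ^ 2 = 0 := by linear_combination e1 + (1 - ξ) * e2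
        exact sub_eq_zero.1 (eq_zero_of_pow_eq_zero this))
      exact ⟨s, by omega⟩
    exact ⟨⟨h7, h8, (Nat.two_mul_div_two_of_even h9).symm, h10⟩, False.elim⟩
  have h7 : ∀ x, (u x).support ⊆ Finset.range (finrank F V + 1) := fun x i hi => Finset.mem_range.2
    (Nat.lt_succ_of_le ((Nat.le_mul_of_pos_right _ (Multiset.card_pos.2 (Finsupp.mem_support_iff.1 hi))).trans
      ((Finset.single_le_sum (f := fun i => i * (u x i).card) (fun _ _ => Nat.zero_le _) hi).trans_eq (hu x).dim)))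
  have h8 : ∀ x, ∑ k : Fin (finrank F V), 2 * (k + 1) * ((E x k).card / 2) + 2 * w = 2 * (n + 1) := fun x => by
    have := (hu x).dim
    rw [Finsupp.sum_of_support_subset _ (h7 x) _ (fun _ _ => rfl), Finset.sum_range_succ', zero_mul, add_zero,
      Finset.sum_range] at this
    rw [← hw, Finset.sum_range, ← Finset.sum_add_distrib, ← hV]
    refine (Finset.sum_congr rfl fun k _ => ?_).trans this
    rw [h5, Multiset.card_add, (h6 x k).1.2.2.1]
    simp
    ring
  obtain ⟨m, hm⟩ : ∃ m, n + 1 = m + w := ⟨n + 1 - w, by have := h8 x₀; omega⟩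
  have h9 := card_le_coeff (n := 2 * m) (ι := Fin (finrank F V)) (fun _ => p ^ (j : ℕ)) (fun _ => p ^ (j : ℕ))
    (fun k => 2 * (k + 1)) (by simp) (fun x k => ((E x k).card / 2, ρ ((E x k).card / 2) (E x k)))
    (fun x y e => ?_) (fun x k => by simpa using hr _ _ (h6 x k)) fun x => by have := h8 x; simp only; omega
  · have h10 : (2 : ℝ) ≤ (p ^ (j : ℕ) : ℕ) := by exact_mod_cast hq
    have h11 := dm_two h10 (2 * n + 1) (2 * m)
    rw [← Finset.prod_range fun k => Wf (p ^ (j : ℕ) : ℕ) (p ^ (j : ℕ) : ℕ) (2 * (k + 1)), hV] at h9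
    rw [pow_mul, Real.sq_sqrt (by positivity), inv_pow, ← div_eq_mul_inv, div_le_iff₀ (by positivity)] at h11
    refine (h9.trans h11).trans ?_
    rw [hj, hm, pow_add, mul_assoc, mul_left_comm ((1 / 2 : ℝ) ^ w), ← mul_pow]
    exact mul_le_mul_of_nonneg_left (le_mul_of_one_le_right (by positivity) (one_le_pow₀ (by linarith)))
      (by norm_num)
  have h8 : ∀ x k, finrank F V ≤ k → u x (k + 1) = 0 := fun x k hk =>
    Finsupp.notMem_support_iff.1 fun h => by simpa [hk.not_gt] using h7 x h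
  refine hi x y ((hu x).elemDiv_eq ((Finsupp.ext fun i => ?_ : u x = u y) ▸ hu y))
  rcases i with _ | k
  · rw [(hu x).zero, (hu y).zero]
  by_cases hk : k < finrank F V
  · obtain ⟨e1, e2⟩ := Prod.ext_iff.1 (congrFun e ⟨k, hk⟩)
    simp only at e1 e2
    rw [h5, h5, hr' _ _ _ (h6 x k) (e1 ▸ h6 y k) (e1 ▸ e2)]
  · rw [h8 x k (by omega), h8 y k (by omega)]

open _root_.Classical in
theorem card_codes (h2 : (2 : F) = 0) (hn : Φ.Nondeg) {X : Type*} [Finite X] (f : X → End F V)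
    (hf : ∀ x, Iso Φ (f x)) {n : ℕ} (hV : finrank F V = 2 * (n + 1)) (c : X → Fin (n + 1) → Lc)
    {P : (Fin (n + 1) → Lc) → Prop} (hP : ∀ x, P (c x))
    (h0 : ∀ x k, 2 * (n + 1) ≤ k → Even (ct (f x) (k + 1)))
    (h1 : ∀ x (i : Fin (n + 1)), (∃ s, ct (f x) (2 * i + 1 + 1) = (c x i).1 + 2 * s) ∧
      ∃ s, ct (f x) (2 * i + 1) = (if (c x i).1 = 0 ∧ (c x i).2 = true then 2 else 0) + 2 * s)
    (hi : ∀ x y, elemDiv (f x) = elemDiv (f y) → c x = c y → x = y) :
    (Nat.card X : ℝ) ≤ 3.463 * (∑ y, if P y then (1 / 2) ^ wc 0 y else 0) * Nat.card F ^ (n + 1) := by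
  have := Fintype.ofFinite X
  rw [← Nat.card_congr (Equiv.sigmaFiberEquiv c), Nat.card_sigma, Nat.cast_sum, mul_sum, sum_mul]
  refine sum_le_sum fun y _ => ?_
  split_ifs with h; swap
  · have : IsEmpty {x // c x = y} := ⟨fun x => h (x.2 ▸ hP x)⟩
    simp
  refine card_fib h2 hn (fun x : {x // c x = y} => f x) (fun x => hf x) (fun k => if e : k / 2 < n + 1 then
    (if k % 2 = 1 then (y ⟨_, e⟩).1 else if (y ⟨_, e⟩).1 = 0 ∧ (y ⟨_, e⟩).2 = true then 2 else 0) else 0)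
    (fun x k => ?_) (fun x x' e => Subtype.ext (hi _ _ e (x.2.trans x'.2.symm))) hV ?_
  · split_ifs with e e'
    · simpa [x.2, show 2 * (k / 2) + 1 = k by omega] using (h1 x ⟨_, e⟩).1
    · simpa [x.2, show 2 * (k / 2) = k by omega, *] using (h1 x ⟨_, e⟩).2
    · simpa [x.2, show 2 * (k / 2) = k by omega, *] using (h1 x ⟨_, e⟩).2
    · exact (h0 x k (by omega)).two_dvd.imp fun s hs => by simpa using hs
  · have : ∀ (g : ℕ → ℕ) m, ∑ k ∈ range (2 * m), g k = ∑ k ∈ range m, (g (2 * k) + g (2 * k + 1)) := fun g m => by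
      induction m with
      | zero => rfl
      | succ m ih => rw [mul_add, mul_one, sum_range_succ, sum_range_succ, sum_range_succ, ih, add_assoc]
    rw [hV, this, wc, mul_sum, sum_range]
    refine sum_congr rfl fun i _ => ?_
    have e1 : (2 * i + 1) / 2 = (i : ℕ) := by omega
    have e2 : (2 * i) / 2 = (i : ℕ) := by omega
    simp [e1, e2, wl, i.2, Nat.add_mod]
    split_ifs <;> ring

end Cfsg.Agent.Classical.Cv
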