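import Cfsg.Agent.Classical.Cv4

/-! Codes of normal forms, types of blocks, and the upper bounds for the class numbers of symplectic
(`card_sp`) and orthogonal groups (`card_o`) in characteristic two. -/

set_option autoImplicit false

namespace Cfsg.Agent.Classical.Cv

/-- valid keys -/
def Vd (b : ℕ) : Prop := 0 < b / 4 ∧ (b % 4 < 2 → b / 4 % 2 = 0) ∧ (b % 4 = 2 → b / 4 % 2 = 1)

/-- number of keys of a shape -/
def sh (L : List ℕ) (s : ℕ) : ℕ := L.countP (· / 2 = s)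

/-- the twist bit of level `j` -/
def bt (L : List ℕ) (j : ℕ) : Bool := decide (8 * j + 6 ∈ L ∨ 8 * j + 8 ∈ L)

section Lists
variable {L L' : List ℕ} {a b j : ℕ}

theorem sh_eq (L : List ℕ) (s : ℕ) : sh L s = L.count (2 * s) + L.count (2 * s + 1) := by
  induction L with
  | nil => rfl
  | cons a L ih =>
    simp only [sh, List.countP_cons, List.count_cons, decide_eq_true_eq, beq_iff_eq] at ih ⊢
    split_ifs <;> omega

theorem sh_pos {s : ℕ} : 0 < sh L s ↔ ∃ b ∈ L, b / 2 = s := by simp [sh]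

theorem Nm.rk (h : Nm L) (ha : a ∈ L) (hb : b ∈ L) (e : b < a) : Rk a b := by
  have : Std.Symm fun a b => Rk a b ∨ Rk b a := ⟨fun _ _ => Or.symm⟩
  have h1 : L.Pairwise fun a b => Rk a b ∨ Rk b a := h.1.imp fun h => Or.inl h
  exact (h1.forall ha hb e.ne').resolve_right fun h => e.not_ge h.1

theorem Nm.cnt (h : Nm L) (e : ¬ Rk a a) : L.count a ≤ 1 := by_contra fun h' =>
  e (by simpa using h.1.sublist (List.duplicate_iff_sublist.1 (List.duplicate_iff_two_le_count.2 (by omega))))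

theorem Nm.cnt_bt (h : Nm L) (j : ℕ) :
    L.count (8 * j + 6) = (if bt L j = true ∧ 0 < sh L (4 * j + 3) then 1 else 0) ∧
    L.count (8 * j + 8) = if bt L j = true ∧ ¬ 0 < sh L (4 * j + 3) then 1 else 0 := by
  have h1 := h.cnt (a := 8 * j + 6) fun h => h.2 (by omega) (by rw [Lk]; omega)
  have h2 := h.cnt (a := 8 * j + 8) fun h => h.2 (by omega) (by rw [Lk]; omega)
  have h3 : 8 * j + 8 ∈ L → ¬ 0 < sh L (4 * j + 3) := fun h3 h4 => by
    obtain ⟨b, hb, e⟩ := sh_pos.1 h4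
    exact (h.rk h3 hb (by omega)).2 (by omega) (by rw [Lk]; omega)
  have h4 : 8 * j + 6 ∈ L → 0 < sh L (4 * j + 3) := fun h4 => sh_pos.2 ⟨_, h4, by omega⟩
  simp only [bt, decide_eq_true_eq, ← List.count_pos_iff] at h3 h4 ⊢
  constructor <;> split_ifs <;> omega

theorem Nm.chain (h : Nm L) (e : bt L (j + 1) = true) : sh L (4 * j + 4) = 0 := by_contra fun h' => by
  obtain ⟨b, hb, e'⟩ := sh_pos.1 (Nat.pos_of_ne_zero h')
  rcases of_decide_eq_true e with e | e <;> exact (h.rk e hb (by omega)).2 (by omega) (by rw [Lk]; omega)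

theorem bt_pos (e : bt L j = true) (h : sh L (4 * j + 4) = 0) : 0 < sh L (4 * j + 3) := by
  rcases of_decide_eq_true e with e | e
  · exact sh_pos.2 ⟨_, e, by omega⟩
  · exact absurd (sh_pos.2 ⟨_, e, by omega⟩) h.not_gt

theorem cnt_even (h : Nm L) (h' : Nm L') (hv : ∀ b ∈ L, Vd b) (hv' : ∀ b ∈ L', Vd b) (hs : sh L = sh L')
    (e : b % 2 = 0) (H : bt L ((b - 6) / 8) = bt L' ((b - 6) / 8)) : L.count b = L'.count b := by
  by_cases h1 : Vd b
  · rw [Vd] at h1
    obtain h2 | h2 : b = 8 * ((b - 6) / 8) + 6 ∨ b = 8 * ((b - 6) / 8) + 8 := by omega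
    · rw [h2, (h.cnt_bt _).1, (h'.cnt_bt _).1, hs, H]
    · rw [h2, (h.cnt_bt _).2, (h'.cnt_bt _).2, hs, H]
  · rw [List.count_eq_zero.2 fun h => h1 (hv b h), List.count_eq_zero.2 fun h => h1 (hv' b h)]

theorem Nm.eq (h : Nm L) (h' : Nm L') (hv : ∀ b ∈ L, Vd b) (hv' : ∀ b ∈ L', Vd b) (hs : sh L = sh L')
    (H : bt L = bt L') : L = L' := by
  refine List.Perm.eq_of_pairwise (fun a b _ _ h h' => h'.1.antisymm h.1) h.1 h'.1
    (List.perm_iff_count.2 fun b => ?_)
  have h1 := fun b e => cnt_even (b := b) h h' hv hv' hs e (congrFun H _)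
  obtain ⟨s, rfl | rfl⟩ := b.even_or_odd'
  · exact h1 _ (by omega)
  · have h2 := congrFun hs s
    have := h1 (2 * s) (by omega)
    rw [sh_eq, sh_eq] at h2
    omega

theorem Nm.map_eq (h : Nm L) (h' : Nm L') (hs : sh L = sh L') : L.map (· / 2) = L'.map (· / 2) := by
  have h1 : ∀ {L}, Nm L → (L.map (· / 2)).Pairwise (· ≥ ·) := fun h =>
    List.pairwise_map.2 (h.1.imp fun h => Nat.div_le_div_right h.1)
  refine List.Perm.eq_of_pairwise (fun a b _ _ h h' => h'.antisymm h) (h1 h) (h1 h')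
    (List.perm_iff_count.2 fun s => ?_)
  have : ∀ L : List ℕ, (L.map (· / 2)).count s = sh L s := fun L => by
    rw [List.count_eq_countP, List.countP_map]; exact List.countP_congr fun _ _ => by simp
  rw [this, this, hs]

theorem Nm.bt_eq (h : Nm L) (h' : Nm L') (hv : ∀ b ∈ L, Vd b) (hv' : ∀ b ∈ L', Vd b) (hs : sh L = sh L')
    (H : ∀ i ≠ j, bt L i = bt L' i) (hp : L.countP (· % 2 = 0) % 2 = L'.countP (· % 2 = 0) % 2) :
    bt L = bt L' := by
  have h1 : ∀ L : List ℕ, L.countP (· % 2 = 0) = (L.filter fun b => b % 2 = 0 ∧ b ≠ 8 * j + 6 ∧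
      b ≠ 8 * j + 8).length + (L.count (8 * j + 6) + L.count (8 * j + 8)) := fun L => by
    rw [← List.countP_eq_length_filter]
    induction L with
    | nil => rfl
    | cons a L ih =>
      simp only [List.countP_cons, List.count_cons, decide_eq_true_eq, beq_iff_eq] at ih ⊢
      split_ifs <;> omega
  have h2 : (L.filter fun b => b % 2 = 0 ∧ b ≠ 8 * j + 6 ∧ b ≠ 8 * j + 8).Perm
      (L'.filter fun b => b % 2 = 0 ∧ b ≠ 8 * j + 6 ∧ b ≠ 8 * j + 8) := List.perm_iff_count.2 fun b => by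
    by_cases e : b % 2 = 0 ∧ b ≠ 8 * j + 6 ∧ b ≠ 8 * j + 8
    · rw [List.count_filter (by simpa using e), List.count_filter (by simpa using e)]
      by_cases h1 : Vd b
      · exact cnt_even h h' hv hv' hs e.1 (H _ (by rw [Vd] at h1; omega))
      · rw [List.count_eq_zero.2 fun h => h1 (hv b h), List.count_eq_zero.2 fun h => h1 (hv' b h)]
    · rw [List.count_eq_zero.2 fun h => e (by simpa using (List.mem_filter.1 h).2),
        List.count_eq_zero.2 fun h => e (by simpa using (List.mem_filter.1 h).2)]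
  funext i
  by_cases e : i = j; swap
  · exact H i e
  subst e
  rw [h1, h1, h2.length_eq, (h.cnt_bt _).1, (h'.cnt_bt _).1, (h.cnt_bt _).2, (h'.cnt_bt _).2,
    hs] at hp
  by_cases e : 0 < sh L' (4 * i + 3) <;> cases e1 : bt L i <;> cases e2 : bt L' i <;> simp [e, e1, e2] at hp ⊢ <;>
    omega

theorem ok_of (c : ℕ → Lc) (h : ∀ i, (c (i + 1)).2 = true → (c i).1 = 0) (N : ℕ) :
    ∀ j σ, ((c j).2 = true → σ = false) → ok N σ fun i => c (j + i) := by
  induction N with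
  | zero => exact fun _ _ _ => trivial
  | succ N ih =>
    refine fun j σ H => ⟨H, ?_⟩
    rw [show (Fin.tail fun i : Fin (N + 1) => c (j + i)) = fun i : Fin N => c (j + 1 + i) from
      funext fun i => by simp [Fin.tail, add_assoc, add_comm 1]]
    exact ih (j + 1) _ fun e => decide_eq_false (not_not.2 (h j e))

end Lists

open Module Cfsg.Agent.Elu Cfsg.Agent.Geom Cfsg.Agent.Geom.Formed Cfsg.Agent.Classical.Uc

universe u
variable {F : Type u} [Field F] {V W : Type u} [AddCommGroup V] [Module F V] [AddCommGroup W] [Module F W]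
  {Φ : Formed (RingHom.id F) V} {Ψ : Formed (RingHom.id F) W} {f : End F V} {g : End F W} {δ : F} {b : ℕ}

theorem Gen.down {U : Submodule F V} (hU : Inv f U) {u v : U} (H : Gen δ Φ f b u v) :
    Gen δ (Φ.restrict U) hU.res b u v :=
  ⟨H.pos, Subtype.ext (by rw [res_sub_pow]; exact H.tu), Subtype.ext (by rw [res_sub_pow]; exact H.tv),
    fun e => ⟨Subtype.ext (H.v0 e).1, (H.v0 e).2⟩, H.od, fun i => (qq_res _ i u).trans (H.qu i),
    fun i => (qq_res _ i v).trans (H.qv i), fun n => (G_res _ u v 0 n).trans (H.uv n)⟩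

theorem Dec.vd {L : List ℕ} (h : Dec δ L Φ f) (b : ℕ) (hb : b ∈ L) : Vd b :=
  let ⟨_, _, H⟩ := h.gen L hb; ⟨H.pos, fun e => (H.v0 e).2, H.od⟩

variable [Finite F] [FiniteDimensional F V] [FiniteDimensional F W]

theorem exists_delta (h2 : (2 : F) = 0) : ∃ δ : F, (∀ c, c * c + c ≠ δ) ∧
    ∀ a : F, ∃ c, a + c * c + c = 0 ∨ a + c * c + c = δ := by
  let φ : F →+ F := .mk' (fun c => c * c + c) fun x y => by linear_combination x * y * h2
  have h1 : Nat.card φ.ker = 2 := by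
    rw [← Set.ncard_pair (zero_ne_one (α := F)), ← Nat.card_coe_set_eq]
    refine Nat.card_congr (Equiv.subtypeEquivRight fun c => ?_)
    rw [AddMonoidHom.mem_ker, show φ c = c * (c - 1) by simp only [φ, AddMonoidHom.mk'_apply]; linear_combination c * h2]
    simp [sub_eq_zero]
  have h3 : φ.range.index = 2 := by
    have h4 := φ.range.index_mul_card
    have h5 := φ.ker.index_mul_card
    rw [AddSubgroup.index_ker, h1, ← h4, mul_comm] at h5
    exact (Nat.eq_of_mul_eq_mul_right Nat.card_pos h5).symm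
  obtain ⟨δ, hδ, h4⟩ := AddSubgroup.index_eq_two_iff_exists_notMem_and.1 h3
  refine ⟨δ, fun c e => hδ ⟨c, e⟩, fun a => ?_⟩
  rcases h4 a with ⟨c, hc⟩ | ⟨c, hc⟩ <;> simp only [φ, AddMonoidHom.mk'_apply] at hc
  · exact ⟨c, .inr (by linear_combination hc + a * h2)⟩
  · exact ⟨c, .inl (by linear_combination hc + a * h2)⟩

theorem ty_blk (hΦ : Orth Φ) (h : Ok Φ f) (hn : Φ.Nondeg) {m r : ℕ} (hm : (f - 1) ^ m = 0) (hr : m + 1 ≤ 2 * r)
    (hd : finrank F V + 2 = 2 * finrank F (LinearMap.ker ((f - 1) ^ r))) {e₁ e₂ : V}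
    (h1 : ∀ w, Φ.B e₁ (((f - 1) ^ r) w) = 0) (h2 : ∀ w, Φ.B e₂ (((f - 1) ^ r) w) = 0) (hB : Φ.B e₁ e₂ = 1) :
    (Φ.Q e₁ = 0 → Ty Φ 0) ∧ ((∀ a c : F, a * a * Φ.Q e₁ + c * c * Φ.Q e₂ + a * c = 0 → a = 0 ∧ c = 0) → Ty Φ 1) := by
  have h3 : ∀ a c : F, Φ.B e₁ (a • e₁ + c • e₂) = 0 → Φ.B e₂ (a • e₁ + c • e₂) = 0 → a = 0 ∧ c = 0 :=
    fun a c h5 h6 => by simpa [h.alt, h.symm e₁ e₂, hB, and_comm] using And.intro h5 h6
  have h4 : Nd Φ (Submodule.span F {e₁, e₂}) := nd_iff.2 fun t ht H => by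
    obtain ⟨a, c, rfl⟩ := Submodule.mem_span_pair.1 ht
    obtain ⟨rfl, rfl⟩ := h3 a c (h.symm _ _ ▸ H e₁ (Submodule.subset_span (by simp)))
      (h.symm _ _ ▸ H e₂ (Submodule.subset_span (by simp)))
    simp
  have h5 : finrank F (Submodule.span F {e₁, e₂}) = 2 := by
    rw [show ({e₁, e₂} : Set V) = Set.range ![e₁, e₂] by simp [Set.pair_comm], finrank_span_eq_card
      (LinearIndependent.pair_iff.2 fun a c h0 => h3 a c (by simp [h0]) (by simp [h0]))]; rfl
  set P := Submodule.span F {e₁, e₂}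
  have h6 : LinearMap.range ((f - 1) ^ r) ≤ Φ.perp P := by
    rintro _ ⟨w, rfl⟩
    exact Φ.mem_perp_span.2 (by rintro _ (rfl | rfl); exacts [h1 w, h2 w])
  have h7 : Ty (Φ.restrict (Φ.perp P)) 0 := (ty_zero_iff (hn.restrict_perp h4)).2
    ⟨(LinearMap.range ((f - 1) ^ r)).comap (Φ.perp P).subtype, (hΦ.res _).ts.2 (by
      rintro x ⟨w, hw⟩
      obtain ⟨r, rfl⟩ : ∃ s, r = s + 1 := ⟨r - 1, by omega⟩
      refine (congrArg Φ.Q hw.symm).trans ((h.qq_t 0 r w).trans ?_)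
      rw [h.qq_big (m := m) (by rw [hm]; rfl) (by omega), mul_zero]), by
      have := hn.finrank_add_finrank_perp P
      have := LinearMap.finrank_range_add_finrank_ker ((f - 1) ^ r)
      rw [(Submodule.comapSubtypeEquivOfLe h6).finrank_eq]
      omega⟩
  have h8 : e₁ ≠ 0 := by rintro rfl; simp at hB
  refine ⟨fun e => hΦ.ty_sum hn h4 ((ty_zero_iff h4).2 ⟨F ∙ ⟨e₁, Submodule.subset_span (by simp)⟩,
    (hΦ.res _).ts.2 fun x hx => ?_, by rw [finrank_span_singleton (by simpa using h8), h5]⟩) h7,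
    fun H => hΦ.ty_sum hn h4 (((hΦ.res _).ty_one_iff h4 (by rw [h5]; decide)).2 fun e => ?_) h7⟩
  · obtain ⟨a, rfl⟩ := Submodule.mem_span_singleton.1 hx
    exact (Φ.Q_smul a e₁).trans (by rw [e, mul_zero])
  · obtain ⟨U, a1, a2⟩ := (ty_zero_iff h4).1 e
    obtain ⟨⟨x, hx⟩, a3, a4⟩ := Submodule.exists_mem_ne_zero_of_ne_bot (p := U) (by rintro rfl; simp [h5] at a2)
    obtain ⟨a, c, rfl⟩ := Submodule.mem_span_pair.1 hx
    have a5 : Φ.Q (a • e₁ + c • e₂) = 0 := (hΦ.res _).ts.1 a1 _ a3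
    rw [Q_add, Q_smul, Q_smul, hΦ.2] at a5
    obtain ⟨rfl, rfl⟩ := H a c (by simpa [hB, mul_comm c a] using a5)
    simp at a4

theorem Gen.ty {u v : V} (H : Gen δ Φ f b u v) (hδ : ∀ c, c * c + c ≠ δ) (hΦ : Orth Φ) (h : Ok Φ f)
    (hn : Φ.Nondeg) (hb : b % 4 < 2 ∨ b / 4 % 2 = 1) : Ty (Φ.restrict (sp f u v)) (1 - b % 2) := by
  obtain ⟨a1, a2⟩ := H.blk h hn
  have hU := inv_sp f u v
  have H' := Gen.down hU (u := ⟨u, by simpa using (mem_sp u v 0).1⟩) (v := ⟨v, by simpa using (mem_sp u v 0).2⟩) H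
  have h' := h.res hU
  have hΦ' := hΦ.res (sp f u v)
  have a3 := a2.sum
  have a4 := a2.kd
  have hm := unip_pow a2 fun a ha => (Multiset.eq_of_mem_replicate ha).le
  generalize (⟨u, _⟩ : sp f u v) = x at H'
  generalize (⟨v, _⟩ : sp f u v) = y at H'
  have t0 : ∀ w, ((hU.res - 1) ^ (b / 4)) w = 0 := fun w => by rw [hm]; rfl
  have qt : ∀ j w, (Φ.restrict (sp f u v)).Q (((hU.res - 1) ^ j) w) = qq (Φ.restrict (sp f u v)) hU.res j w :=
    fun j w => by
      cases j with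
      | zero => rfl
      | succ j => exact (h'.qq_t 0 j w).trans (by rw [cf, hΦ'.2, one_mul, zero_add])
  have an : ∀ a c : F, a * a * δ + c * c + a * c = 0 → a = 0 ∧ c = 0 := fun a c e => by
    by_cases a0 : a = 0
    · simpa [a0] using e
    · exact absurd (by field_simp; linear_combination e - a * a * δ * h.two) (hδ (c / a))
  simp only [Multiset.map_replicate, Multiset.sum_replicate, smul_eq_mul] at a3 a4
  have pos := H.pos
  by_cases e : b % 4 < 2
  · obtain ⟨i, hi⟩ : ∃ i, b / 4 = 2 * i + 2 := ⟨b / 8 - 1, by have := (H.v0 e).2; omega⟩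
    obtain ⟨h1, h2⟩ := ty_blk hΦ' h' a1 hm (r := i + 2) (by omega) (by rw [a4, ← a3, if_pos e]; omega)
      (e₁ := ((hU.res - 1) ^ i) x) (e₂ := ((hU.res - 1) ^ (i + 1)) x)
      (fun w => h'.G_zero (t0 w) (by omega) x) (fun w => h'.G_zero (t0 w) (by omega) x)
      ((h'.G_symm x x i (i + 1)).trans ((H'.qu (i + 1)).trans (by rw [da, if_pos e, if_pos (by omega)])))
    rw [qt, H'.qu, da, if_pos e, if_neg (by omega)] at h1 h2
    obtain e' | e' := Nat.mod_two_eq_zero_or_one b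
    · rw [qt, H'.qu, da, if_pos e, if_pos (by omega), if_pos (by omega)] at h2
      exact e' ▸ h2 fun a c e => an a c (by simpa using e)
    · rw [e']; exact h1 (if_neg (by omega))
  · obtain ⟨i, hi⟩ : ∃ i, b / 4 = 2 * i + 1 := ⟨b / 8, by omega⟩
    obtain ⟨h1, h2⟩ := ty_blk hΦ' h' a1 hm (r := i + 1) (by omega) (by rw [a4, ← a3, if_neg e]; omega)
      (e₁ := ((hU.res - 1) ^ i) y) (e₂ := ((hU.res - 1) ^ i) x)
      (fun w => h'.G_zero (t0 w) (by omega) y) (fun w => h'.G_zero (t0 w) (by omega) x)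
      ((h'.G_symm y x i i).trans ((h'.G_top (hi ▸ H'.tv) x i i (two_mul i).symm).trans
        ((H'.uv _).trans (if_pos (by omega)))))
    rw [qt, H'.qv, db] at h1 h2
    obtain e' | e' := Nat.mod_two_eq_zero_or_one b
    · rw [qt, H'.qu, da, if_neg e, if_pos (by omega), if_pos (by omega)] at h2
      exact e' ▸ h2 fun a c e => an a c (by simpa using e)
    · rw [e']; exact h1 (if_neg (by omega))

theorem Dec.ty (hδ : ∀ c, c * c + c ≠ δ) (L : List ℕ) : ∀ (L' : List ℕ) {V W : Type u} [AddCommGroup V]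
    [Module F V] [AddCommGroup W] [Module F W] [FiniteDimensional F V] [FiniteDimensional F W]
    {Φ : Formed (RingHom.id F) V} {Ψ : Formed (RingHom.id F) W} {f : End F V} {g : End F W} {a a' : ℕ},
    L.map (· / 2) = L'.map (· / 2) → Φ.Nondeg → Ψ.Nondeg → Orth Φ → Orth Ψ → Ok Φ f → Ok Ψ g → Dec δ L Φ f →
    Dec δ L' Ψ g → elemDiv f = elemDiv g → Ty Φ a → Ty Ψ a' →
      (a + L.countP (· % 2 = 0)) % 2 = (a' + L'.countP (· % 2 = 0)) % 2 := by
  induction L with
  | nil =>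
    intro L' V W _ _ _ _ _ _ Φ Ψ f g a a' e hn hn' hΦ hΨ h h' H H' hs t t'
    obtain rfl : L' = [] := by simpa using e.symm
    obtain ⟨e, -, he⟩ := Dec.conj [] hn hn' (hΨ.2.trans hΦ.2.symm) h h' H H' hs
    rw [(t.iso he).unique t']
  | cons b L ih =>
    rintro (_ | ⟨b', L'⟩) V W _ _ _ _ _ _ Φ Ψ f g a a' e hn hn' hΦ hΨ h h' ⟨u, v, H, hU', H1⟩ H' hs t t'
    · simp at e
    obtain ⟨u', v', H', hY', H2⟩ := H'
    obtain ⟨e, e'⟩ : b / 2 = b' / 2 ∧ L.map (· / 2) = L'.map (· / 2) := by simpa using e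
    obtain ⟨a1, a2⟩ := H.blk h hn
    obtain ⟨b1, b2⟩ := H'.blk h' hn'
    obtain ⟨c, c', c1, c2, c3⟩ : ∃ c c', Ty (Φ.restrict (sp f u v)) c ∧ Ty (Ψ.restrict (sp g u' v')) c' ∧
        (c + b) % 2 = (c' + b') % 2 := by
      by_cases e1 : b = b'
      · subst e1
        obtain ⟨c, -, hc⟩ := (hΦ.res _).exists_ty a1 (by
          rw [← a2.sum, Multiset.sum_replicate, smul_eq_mul, Nat.even_iff]
          split_ifs with e
          · have := (H.v0 e).2; omega
          · omega)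
        obtain ⟨e, -, he⟩ := H.iso H' h h' hn hn' (hΨ.2.trans hΦ.2.symm)
        exact ⟨c, c, hc, hc.iso he, rfl⟩
      · have := H.od
        have := H'.od
        exact ⟨_, _, H.ty hδ hΦ h hn (by omega), H'.ty hδ hΨ h' hn' (by omega), by omega⟩
    have := ih L' e' (hn.restrict_perp a1) (hn'.restrict_perp b1) (hΦ.res _) (hΨ.res _) (h.res hU') (h'.res hY')
      H1 H2 (add_left_cancel (a := elemDiv (inv_sp f u v).res) (by
        rw [← elemDiv_of_isCompl (hn.isCompl_perp a1), hs,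
          elemDiv_of_isCompl (hn'.isCompl_perp b1) (inv_sp g u' v') hY', a2, b2, show b / 4 = b' / 4 by omega,
          if_congr (show b % 4 < 2 ↔ b' % 4 < 2 by omega) rfl rfl]))
      (hΦ.ty_perp hn a1 c1 t) (hΨ.ty_perp hn' b1 c2 t')
    simp only [List.countP_cons, decide_eq_true_eq]
    split_ifs <;> omega

/-- level codes of a normal form -/
def cd (L : List ℕ) (β : ℕ → Bool) (j : ℕ) : Lc := (Fin.ofNat 3 (sh L (4 * j + 4)), β j)

theorem cd_val {L : List ℕ} (h : Nm L) (β : ℕ → Bool) (j : ℕ) : ((cd L β j).1 : ℕ) = sh L (4 * j + 4) :=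
  Nat.mod_eq_of_lt (Nat.lt_succ_of_le (show 2 * (2 * j + 2) = 4 * j + 4 by omega ▸ h.2 (2 * j + 2)))

theorem cd_zero {L : List ℕ} (h : Nm L) (β : ℕ → Bool) (j : ℕ) : (cd L β j).1 = 0 ↔ sh L (4 * j + 4) = 0 := by
  rw [← cd_val h β, Fin.val_eq_zero_iff]

open _root_.Classical in
theorem card_nf (hn : Φ.Nondeg) (h0 : Ok Φ 1) {n : ℕ} (hV : finrank F V = 2 * (n + 1))
    (hδ : ∀ a : F, ∃ c, a + c * c + c = 0 ∨ a + c * c + c = δ) (β : List ℕ → ℕ → Bool)
    (hβ : ∀ L j, β L j = true → bt L j = true) {P : (Fin (n + 1) → Lc) → Prop}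
    (hP : ∀ L f, Ok Φ f → Dec δ L Φ f → Nm L → P fun i => cd L (β L) i)
    (hi : ∀ L L' f g, Ok Φ f → Ok Φ g → Dec δ L Φ f → Dec δ L' Φ g → Nm L → Nm L' → elemDiv f = elemDiv g →
      sh L = sh L' → (∀ j, bt L j = bt L' j ∨ β L j = β L' j) → bt L = bt L') :
    (Nat.card (ConjClasses Φ.isom) : ℝ) ≤
      3.463 * (∑ y, if P y then (1 / 2) ^ wc 0 y else 0) * Nat.card F ^ (n + 1) := by
  have := Module.finite_of_finite F (M := V)
  have : Finite (V ≃ₗ[F] V) := .of_injective _ DFunLike.coe_injective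
  have : Finite (ConjClasses Φ.isom) := Quotient.finite _
  choose r hr using ConjClasses.mk_surjective (α := Φ.isom)
  have ho : ∀ x, Ok Φ ((r x).1 : End F V) := fun x => ⟨h0.two, h0.alt, h0.tau, (r x).2⟩
  choose L h1 h2 h3 using fun x => exists_dec hδ _ rfl hn (ho x) (finrank F V) fun v hv =>
    (End.ker_pow_eq_ker_pow_finrank_of_le (Nat.le_succ _)).le hv
  have h4 := fun x k => (h1 x).ct k (L x) hn (ho x)
  have h5 : ∀ x s, (s / 2 = 0 ∨ s % 4 = 2 ∨ 2 * (n + 1) < s / 2) → sh (L x) s = 0 := fun x s hs =>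
    by_contra fun e => by
      obtain ⟨b, hb, rfl⟩ := sh_pos.1 (Nat.pos_of_ne_zero e)
      have := h2 x b hb
      have := (h1 x).vd b hb
      rw [Vd] at this; omega
  simp only [← sh.eq_1] at h4
  refine card_codes h0.two hn (fun x => ((r x).1 : End F V)) (fun x => (r x).2) hV (fun x i => cd (L x) (β (L x)) i)
    (fun x => hP _ _ (ho x) (h1 x) (h3 x)) (fun x k hk => by rw [h4, h5 x _ (by omega)]; simp)
    (fun x i => ⟨⟨sh (L x) (4 * i + 4 + 1), by rw [h4, cd_val (h3 x), show 2 * (2 * i.1 + 1 + 1) = 4 * i + 4 by omega]⟩, ?_⟩)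
    fun x y e e' => ?_
  · rw [h4, h5 x _ (by omega), show 2 * (2 * i.1 + 1) + 1 = 4 * i + 3 by omega]
    split_ifs with h
    · have := bt_pos (hβ _ _ h.2) ((cd_zero (h3 x) _ _).1 h.1)
      exact ⟨sh (L x) (4 * i + 3) - 1, by omega⟩
    · exact ⟨_, rfl⟩
  have h6 : ∀ m, sh (L x) (2 * m) = sh (L y) (2 * m) := fun m => by
    by_cases h : m / 2 - 1 < n + 1 ∧ 2 * m = 4 * (m / 2 - 1) + 4
    · rw [h.2, ← cd_val (h3 x) (β (L x)), ← cd_val (h3 y) (β (L y)), congrFun e' ⟨_, h.1⟩]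
    · rw [h5 x _ (by omega), h5 y _ (by omega)]
  have h7 : sh (L x) = sh (L y) := funext fun s => by
    obtain ⟨m, rfl | rfl⟩ := s.even_or_odd'
    · exact h6 m
    rcases m with _ | k
    · rw [h5 x _ (by omega), h5 y _ (by omega)]
    have := congrFun (ct_congr e).1 (k + 1)
    rw [h4, h4, h6] at this
    omega
  have h8 := (h3 x).eq (h3 y) (h1 x).vd (h1 y).vd h7 (hi _ _ _ _ (ho x) (ho y) (h1 x) (h1 y) (h3 x) (h3 y) e h7
    fun j => by
      by_cases h : j < n + 1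
      · exact .inr (congrArg Prod.snd (congrFun e' ⟨j, h⟩))
      · have : ∀ x, bt (L x) j = false := fun x => decide_eq_false fun h =>
          h.elim (fun h => by have := h2 x _ h; omega) fun h => by have := h2 x _ h; omega
        exact .inl (by rw [this, this]))
  obtain ⟨E, a1, a2⟩ := Dec.conj (L x) hn hn rfl (ho x) (ho y) (h1 x) (h8 ▸ h1 y) e
  rw [← hr x, ← hr y, ConjClasses.mk_eq_mk_iff_isConj]
  exact isConj_isom_iff.2 ⟨E, a2, a1⟩

theorem card_sp (hn : Φ.Nondeg) (h0 : Ok Φ 1) (hτ : Φ.τ = 0) {n : ℕ} (hV : finrank F V = 2 * (n + 1)) :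
    5 * Nat.card (ConjClasses Φ.isom) ≤ 76 * Nat.card F ^ (n + 1) := by
  obtain ⟨δ, hδ, hδ'⟩ := exists_delta h0.two
  have h := card_nf hn h0 hV hδ' bt (fun _ _ h => h) (P := ok (n + 1) true) (fun L f h H h1 => by
    simpa using ok_of (cd L (bt L)) (fun i e => (cd_zero h1 _ _).2 (h1.chain e)) (n + 1) 0 true fun e => by
      have h2 := ((h.cf_or 0).resolve_left (by simp [cf, hτ])).2.2
      rcases of_decide_eq_true e with e | e <;> obtain ⟨u, v, G⟩ := H.gen L e <;> have := G.qu 0 <;>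
        simp [h2, da] at this
      exact absurd (by simp [← this]) (hδ 0))
    fun L L' _ _ _ _ _ _ _ _ _ _ h => funext fun j => (h j).elim id id
  have h1 := mul_le_mul_of_nonneg_right (zb.2 (n + 1)).2 (show (0 : ℝ) ≤ Nat.card F ^ (n + 1) by positivity)
  rw [← Z.eq_1] at h
  rw [← Nat.cast_le (α := ℝ)]
  push_cast
  nlinarith [show (0 : ℝ) ≤ Nat.card F ^ (n + 1) by positivity]

theorem card_o (hn : Φ.Nondeg) (h0 : Ok Φ 1) (hΦ : Orth Φ) {n : ℕ} (hV : finrank F V = 2 * (n + 2)) :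
    Nat.card (ConjClasses Φ.isom) ≤ 15 * Nat.card F ^ (n + 2) := by
  obtain ⟨δ, hδ, hδ'⟩ := exists_delta h0.two
  obtain ⟨a, -, ha⟩ := hΦ.exists_ty hn (by simp [hV])
  have h := card_nf hn h0 (n := n + 1) hV hδ'
    (fun L j => if j = (if sh L 4 = 0 ∧ sh L 8 ≠ 0 then 1 else 0) then false else bt L j)
    (fun _ _ h => by split_ifs at h <;> simp_all) (P := okO) (fun L f h H h1 => ?_)
    fun L L' f g h h' H H' h1 h1' e hs h2 => ?_
  · have h1 := mul_le_mul_of_nonneg_right (sum_okO n) (show (0 : ℝ) ≤ Nat.card F ^ (n + 2) by positivity)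
    rw [← Nat.cast_le (α := ℝ)]
    push_cast
    nlinarith [show (0 : ℝ) ≤ Nat.card F ^ (n + 2) by positivity]
  · set β := fun j => if j = (if sh L 4 = 0 ∧ sh L 8 ≠ 0 then 1 else 0) then false else bt L j with hβ
    have h2 : ∀ j, β j = true → bt L j = true := fun _ h => by simp only [hβ] at h; split_ifs at h <;> simp_all
    have h3 := fun i (e : (cd L β (i + 1)).2 = true) => (cd_zero h1 β _).2 (h1.chain (h2 _ e))
    have h4 := ok_of (cd L β) h3 n 2 (decide ((cd L β 1).1 ≠ 0)) fun e => decide_eq_false (not_not.2 (h3 1 e))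
    have h5 := cd_zero h1 β 0
    have h6 := cd_zero h1 β 1
    refine ⟨fun e => ?_, fun e => ?_, ?_⟩
    · change β 0 = true at e
      change (cd L β 0).1 = 0 ∧ (cd L β 1).1 ≠ 0
      rw [Ne, h5, h6]
      by_contra h7
      simp [hβ, if_neg h7] at e
    · change β 1 = true at e
      change (cd L β 0).1 = 0 ∧ (cd L β 1).1 = 0
      refine ⟨h3 0 e, h6.2 (by_contra fun h7 => ?_)⟩
      simp [hβ, if_pos (And.intro (h5.1 (h3 0 e)) h7)] at e
    · rwa [show (Fin.tail (Fin.tail fun i : Fin (n + 2) => cd L β i)) = fun i : Fin n => cd L β (2 + i) from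
        funext fun i => by simp [Fin.tail, add_assoc, add_comm 2]]
  · refine h1.bt_eq (j := if sh L 4 = 0 ∧ sh L 8 ≠ 0 then 1 else 0) h1' H.vd H'.vd hs (fun i hi => ?_) (by
      have := Dec.ty hδ L L' (h1.map_eq h1' hs) hn hn hΦ hΦ h h' H H' e ha ha
      omega)
    exact (h2 i).elim id fun h => by simpa only [← hs, if_neg hi] using h

end Cfsg.Agent.Classical.Cv
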