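import Cfsg.Agent.Classical.Cv5

/-! The Arf invariant of a fixed point free isometry is read off its characteristic polynomial (`arf`); lower bound
for the class number of orthogonal groups in characteristic two (`card_lb`). -/

set_option autoImplicit false

namespace Cfsg.Agent.Classical.Cv

open Polynomial Matrix Sum

theorem e2_eq {ι R : Type*} [Fintype ι] [DecidableEq ι] [CommRing R] (M : Matrix ι ι R) (r : ι → ι → Prop)
    [DecidableRel r] (h1 : ∀ p q, p ≠ q ↔ r p q ∨ r q p) (h2 : ∀ p q, r p q → ¬ r q p) :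
    (det (1 + (X : R[X]) • M.map C)).coeff 2 =
      ∑ p, ∑ q, if r p q then M p p * M q q - M p q * M q p else 0 := by
  rw [coeff_det_one_add_X_smul_eq_sum_minors, ← Finset.sum_product', ← Finset.sum_filter]
  refine (Finset.sum_bij (fun x _ => {x.1, x.2}) ?_ ?_ ?_ ?_).symm <;>
    simp only [Finset.mem_filter, Finset.mem_powersetCard, Finset.mem_product, Finset.mem_univ, true_and,
      Finset.subset_univ, Prod.forall, Prod.exists, Prod.mk.injEq, Finset.card_eq_two]
  · exact fun a b h => ⟨a, b, (h1 a b).2 (.inl h), rfl⟩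
  · intro a b h c d h' e
    rcases Set.pair_eq_pair_iff.1 (by simpa using congrArg (fun s : Finset ι => (s : Set ι)) e) with e | ⟨rfl, rfl⟩
    · exact e
    · exact absurd h' (h2 _ _ h)
  · rintro _ ⟨a, b, h, rfl⟩
    exact ((h1 a b).1 h).elim (fun h => ⟨a, b, h, rfl⟩) fun h => ⟨b, a, h, Finset.pair_comm _ _⟩
  · intro a b h
    have h3 := (h1 a b).2 (.inl h)
    rw [← det_submatrix_equiv_self (Equiv.ofBijective (![⟨a, by simp⟩, ⟨b, by simp⟩] : Fin 2 → ({a, b} : Finset ι))
      ⟨fun i j => by fin_cases i <;> fin_cases j <;> simp [h3, h3.symm], fun ⟨x, hx⟩ => by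
        simpa [Fin.exists_fin_two, eq_comm] using hx⟩), det_fin_two]
    rfl

theorem sum_lt {R : Type*} [AddCommMonoid R] {n : ℕ} (φ : Fin n → Fin n → R) :
    ∑ i, ∑ j, φ i j = ∑ i, φ i i + ∑ i, ∑ j, if i < j then φ i j + φ j i else 0 := by
  have h : ∀ i j, φ i j = (if i = j then φ i j else 0) + ((if i < j then φ i j else 0) +
      if j < i then φ i j else 0) := fun i j => by
    rcases lt_trichotomy i j with h | rfl | h <;> first | simp [h, h.ne, h.ne', h.not_gt] | simp
  simp only [ite_add_zero, Finset.sum_add_distrib]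
  rw [Finset.sum_comm (f := fun i j => if i < j then φ j i else 0)]
  simp only [← Finset.sum_add_distrib]
  refine Finset.sum_congr rfl fun i _ => ?_
  rw [Finset.sum_congr rfl fun j _ => h i j, Finset.sum_add_distrib]
  simp

universe u
variable {F : Type u} [Field F]

theorem e2_symp (h2 : (2 : F) = 0) {n : ℕ} (M : Matrix (Fin n ⊕ Fin n) (Fin n ⊕ Fin n) F)
    (hB : ∀ i j, M (inl i) (inr j) = M (inl j) (inr i)) (hC : ∀ i j, M (inr i) (inl j) = M (inr j) (inl i))
    (hD : ∀ i j, M (inr i) (inr j) = M (inl j) (inl i) + if i = j then 1 else 0) :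
    ∃ t, (det (1 + (X : F[X]) • M.map C)).coeff 2 = (∑ i : Fin n, ∑ j, if i < j then 1 else 0) +
      ∑ i, M (inl i) (inr i) * M (inr i) (inl i) + t * t + t := by
  refine ⟨∑ i, M (inl i) (inl i), ?_⟩
  rw [e2_eq M (Sum.Lex (· < ·) (· < ·)) (by rintro (i | i) (j | j) <;> simp) (by
    rintro (i | i) (j | j) <;> simp +contextual [le_of_lt])]
  have h3 := sum_lt fun i (_ : Fin n) => M (inl i) (inl i)
  have h4 := sum_lt fun i j => M (inl i) (inr j) * M (inr j) (inl i)
  have h5 : (∑ i : Fin n, ∑ j, if i < j then M (inl i) (inl i) * M (inl j) (inl j) - M (inl i) (inl j) * M (inl j) (inl i)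
      else 0) + (∑ i : Fin n, ∑ j, if i < j then M (inr i) (inr i) * M (inr j) (inr j) -
        M (inr i) (inr j) * M (inr j) (inr i) else 0) + (∑ i : Fin n, ∑ j, if i < j then
          M (inl i) (inr j) * M (inr j) (inl i) + M (inl j) (inr i) * M (inr i) (inl j) else 0) =
      (∑ i : Fin n, ∑ j, if i < j then 1 else 0) +
        ∑ i : Fin n, ∑ j, if i < j then M (inl i) (inl i) + M (inl j) (inl j) else 0 := by
    simp only [← Finset.sum_add_distrib]
    refine Finset.sum_congr rfl fun i _ => Finset.sum_congr rfl fun j _ => ?_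
    split_ifs with h
    · rw [hD i i, hD j j, hD i j, hD j i, hB j i, hC j i, if_pos rfl, if_pos rfl, if_neg h.ne, if_neg h.ne']
      linear_combination (M (inl i) (inl i) * M (inl j) (inl j) - M (inl i) (inl j) * M (inl j) (inl i) +
        M (inl i) (inr j) * M (inr i) (inl j)) * h2
    · simp
  have h6 : ∑ i : Fin n, ∑ j, (M (inl i) (inl i) * M (inr j) (inr j) - M (inl i) (inr j) * M (inr j) (inl i)) =
      (∑ i, M (inl i) (inl i)) * (∑ i, M (inl i) (inl i)) + (∑ i, ∑ _ : Fin n, M (inl i) (inl i)) -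
        ∑ i, ∑ j, M (inl i) (inr j) * M (inr j) (inl i) := by
    simp only [Finset.sum_mul_sum, ← Finset.sum_add_distrib, ← Finset.sum_sub_distrib, hD, if_true, mul_add, mul_one]
  simp only [Fintype.sum_sum_type, lex_inl_inl, lex_inr_inr, Lex.sep, lex_inr_inl, if_true, if_false,
    Finset.sum_const_zero, Finset.sum_add_distrib]
  linear_combination h6 + h5 - h3 + h4 + ((∑ i, ∑ _ : Fin n, M (inl i) (inl i)) - ∑ i, M (inl i) (inl i) -
    ∑ i, ∑ j, M (inl i) (inr j) * M (inr j) (inl i)) * h2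

open Module Cfsg.Agent.Elu Cfsg.Agent.Geom Cfsg.Agent.Geom.Formed Cfsg.Agent.Classical.Uc Cfsg.Agent.Classical.Eig

variable {V : Type u} [AddCommGroup V] [Module F V] [FiniteDimensional F V] {Φ : Formed (RingHom.id F) V}

theorem arf (hn : Φ.Nondeg) (hΦ : Orth Φ) (h2 : (2 : F) = 0) {n : ℕ} (hV : finrank F V = 2 * n) :
    ∃ c : F, ∀ f, Iso Φ f → f.charpoly.eval 1 ≠ 0 →
      ∃ t, (taylor 1 f.charpoly).coeff 2 = f.charpoly.eval 1 * (c + t * t + t) := by
  obtain ⟨e, he, -⟩ := exists_isIso_sympFormed (B := Φ.B) (hA := fun x => by rw [hΦ.B_self, h2, zero_mul]) hn hV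
  refine ⟨(∑ i : Fin n, ∑ j, if i < j then 1 else 0) +
    ∑ i, Φ.Q (e.symm (Pi.single (inr i) 1)) * Φ.Q (e.symm (Pi.single (inl i) 1)), fun f h h1 => ?_⟩
  obtain ⟨N, hN⟩ := toLin'.surjective (e.conj f)
  rw [← e.charpoly_conj, ← hN, charpoly_toLin'] at h1 ⊢
  have h3 : ∀ x, e.symm (N *ᵥ x) = f (e.symm x) := fun x => by
    rw [← toLin'_apply, hN]; simp [LinearEquiv.conj_apply]
  have h4 : ∀ x y, Φ.B (e.symm x) (e.symm y) = sympForm n F x y := fun x y => by
    refine (he (e.symm x) (e.symm y)).symm.trans (by simp)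
  rw [eval_charpoly, map_one] at h1 ⊢
  have h5 := mul_nonsing_inv _ h1.isUnit
  generalize (1 - N)⁻¹ = M at h5
  have h6 : ∀ w, Φ.Q (e.symm w) = -sympForm n F w (M *ᵥ w) := fun w => by
    have h6 : e.symm (M *ᵥ w) = e.symm w + f (e.symm (M *ᵥ w)) := by
      rw [← h3, ← map_add, ← sub_eq_iff_eq_add.1 (show M *ᵥ w - N *ᵥ M *ᵥ w = w by
        rw [mulVec_mulVec, ← sub_mulVec, ← one_sub_mul, h5, one_mulVec])]
    have h7 := congrArg Φ.Q h6
    rw [Q_add, h.2, hΦ.2, one_mul] at h7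
    rw [← h4, h6, map_add, hΦ.B_self]
    linear_combination -h7 + Φ.Q (e.symm w) * h2
  have h7 : ∀ p q, sympForm n F (Pi.single p 1) (Pi.single q 1) = -sympForm n F (Pi.single p 1) (M *ᵥ Pi.single q 1)
      - sympForm n F (Pi.single q 1) (M *ᵥ Pi.single p 1) := fun p q => by
    have h7 := h6 (Pi.single p 1 + Pi.single q 1)
    rw [map_add, Q_add, h6, h6, h4, hΦ.2] at h7
    simp only [← sympB_apply, mulVec_add, map_add, LinearMap.add_apply] at h7 ⊢
    linear_combination h7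
  obtain ⟨t, ht⟩ := e2_symp h2 M (fun i j => by
      have := h7 (inr i) (inr j)
      simp [sympForm_apply, Pi.single_apply] at this
      linear_combination this - M (inl j) (inr i) * h2) (fun i j => by
      have := h7 (inl i) (inl j)
      simp [sympForm_apply, Pi.single_apply] at this
      linear_combination -this - M (inr j) (inl i) * h2) fun i j => by
      have := h7 (inr j) (inl i)
      simp [sympForm_apply, Pi.single_apply] at this
      linear_combination -this
  refine ⟨t, ?_⟩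
  rw [taylor_apply, ← charpoly_sub_scalar, map_one, charpoly, show charmatrix (N - 1) = (1 - N).map C *
    (1 + (X : F[X]) • M.map C) by
      rw [mul_add, mul_one, Matrix.mul_smul, ← Matrix.map_mul, h5, charmatrix, add_comm, sub_eq_add_neg, ← map_neg,
        neg_sub]
      simp [smul_one_eq_diagonal], det_mul, ← RingHom.mapMatrix_apply, ← RingHom.map_det, coeff_C_mul, ht]
  simp [h6, sympForm_apply, Pi.single_apply]
  exact .inl (by linear_combination (∑ i, M (inl i) (inr i) * M (inr i) (inl i)) * h2)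

variable [Finite F]

theorem real_two (hn : Φ.Nondeg) (hΦ : Orth Φ) (h2 : (2 : F) = 0) {A : Multiset (Kb F × ℕ)} (h1 : ∀ z ∈ A, z.2 = 1)
    (h3 : ∃ z ∈ A, z.1 ^ 2 = 1) (hd : finrank F V = bdim A) : Real Φ (fd A) := by
  classical
  have h4 : A.filter (·.1 ^ 2 = 1) = Multiset.replicate _ (1, 1) := Multiset.eq_replicate_card.2 fun z hz =>
    Prod.ext ((sq_eq_one_iff.1 (Multiset.mem_filter.1 hz).2).elim id fun e => e.trans (Units.ext (by
      simp [neg_eq_iff_add_eq_zero, one_add_one_eq_two, ← map_ofNat (algebraMap F (AlgebraicClosure F)) 2, h2])))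
      (h1 z (Multiset.mem_of_mem_filter hz))
  obtain ⟨z, hz, h5⟩ := h3
  have := OR.add_ne (A := A.filter (¬ ·.1 ^ 2 = 1)) (fun z hz => by simp [h1 z (Multiset.mem_of_mem_filter hz)])
    (fun z hz => (Multiset.mem_filter.1 hz).2) (h4 ▸ OR.sign (one_pow 2) _ : OR (A.filter (·.1 ^ 2 = 1))) (by
      rw [h4, bdim_replicate (one_pow 2)]
      exact Multiset.card_pos_iff_exists_mem.2 ⟨z, Multiset.mem_filter_of_mem hz h5⟩)
  rw [add_comm, Multiset.filter_add_not] at this
  exact this.2 hΦ hn hd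

theorem card_lb (hn : Φ.Nondeg) (hΦ : Orth Φ) (h0 : (2 : F) = 0) {n : ℕ} (hV : finrank F V = 2 * (n + 2)) :
    Nat.card F ^ (n + 2) ≤ 2 * Nat.card (ConjClasses Φ.isom) := by
  classical
  obtain ⟨Y, A, h1, h2, h3⟩ := exists_ss (F := F) (n + 2)
  have := Nat.finite_of_card_ne_zero (h1.trans_ne (pow_ne_zero _ Nat.card_pos.ne'))
  have h4 := card_le_of_real hn (fun y : {y // Real Φ (fd (A y))} => fd (A y))
    (fun x y e => Subtype.ext (h2 (congrArg Multiset.prod e))) fun y => y.2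
  obtain ⟨a, ha, ha'⟩ := hΦ.exists_ty hn (by simp [hV])
  have h5 : ∀ y : {y // ¬ Real Φ (fd (A y))}, (fd (A y)).prod.eval 1 ≠ 0 ∧ ∃ Q : QuadraticForm F
      (Fin (edim (A y)) ⊕ Fin (edim (A y)) → F), (ofQuad Q).Nondeg ∧ Real (ofQuad Q) (fd (A y)) ∧
        Ty (ofQuad Q) (1 - a) ∧ finrank F (Fin (edim (A y)) ⊕ Fin (edim (A y)) → F) = 2 * (n + 2) := fun y => by
    have h5 : ∀ z ∈ A y, z.1 ^ 2 ≠ 1 := fun z hz e =>
      y.2 (real_two hn hΦ h0 (h3 y).1 ⟨z, hz, e⟩ (hV.trans (h3 y).2.1.symm))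
    obtain ⟨Q, h6, h7⟩ := exists_quad (fun z hz => by simp [(h3 y).1 z hz]) h5
    have h9 : finrank F (Fin (edim (A y)) ⊕ Fin (edim (A y)) → F) = 2 * (n + 2) := by
      rw [← (h3 y).2.1, bdim_of_ne h5]; simp [two_mul]
    obtain ⟨b, hb, hb'⟩ := (orth_quad Q).exists_ty h6 (by simp [h9])
    refine ⟨eval_fd h5 (one_pow 2), Q, h6, h7, ?_, h9⟩
    rwa [show 1 - a = b from by_contra fun e => by
      obtain rfl : a = b := by omega
      obtain ⟨e, he⟩ := (orth_quad Q).iso_of_ty hΦ h6 hn (h9.trans hV.symm) hb' ha'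
      exact y.2 (h7.iso he)]
  have h6 : ∀ x y : {y // ¬ Real Φ (fd (A y))}, ∃ c t t',
      (taylor 1 (fd (A x)).prod).coeff 2 = (fd (A x)).prod.eval 1 * (c + t * t + t) ∧
      (taylor 1 (fd (A y)).prod).coeff 2 = (fd (A y)).prod.eval 1 * (c + t' * t' + t') := fun x y => by
    obtain ⟨a0, Q, a1, a2, a3, a4⟩ := h5 x
    obtain ⟨b0, Q', b1, ⟨g, b2, b5⟩, b3, b4⟩ := h5 y
    obtain ⟨e, he⟩ := (orth_quad Q).iso_of_ty (orth_quad Q') a1 b1 (a4.trans b4.symm) a3 b3
    obtain ⟨f, a2, a5⟩ := a2.iso he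
    obtain ⟨c, hc⟩ := arf b1 (orth_quad Q') h0 b4
    rw [← a5, ← charpoly_eq_prod] at a0 ⊢
    rw [← b5, ← charpoly_eq_prod] at b0 ⊢
    obtain ⟨t, ht⟩ := hc f a2 a0
    obtain ⟨t', ht'⟩ := hc g b2 b0
    exact ⟨c, t, t', ht, ht'⟩
  obtain ⟨δ, hδ, -⟩ := exists_delta h0
  have h6 := Nat.card_le_card_of_injective (fun x : {y // ¬ Real Φ (fd (A y))} × Bool =>
    ((fun i : Fin n => (fd (A x.1)).prod.coeff (i + 1)), (fd (A x.1)).prod.eval 1,
      (taylor 1 (fd (A x.1)).prod).coeff 2 + cond x.2 δ 0 * (fd (A x.1)).prod.eval 1)) fun ⟨x, s⟩ ⟨y, t⟩ e => by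
    simp only [Prod.mk.injEq] at e ⊢
    obtain ⟨e1, e2, e3⟩ := e
    obtain rfl : s = t := by
      obtain ⟨c, u, u', h7, h8⟩ := h6 x y
      rw [h7, h8, e2, mul_comm (cond _ _ _), mul_comm (cond _ _ _), ← mul_add, ← mul_add] at e3
      replace e3 := mul_left_cancel₀ (h5 y).1 e3
      cases s <;> cases t <;> simp only [cond_true, cond_false] at e3 ⊢
      · exact absurd (by linear_combination e3 + (u * u' + u' * u' + u') * h0) (hδ (u + u'))
      · exact absurd (by linear_combination -e3 + (u * u' + u * u + u) * h0) (hδ (u + u'))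
    rw [e2, add_left_inj, taylor_coeff, taylor_coeff] at e3
    refine ⟨Subtype.ext (h2 (sub_eq_zero.1 ?_)), rfl⟩
    have h7 : ∀ y k, k ≤ 2 * (n + 2) → (fd (A y)).prod.coeff (2 * (n + 2) - k) = (fd (A y)).prod.coeff k :=
      fun y k hk => by rw [← revAt_le hk, ← (h3 y).2.2.2.1, ← coeff_reverse, (h3 y).2.2.2.2]
    have h8 : ∀ k ≤ n, (fd (A x)).prod.coeff k = (fd (A y)).prod.coeff k := fun k hk => by
      rcases k with _ | k
      · rw [← (h3 x).2.2.2.2, ← (h3 y).2.2.2.2, coeff_zero_reverse, coeff_zero_reverse, (h3 x).2.2.1, (h3 y).2.2.1]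
      · exact congrFun e1 ⟨k, hk⟩
    rw [← sub_eq_zero, ← eval_sub] at e2 e3
    rw [← map_sub] at e3
    have h9 : (fd (A x)).prod - (fd (A y)).prod = monomial (n + 1) (((fd (A x)).prod - (fd (A y)).prod).coeff (n + 1))
        + monomial (n + 2) (((fd (A x)).prod - (fd (A y)).prod).coeff (n + 2)) +
        monomial (n + 3) (((fd (A x)).prod - (fd (A y)).prod).coeff (n + 1)) := by
      ext k
      simp only [coeff_add, coeff_monomial, coeff_sub]
      by_cases h9 : k ≤ 2 * (n + 2)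
      · have := h7 x k h9
        have := h7 y k h9
        have := h8 k
        have := h8 (2 * (n + 2) - k)
        grind
      · rw [coeff_eq_zero_of_natDegree_lt, coeff_eq_zero_of_natDegree_lt, if_neg, if_neg, if_neg] <;>
          (try simp [(h3 _).2.2.2.1]) <;> omega
    generalize (fd (A x)).prod - (fd (A y)).prod = d at *
    generalize d.coeff (n + 1) = a at *
    generalize d.coeff (n + 2) = b at *
    subst h9
    simp only [map_add, hasseDeriv_monomial, eval_add, eval_monomial, one_pow, mul_one,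
      show (n + 3).choose 2 = (n + 1).choose 2 + 2 * n + 3 by simp [Nat.choose_succ_succ']; omega] at e2 e3
    obtain rfl : b = 0 := by linear_combination e2 - a * h0
    push_cast at e3
    simp [show a = 0 by linear_combination e3 - ((n + 1).choose 2 + n + 1) * a * h0]
  have h7 := Nat.card_congr (Equiv.sumCompl fun y => Real Φ (fd (A y)))
  simp only [Nat.card_sum, Nat.card_prod, Nat.card_fun, Nat.card_eq_fintype_card (α := Fin _),
    Nat.card_eq_fintype_card (α := Bool), Fintype.card_fin, Fintype.card_bool] at h6 h7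
  rw [h1] at h7
  rw [← sq, ← pow_add] at h6
  omega

theorem card_O_two (hn : Φ.Nondeg) (hΦ : Orth Φ) (h0 : (2 : F) = 0) {n : ℕ} (h2 : 2 ≤ n) (hV : finrank F V = 2 * n) :
    Nat.card F ^ n ≤ 2 * Nat.card (ConjClasses Φ.isom) ∧ Nat.card (ConjClasses Φ.isom) ≤ 15 * Nat.card F ^ n := by
  obtain ⟨n, rfl⟩ := Nat.exists_eq_add_of_le' h2
  exact ⟨card_lb hn hΦ h0 hV, card_o hn ⟨h0, fun x => by rw [hΦ.B_self, h0, zero_mul], .inr hΦ.2, Iso.one⟩ hΦ hV⟩

end Cfsg.Agent.Classical.Cv
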