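import Mathlib.Algebra.Polynomial.AlgebraMap
import Mathlib.Algebra.Polynomial.Degree.Lemmas
import Mathlib.Algebra.Polynomial.BigOperators
import Mathlib.LinearAlgebra.Dimension.Constructions
import Mathlib.LinearAlgebra.FiniteDimensional.Lemmas
import Mathlib.LinearAlgebra.Basis.VectorSpace
import Mathlib.Tactic.Module
import Mathlib.Tactic.ComputeDegree
import Mathlib.Tactic.Linarith
import Mathlib.Tactic.NoncommRing
import Mathlib.Tactic.FieldSimp
import Mathlib.Tactic.LinearCombination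

/-! The limit as `t → ∞` of the conjugates `(1 + t β) W (1 - t β)` of a subspace `W` of an algebra (`lim`), and the
Baker-Campbell-Hausdorff identity for three commuting-modulo square zero elements (`bch_id`). -/

set_option autoImplicit false

namespace Cfsg.Agent.Classical.Lim

open Polynomial Submodule Module

variable {F R : Type*} [Field F] [Ring R] [Algebra F R] {β c x y : R} {W W' : Submodule F R}

/-- polynomials with coefficients in `W` -/
noncomputable def px (W : Submodule F R) : Submodule F R[X] := span F {f | ∃ i, ∃ c ∈ W, f = monomial i c}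

variable (F) in
/-- conjugation by `1 + X β` -/
noncomputable def T (β : R) : R[X] →ₗ[F] R[X] := LinearMap.mulLeftRight F (1 + monomial 1 β, 1 - monomial 1 β)

/-- the span of the leading coefficients -/
def lim (β : R) (W : Submodule F R) : Submodule F R :=
  span F {η | ∃ f ∈ px W, ∃ d, (T F β f).natDegree ≤ d ∧ η = (T F β f).coeff d}

theorem T_apply (f : R[X]) : T F β f = (1 + monomial 1 β) * f * (1 - monomial 1 β) := rfl

theorem mono_mem (h : c ∈ W) (i : ℕ) : monomial i c ∈ px W := subset_span ⟨i, c, h, rfl⟩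

theorem T_mono (i : ℕ) (c : R) : T F β (monomial i c) =
    monomial i c + monomial (i + 1) (β * c - c * β) - monomial (i + 2) (β * c * β) := by
  simp only [T_apply, mul_sub, add_mul, one_mul, mul_one, monomial_mul_monomial, map_sub, add_comm 1 i]
  abel

theorem unit_mul (h : β * β = 0) : (1 - monomial 1 β) * (1 + monomial 1 β) = 1 ∧
    (1 + monomial 1 β) * (1 - monomial 1 β) = 1 := by
  simp [mul_add, sub_mul, add_mul, mul_sub, monomial_mul_monomial, h]

theorem T_inj (h : β * β = 0) {f : R[X]} (e : T F β f = 0) : f = 0 := by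
  have := congrArg ((1 - monomial 1 β) * · * (1 + monomial 1 β)) e
  simpa [T_apply, ← mul_assoc, (unit_mul h).1, mul_assoc f] using this

theorem lim_mono (h : W ≤ W') : lim β W ≤ lim β W' :=
  span_mono fun _ ⟨f, hf, e⟩ =>
    ⟨f, (show px W ≤ px W' from span_mono fun _ ⟨i, c, hc, e⟩ => ⟨i, c, h hc, e⟩) hf, e⟩

theorem mul_span {A : Type*} [Ring A] [Algebra F A] {s t : Set A} (h : ∀ x ∈ s, ∀ y ∈ t, x * y = 0) {x y : A}
    (hx : x ∈ span F s) (hy : y ∈ span F t) : x * y = 0 := by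
  have := mul_mem_mul hx hy
  rwa [span_mul_span, span_eq_bot.2 (by rintro _ ⟨x, hx, y, hy, rfl⟩; exact h x hx y hy)] at this

theorem lim_mul (hβ : β * β = 0) (h : ∀ x ∈ W, ∀ y ∈ W', x * y = 0) (hx : x ∈ lim β W) (hy : y ∈ lim β W') :
    x * y = 0 := by
  refine mul_span ?_ hx hy
  rintro _ ⟨f, hf, d, hd, rfl⟩ _ ⟨g, hg, e, he, rfl⟩
  have : f * g = 0 := mul_span (by
    rintro _ ⟨i, c, hc, rfl⟩ _ ⟨j, c', hc', rfl⟩
    rw [monomial_mul_monomial, h c hc c' hc', map_zero]) hf hg
  rw [← coeff_mul_add_eq_of_natDegree_le hd he, T_apply, T_apply, mul_assoc, ← mul_assoc (1 - _), ← mul_assoc (1 - _),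
    (unit_mul hβ).1, one_mul, mul_assoc, ← mul_assoc f, this]
  simp

theorem lim_le (h : ∀ c ∈ W, c ∈ W' ∧ β * c - c * β ∈ W' ∧ β * c * β ∈ W') : lim β W ≤ W' := by
  rw [lim, span_le]
  rintro _ ⟨f, hf, d, -, rfl⟩
  refine (show px W ≤ W'.comap (((lcoeff R d).restrictScalars F) ∘ₗ T F β) from span_le.2 ?_) hf
  rintro _ ⟨i, c, hc, rfl⟩
  have : ∀ j, ∀ x ∈ W', (monomial j x).coeff d ∈ W' := fun j x hx => by
    rw [coeff_monomial]; split_ifs; exacts [hx, zero_mem _]
  simpa [T_mono, -map_sub] using sub_mem (add_mem (this _ _ (h c hc).1) (this _ _ (h c hc).2.1)) (this _ _ (h c hc).2.2)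

theorem le_lim (hβ : β * β = 0) (h : ∀ c ∈ W, β * c - c * β ∈ W ∧ β * c * β ∈ W) : W ≤ lim β W := fun c hc => by
  have e : T F β (monomial 0 c - monomial 1 (β * c - c * β) - monomial 2 (β * c * β)) = monomial 0 c := by
    simp only [map_sub (T F β), T_mono]
    simp [mul_sub, sub_mul, ← mul_assoc, hβ, mul_assoc _ β β]
    abel
  exact subset_span ⟨_, sub_mem (sub_mem (mono_mem hc 0) (mono_mem (h c hc).1 1)) (mono_mem (h c hc).2 2), 0,
    by rw [e]; simp, by rw [e]; simp⟩

theorem eps_mem (hc : c ∈ W) : β * c * β ∈ lim β W :=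
  neg_mem_iff.1 (subset_span ⟨_, mono_mem hc 0, 2, by rw [T_mono]; compute_degree, by
    rw [T_mono]; simp [coeff_monomial, -map_sub]⟩)

theorem gam_mem (hβ : β * β = 0) (hc : c ∈ W) (h : β * c * β ∈ W) : β * c - c * β ∈ lim β W := by
  have e : T F β (monomial 0 c + monomial 2 (β * c * β)) = monomial 0 c + monomial 1 (β * c - c * β) := by
    simp only [map_add, T_mono]
    simp [← mul_assoc, hβ, mul_assoc _ β β]
  exact subset_span ⟨_, add_mem (mono_mem hc 0) (mono_mem h 2), 1, by rw [e]; compute_degree, by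
    rw [e]; simp [-map_sub]⟩

theorem finrank_le_lim [FiniteDimensional F R] (hβ : β * β = 0) : finrank F W ≤ finrank F (lim β W) := by
  obtain ⟨q, hq⟩ := (lim β W).subtype.exists_leftInverse_of_injective (ker_subtype _)
  have h : ∀ D : ℕ, D * finrank F W ≤ (D + 2) * finrank F (lim β W) := fun D => by
    let S : (Fin D → W) →ₗ[F] R[X] := ∑ i : Fin D, (monomial i.1).restrictScalars F ∘ₗ W.subtype ∘ₗ .proj i
    have h1 : ∀ c, S c = ∑ i : Fin D, monomial i.1 (c i).1 := fun c => by simp [S]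
    have := LinearMap.finrank_le_finrank_of_injective (f := LinearMap.pi fun d : Fin (D + 2) =>
      q ∘ₗ (lcoeff R d).restrictScalars F ∘ₗ T F β ∘ₗ S) ((injective_iff_map_eq_zero _).2 fun c e => ?_)
    · simpa [finrank_pi_fintype] using this
    have h2 : (T F β (S c)).natDegree < D + 2 := by
      rw [h1, map_sum]
      refine Nat.lt_succ_of_le (natDegree_sum_le_of_forall_le _ _ fun i _ => ?_)
      have := i.2
      rw [T_mono]
      compute_degree
      omega
    have h3 := congrFun e ⟨_, h2⟩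
    have h4 := LinearMap.congr_fun hq ⟨_, subset_span ⟨S c, h1 c ▸ sum_mem fun i _ => mono_mem (c i).2 _, _, le_rfl, rfl⟩⟩
    have h5 := T_inj hβ (leadingCoeff_eq_zero.1 (congrArg Subtype.val (h4.symm.trans h3)))
    ext i
    simpa [h1, coeff_monomial, Fin.val_inj] using congrArg (coeff · i) h5
  have := h (2 * finrank F (lim β W) + 1)
  nlinarith

theorem bch_id {w : R} (h2 : (2 : F) ≠ 0) (h3 : (3 : F) ≠ 0) (xx : ∀ t, x * (x * t) = 0) (yy : ∀ t, y * (y * t) = 0)
    (ww : ∀ t, w * (w * t) = 0) (xy : ∀ t, x * (y * (x * t)) = 0) (xw : ∀ t, x * (w * (x * t)) = 0)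
    (yx : ∀ t, y * (x * (y * t)) = 0) (yw : ∀ t, y * (w * (y * t)) = 0) (wx : ∀ t, w * (x * (w * t)) = 0)
    (wy : ∀ t, w * (y * (w * t)) = 0) (x1 : ∀ t, x * (y * (w * (x * t))) = 0) (x2 : ∀ t, x * (w * (y * (x * t))) = 0)
    (y1 : ∀ t, y * (x * (w * (y * t))) = 0) (y2 : ∀ t, y * (w * (x * (y * t))) = 0)
    (w1 : ∀ t, w * (x * (y * (w * t))) = 0) (w2 : ∀ t, w * (y * (x * (w * t))) = 0)
    (h : (x + y + w) * (x + y + w) = 0) :
    (1 + x) * (1 + y) * (1 + w) * ((1 + (-(2⁻¹ : F) • (x * y - y * x + (x * w - w * x)) - (3⁻¹ : F) •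
      ((x * y - y * x) * w - w * (x * y - y * x) + ((x * w - w * x) * y - y * (x * w - w * x))))) *
        (1 + -(2⁻¹ : F) • (y * w - w * y))) = 1 + (x + y + w) := by
  obtain ⟨t, ht⟩ : ∃ t : R, t = 1 := ⟨1, rfl⟩
  have h4 := congrArg (· * t) h
  have h5 := congrArg ((x + y + w) * · * t) h
  rw [← mul_one (_ * _), ← mul_one (1 + (x + y + w))]
  conv_lhs => enter [2]; rw [← ht]
  conv_rhs => enter [2]; rw [← ht]
  simp only [mul_add, add_mul, mul_sub, sub_mul, one_mul, mul_assoc, smul_mul_assoc, mul_smul_comm, xx, yy, ww, xy, xw,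
    yx, yw, wx, wy, x1, x2, y1, y2, w1, w2, mul_zero, zero_mul] at h4 h5 ⊢
  linear_combination (norm := skip) (2⁻¹ : F) • h4 + (6⁻¹ : F) • h5
  have h6 : (6 : F) ≠ 0 := by rw [show (6 : F) = 2 * 3 by norm_num]; exact mul_ne_zero h2 h3
  match_scalars <;> field_simp <;> ring

end Cfsg.Agent.Classical.Lim
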