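import Cfsg.Agent.Classical.Lim1
import Cfsg.Agent.PLocal.FF1

/-! Replacement of a quadratic subgroup by the limit of its conjugates under a quadratic element (`repl`); a `p`-group
with `p ≥ 5` having an offender has a quadratic offender normalised by all quadratic elements (`exists_off`). -/

set_option autoImplicit false

namespace Cfsg.Agent.Classical.Lim

open Subgroup Module Cfsg.Agent.Loc Cfsg.Agent.PLocal.FF
open scoped commutatorElement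

variable {p : ℕ} [hp : Fact p.Prime] {G V : Type*} [Group G] [AddCommGroup V] [Module (ZMod p) V]
  {ρ : Representation (ZMod p) G V} {A B C H K : Subgroup G} {a a' b c : G} {x : End (ZMod p) V}

variable (ρ) in
/-- quadratic subgroups -/
def Qd (A : Subgroup G) : Prop := ∀ a ∈ A, ∀ b ∈ A, dl ρ a * dl ρ b = 0

variable (ρ) in
/-- logarithm of a quadratic subgroup -/
def lg (A : Subgroup G) : Submodule (ZMod p) (End (ZMod p) V) := .span _ (dl ρ '' A)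

theorem Qd.mono (h : Qd ρ A) (e : B ≤ A) : Qd ρ B := fun a ha b hb => h a (e ha) b (e hb)

theorem dl_cj (g a : G) : dl ρ (g * a * g⁻¹) = ρ g * dl ρ a * ρ g⁻¹ := by
  simp [dl, mul_sub, sub_mul, ← map_mul]

theorem Qd.cj (h : Qd ρ A) (g : G) : Qd ρ (cj g A) := by
  rintro _ ⟨a, ha, rfl⟩ _ ⟨b, hb, rfl⟩
  refine (congrArg₂ _ (dl_cj g a) (dl_cj g b)).trans ?_
  simp [mul_assoc, ← mul_assoc (ρ g⁻¹), ← map_mul, ← mul_assoc (dl ρ a), h a ha b hb]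

theorem dl_mem (h : a ∈ A) : dl ρ a ∈ lg ρ A := Submodule.subset_span ⟨a, h, rfl⟩

theorem dl_pow (h : dl ρ a * dl ρ a = 0) (n : ℕ) : dl ρ (a ^ n) = n • dl ρ a := by
  induction n with
  | zero => simp [dl_one]
  | succ n ih => rw [pow_succ, dl_mul, ih, smul_mul_assoc, h, succ_nsmul]; simp

theorem Qd.ex (h : Qd ρ A) (hx : x ∈ lg ρ A) : ∃ a ∈ A, dl ρ a = x := by
  induction hx using Submodule.span_induction with
  | mem x hx => exact hx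
  | zero => exact ⟨1, A.one_mem, dl_one⟩
  | add _ _ _ _ h1 h2 =>
    obtain ⟨a, ha, rfl⟩ := h1
    obtain ⟨b, hb, rfl⟩ := h2
    exact ⟨_, A.mul_mem ha hb, by rw [dl_mul, h a ha b hb, add_zero]⟩
  | smul c _ _ h1 =>
    obtain ⟨a, ha, rfl⟩ := h1
    exact ⟨_, A.pow_mem ha c.val, by rw [dl_pow (h a ha a ha), ← Nat.cast_smul_eq_nsmul (ZMod p), ZMod.natCast_zmod_val]⟩

theorem Qd.mul (h : Qd ρ A) (x : End (ZMod p) V) (hx : x ∈ lg ρ A) (y : End (ZMod p) V) (hy : y ∈ lg ρ A) :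
    x * y = 0 := mul_span (by rintro _ ⟨a, ha, rfl⟩ _ ⟨b, hb, rfl⟩; exact h a ha b hb) hx hy

theorem lg_mono (h : A ≤ B) : lg ρ A ≤ lg ρ B := Submodule.span_mono (Set.image_mono h)

theorem Qd.mem (hf : Function.Injective ρ) (h : Qd ρ A) (e : dl ρ a ∈ lg ρ A) : a ∈ A :=
  let ⟨_, hb, e⟩ := h.ex e; hf (sub_left_injective e) ▸ hb

theorem Qd.card (hf : Function.Injective ρ) (h : Qd ρ A) : Nat.card A = Nat.card (lg ρ A) :=
  Nat.card_congr (.ofBijective (fun a => ⟨_, dl_mem a.2⟩) ⟨fun _ _ e =>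
    Subtype.ext (hf (sub_left_injective (congrArg Subtype.val e))), fun ⟨_, hx⟩ =>
      let ⟨a, ha, e⟩ := h.ex hx; ⟨⟨a, ha⟩, Subtype.ext e⟩⟩)

theorem br (h : Qd ρ A) (h' : Qd ρ B) (ha : a ∈ A) (hb : b ∈ B) (h1 : ⁅a, b⁆ ∈ A) (h2 : ⁅a, b⁆ ∈ B) :
    dl ρ ⁅a, b⁆ = dl ρ a * dl ρ b - dl ρ b * dl ρ a := by
  have := congrArg (dl ρ) (show ⁅a, b⁆ * (b * a) = a * b by simp [commutatorElement_def])
  rw [dl_mul, dl_mul, dl_mul, mul_add, mul_add, ← mul_assoc, h _ h1 a ha, h' _ h2 b hb, zero_mul] at this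
  linear_combination (norm := abel) this

section
variable {S : Set (Subgroup G)} (hq : ∀ A ∈ S, Qd ρ A) (hn : ∀ A ∈ S, ∀ B ∈ S, ∀ a ∈ A, ∀ b ∈ B, ⁅a, b⁆ ∈ A)
include hn

omit hp in
theorem hn' (hA : A ∈ S) (hB : B ∈ S) (ha : a ∈ A) (hb : b ∈ B) : ⁅a, b⁆ ∈ B :=
  commutatorElement_inv b a ▸ B.inv_mem (hn B hB A hA b hb a ha)

include hq

theorem br' (hA : A ∈ S) (hB : B ∈ S) (ha : a ∈ A) (hb : b ∈ B) :
    dl ρ ⁅a, b⁆ = dl ρ a * dl ρ b - dl ρ b * dl ρ a :=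
  br (hq A hA) (hq B hB) ha hb (hn A hA B hB a ha b hb) (hn' hn hA hB ha hb)

set_option linter.unusedSectionVars false in
theorem van2 (hA : A ∈ S) (ha : a ∈ A) (ha' : a' ∈ A) (t : End (ZMod p) V) : dl ρ a * (dl ρ a' * t) = 0 := by
  rw [← mul_assoc, hq A hA a ha a' ha', zero_mul]

theorem van3 (hA : A ∈ S) (hB : B ∈ S) (ha : a ∈ A) (hb : b ∈ B) (ha' : a' ∈ A) (t : End (ZMod p) V) :
    dl ρ a * (dl ρ b * (dl ρ a' * t)) = 0 := by
  have := van2 hq hn hA (hn A hA B hB a ha b hb) ha' t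
  rwa [br' hq hn hA hB ha hb, sub_mul, mul_assoc, mul_assoc, van2 hq hn hA ha ha', mul_zero, sub_zero] at this

theorem van4 (hA : A ∈ S) (hB : B ∈ S) (hC : C ∈ S) (ha : a ∈ A) (hb : b ∈ B) (hc : c ∈ C) (t : End (ZMod p) V) :
    dl ρ a * (dl ρ b * (dl ρ c * (dl ρ a * t))) = 0 := by
  have := van3 hq hn hA hC (hn A hA B hB a ha b hb) hc ha t
  rwa [br' hq hn hA hB ha hb, sub_mul, mul_assoc, mul_assoc, van3 hq hn hA hC ha hc ha, mul_zero, sub_zero] at this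

theorem bch (h5 : 5 ≤ p) [hK : K.Normal] (hH : ∀ h ∈ H, ∀ g, ⁅h, g⁆ ∈ K) (hA : A ∈ S) (hB : B ∈ S) (hC : C ∈ S)
    (ha : a ∈ A ⊓ H) (hb : b ∈ B ⊓ H) (hc : c ∈ C) (h : (dl ρ a + dl ρ b + dl ρ c) * (dl ρ a + dl ρ b + dl ρ c) = 0) :
    ∃ k ∈ K, dl ρ (a * b * c * k) = dl ρ a + dl ρ b + dl ρ c := by
  have h0 : ∀ n : ℕ, 0 < n → n < 5 → (n : ZMod p) ≠ 0 := fun n h h' e =>
    (Nat.le_of_dvd h ((ZMod.natCast_eq_zero_iff n p).1 e)).not_gt (by omega)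
  have h1 : ∀ k ∈ K, ∀ g, ⁅k, g⁆ ∈ K := fun k hk g => by
    simpa [commutatorElement_def, mul_assoc] using K.mul_mem hk (hK.conj_mem _ (K.inv_mem hk) g)
  have h2 := hn A hA B hB a ha.1 b hb.1
  have h3 := hn A hA C hC a ha.1 c hc
  obtain ⟨k, hk, e⟩ := ((hq A hA).mono (inf_le_left (b := K))).ex (sub_mem (Submodule.smul_mem _ (-2⁻¹) (add_mem
    (dl_mem ⟨h2, hH a ha.2 b⟩) (dl_mem ⟨h3, hH a ha.2 c⟩))) (Submodule.smul_mem _ 3⁻¹ (add_mem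
      (dl_mem ⟨hn A hA C hC _ h2 c hc, h1 _ (hH a ha.2 b) c⟩) (dl_mem ⟨hn A hA B hB _ h3 b hb.1, h1 _ (hH a ha.2 c) b⟩))))
  obtain ⟨l, hl, e'⟩ := ((hq B hB).mono (inf_le_left (b := K))).ex (Submodule.smul_mem _ (-2⁻¹)
    (dl_mem ⟨hn B hB C hC b hb.1 c hc, hH b hb.2 c⟩))
  refine ⟨k * l, K.mul_mem hk.2 hl.2, ?_⟩
  rw [br' hq hn hA hC h2 hc, br' hq hn hA hB h3 hb.1, br' hq hn hA hB ha.1 hb.1, br' hq hn hA hC ha.1 hc] at e
  rw [br' hq hn hB hC hb.1 hc] at e'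
  rw [dl, sub_eq_iff_eq_add', map_mul, map_mul, map_mul, map_mul, rho_eq a, rho_eq b, rho_eq c, rho_eq k, rho_eq l, e, e']
  exact bch_id (h0 2 (by omega) (by omega)) (h0 3 (by omega) (by omega)) (van2 hq hn hA ha.1 ha.1)
    (van2 hq hn hB hb.1 hb.1) (van2 hq hn hC hc hc) (van3 hq hn hA hB ha.1 hb.1 ha.1) (van3 hq hn hA hC ha.1 hc ha.1)
    (van3 hq hn hB hA hb.1 ha.1 hb.1) (van3 hq hn hB hC hb.1 hc hb.1) (van3 hq hn hC hA hc ha.1 hc)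
    (van3 hq hn hC hB hc hb.1 hc) (van4 hq hn hA hB hC ha.1 hb.1 hc) (van4 hq hn hA hC hB ha.1 hc hb.1)
    (van4 hq hn hB hA hC hb.1 ha.1 hc) (van4 hq hn hB hC hA hb.1 hc ha.1) (van4 hq hn hC hA hB hc ha.1 hb.1)
    (van4 hq hn hC hB hA hc hb.1 ha.1) h

variable [Finite V]

omit hq hn in
theorem card_le_lim {β : End (ZMod p) V} (h : β * β = 0) (W : Submodule (ZMod p) (End (ZMod p) V)) :
    Nat.card W ≤ Nat.card (lim β W) := by
  have : Finite (End (ZMod p) V) := .of_injective _ DFunLike.coe_injective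
  rw [card_eq_pow p W, card_eq_pow p (lim β W)]
  exact Nat.pow_le_pow_right hp.out.pos (finrank_le_lim h)

omit hq hn in
theorem fx_le {β : End (ZMod p) V} (h : β * β = 0) (hB : ∀ b ∈ B, dl ρ b ∈ lim β (lg ρ A)) :
    Nat.card (fx ρ A) ≤ Nat.card (fx ρ B) := by
  let rg := fun C : Submodule (ZMod p) V => LinearMap.range (LinearMap.compRight (M := V) (ZMod p) C.subtype)
  have h1 : ∀ C, finrank (ZMod p) (rg C) = finrank (ZMod p) V * finrank (ZMod p) C := fun C => by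
    rw [LinearMap.finrank_range_of_inj fun _ _ e => (LinearMap.cancel_left C.injective_subtype).1 e, finrank_linearMap]
  have h2 := (finrank_le_lim h).trans (Submodule.finrank_mono (show lim β (rg (fx ρ A)) ≤ rg (fx ρ B) from
    fun y hy => ⟨y.codRestrict _ fun v => mem_fx'.2 fun b hb => LinearMap.congr_fun (lim_mul h (fun x hx y hy => by
      obtain ⟨y, rfl⟩ := hy
      refine (show lg ρ A ≤ LinearMap.ker (LinearMap.mulRight (ZMod p) _) from Submodule.span_le.2 ?_) hx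
      rintro _ ⟨a, ha, rfl⟩
      exact LinearMap.ext fun v => mem_fx'.1 (y v).2 a ha) (hB b hb) hy) v, rfl⟩))
  have h3 := (fx ρ A).finrank_le
  rw [h1, h1] at h2
  rw [card_eq_pow p (fx ρ A), card_eq_pow p (fx ρ B)]
  refine Nat.pow_le_pow_right hp.out.pos ?_
  obtain h4 | h4 := (finrank (ZMod p) V).eq_zero_or_pos
  · omega
  · exact Nat.le_of_mul_le_mul_left h2 h4

theorem repl (h5 : 5 ≤ p) (hf : Function.Injective ρ) (hb : dl ρ b * dl ρ b = 0) (h1 : cj b⁻¹ A ∈ S) (h2 : A ∈ S)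
    (h3 : cj b A ∈ S) : ∃ B, Qd ρ B ∧ Nat.card (fx ρ A) ≤ Nat.card (fx ρ B) ∧
      (∀ H : Subgroup G, H.Normal → Nat.card ↥(A ⊓ H) ≤ Nat.card ↥(B ⊓ H)) ∧
      ∀ H K : Subgroup G, H.Normal → K.Normal → (∀ h ∈ H, ∀ g, ⁅h, g⁆ ∈ K) → (∀ a ∈ A ⊓ K, b * a * b⁻¹ ∈ A) →
        ∀ a ∈ A ⊓ H, b * a * b⁻¹ ∉ A → Nat.card ↥(A ⊓ K) < Nat.card ↥(B ⊓ K) := by
  have : Finite (End (ZMod p) V) := .of_injective _ DFunLike.coe_injective
  have h0 : (2 : ZMod p) ≠ 0 := fun e => (Nat.le_of_dvd two_pos ((ZMod.natCast_eq_zero_iff 2 p).1 e)).not_gt (by omega)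
  have q := hq A h2
  have e1 : ∀ a, dl ρ (b * a * b⁻¹) = dl ρ a + (dl ρ b * dl ρ a - dl ρ a * dl ρ b) - dl ρ b * dl ρ a * dl ρ b :=
    fun a => by rw [dl_cj, rho_inv hb, rho_eq b]; noncomm_ring
  have e2 : ∀ a, dl ρ (b⁻¹ * a * b⁻¹⁻¹) = dl ρ a - (dl ρ b * dl ρ a - dl ρ a * dl ρ b) - dl ρ b * dl ρ a * dl ρ b :=
    fun a => by rw [dl_cj, inv_inv, rho_inv hb, rho_eq b]; noncomm_ring
  generalize hβ : dl ρ b = β at hb e1 e2
  have sq := fun x hx y hy => lim_mul hb q.mul (x := x) (y := y) hx hy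
  let B : Subgroup G :=
    { carrier := {g | dl ρ g ∈ lim β (lg ρ A)}
      mul_mem' := fun {x y} hx hy => by
        rw [Set.mem_ofPred_eq, dl_mul, sq _ hx _ hy, add_zero]; exact add_mem hx hy
      one_mem' := by rw [Set.mem_ofPred_eq, dl_one]; exact zero_mem _
      inv_mem' := fun {x} hx => by rw [Set.mem_ofPred_eq, dl_inv (sq _ hx _ hx)]; exact neg_mem hx }
  have qB : Qd ρ B := fun x hx y hy => sq _ hx _ hy
  have h4 : ∀ H : Subgroup G, H.Normal → lim β (lg ρ (A ⊓ H)) ≤ lg ρ (B ⊓ H) := fun H hH η hη => by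
    have h6 := lim_mono (lg_mono inf_le_left) hη
    obtain ⟨_, h7, w, hw, rfl⟩ := Submodule.mem_sup.1 (lim_le (W' := lg ρ (cj b⁻¹ A ⊓ H) ⊔ lg ρ (A ⊓ H) ⊔
        lg ρ (cj b A ⊓ H)) (fun c hc => by
      obtain ⟨a, ha, rfl⟩ := (q.mono inf_le_left).ex hc
      have a0 := Submodule.mem_sup_left (T := lg ρ (cj b A ⊓ H)) (Submodule.mem_sup_right (S := lg ρ (cj b⁻¹ A ⊓ H)) hc)
      have a1 := Submodule.mem_sup_left (T := lg ρ (cj b A ⊓ H)) (Submodule.mem_sup_left (T := lg ρ (A ⊓ H))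
        (dl_mem (ρ := ρ) (A := cj b⁻¹ A ⊓ H) ⟨conj_mem_cj ha.1, hH.conj_mem _ ha.2 _⟩))
      have a2 := Submodule.mem_sup_right (S := lg ρ (cj b⁻¹ A ⊓ H) ⊔ lg ρ (A ⊓ H))
        (dl_mem (ρ := ρ) (A := cj b A ⊓ H) ⟨conj_mem_cj ha.1, hH.conj_mem _ ha.2 _⟩)
      rw [e1] at a2
      rw [e2] at a1
      refine ⟨a0, (Submodule.smul_mem_iff _ h0).1 ?_, (Submodule.smul_mem_iff _ h0).1 ?_⟩
      · convert sub_mem a2 a1 using 1; module
      · convert sub_mem (add_mem a0 a0) (add_mem a2 a1) using 1; module) hη)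
    obtain ⟨x, hx, y, hy, rfl⟩ := Submodule.mem_sup.1 h7
    obtain ⟨x, hx', rfl⟩ := ((hq _ h1).mono inf_le_left).ex hx
    obtain ⟨y, hy', rfl⟩ := (q.mono inf_le_left).ex hy
    obtain ⟨w, hw', rfl⟩ := ((hq _ h3).mono inf_le_left).ex hw
    obtain ⟨k, hk, e⟩ := bch hq hn h5 (K := H) (fun k hk g => by
      simpa [commutatorElement_def, mul_assoc] using H.mul_mem hk (hH.conj_mem _ (H.inv_mem hk) g)) h1 h2 h3 hx' hy' hw'.1
      (sq _ h6 _ h6)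
    exact e ▸ dl_mem ⟨show dl ρ _ ∈ _ from e ▸ h6, H.mul_mem (H.mul_mem (H.mul_mem hx'.2 hy'.2) hw'.2) hk⟩
  refine ⟨B, qB, fx_le hb fun _ h => h, fun H hH => ?_, fun H K hH hK hHK h6 a ha h7 => ?_⟩
  · rw [(q.mono inf_le_left).card hf, (qB.mono inf_le_left).card hf]
    exact (card_le_lim hb _).trans (card_mono (h4 H hH))
  have h8 : lg ρ (A ⊓ K) ≤ lg ρ (B ⊓ K) := (le_lim hb fun c hc => by
    obtain ⟨a, ha, rfl⟩ := (q.mono inf_le_left).ex hc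
    have a1 : b * a * b⁻¹ ∈ A ⊓ K := ⟨h6 a ha, hK.conj_mem _ ha.2 _⟩
    have a2 := dl_mem (ρ := ρ) (A := A ⊓ K) ⟨h6 _ a1, hK.conj_mem _ a1.2 _⟩
    replace a1 := dl_mem (ρ := ρ) a1
    rw [e1] at a2
    rw [e1] at a1 a2
    have a3 : β * dl ρ a * β ∈ lg ρ (A ⊓ K) := (Submodule.smul_mem_iff _ h0).1 (by
      convert sub_mem (add_mem a1 a1) (add_mem hc a2) using 1
      simp only [mul_add, add_mul, mul_sub, sub_mul, ← mul_assoc, hb, mul_assoc _ β β, zero_mul, mul_zero]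
      module)
    exact ⟨by convert add_mem (sub_mem a1 hc) a3 using 1; abel, a3⟩).trans (h4 K hK)
  have h9 : ∀ y ∈ A ⊓ H, ∀ w ∈ cj b A, (b⁻¹ * a * b⁻¹⁻¹)⁻¹ * y * w ∈ K → ∀ η ∈ lim β (lg ρ A), η ∉ lg ρ A →
      -dl ρ (b⁻¹ * a * b⁻¹⁻¹) + dl ρ y + dl ρ w = (2 : ZMod p) • η → Nat.card ↥(A ⊓ K) < Nat.card ↥(B ⊓ K) :=
    fun y hy w hw h9 η a1 a2 a3 => by
      have a4 := conj_mem_cj (g := b⁻¹) ha.1
      have a5 := Submodule.smul_mem _ (2 : ZMod p) a1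
      rw [← dl_inv (hq _ h1 _ a4 _ a4)] at a3
      obtain ⟨k, hk, e⟩ := bch hq hn h5 hHK h1 h2 h3 (inv_mem ⟨a4, hH.conj_mem _ ha.2 _⟩) hy hw (a3 ▸ sq _ a5 _ a5)
      rw [(q.mono inf_le_left).card hf, (qB.mono inf_le_left).card hf]
      refine lt_of_not_ge fun h => a2 ((Submodule.smul_mem_iff _ h0).1 (lg_mono (inf_le_left (b := K)) ?_))
      rw [eq_of_card_le h8 h, ← a3, ← e]
      exact dl_mem ⟨show dl ρ _ ∈ _ from e ▸ a3 ▸ a5, K.mul_mem h9 hk⟩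
  have a1 := K.inv_mem (hHK _ (H.inv_mem ha.2) b⁻¹)
  have a2 := conj_mem_cj (g := b) ha.1
  have a3 := dl_mem (ρ := ρ) ha.1
  by_cases e : β * dl ρ a * β ∈ lg ρ A
  · refine h9 1 (one_mem _) _ a2 (by simpa [commutatorElement_def, mul_assoc] using K.mul_mem a1 (hHK _ (H.inv_mem ha.2) b))
      _ (gam_mem hb a3 e) (fun e' => h7 (q.mem hf (e1 a ▸ sub_mem (add_mem a3 e') e))) ?_
    rw [e1, e2, dl_one]
    module
  · refine h9 _ (mul_mem ha ha) _ (inv_mem a2) (by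
      simpa [commutatorElement_def, mul_assoc] using K.mul_mem a1 (hHK _ ha.2 b)) _ (eps_mem a3) e ?_
    rw [dl_inv (hq _ h3 _ a2 _ a2), e1, e2, dl_mul, q a ha.1 a ha.1]
    module

end

theorem exists_off [Finite G] [Finite V] (h5 : 5 ≤ p) (hf : Function.Injective ρ) (hG : IsPGroup p G)
    (hC : IsElementaryAbelian p C) (h0 : C ≠ ⊥) (h : Nat.card V ≤ mu ρ C) : ∃ A, (A ≠ ⊥ ∧ Qd ρ A ∧
      Nat.card V ≤ mu ρ A) ∧ ∀ b, dl ρ b * dl ρ b = 0 → b ∈ normalizer (A : Set G) := by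
  obtain ⟨n, hn⟩ := (isNilpotent_iff_lowerCentralSeries (S := (⊤ : Subgroup G))).1 (hG.to_subgroup _).isNilpotent
  obtain ⟨A₀, -, h1, -⟩ := exists_minOff hC h0 h
  let Φ := fun A : Subgroup G => ∑ i ∈ Finset.range (n + 1), Nat.card ↥(A ⊓ Subgroup.lowerCentralSeries ⊤ i)
  obtain ⟨A, hA⟩ := Set.exists_max_image {A | A ≠ ⊥ ∧ Qd ρ A ∧ Nat.card V ≤ mu ρ A} Φ (Set.toFinite _)
    ⟨A₀, h1.ne, fun a ha b hb => (h1.quad hf).mul hb ha, h1.off⟩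
  refine ⟨A, hA.1, fun b hb => ?_⟩
  suffices ∀ L A : Subgroup G, (A ≠ ⊥ ∧ Qd ρ A ∧ Nat.card V ≤ mu ρ A) ∧ (∀ B ∈ {A | A ≠ ⊥ ∧ Qd ρ A ∧
    Nat.card V ≤ mu ρ A}, Φ B ≤ Φ A) → A ≤ L → ∀ b ∈ L, dl ρ b * dl ρ b = 0 → b ∈ normalizer (A : Set G) from
      this ⊤ A hA le_top b trivial hb
  intro L
  induction L using WellFoundedLT.induction with | _ L ih => ?_
  intro A hA hL b hbL hb
  obtain h2 | ⟨N, hN, h2⟩ := eq_top_or_exists_le_coatom (A.subgroupOf L)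
  · exact le_normalizer (subgroupOf_eq_top.1 h2 hbL)
  have := (hG.to_subgroup L).isNilpotent
  have h3 := NormalizerCondition.normal_of_coatom N Group.normalizerCondition_of_isNilpotent hN
  have h4 : ∀ t ∈ L, cj t A ≤ N.map L.subtype := by
    rintro t ht _ ⟨a, ha, rfl⟩
    exact ⟨_, h3.conj_mem ⟨a, hL ha⟩ (h2 ha) ⟨t, ht⟩, rfl⟩
  have h6 : N.map L.subtype < L := (map_subtype_le N).lt_of_ne fun e => hN.1
    (map_injective L.subtype_injective (e.trans (by simp [← MonoidHom.range_eq_map])))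
  obtain ⟨B, b1, b2, b3, b4⟩ := repl (S := (cj · A) '' L) (by rintro _ ⟨t, -, rfl⟩; exact hA.1.2.1.cj t) (by
    rintro _ ⟨s, hs, rfl⟩ _ ⟨t, ht, rfl⟩ a ha c hc
    have := ih _ h6 (cj s A) ⟨⟨cj_eq_bot_iff.not.2 hA.1.1, hA.1.2.1.cj s, hA.1.2.2.trans_eq (mu_cj s A).symm⟩,
      fun B hB => (hA.2 B hB).trans_eq (Finset.sum_congr rfl fun i _ => by
        rw [← card_cj s, cj_inf, cj_eq_of_normal s (Subgroup.lowerCentralSeries ⊤ i)])⟩ (h4 s hs) c (h4 t ht hc)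
          (hA.1.2.1.cj t c hc c hc)
    simpa [commutatorElement_def, mul_assoc] using mul_mem ha (conj_mem_of_mem_normalizer this (inv_mem ha)))
    h5 hf hb ⟨_, L.inv_mem hbL, rfl⟩ ⟨1, L.one_mem, cj_one A⟩ ⟨b, hbL, rfl⟩
  by_contra h7
  obtain ⟨j, h8, h9⟩ := Nat.exists_not_and_succ_of_not_zero_of_exists
    (p := fun j => ∀ a ∈ A ⊓ Subgroup.lowerCentralSeries ⊤ j, b * a * b⁻¹ ∈ A)
    (fun e => h7 (mem_normalizer_of_cj_le (cj_le_iff_forall.2 fun a ha => e a ⟨ha, trivial⟩)))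
    ⟨n, fun a ha => by simp [mem_bot.1 (hn ▸ ha.2), one_mem]⟩
  have h10 : j < n := lt_of_not_ge fun e => h8 fun a ha => by
    simp [mem_bot.1 (hn ▸ Subgroup.lowerCentralSeries_antitone _ e ha.2), one_mem]
  have h11 := b3 ⊤ inferInstance
  rw [inf_top_eq, inf_top_eq] at h11
  push Not at h8
  obtain ⟨a, ha, h8⟩ := h8
  exact (hA.2 B ⟨(one_lt_card_iff_ne_bot B).1 (((one_lt_card_iff_ne_bot A).2 hA.1.1).trans_le h11), b1,
    hA.1.2.2.trans (Nat.mul_le_mul h11 b2)⟩).not_gt (Finset.sum_lt_sum (fun i _ => b3 _ inferInstance)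
      ⟨j + 1, by simpa using h10, b4 _ _ inferInstance inferInstance
        (fun h hh g => commutator_mem_commutator hh (mem_top g)) h9 a ha h8⟩)

end Cfsg.Agent.Classical.Lim
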