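import Cfsg.Agent.Isa.J4

/-! Solvable groups without divisibility among nonlinear character degrees, I: general lemmas
(`ND`, Camina-type fusion, the subgroup `CL` acting trivially on linear characters, counting). -/

set_option autoImplicit false
set_option maxSynthPendingDepth 3
set_option linter.unusedVariables false
set_option linter.unusedSectionVars false

namespace Cfsg.Agent.PF.CH.Nd
open Cfsg.Agent.BG
open scoped _root_.Classical ComplexConjugate commutatorElement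

variable {X : Type*} [Group X] [Finite X]
variable {A B C D E G H K L M N P Q R S T U V W Y Z : Subgroup X} {χ ψ φ θ ω η ξ β : X → ℂ}
  {a b g s x y z : X} {p q e f m n : ℕ} {π : Set ℕ}

local notation "Sol" => Group.IsSolvable

/-- no divisibility among nonlinear degrees -/
def ND (G : Subgroup X) : Prop :=
  ∀ χ ∈ Irr G, ∀ ψ ∈ Irr G, deg χ ≠ 1 → deg χ ∣ deg ψ → deg χ = deg ψ

theorem camina (hx : x ∈ N) (hxK : x ∉ K) (hK : ⁅N, N⁆ ≤ K)
    (hv : ∀ ψ ∈ Irr N, deg ψ ≠ 1 → vo ψ ≤ K) (hy : y ∈ ⁅N, N⁆) : ∃ g ∈ N, g * x * g⁻¹ = x * y := by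
  by_contra h
  push Not at h
  have h1 := sum_Irr_mul_conj_eq_zero h
  obtain ⟨n, h2, h3⟩ := sum_Irr_nat (x := x) hx
  have h4 := h3 ⟨1, one_mem _, by group⟩
  rw [Finset.sum_congr rfl (g := fun χ => χ x * conj (χ x)) fun χ hχ => ?_, h2] at h1
  · exact h4.ne' (Nat.cast_eq_zero.1 h1)
  by_cases h5 : deg χ = 1
  · rw [cfker_mul_right (Irr_CF hχ) ((deg_eq_one_iff hχ).1 h5 hy)]
  · rw [eq_zero_of_vo (hv χ hχ h5) hxK, zero_mul, zero_mul]

theorem camina_fix (hx : x ∈ N) (hxK : x ∉ K) (hK : ⁅N, N⁆ ≤ K)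
    (hv : ∀ ψ ∈ Irr N, deg ψ ≠ 1 → vo ψ ≤ K) (hy : y ∈ ⁅N, N⁆) (h1 : PiElt π x) (h2 : PiElt πᶜ y)
    (hc : Commute x y) : y = 1 := by
  obtain ⟨g, -, e⟩ := camina hx hxK hK hv hy
  have h3 : PiElt π (x * y) := e ▸ p_eltJ.2 h1
  rw [← (constt_eq hc h1 h2).2]
  exact constt_p'_elt (by rwa [compl_compl])

theorem ND.ext (h : ND G) (hM : M ⊴ G) (hθ : θ ∈ Irr M) (he : Exts M (G ⊓ inertia θ) θ)
    (h1 : (G ⊓ inertia θ).relIndex G * deg θ ≠ 1) :
    ⁅G ⊓ inertia θ, G ⊓ inertia θ⁆ ≤ M ∧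
      ∃ χ ∈ Irr G, dot M χ θ ≠ 0 ∧ deg χ = (G ⊓ inertia θ).relIndex G * deg θ := by
  obtain ⟨η, hη, e⟩ := he
  have hMT := le_inf_inertia hM.le (Irr_CF hθ)
  obtain ⟨χ, h2, h3, -, h4⟩ := ind_gall hM hθ hη e (one_mem_Irr _) (by rw [cfker_one]; exact hMT)
  rw [deg_one, mul_one] at h4
  refine ⟨der_le_of_deg (hM.subl hMT inf_le_left) fun β hβ hk => ?_, χ, h2, h3, h4⟩
  obtain ⟨ψ, h5, -, -, h6⟩ := ind_gall hM hθ hη e hβ hk
  have := h χ h2 ψ h5 (h4 ▸ h1) (by rw [h4, h6, ← mul_assoc]; exact dvd_mul_right _ _)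
  rw [h4, h6, ← mul_assoc] at this
  have h7 : 0 < (G ⊓ inertia θ).relIndex G * deg θ := h4 ▸ Irr_deg_pos h2
  exact (Nat.eq_of_mul_eq_mul_left h7 (by rw [← this, mul_one])).symm

theorem inertia_mul (h1 : g ∈ inertia φ) (h2 : g ∈ inertia ψ) : g ∈ inertia (φ * ψ) := by
  rw [mem_inertia] at *; rw [PF.cj_mul, h1, h2]

theorem lin_mul_inertia {l k : Dual M} (h1 : g ∈ inertia (lin l)) (h2 : g ∈ inertia (lin k)) :
    g ∈ inertia (lin (l * k)) := by rw [lin_mul]; exact inertia_mul h1 h2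

theorem lin_inv_inertia {l : Dual M} (h1 : g ∈ inertia (lin l)) : g ∈ inertia (lin l⁻¹) := by
  rwa [lin_inv, inertia_star]

theorem mem_inertia_lin (hg : g ∈ N[M]) {l : Dual M} : g ∈ inertia (lin l) ↔ cjD hg l = l := by
  rw [mem_inertia, ← lin_cjD hg, lin_inj]

/-- the elements of `G` fixing every linear character of `M` -/
noncomputable def CL (G M : Subgroup X) : Subgroup X := G ⊓ ⨅ l : Dual M, inertia (lin l)

theorem mem_CL : x ∈ CL G M ↔ x ∈ G ∧ ∀ l : Dual M, x ∈ inertia (lin l) := by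
  simp [CL, Subgroup.mem_iInf]

theorem CL_le : CL G M ≤ G := inf_le_left

theorem CL_le_inertia (l : Dual M) : CL G M ≤ inertia (lin l) := fun x hx => (mem_CL.1 hx).2 l

theorem CL_normal (hM : M ⊴ G) : CL G M ⊴ G := ⟨CL_le, le_norm_iff.2 fun g hg z hz =>
  mem_CL.2 ⟨mul_mem (mul_mem hg (CL_le hz)) (inv_mem hg), fun l => by
    rw [← mem_inertia_cj, ← lin_cjD (hM.norm hg)]; exact CL_le_inertia _ hz⟩⟩

theorem comm_CL (hM : M ⊴ G) : ⁅M, CL G M⁆ ≤ ⁅M, M⁆ :=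
  le_of_cfker (der_normal M) (commg_subl (CL_le.trans hM.norm)) fun χ hχ hk => by
    have h1 := (Irr_apply_one_iff hχ).2 hk
    obtain ⟨l, rfl⟩ := Irr_exists_lin hχ h1
    rw [commGC]
    exact comm_le_of_inv (CL_le.trans hM.norm) hχ h1 (CL_le_inertia l)

theorem le_CL (hM : M ⊴ G) (hA : A ≤ G) (h : ⁅A, M⁆ ≤ ⁅M, M⁆) : A ≤ CL G M := fun x hx =>
  mem_CL.2 ⟨hA hx, fun l => inv_of_comm_le (hA.trans hM.norm) (lin_mem_CF l)
    (h.trans (commutator_le_cfker_lin l)) hx⟩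

/-- an element central modulo `CL` fixing one nontrivial linear character fixes all -/
theorem phi (hM : M ⊴ G) (hd : ∀ l k : Dual M, l ≠ 1 → k ≠ 1 →
      G ⊓ inertia (lin l) ≤ inertia (lin k) → G ⊓ inertia (lin k) ≤ inertia (lin l))
    (hz : z ∈ G) (hc : ∀ g ∈ G, z * g * z⁻¹ * g⁻¹ ∈ CL G M) {l : Dual M} (h1 : l ≠ 1)
    (h2 : z ∈ inertia (lin l)) : z ∈ CL G M := by
  refine mem_CL.2 ⟨hz, fun μ => by_contra fun h3 => ?_⟩
  have n := hM.norm hz
  have key : ∀ κ : Dual M, G ⊓ inertia (lin κ) ≤ inertia (lin (cjD n κ * κ⁻¹)) := fun κ g hg => by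
    refine lin_mul_inertia ?_ (lin_inv_inertia hg.2)
    rw [lin_cjD, mem_inertia_cj, show z * g * z⁻¹ = z * g * z⁻¹ * g⁻¹ * g by group]
    exact mul_mem (CL_le_inertia _ (hc g hg.1)) hg.2
  have e1 : cjD n μ * μ⁻¹ ≠ 1 := fun e => h3 ((mem_inertia_lin n).2 (mul_inv_eq_one.1 e))
  have e2 : cjD n (μ * l) * (μ * l)⁻¹ = cjD n μ * μ⁻¹ := by
    rw [map_mul, (mem_inertia_lin n).1 h2, mul_inv, mul_mul_mul_comm, mul_inv_cancel, mul_one]
  have e3 : μ ≠ 1 := fun e => e1 (by rw [e, map_one, inv_one, mul_one])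
  have e4 : μ * l ≠ 1 := fun e => e1 (by rw [← e2, e, map_one, inv_one, mul_one])
  have e5 := hd _ _ e4 e1 (e2 ▸ key (μ * l))
  refine h3 (hd _ _ e3 h1 (fun g hg => ?_) ⟨hz, h2⟩)
  have := lin_mul_inertia (lin_inv_inertia hg.2) (e5 ⟨hg.1, key μ hg⟩)
  rwa [inv_mul_cancel_left] at this

theorem card_le_of_fpf (h1 : ∀ m ∈ B, Commute x m → m = 1) (h2 : ∀ m ∈ B, ⁅m, x⁆ ∈ A) : #B ≤ #A := by
  refine Nat.card_le_card_of_injective (fun m : B => (⟨⁅(m : X)⁻¹, x⁆, h2 _ (inv_mem m.2)⟩ : A))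
    fun m k e => ?_
  have e' : ⁅(m : X)⁻¹, x⁆ = ⁅(k : X)⁻¹, x⁆ := congrArg Subtype.val e
  have := h1 _ (mul_mem k.2 (inv_mem m.2)) (by
    rw [commutatorElement_def, commutatorElement_def, inv_inv, inv_inv, mul_left_inj] at e'
    show x * (k * (m : X)⁻¹) = k * (m : X)⁻¹ * x
    calc x * (k * (m : X)⁻¹) = k * ((k : X)⁻¹ * x * k) * (m : X)⁻¹ := by group
      _ = k * (m : X)⁻¹ * x := by rw [← e']; group)
  exact Subtype.ext (mul_inv_eq_one.1 this).symm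

theorem num_aux {i j : ℕ} (hq : q.Prime) (hn : 2 ≤ n) (h : q ^ i + n = n * q ^ j + 1) (hi : 0 < i) :
    q ^ j ∣ n - 1 ∧ ¬ q ^ (j + 1) ∣ n - 1 := by
  obtain ⟨m, rfl⟩ : ∃ m, n = m + 1 := ⟨n - 1, by omega⟩
  have h1 : 1 < q ^ i := Nat.one_lt_pow hi.ne' hq.one_lt
  have h2 : j < i := by
    by_contra h3
    have := Nat.pow_le_pow_right hq.pos (not_lt.1 h3)
    nlinarith
  obtain ⟨s, rfl⟩ := Nat.exists_eq_add_of_lt h2
  have h3 : m + q ^ (j + s + 1) = q ^ j * m + q ^ j := by linarith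
  have h4 : q ^ (j + 1) ∣ q ^ (j + s + 1) := pow_dvd_pow _ (by omega)
  have h5 : q ^ j ∣ q ^ (j + 1) := pow_dvd_pow _ (by omega)
  rw [Nat.add_sub_cancel]
  refine ⟨(Nat.dvd_add_left (h5.trans h4)).1 (h3 ▸ dvd_add (dvd_mul_right _ _) dvd_rfl), fun h6 => ?_⟩
  have h7 := (Nat.dvd_add_right (h6.mul_left (q ^ j))).1 (h3 ▸ dvd_add h6 h4)
  exact absurd ((Nat.pow_dvd_pow_iff_le_right hq.one_lt).1 h7) (by omega)

theorem num_eq {i j k l : ℕ} (hq : q.Prime) (hn : 2 ≤ n) (h : q ^ i + n = n * q ^ j + 1) (hi : 0 < i)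
    (h' : q ^ k + n = n * q ^ l + 1) (hk : 0 < k) : q ^ i = q ^ k := by
  obtain ⟨h1, h2⟩ := num_aux hq hn h hi
  obtain ⟨h3, h4⟩ := num_aux hq hn h' hk
  rcases lt_trichotomy j l with h5 | rfl | h5
  · exact (h2 ((pow_dvd_pow _ h5).trans h3)).elim
  · omega
  · exact (h4 ((pow_dvd_pow _ h5).trans h1)).elim

/-- the linear characters of `A` fixed by `U` -/
def fixD (A U : Subgroup X) (h : U ≤ N[A]) : Subgroup (Dual A) where
  carrier := {l | U ≤ inertia (lin l)}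
  mul_mem' := fun h1 h2 _ hg => lin_mul_inertia (h1 hg) (h2 hg)
  one_mem' := fun g hg => by rw [mem_inertia, lin_one, cj_one' (h hg)]
  inv_mem' := fun h1 _ hg => lin_inv_inertia (h1 hg)

theorem count (hA : A ⊴ G) (hU : U ≤ G)
    (h1 : ∀ l : Dual A, l ≠ 1 → ∃ g ∈ G, BG.cj g U ≤ inertia (lin l))
    (h2 : ∀ l : Dual A, l ≠ 1 → U ≤ inertia (lin l) → ∀ g ∈ G, BG.cj g U ≤ inertia (lin l) → g ∈ N[U]) :
    Nat.card (Dual A) + N[U].relIndex G =
      N[U].relIndex G * Nat.card (fixD A U (hU.trans hA.norm)) + 1 := by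
  have key : ∀ {g : X} (hg : g ∈ G) (l : Dual A), U ≤ inertia (lin (cjD (hA.norm hg) l)) ↔
      BG.cj g U ≤ inertia (lin l) := fun hg l => by
    rw [lin_cjD]
    exact ⟨fun h _ ⟨u, hu, e⟩ => e ▸ mem_inertia_cj.1 (h hu), fun h u hu =>
      mem_inertia_cj.2 (h (conj_mem_cj _ hu))⟩
  have inj : ∀ {g : X} (hg : g ∈ N[A]), Function.Injective (cjD hg : Dual A → Dual A) :=
    fun hg l k e => by rwa [← lin_inj, lin_cjD, lin_cjD, (cj_injective _).eq_iff, lin_inj] at e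
  set F := (Finset.univ.erase (1 : Dual A)).filter fun l => U ≤ inertia (lin l) with hF
  have c1 : F.card + 1 = Nat.card (fixD A U (hU.trans hA.norm)) := by
    rw [hF, Finset.filter_erase, Finset.card_erase_add_one (by
      exact Finset.mem_filter.2 ⟨Finset.mem_univ _, (fixD A U (hU.trans hA.norm)).one_mem⟩),
      Nat.card_eq_fintype_card, Fintype.card_subtype]
    rfl
  have c2 : (Finset.univ.erase (1 : Dual A)).card + 1 = Nat.card (Dual A) := by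
    rw [Finset.card_erase_add_one (Finset.mem_univ _), Nat.card_eq_fintype_card, Finset.card_univ]
  have c3 := Finset.sum_card_bipartiteAbove_eq_sum_card_bipartiteBelow (s := fs (G : Set X))
    (t := Finset.univ.erase (1 : Dual A)) fun g l => BG.cj g U ≤ inertia (lin l)
  rw [Finset.sum_congr rfl (g := fun _ => F.card) fun g hg => ?_,
    Finset.sum_congr (s₁ := Finset.univ.erase (1 : Dual A)) rfl (g := fun _ => #(G ⊓ N[U]))
      fun l hl => ?_] at c3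
  · rw [Finset.sum_const, Finset.sum_const, smul_eq_mul, smul_eq_mul, card_fs, SetLike.coe_sort_coe,
      ← card_inf_mul_relIndex N[U] G, inf_comm, mul_assoc, mul_comm _ #(G ⊓ N[U])] at c3
    have := Nat.eq_of_mul_eq_mul_left (cardG_pos _) c3
    rw [← c1, ← c2, ← this]; ring
  · obtain ⟨g0, h3, h4⟩ := h1 l (Finset.ne_of_mem_erase hl)
    rw [← SetLike.coe_sort_coe, ← card_fs]
    refine Finset.card_bij (fun g _ => g0⁻¹ * g) (fun g hg => ?_) (fun _ _ _ _ e => mul_left_cancel e)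
      fun g hg => ⟨g0 * g, ?_, by group⟩
    · obtain ⟨h5, h6⟩ := Finset.mem_filter.1 hg
      have h7 : g0⁻¹ * g ∈ G := mul_mem (inv_mem h3) (mem_fs.1 h5)
      refine mem_fs.2 ⟨h7, h2 (cjD (hA.norm h3) l) (fun e => Finset.ne_of_mem_erase hl
        (inj _ (e.trans (map_one _).symm))) ((key h3 l).2 h4) _ h7 ?_⟩
      rw [lin_cjD]
      rintro _ ⟨u, hu, rfl⟩
      refine mem_inertia_cj.2 (h6 ⟨u, hu, ?_⟩)
      simp only [MulEquiv.coe_toMonoidHom, MulAut.conj_apply]; group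
    · have h5 : g ∈ G ⊓ N[U] := mem_fs.1 hg
      exact Finset.mem_filter.2 ⟨mem_fs.2 (mul_mem h3 h5.1), by
        show BG.cj (g0 * g) U ≤ _
        rw [BG.cj_mul, cj_of_norm h5.2]; exact h4⟩
  · have h3 : g ∈ G := mem_fs.1 hg
    refine Finset.card_bij (fun l _ => cjD (hA.norm h3) l) (fun l hl => ?_) (fun _ _ _ _ e => inj _ e)
      fun l hl => ?_
    · obtain ⟨h5, h6⟩ := Finset.mem_filter.1 hl
      exact Finset.mem_filter.2 ⟨Finset.mem_erase.2 ⟨fun e => Finset.ne_of_mem_erase h5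
        (inj _ (e.trans (map_one _).symm)), Finset.mem_univ _⟩, (key h3 l).2 h6⟩
    · obtain ⟨h5, h6⟩ := Finset.mem_filter.1 hl
      obtain ⟨k, rfl⟩ := (Finite.injective_iff_surjective.1 (inj (hA.norm h3))) l
      exact ⟨k, Finset.mem_filter.2 ⟨Finset.mem_erase.2 ⟨fun e => Finset.ne_of_mem_erase h5
        (by rw [e, map_one]), Finset.mem_univ _⟩, (key h3 k).1 h6⟩, rfl⟩

end Cfsg.Agent.PF.CH.Nd
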