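import Cfsg.Agent.Classical.Nd1

/-! Solvable groups without divisibility among nonlinear character degrees, II: the Frobenius
quotient configuration `Core`/`St`, linear characters of `M = O_p'(N')`. -/

set_option autoImplicit false
set_option maxSynthPendingDepth 3
set_option linter.unusedVariables false
set_option linter.unusedSectionVars false

namespace Cfsg.Agent.PF.CH.Nd
open Cfsg.Agent.BG
open scoped _root_.Classical ComplexConjugate commutatorElement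

variable {X : Type*} [Group X] [Finite X]
variable {A B C D E G H K L M N P Q R S T U V W Y Z : Subgroup X} {χ ψ φ θ ω η ξ β : X → ℂ}
  {a b g s x y z : X} {p q e f m n : ℕ} {π : Set ℕ}

local notation "Sol" => Group.IsSolvable

/-- the Frobenius quotient configuration -/
structure Core (G N K : Subgroup X) : Prop where
  sol : Sol G
  nd : ND G
  nN : N ⊴ G
  nK : K ⊴ G
  lt : K < N
  ltG : N < G
  der : ⁅N, N⁆ ≤ K
  nle : ¬ ⁅G, G⁆ ≤ K
  max : ∀ Y, Y ⊴ G → ¬ Y ≤ K → N ≤ Y ⊔ K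
  van : ∀ ψ ∈ Irr N, deg ψ ≠ 1 → vo ψ ≤ K
  cop : ∀ χ ∈ Irr G, ¬ ⁅N, N⁆ ≤ cfker χ → (deg χ).Coprime (N.relIndex G)

theorem Core.ext (h : Core G N K) (hψ : ψ ∈ Irr N) (h1 : deg ψ ≠ 1) :
    ∃ χ ∈ Irr G, dot N χ ψ ≠ 0 ∧ deg χ = deg ψ := by
  obtain ⟨χ, h2, h3⟩ := exists_constt_Ind h.nN.le hψ
  obtain ⟨e, h4, h5⟩ := deg_dvd h.nN hψ h2 h3
  have h6 := h.cop χ h2 fun h7 => h1 ((deg_eq_one_iff hψ).2
    ((cfker_Res_constt_iff h.nN (der_sub N) (h.nN.comm h.nN).norm h2 hψ h3).1 h7))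
  rw [Nat.eq_one_of_dvd_coprimes h6 (h5 ▸ dvd_mul_right _ _) h4, one_mul] at h5
  exact ⟨χ, h2, h3, h5⟩

theorem Core.ndN (h : Core G N K) : ND N := fun χ hχ ψ hψ h1 h2 => by
  obtain ⟨χ', a1, -, a2⟩ := h.ext hχ h1
  obtain ⟨ψ', b1, -, b2⟩ := h.ext hψ fun e => h1 (Nat.dvd_one.1 (e ▸ h2))
  rw [← a2, ← b2]
  exact h.nd _ a1 _ b1 (a2 ▸ h1) (a2 ▸ b2 ▸ h2)

/-- the configuration with the normal `p`-complement `L` of `N` and `M = L ∩ N'` -/
structure St (G N K L M : Subgroup X) (p : ℕ) : Prop extends Core G N K where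
  pr : p.Prime
  dvd : p ∣ K.relIndex N
  nL : L ⊴ G
  hall : IsPiHallOf {p}ᶜ L N
  eM : M = L ⊓ ⁅N, N⁆

theorem Core.exists_St (h : Core G N K) : ∃ p L M, St G N K L M p := by
  have h1 := Nat.minFac_prime (mt Subgroup.relIndex_eq_one.1 h.lt.not_ge)
  obtain ⟨L, h2, h3⟩ := thompson' (G := N) h1 fun ψ hψ h2 => h1.dvd_of_dvd_pow
    ((Nat.minFac_dvd _).trans (relIndex_dvd_of_vo (h.nK.subl h.lt.le h.nN.le) hψ (h.van ψ hψ h2)))
  exact ⟨_, L, _, h, h1, Nat.minFac_dvd _, normal_Hall_pcore h3 h2 ▸ h.nN.pcore _, h3, rfl⟩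

namespace St

theorem nM (h : St G N K L M p) : M ⊴ G := h.eM ▸ h.nL.inf (h.nN.comm h.nN)
theorem ML (h : St G N K L M p) : M ≤ L := h.eM ▸ inf_le_left
theorem MD (h : St G N K L M p) : M ≤ ⁅N, N⁆ := h.eM ▸ inf_le_right
theorem MN (h : St G N K L M p) : M ≤ N := h.MD.trans (der_sub N)
theorem Mp (h : St G N K L M p) : PiGrp {p}ᶜ M := pgroupS h.ML h.hall.pi
theorem LN (h : St G N K L M p) : ⁅L, N⁆ ≤ M :=
  h.eM ▸ le_inf (commg_subl (h.nN.le.trans h.nL.norm)) (commSg N h.hall.le)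
theorem idx (h : St G N K L M p) : PiNat {p} (L.relIndex N) := by simpa using h.hall.idx
theorem derM (h : St G N K L M p) (h0 : M ≠ ⊥) : ⁅M, M⁆ < M :=
  sol_der1_proper (solvableS h.nM.le h.sol) h0

theorem fix (h : St G N K L M p) (hx : x ∈ N) (hK : x ∉ K) (hp : PiElt {p} x) (hy : y ∈ M)
    (hc : Commute x y) : y = 1 :=
  camina_fix hx hK h.der h.van (h.MD hy) hp (mem_p_elt h.Mp hy) hc

theorem not_le (h : St G N K L M p) (hY : Y ⊴ G) (h1 : ¬ Y ≤ K) (hP : SylowIn p P (N ⊓ Y)) : ¬ P ≤ K := by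
  intro h2
  have := Fact.mk h.pr
  have h3 : N ⊓ Y ⊔ K = N := by
    rw [← group_modr (.inl (hY.le.trans h.nK.norm)) h.lt.le, inf_eq_left.2 (h.max Y hY h1)]
  have h4 := h.dvd
  rw [← h3, relIndex_sup_normr (inf_le_right.trans (hY.le.trans h.nK.norm))] at h4
  exact hP.not_dvd (h4.trans (Subgroup.relIndex_dvd_of_le_left _ h2))

theorem noY (h : St G N K L M p) (hY : Y ⊴ G) (h1 : A < B) (h2 : B ≤ M) (h3 : ⁅B, Y⁆ ≤ A) : Y ≤ K := by
  by_contra h4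
  have := Fact.mk h.pr
  obtain ⟨P, hP⟩ := Sylow_exists p (N ⊓ Y)
  obtain ⟨x, h5, h6⟩ := SetLike.not_le_iff_exists.1 (h.not_le hY h4 hP)
  have := card_le_of_fpf (A := A) (B := B) (x := x)
    (fun m hm => h.fix (hP.le h5).1 h6 (mem_p_elt hP.pi h5) (h2 hm))
    fun m hm => h3 (Subgroup.commutator_mem_commutator hm (hP.le h5).2)
  exact h1.ne (Subgroup.eq_of_le_of_card_ge h1.le this)

theorem CL_le_K (h : St G N K L M p) (h0 : M ≠ ⊥) : CL G M ≤ K :=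
  h.noY (CL_normal h.nM) (h.derM h0) le_rfl (comm_CL h.nM)

theorem compl (h : St G N K L M p) : ∃ H ≤ G, M ⊔ H = G ∧ M ⊓ H = ⊥ := by
  have := Fact.mk h.pr
  obtain ⟨P, hP⟩ := Sylow_exists p N
  have h1 := sdprod_of_pHall (setI_normal_Hall (h.nL.subl h.hall.le h.nN.le) h.hall (der_sub N))
    (normalGI (der_sub N) (h.nL.subl h.hall.le h.nN.le))
    (by rw [compl_compl]; exact Hall_setI_normal (der_normal N) hP)
  have h2 : ⁅N, N⁆ ≤ M ⊔ P := h1.sup ▸ sup_le_sup (h.eM ▸ (inf_comm _ _).le) inf_le_left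
  have h3 : M ⊔ P ≤ N := sup_le h.MN hP.le
  have h4 : M ⊔ P ⊴ G := ⟨h3.trans h.nN.le, by
    rw [← Frattini_arg h.nN hP]
    exact sup_le (sub_der1_normal h2 h3).norm (normsY (inf_le_left.trans h.nM.norm) inf_le_right)⟩
  refine ⟨G ⊓ N[P], inf_le_left, ?_, eq_bot_iff.2 fun m hm => ?_⟩
  · conv_rhs => rw [← Frattini_arg h4 (pHall_subl le_sup_right h3 hP)]
    rw [sup_assoc, sup_eq_right.2 (le_inf (hP.le.trans h.nN.le) (normG P))]
  · obtain ⟨x, h5, h6⟩ := SetLike.not_le_iff_exists.1 (h.not_le (normal_refl G)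
      (h.lt.trans h.ltG).not_ge (P := P) (by rwa [inf_eq_left.2 h.nN.le]))
    refine h.fix (hP.le h5) h6 (mem_p_elt hP.pi h5) hm.1 (commutatorElement_eq_one_iff_commute.1 ?_)
    refine Subgroup.mem_bot.1 (pgroup_TI hP.pi h.Mp ▸ ⟨?_, ?_⟩)
    · rw [commutatorElement_def, mul_assoc, mul_assoc, ← mul_assoc m]
      exact mul_mem h5 (conj_mem_of_norm hm.2.2 (inv_mem h5))
    · exact M.mul_mem (h.nM.conj_mem (h.nN.le (hP.le h5)) hm.1) (M.inv_mem hm.1)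

theorem lin_main (h : St G N K L M p) {l : Dual M} (hl : l ≠ 1) :
    ⁅G ⊓ inertia (lin l), G ⊓ inertia (lin l)⁆ ≤ M ∧ (G ⊓ inertia (lin l)).relIndex G ≠ 1 ∧
      ((G ⊓ inertia (lin l)).relIndex G).Coprime (N.relIndex G) ∧
      ∃ χ ∈ Irr G, deg χ = (G ⊓ inertia (lin l)).relIndex G := by
  obtain ⟨H, h1, h2, h3⟩ := h.compl
  have hθ := lin_mem_Irr l
  have hMT := le_inf_inertia h.nM.le (Irr_CF hθ)
  have h0 : ¬ M ≤ cfker (lin l) := mt Dual_eq_one hl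
  have h4 : (G ⊓ inertia (lin l)).relIndex G ≠ 1 := fun e => (h.lt.trans h.ltG).not_ge
    (h.noY (normal_refl G) (inf_lt_left.2 h0) le_rfl (le_inf (commg_subl h.nM.norm) (by
      rw [commGC]
      exact comm_le_of_inv h.nM.norm hθ (lin_apply_one l)
        ((Subgroup.relIndex_eq_one.1 e).trans inf_le_right))))
  obtain ⟨η, h5, h6, -⟩ := glue (W := G ⊓ inertia (lin l) ⊓ H) (K := ⊥) (ξ := one _)
    (h.nM.subl hMT inf_le_left) inf_le_left (by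
      rw [sup_comm, ← group_modl (.inr (h1.trans h.nM.norm)) hMT, h2]; exact le_inf le_rfl inf_le_left)
    hθ inf_le_right (by rw [inf_assoc, inf_comm H, h3, inf_bot_eq])
    (Res_irr_of_one bot_le hθ (lin_apply_one l)) (one_mem_Irr _) (by
      rw [Res_eq_smul_one bot_le, Res_eq_smul_one bot_le, lin_apply_one, one_apply_one])
  obtain ⟨h7, χ, h8, h9, h10⟩ := h.nd.ext h.nM hθ ⟨η, h5, h6⟩ (by rwa [deg_lin, mul_one])
  rw [deg_lin, mul_one] at h10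
  exact ⟨h7, h4, h10 ▸ h.cop χ h8 fun e => h0 ((cfker_Res_constt_iff h.nM le_rfl h.nM.norm h8 hθ h9).1
    (h.MD.trans e)), χ, h8, h10⟩

theorem d_of_dvd (h : St G N K L M p) {l : Dual M} (hl : l ≠ 1) (hχ : χ ∈ Irr G)
    (hd : (G ⊓ inertia (lin l)).relIndex G ∣ deg χ) : deg χ = (G ⊓ inertia (lin l)).relIndex G := by
  obtain ⟨-, h1, -, ψ, h2, h3⟩ := h.lin_main hl
  rw [← h3] at h1 hd ⊢
  exact (h.nd ψ h2 χ hχ h1 hd).symm

theorem supT (h : St G N K L M p) {l : Dual M} (hl : l ≠ 1) : N ⊔ G ⊓ inertia (lin l) = G :=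
  sup_eq_of_coprime_idx h.nN.le inf_le_left (h.lin_main hl).2.2.1.symm

theorem idxT (h : St G N K L M p) {l : Dual M} (hl : l ≠ 1) :
    (G ⊓ inertia (lin l)).relIndex G = (G ⊓ inertia (lin l)).relIndex N := by
  rw [← relIndex_sup_norm (inf_le_left.trans h.nN.norm), h.supT hl]

theorem toCL (h : St G N K L M p) {l : Dual M} (hl : l ≠ 1) (hz : z ∈ G ⊓ inertia (lin l))
    (hc : ∀ n ∈ N, z * n * z⁻¹ * n⁻¹ ∈ CL G M) : z ∈ CL G M := by
  refine phi h.nM (fun l k hl hk h1 => ?_) hz.1 (fun g hg => ?_) hl hz.2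
  · obtain ⟨-, -, -, χ, h2, h3⟩ := h.lin_main hl
    have h4 : G ⊓ inertia (lin l) ≤ G ⊓ inertia (lin k) := le_inf inf_le_left h1
    have h5 := h.d_of_dvd hk h2 (h3 ▸ Subgroup.relIndex_dvd_of_le_left _ h4)
    have h6 := Subgroup.relIndex_mul_relIndex _ _ _ h4 inf_le_left
    rw [← h3, h5] at h6
    exact (Subgroup.relIndex_eq_one.1 ((Nat.mul_eq_right (relIndex_pos _ _).ne').1 h6)).trans inf_le_right
  · rw [← h.supT hl, mem_sup_norml (inf_le_left.trans h.nN.norm)] at hg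
    obtain ⟨n, hn, t, ht, rfl⟩ := hg
    rw [show z * (n * t) * z⁻¹ * (n * t)⁻¹ = z * n * z⁻¹ * n⁻¹ * (n * ⁅z, t⁆ * n⁻¹) by
      rw [commutatorElement_def]; group]
    exact mul_mem (hc n hn) ((CL_normal h.nM).conj_mem (h.nN.le hn) (le_CL h.nM h.nM.le le_rfl
      ((h.lin_main hl).1 (Subgroup.commutator_mem_commutator hz ht))))

theorem L_inf (h : St G N K L M p) {l : Dual M} (hl : l ≠ 1) :
    G ⊓ inertia (lin l) ⊓ L = CL G M ⊓ L := le_antisymm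
  (fun z hz => ⟨h.toCL hl hz.1 fun n hn => le_CL h.nM h.nM.le le_rfl
    (h.LN (Subgroup.commutator_mem_commutator hz.2 hn)), hz.2⟩)
  (inf_le_inf_right _ (le_inf CL_le (CL_le_inertia l)))

theorem d_eq (h : St G N K L M p) {l k : Dual M} (hl : l ≠ 1) (hk : k ≠ 1) :
    (G ⊓ inertia (lin l)).relIndex G = (G ⊓ inertia (lin k)).relIndex G := by
  have key : ∀ {l : Dual M}, l ≠ 1 →
      ∃ i, p ^ i * (G ⊓ inertia (lin l)).relIndex G = (CL G M ⊓ L).relIndex N := fun {l} hl => by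
    obtain ⟨i, hi⟩ := (p_natP h.pr).1 (h.idx.of_dvd (relIndex_dvd_of_norm (h.nN.le.trans h.nL.norm)
      (inf_le_right : G ⊓ inertia (lin l) ⊓ N ≤ N)))
    refine ⟨i, ?_⟩
    rw [← hi, h.idxT hl, ← h.L_inf hl, ← Subgroup.inf_relIndex_right (G ⊓ inertia (lin l)) N,
      ← Subgroup.inf_relIndex_left, Subgroup.relIndex_mul_relIndex _ _ _ inf_le_left inf_le_right,
      inf_assoc, inf_eq_right.2 h.hall.le]
  obtain ⟨i, hi⟩ := key hl
  obtain ⟨j, hj⟩ := key hk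
  wlog hij : i ≤ j generalizing l k i j
  · exact (this hk hl j hj i hi (_root_.not_le.1 hij).le).symm
  obtain ⟨s, rfl⟩ := Nat.exists_eq_add_of_le hij
  rw [← hi, pow_add, mul_assoc] at hj
  obtain ⟨-, -, -, χ, h2, h3⟩ := h.lin_main hl
  rw [← h3, h.d_of_dvd hk h2]
  exact h3 ▸ Dvd.intro_left _ (Nat.eq_of_mul_eq_mul_left (pow_pos h.pr.pos _) hj)

theorem deg_pow (h : St G N K L M p) (hψ : ψ ∈ Irr N) (hk : M ≤ cfker ψ) : ∃ k, deg ψ = p ^ k := by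
  have hL := h.nL.subl h.hall.le h.nN.le
  obtain ⟨θ, h1, h2⟩ := exists_constt_Res hL.le hψ
  obtain ⟨e, h3, h4⟩ := deg_dvd hL h1 hψ h2
  rw [(deg_eq_one_iff h1).2 ((cfker_Res_constt_iff hL (der_sub L) (hL.comm hL).norm hψ h1 h2).1
    (((commgS L hL.le).trans h.LN).trans hk)), mul_one] at h4
  exact (p_natP h.pr).1 (h4 ▸ h.idx.of_dvd h3)

theorem deg_ker (h : St G N K L M p) {l : Dual M} (hl : l ≠ 1) (hψ : ψ ∈ Irr N) (hk : M ≤ cfker ψ)
    (h1 : deg ψ ≠ 1) : deg ψ = (G ⊓ inertia (lin l)).relIndex G := by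
  obtain ⟨k, h2⟩ := h.deg_pow hψ hk
  have n1 : G ⊓ inertia (lin l) ⊓ N ≤ N[M] := inf_le_right.trans (h.nN.le.trans h.nM.norm)
  have n2 : L ≤ N[M] := h.nL.le.trans h.nM.norm
  have h3 : G ⊓ inertia (lin l) ⊓ N ⊔ L ≤ N := sup_le inf_le_right h.hall.le
  have h4 := deg_le_relIndex hψ h3 (le_trans (comm_sup_le n1 n2 (by
    rw [commGC]
    exact comm_sup_le n1 n2 ((dergS inf_le_left).trans (h.lin_main hl).1)
      ((commgS L inf_le_right).trans h.LN)) ((commgS L h3).trans h.LN)) hk)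
  obtain ⟨e, h5⟩ := (p_natP h.pr).1 (h.idx.of_dvd (Subgroup.relIndex_dvd_of_le_left N
    (le_sup_right : L ≤ G ⊓ inertia (lin l) ⊓ N ⊔ L)))
  have h6 := Subgroup.relIndex_dvd_of_le_left N (le_sup_left : _ ≤ G ⊓ inertia (lin l) ⊓ N ⊔ L)
  rw [Subgroup.inf_relIndex_right, ← h.idxT hl, h5] at h6
  rw [h2, h5, Nat.pow_le_pow_iff_right h.pr.one_lt] at h4
  obtain ⟨-, -, -, χ, h7, h8⟩ := h.lin_main hl
  obtain ⟨χ', h9, -, h10⟩ := h.ext hψ h1
  rw [← h8, ← h10]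
  exact h.nd _ h9 _ h7 (h10 ▸ h1) (by rw [h10, h8, h2]; exact (pow_dvd_pow _ h4).trans h6)

theorem deg_lin' (h : St G N K L M p) {l : Dual M} (hl : l ≠ 1) (hψ : ψ ∈ Irr N)
    (hk : ⁅M, M⁆ ≤ cfker ψ) : deg ψ = 1 ∨ deg ψ = (G ⊓ inertia (lin l)).relIndex G := by
  refine or_iff_not_imp_left.2 fun h1 => ?_
  by_cases h2 : M ≤ cfker ψ
  · exact h.deg_ker hl hψ h2 h1
  have hM := h.nM.subl h.MN h.nN.le
  obtain ⟨θ, h3, h4⟩ := exists_constt_Res h.MN hψ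
  obtain ⟨k, rfl⟩ := Irr_exists_lin h3 ((Irr_apply_one_iff h3).2
    ((cfker_Res_constt_iff hM (der_sub M) (hM.comm hM).norm hψ h3 h4).1 hk))
  have h5 : k ≠ 1 := fun e => h2 ((cfker_Res_constt_iff hM le_rfl hM.norm hψ h3 h4).2
    (by rw [e, lin_one, cfker_one]))
  obtain ⟨χ, h6, h7, h8⟩ := h.ext hψ h1
  rw [← h8, h.d_eq hl h5]
  exact h.d_of_dvd h5 h6 (relIndex_dvd_deg h.nM h3 h6
    (dot_ne_zero_trans h.MN h.nN.le (Irr_isChar h6) hψ (Irr_isChar h3) h7 h4) le_rfl)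

theorem exists_ne (h : St G N K L M p) (h0 : M ≠ ⊥) : ∃ l : Dual M, l ≠ 1 := by
  have : Nontrivial (Dual M) := Finite.one_lt_card_iff_nontrivial.1 (by
    rw [card_Dual']
    exact lt_of_le_of_ne (relIndex_pos _ _) (Ne.symm (mt Subgroup.relIndex_eq_one.1 (h.derM h0).not_ge)))
  exact _root_.exists_ne 1

theorem der2 (h : St G N K L M p) (h0 : M ≠ ⊥) : ⁅⁅N, N⁆, ⁅N, N⁆⁆ ≤ ⁅M, M⁆ := by
  obtain ⟨l, hl⟩ := h.exists_ne h0
  have n : N ≤ N[⁅M, M⁆] := h.nN.le.trans (h.nM.comm h.nM).norm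
  have h1 : CD2 (N /ᵍ ⁅M, M⁆) ((G ⊓ inertia (lin l)).relIndex G) := fun χ hχ => by
    obtain ⟨ψ, h1, h2, h3⟩ := exists_infl n hχ
    exact h3 ▸ h.deg_lin' hl h1 (le_trans (le_inf ((der_sub M).trans h.MN) le_rfl) h2)
  have h2 := h1.der.cent
  rwa [← quotient_der n, quotient_cents2 ((der_sub N).trans n) ((der_sub N).trans n)] at h2

theorem N_inf (h : St G N K L M p) {l : Dual M} (hl : l ≠ 1) (hz : z ∈ N) (hi : z ∈ inertia (lin l)) :
    z ∈ CL G M := h.toCL hl ⟨h.nN.le hz, hi⟩ fun n hn =>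
  le_CL h.nM ((der_sub N).trans h.nN.le) ((commgS _ h.MD).trans (h.der2 fun e => hl (Dual_eq_one
    (e.trans_le bot_le)))) (Subgroup.commutator_mem_commutator hz hn)

end St

end Cfsg.Agent.PF.CH.Nd
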