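import Cfsg.Agent.Classical.Nd2

/-! Solvable groups without divisibility among nonlinear character degrees, III: `M` is abelian, so
the Frobenius kernel preimage `N` has a single nonlinear degree (`Core.cd2`). -/

set_option autoImplicit false
set_option maxSynthPendingDepth 3
set_option linter.unusedVariables false
set_option linter.unusedSectionVars false

namespace Cfsg.Agent.PF.CH.Nd
open Cfsg.Agent.BG
open scoped _root_.Classical ComplexConjugate commutatorElement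

universe u
variable {X : Type u} [Group X] [Finite X]
variable {A B C D E G H K L M N P Q R S T U V W Y Z : Subgroup X} {χ ψ φ θ ω η ξ β : X → ℂ}
  {a b g s x y z : X} {p q t e f m n : ℕ} {π : Set ℕ}

local notation "Sol" => Group.IsSolvable

/-- the linear characters fixing `θ` under multiplication -/
def stabD (hθ : θ ∈ CF M) : Subgroup (Dual M) where
  carrier := {l | θ * lin l = θ}
  mul_mem' := fun {l k} h1 h2 => by
    show θ * lin (l * k) = θ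
    rw [lin_mul, ← mul_assoc, show θ * lin l = θ from h1, show θ * lin k = θ from h2]
  one_mem' := mul_lin_one hθ
  inv_mem' := fun {l} h1 => by
    show θ * lin l⁻¹ = θ
    conv_lhs => rw [← show θ * lin l = θ from h1]
    rw [mul_assoc, ← lin_mul, mul_inv_cancel, mul_lin_one hθ]

theorem count2 [Fact t.Prime] (hA : A ⊴ G) (hR : R ⊴ G) (hS : SylowIn t S G)
    (h : ∀ l : Dual A, l ≠ 1 → R ≤ inertia (lin l) ∧
      ⁅G ⊓ inertia (lin l), G ⊓ inertia (lin l)⁆ ≤ R ∧ ¬ t ∣ (G ⊓ inertia (lin l)).relIndex G) :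
    Nat.card (Dual A) + N[S ⊔ R].relIndex G = N[S ⊔ R].relIndex G *
      Nat.card (fixD A (S ⊔ R) ((sup_le hS.le hR.le).trans hA.norm)) + 1 := by
  refine count hA (sup_le hS.le hR.le) (fun l hl => ?_) fun l hl h1 g hg h2 => ?_
  · obtain ⟨P, hP⟩ := Sylow_exists t (G ⊓ inertia (lin l))
    obtain ⟨g, hg, e⟩ := Sylow_trans hS (pHall_trans_idx hP inf_le_left
      ((p'natE Fact.out).2 (h l hl).2.2))
    exact ⟨g, hg, by rw [cj_sup, ← e, hR.cj_eq hg]; exact sup_le (hP.le.trans inf_le_right) (h l hl).1⟩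
  · have h3 : S ⊔ R ≤ G ⊓ inertia (lin l) := le_inf (sup_le hS.le hR.le) h1
    have h4 := sub_der1_normal ((h l hl).2.1.trans le_sup_right) h3
    obtain ⟨u, hu, e⟩ := Sylow_trans (pHall_subl (le_sup_left.trans h3) inf_le_left hS)
      (pHall_subl (le_inf (cj_le_of_mem hg hS.le) ((cj_mono g le_sup_left).trans h2)) inf_le_left
        (pHallJsub hg hS))
    refine mem_norm_of_cj_le ?_
    rw [cj_sup, hR.cj_eq hg, e]
    exact sup_le ((cj_mono u le_sup_left).trans (h4.cj_eq hu).le) le_sup_right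

namespace St

theorem uniq (h : St G N K L M p) (hθ : θ ∈ CF M) (ha : a ∈ N) (h0 : a ∉ CL G M) (h1 : a ∈ inertia θ)
    {l : Dual M} (h2 : a ∈ inertia (θ * lin l)) : θ * lin l = θ := by
  have n := h.nM.norm (h.nN.le ha)
  have inj : ∀ k k' : Dual M, cjD n k * k⁻¹ = cjD n k' * k'⁻¹ → k = k' := fun k k' e => by
    refine by_contra fun h3 => h0 (h.N_inf (l := k * k'⁻¹) (mt mul_inv_eq_one.1 h3) ha ?_)
    rw [mem_inertia_lin n, map_mul, map_inv, mul_inv_eq_iff_eq_mul.1 e]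
    simp only [mul_comm, mul_left_comm, mul_assoc, mul_inv_cancel_left, mul_inv_cancel, mul_one,
      inv_mul_cancel_left]
  have h3 : ∀ k ∈ stabD hθ, cjD n k * k⁻¹ ∈ stabD hθ := fun k hk => mul_mem (by
    show θ * lin (cjD n k) = θ
    conv_lhs => rw [lin_cjD, ← mem_inertia.1 h1, ← PF.cj_mul, show θ * lin k = θ from hk]
    exact h1) (inv_mem hk)
  obtain ⟨k, hk⟩ := (Finite.injective_iff_surjective (f := fun k : stabD hθ =>
    (⟨_, h3 k k.2⟩ : stabD hθ))).1 (fun k k' e => Subtype.ext (inj _ _ (congrArg Subtype.val e)))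
    ⟨cjD n l * l⁻¹, by
      show θ * lin (cjD n l * l⁻¹) = θ
      rw [lin_mul, ← mul_assoc, lin_cjD]
      conv_lhs => rw [← mem_inertia.1 h1, ← PF.cj_mul, mem_inertia.1 h2]
      rw [mul_assoc, ← lin_mul, mul_inv_cancel, mul_lin_one hθ]⟩
  exact inj _ _ (congrArg Subtype.val hk) ▸ k.2

theorem big (h : St G N K L M p) (hθ : θ ∈ Irr M) (h1 : deg θ ≠ 1) :
    ∃ a ∈ N, a ∉ CL G M ∧ a ∈ inertia θ := by
  by_contra h2
  push Not at h2
  obtain ⟨l, hl⟩ := h.exists_ne fun e => h1 ((deg_eq_one_iff hθ).2 ((der_sub M).trans (e.trans_le bot_le)))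
  obtain ⟨ψ, h3, h4⟩ := exists_constt_Ind h.MN hθ
  obtain ⟨e, -, -, h5⟩ := dvdn_constt_Res1_irr1 (h.nM.subl h.MN h.nN.le) h3 hθ h4
  have h6 : (G ⊓ inertia (lin l)).relIndex G ∣ (inertia θ).relIndex N := by
    rw [h.idxT hl, ← Subgroup.inf_relIndex_left N (inertia θ)]
    refine Subgroup.relIndex_dvd_of_le_left _ fun a ha => ?_
    have : a ∈ CL G M := by_contra fun h6 => h2 a ha.1 h6 ha.2
    exact ⟨CL_le this, CL_le_inertia l this⟩
  obtain ⟨χ, h7, -, h8⟩ := h.ext h3 fun e' => h1 (Nat.dvd_one.1 (e' ▸ h5 ▸ dvd_mul_left _ _))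
  obtain ⟨c, h9⟩ := h6
  have h10 := h.d_of_dvd hl h7 ⟨e * c * deg θ, by rw [h8, h5, h9]; ring⟩
  rw [h8, h5, h9, show ∀ d, e * (d * c) * deg θ = d * (e * c * deg θ) from fun d => by ring] at h10
  exact h1 (Nat.eq_one_of_mul_eq_one_left ((Nat.mul_eq_left (relIndex_pos _ _).ne').1 h10))

theorem mul_lin (h : St G N K L M p) (hθ : θ ∈ Irr M) (h1 : deg θ ≠ 1) (l : Dual M) : θ * lin l = θ := by
  have h0 : M ≠ ⊥ := fun e => h1 ((deg_eq_one_iff hθ).2 ((der_sub M).trans (e.trans_le bot_le)))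
  have c := Irr_CF hθ
  obtain ⟨a, a1, a2, a3⟩ := h.big hθ h1
  obtain ⟨b, b1, b2, b3⟩ := h.big (Irr_mul_lin hθ l) (by
    rwa [(Irr_isChar hθ).deg_mul (isChar_lin _), deg_lin, mul_one])
  have nM : N ≤ N[M] := h.nN.le.trans h.nM.norm
  have k1 : ∀ g ∈ N, ∀ l : Dual M, g ∈ inertia (θ * lin l) → ∀ k : Dual M,
      ∃ k' : Dual M, cj g (θ * lin k) = θ * lin k' := fun g hg l hi k => by
    refine ⟨l * cjD (nM hg) (l⁻¹ * k), ?_⟩
    rw [lin_mul, ← mul_assoc, ← mem_inertia.1 hi, lin_cjD, ← PF.cj_mul, mul_assoc, ← lin_mul,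
      mul_inv_cancel_left]
  have a4 : a ∈ inertia (θ * lin (1 : Dual M)) := by rwa [mul_lin_one c]
  obtain ⟨j1, e1⟩ := k1 b b1 l b3 1
  obtain ⟨j2, e2⟩ := k1 a a1 1 a4 j1
  obtain ⟨j3, e3⟩ := k1 _ (inv_mem b1) l (inv_mem b3) j2
  obtain ⟨j4, e4⟩ := k1 _ (inv_mem a1) 1 (inv_mem a4) j3
  rw [mul_lin_one c] at e1
  rw [← e3, ← e2, ← e1, cj_cj, cj_cj, cj_cj, ← mul_assoc, ← mul_assoc, ← commutatorElement_def] at e4
  have y1 : ⁅b, a⁆ ∈ ⁅N, N⁆ := Subgroup.commutator_mem_commutator b1 a1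
  have y2 : ⁅b, a⁆ ∈ CL G M := le_CL h.nM ((der_sub N).trans h.nN.le) ((commgS _ h.MD).trans (h.der2 h0)) y1
  have y3 : ∀ i : ℕ, cj (⁅b, a⁆ ^ i) θ = θ * lin (j4 ^ i) := fun i => by
    induction i with
    | zero => rw [pow_zero, pow_zero, PF.cj_one, mul_lin_one c]
    | succ i ih => rw [pow_succ, ← cj_cj, ih, PF.cj_mul, e4, mem_inertia.1 (CL_le_inertia _ y2),
        mul_assoc, ← lin_mul, pow_succ']
  have y4 : j4 ^ M.relIndex ⁅N, N⁆ ∈ stabD c := (y3 _).symm.trans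
    (le_inertia_of_CF c (pow_relIndex_mem ((der_sub N).trans nM) y1))
  have y5 : (M.relIndex ⁅N, N⁆).Coprime (orderOf j4) := by
    refine pnat_coprime (π := {p}) (h.idx.of_dvd ?_) (h.Mp.of_dvd ((orderOf_dvd_natCard j4).trans ?_))
    · rw [h.eM, Subgroup.inf_relIndex_right]
      exact relIndex_dvd_of_norm (h.nN.le.trans h.nL.norm) (der_sub N)
    · rw [card_Dual']; exact Subgroup.relIndex_dvd_card _ _
  have y6 : θ * lin j4 = θ := (Subgroup.zpowers_le.2 y4) (mem_zpowers_pow_iff.2 y5)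
  have y7 : a ∈ inertia (θ * lin j1) := by
    rw [← e1, mem_inertia_cj, show b * a * b⁻¹ = ⁅b, a⁆ * a by rw [commutatorElement_def]; group]
    exact mul_mem (e4.trans y6) a3
  exact h.uniq c b1 b2 (e1.trans (h.uniq c a1 a2 a3 y7)) b3

theorem vanM (h : St G N K L M p) (θ : X → ℂ) (hθ : θ ∈ Irr M) (h1 : deg θ ≠ 1) : vo θ ≤ ⁅M, M⁆ :=
  le_of_cfker (der_normal M) (vo_le fun x => CF_zero (Irr_CF hθ)) fun χ hχ hk => by
    obtain ⟨l, rfl⟩ := Irr_exists_lin hχ ((Irr_apply_one_iff hχ).2 hk)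
    exact vo_le_cfker (h.mul_lin hθ h1 l)

theorem pgrp [Fact q.Prime] (h : St G N K L M p) (hm : MinNormal ⁅M, M⁆ G) (hq : IsPGroup q ↥⁅M, M⁆) :
    PiGrp {q} M := fun r hr h1 => by_contra fun h2 => by
  have := Fact.mk hr
  obtain ⟨A, hA⟩ := Sylow_exists r M
  have h3 : PiGrp {r}ᶜ ⁅M, M⁆ := p'group_of_ne hq (Ne.symm h2)
  have h4 := pgroup_TI hA.pi h3
  have n : G ≤ N[⁅M, M⁆] := hm.norm
  have AG := hA.le.trans h.nM.le
  obtain ⟨V, h5, h6⟩ := minnormal_exists hm.ne (AG.trans n)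
  obtain ⟨a, h7, h8⟩ := minnormal_cyclic_quo (A := A) (by
    rw [eq_bot_iff.2 (h4 ▸ le_inf (der_sub A) (dergS hA.le) : ⁅A, A⁆ ≤ ⊥)]; exact bot_le) h5
    (solvableS (h6.trans ((der_sub M).trans h.nM.le)) h.sol)
  have h9 : A ⊓ C[V] = ⊥ := eq_bot_iff.2 fun x hx => by_contra fun h9 => h5.ne (eq_bot_iff.2 fun v hv =>
    camina_fix (hA.le hx.1) (fun e => h9 (h4 ▸ ⟨hx.1, e⟩)) le_rfl h.vanM (h6 hv) (mem_p_elt hA.pi hx.1)
      (mem_p_elt h3 (h6 hv)) (mem_cent.1 hx.2 v hv).symm)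
  rw [h9, bot_sup_eq] at h8
  have h10 : ⁅M, M⁆ ⊔ A ≤ M := sup_le (der_sub M) hA.le
  have h11 : G ≤ N[⁅M, M⁆ ⊔ A] := by
    rw [← Frattini_arg h.nM hA]
    exact sup_le (sub_der1_normal le_sup_left h10).norm (normsY (inf_le_left.trans n) inf_le_right)
  have h12 := der1_cent_cyclic (quotient_cyclic ⁅M, M⁆ (cyclicS h8 inferInstance))
    (quotientYidl (AG.trans n) ▸ quotient_norms ⁅M, M⁆ h11)
  rw [← quotient_der n, ← quotientYidl (AG.trans n), quotient_cents2 ((der_sub G).trans n)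
    ((h10.trans h.nM.le).trans n), commGC] at h12
  exact h.nle (h.noY (der_normal G) (left_lt_sup.2 fun e => Sylow_ne_bot hA h1 (h4 ▸ (inf_eq_left.2 e).symm))
    h10 h12)

theorem card_lt (h : St G N K L M p) (h0 : ⁅M, M⁆ ≠ ⊥) (hc : ⁅M, M⁆ ≤ C[M]) :
    #⁅M, M⁆ < ⁅M, M⁆.relIndex M := by
  obtain ⟨m, h1, h2⟩ := SetLike.exists_of_lt (h.derM fun e => h0 (eq_bot_iff.2 ((der_sub M).trans e.le)))
  have h3 := sum_Irr_norm_sq h1
  rw [Finset.sum_congr rfl (g := fun χ => if ⁅M, M⁆ ≤ cfker χ then (1 : ℝ) else 0) fun χ hχ => ?_,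
    Finset.sum_boole, card_Irr_ker_of_commutator_le (der_sub M) le_rfl, Nat.cast_inj] at h3
  · rw [h3]
    refine lt_of_le_of_ne (Subgroup.card_le_of_le (le_inf (der_sub M) (hc.trans (cent_le_cent1 h1))))
      fun e => h2 ?_
    rw [Subgroup.eq_of_le_of_card_ge (le_inf (der_sub M) (hc.trans (cent_le_cent1 h1))) e.ge]
    exact ⟨h1, cent1_self m⟩
  split_ifs with h4
  · obtain ⟨l, rfl⟩ := Irr_exists_lin hχ ((Irr_apply_one_iff hχ).2 h4)
    rw [norm_lin l h1, one_pow]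
  · rw [eq_zero_of_vo (h.vanM χ hχ (mt (deg_eq_one_iff hχ).1 h4)) h2, norm_zero, zero_pow two_ne_zero]

theorem not_min (h : St G N K L M p) (hm : MinNormal ⁅M, M⁆ G) : False := by
  have h0 : M ≠ ⊥ := fun e => hm.ne (eq_bot_iff.2 ((der_sub M).trans e.le))
  have nX := h.nM.comm h.nM
  obtain ⟨q, hq, hE⟩ := minnormal_solvable hm nX.le h.sol
  have := Fact.mk hq
  have hM := h.pgrp hm hE.pg
  have qp : q ≠ p := h.Mp q hq (pgroup_pdiv hM.pg h0)
  have qf : ¬ q ∣ N.relIndex G := fun h1 => by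
    obtain ⟨θ, h2, h3⟩ : ∃ θ ∈ Irr M, deg θ ≠ 1 := by
      by_contra! h2; exact hm.ne (der1_eq_bot.2 (abelian_of_deg h2))
    obtain ⟨k, h4⟩ := exists_pow_deg hq hM h2
    obtain ⟨χ, h5, h6⟩ := exists_constt_Ind h.nM.le h2
    exact Nat.Prime.not_coprime_iff_dvd.2 ⟨q, hq, (h4 ▸ dvd_pow_self q fun e => h3 (by
      rw [h4, e, pow_zero])).trans (deg_dvd_deg h.nM h2 h5 h6), h1⟩ (h.cop χ h5 fun e => h3
        ((deg_eq_one_iff h2).2 ((cfker_Res_constt_iff h.nM (der_sub M) nX.norm h5 h2 h6).1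
          ((dergS h.MN).trans e))))
  obtain ⟨R, hR⟩ := Sylow_exists q L
  have MR : M ≤ R := normal_sub_Hall hR (h.nM.subl h.ML h.nL.le) hM
  have nR : R ⊴ G := normal_Hall_pcore hR (sub_der1_normal (((commgS L h.hall.le).trans h.LN).trans MR)
    hR.le) ▸ h.nL.pcore _
  have sR : SylowIn q R G := pHall_trans_idx (subHall_Sylow h.hall qp hR) h.nN.le ((p'natE hq).2 qf)
  have XR : ⁅M, M⁆ ≤ R := (der_sub M).trans MR
  have cX : ⁅M, M⁆ ≤ C[R] := inf_eq_left.1 (hm.map_eq inf_le_left (normsI nX.norm (norms_cent nR.norm))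
    (pgroup_cent_ne_bot hR.pg hE.pg (nR.le.trans nX.norm) hm.ne))
  have f1 := mt Subgroup.relIndex_eq_one.1 h.ltG.not_ge
  have ht := Nat.minFac_prime f1
  have := Fact.mk ht
  have nt : ∀ {n : ℕ}, n.Coprime (N.relIndex G) → ¬ (N.relIndex G).minFac ∣ n := fun h1 h2 =>
    Nat.Prime.not_coprime_iff_dvd.2 ⟨_, ht, h2, Nat.minFac_dvd _⟩ h1
  obtain ⟨S, hS⟩ := Sylow_exists (N.relIndex G).minFac G
  have RC : R ≤ CL G M := by
    obtain ⟨m, h1, h2⟩ := SetLike.exists_of_lt (pgroup_comm_proper hR.pg hM.pg (nR.le.trans h.nM.norm) h0)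
    obtain ⟨χ, h3, h4, h5⟩ := exists_Irr_ker_not_mem (commg_subl (nR.le.trans h.nM.norm))
      (commg_norml M R) h1 h2
    obtain ⟨l, rfl⟩ := Irr_exists_lin h3 ((Irr_apply_one_iff h3).2 ((commgS M MR).trans h4))
    exact fun r hr => h.N_inf (l := l) (fun e => h5 (by rwa [e, lin_one, cfker_one]))
      (h.hall.le (hR.le hr)) (inv_of_comm_le (nR.le.trans h.nM.norm) (lin_mem_CF l) (commGC M R ▸ h4) hr)
  have c1 := count2 h.nM nR hS fun l hl => ⟨RC.trans (CL_le_inertia l), (h.lin_main hl).1.trans MR,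
    nt (h.lin_main hl).2.2.1⟩
  have c2 := count2 nX nR hS fun l hl => by
    have hl' := lin_mem_Irr l
    have h1 : R ≤ inertia (lin l) := inv_of_comm_le (nR.le.trans nX.norm) (lin_mem_CF l)
      ((commG1'.2 cX).trans_le bot_le)
    have RB : R ≤ G ⊓ inertia (lin l) := le_inf nR.le h1
    have sB := pHall_subl RB inf_le_left sR
    obtain ⟨A, hA⟩ := Hall_exists {q}ᶜ (solvableS (inf_le_left : G ⊓ inertia (lin l) ≤ G) h.sol)
    have AG := hA.le.trans inf_le_left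
    obtain ⟨θ, h2, h3⟩ := exists_fixed_above_sol (AG.trans nX.norm) (quotient_sol _ (solvableS AG h.sol))
      (mem_IrrFix.2 ⟨hl', hA.le.trans inf_le_right⟩) R (nX.subl XR nR.le) (AG.trans nR.norm)
      (pnat_coprime (hR.pi.of_dvd (Subgroup.relIndex_dvd_card _ _))
        (hA.pi.of_dvd (Subgroup.relIndex_dvd_card _ _)))
    obtain ⟨h2, h4⟩ := mem_IrrFix.1 h2
    obtain ⟨c, h5, -, h6⟩ := res_eq_smul (nX.subl XR nR.le) hl' h1 h2 h3
    have h7 : G ⊓ inertia θ = G ⊓ inertia (lin l) := le_antisymm (fun g hg => ⟨hg.1, by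
      have := inertia_Res (nX.norm hg.1) hg.2
      rwa [h6, inertia_smul (Nat.cast_ne_zero.2 h5.ne')] at this⟩) (le_inf inf_le_left (by
        rw [← (sdprod_of_pHall sB (nR.subl RB inf_le_left) hA).sup]
        exact sup_le (le_inertia_of_CF (Irr_CF h2)) h4))
    have h8 : ¬ ⁅M, M⁆ ≤ cfker θ := fun e => hl (Dual_eq_one ((cfker_Res_constt_iff (nX.subl XR nR.le)
      le_rfl (nR.le.trans nX.norm) h2 hl' h3).1 e))
    obtain ⟨h9, χ, h10, h11, h12⟩ := h.nd.ext nR h2 (by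
      rw [h7]; exact extend_coprime_irr' (nR.subl RB inf_le_left) sB.coprime h2 (h7 ▸ inf_le_right))
      fun e => h8 ((dergS MR).trans ((deg_eq_one_iff h2).1 (Nat.eq_one_of_mul_eq_one_left e)))
    rw [h7] at h9 h12
    exact ⟨h1, h9, fun e => nt (h.cop χ h10 fun e' => h8 ((cfker_Res_constt_iff nR XR nX.norm h10 h2 h11).1
      ((dergS h.MN).trans e'))) (h12 ▸ e.mul_right _)⟩
  have d1 : PiNat {q} (Nat.card (Dual M)) := by
    rw [card_Dual']; exact hM.of_dvd (Subgroup.relIndex_dvd_card _ _)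
  have d2 : PiNat {q} (Nat.card (Dual ⁅M, M⁆)) := by rw [card_Dual hE.abelian]; exact hE.pg.pi
  have h2 : 2 ≤ N[S ⊔ R].relIndex G := by
    refine Nat.succ_le_of_lt (lt_of_le_of_ne (Nat.succ_le_of_lt (relIndex_pos _ _)) fun e => hS.not_dvd ((Nat.minFac_dvd _).trans
      (Subgroup.relIndex_dvd_of_le_left _ fun s hs => h.lt.le (h.CL_le_K h0 (mem_CL.2 ⟨hS.le hs, fun l => ?_⟩)))))
    rw [← e, one_mul, add_left_inj] at c1
    have : l ∈ fixD M (S ⊔ R) _ := Subgroup.eq_top_of_card_eq _ c1.symm ▸ Subgroup.mem_top l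
    exact this (Subgroup.mem_sup_left hs)
  obtain ⟨i, hi⟩ := (p_natP hq).1 d1
  obtain ⟨k, hk⟩ := (p_natP hq).1 d2
  obtain ⟨j, hj⟩ := (p_natP hq).1 (d1.of_dvd (Subgroup.card_subgroup_dvd_card (fixD M (S ⊔ R) _)))
  obtain ⟨l, hl⟩ := (p_natP hq).1 (d2.of_dvd (Subgroup.card_subgroup_dvd_card (fixD ⁅M, M⁆ (S ⊔ R) _)))
  have h3 := h.card_lt hm.ne (centsS MR cX)
  rw [← card_Dual', ← card_Dual hE.abelian, hi, hk] at h3
  rw [hi, hj] at c1
  rw [hk, hl] at c2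
  have h4 : 0 < k := Nat.pos_of_ne_zero fun e => hm.ne (Subgroup.card_eq_one.1 (by
    rw [← card_Dual hE.abelian, hk, e, pow_zero]))
  exact h3.ne' (num_eq hq h2 c1 (h4.trans ((Nat.pow_lt_pow_iff_right hq.one_lt).1 h3)) c2 h4)

end St

theorem Core.quo (h : Core G N K) (hY : Y ⊴ G) (h1 : Y ≤ ⁅N, N⁆) : Core (G /ᵍ Y) (N /ᵍ Y) (K /ᵍ Y) := by
  have YK := h1.trans h.der
  have YN := h1.trans (der_sub N)
  have n := h.nN.le.trans hY.norm
  refine ⟨quotient_sol _ h.sol, fun χ hχ ψ hψ => ?_, quotient_normal Y h.nN, quotient_normal Y h.nK,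
    (quotient_proper (hY.subl YK h.nK.le) (hY.subl YN h.nN.le)).2 h.lt,
    (quotient_proper (hY.subl YN h.nN.le) hY).2 h.ltG, quotient_der n ▸ quotientS Y h.der, ?_,
    fun Z hZ h2 => ?_, fun ψ hψ h2 => vo_le fun x hx => ?_, fun χ hχ h2 => ?_⟩
  · simpa using h.nd _ (ifl_irr hY.norm hχ) _ (ifl_irr hY.norm hψ)
  · rw [← quotient_der hY.norm, quotientSGK ((der_sub G).trans hY.norm) YK]; exact h.nle
  · have := quotientS Y (h.max _ (cosetpre_normal hY hZ)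
      (mt (sub_cosetpre_quo (hY.subl YK h.nK.le)).1 h2))
    rwa [quotientY (cosetpre_norm Z) (h.nK.le.trans hY.norm), cosetpreK] at this
  · by_cases h3 : x ∈ N /ᵍ Y
    · obtain ⟨y, h4, h5, rfl⟩ := mem_quotient_iff.1 h3
      rw [← ifl_of_mem (K := Y) (α := ψ) h4]
      exact eq_zero_of_vo (h.van _ (ifl_irr n hψ) (by simpa using h2)) (mt (mem_quotient h5) hx)
    · exact CF_zero (Irr_CF hψ) h3
  · rw [index_quotient_eq h.nN.le hY.norm (inf_le_right.trans YN), ← deg_ifl (G := G)]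
    refine h.cop _ (ifl_irr hY.norm hχ) fun h3 => h2 ?_
    rw [← quotient_der n]
    intro x hx
    obtain ⟨y, h4, h5, rfl⟩ := mem_quotient_iff.1 hx
    have h6 := (Irr_mem_cfker (ifl_irr hY.norm hχ)).1 (h3 h4)
    rw [ifl_of_mem (h.nN.le (der_sub N h4)), ifl_one] at h6
    exact (Irr_mem_cfker hχ).2 h6

theorem Core.cd2_aux (n : ℕ) : ∀ {X : Type u} [Group X] [Finite X] {G N K : Subgroup X}, #G = n →
    Core G N K → ∃ d, CD2 N d := by
  induction n using Nat.strong_induction_on with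
  | _ n ih =>
  intro X _ _ G N K hn h
  obtain ⟨p, L, M, h⟩ := h.exists_St
  by_cases h0 : M = ⊥
  · by_cases h1 : ∃ χ ∈ Irr N, deg χ ≠ 1
    swap
    · push Not at h1; exact ⟨1, fun χ hχ => .inl (h1 χ hχ)⟩
    obtain ⟨χ, h1, h2⟩ := h1
    refine ⟨deg χ, fun ψ hψ => or_iff_not_imp_left.2 fun h3 => ?_⟩
    obtain ⟨i, hi⟩ := h.deg_pow h1 (h0.trans_le bot_le)
    obtain ⟨j, hj⟩ := h.deg_pow hψ (h0.trans_le bot_le)
    rcases le_total i j with h4 | h4
    · exact (h.ndN _ h1 _ hψ h2 (hi ▸ hj ▸ pow_dvd_pow _ h4)).symm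
    · exact h.ndN _ hψ _ h1 h3 (hi ▸ hj ▸ pow_dvd_pow _ h4)
  by_cases h1 : ⁅M, M⁆ = ⊥
  · obtain ⟨l, hl⟩ := h.exists_ne h0
    exact ⟨_, fun ψ hψ => h.deg_lin' hl hψ (h1.trans_le bot_le)⟩
  obtain ⟨Y, h2, h3⟩ := minnormal_exists h1 (h.nM.comm h.nM).norm
  have hY : Y ⊴ G := ⟨h3.trans (h.nM.comm h.nM).le, h2.norm⟩
  have n := h.nN.le.trans hY.norm
  obtain ⟨d, h4⟩ := ih _ (hn ▸ ltn_quotient h2.ne hY.le) rfl (h.toCore.quo hY (h3.trans (dergS h.MN)))
  have h5 := h4.der.cent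
  rw [← quotient_der n, quotient_cents2 ((der_sub N).trans n) ((der_sub N).trans n)] at h5
  exact (h.not_min (le_antisymm h3 ((dergS h.MD).trans h5) ▸ h2)).elim

theorem Core.cd2 (h : Core G N K) : ∃ d, CD2 N d := Core.cd2_aux _ rfl h

end Cfsg.Agent.PF.CH.Nd
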