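import Cfsg.Agent.Classical.Uc1
import Cfsg.Agent.Classical.Kn5

/-! Unipotent classes of symplectic groups in odd characteristic: `isConj_iff_sim`, `isConj_unip`,
the realisation `alt_real'` of Wall's invariants, the centraliser of a regular unipotent element. -/

set_option autoImplicit false

namespace Cfsg.Agent.Classical.Uc

open Module Polynomial Cfsg.Agent.Elu Cfsg.Agent.Geom Cfsg.Agent.Geom.Formed

universe u

variable {F : Type*} [Field F] {V W : Type u} [AddCommGroup V] [Module F V] [AddCommGroup W] [Module F W]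
  {Φ : Formed (RingHom.id F) V} {Ψ : Formed (RingHom.id F) W} {f : End F V} {g : End F W} {k : ℕ}
  [FiniteDimensional F V] [FiniteDimensional F W] [Finite F] [NeZero (2 : F)]

theorem sim_of_equiv (hn : Φ.Nondeg) (h : Iso Φ f) (h' : Iso Ψ g) (e : V ≃ₗ[F] W)
    (he : ∀ v, e (f v) = g (e v)) (hB : ∀ a b, Ψ.B (e a) (e b) = Φ.B a b) : Sim Φ f Ψ g :=
  ⟨elemDiv_congr e he, fun _ _ => ⟨by simp [dl_scale hn h h' e he one_ne_zero (by simpa using hB)], by
    simp [dl_scale hn (iso_neg h) (iso_neg h') e (by simp [he]) one_ne_zero (by simpa using hB)]⟩⟩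

theorem isConj_iff_sim (hn : Φ.Nondeg) {x y : Φ.isom} :
    IsConj x y ↔ Sim Φ (x.1 : End F V) Φ (y.1 : End F V) :=
  isConj_isom_iff.trans ⟨fun ⟨e, h1, h2⟩ => sim_of_equiv hn x.2 y.2 e h2 h1.1, fun h => by
    obtain ⟨e, h1, h2⟩ := exists_conj _ rfl hn hn rfl rfl x.2 y.2 h
    exact ⟨e, h2, h1⟩⟩

omit [FiniteDimensional F V] [Finite F] in
theorem unit_neg (h : (f - 1) ^ k = 0) : IsUnit (-f - 1) := by
  have := IsNilpotent.isUnit_add_right_of_commute ⟨_, h⟩
    ((IsUnit.mk0 (2 : F) two_ne_zero).map (algebraMap F _)) (Algebra.commutes _ _).symm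
  rw [map_ofNat, ← one_add_one_eq_two] at this
  exact (show -(f - 1 + (1 + 1)) = -f - 1 by abel) ▸ this.neg

theorem sim_unip (hn : Φ.Nondeg) (hn' : Ψ.Nondeg) (h : Iso Φ f) (h' : Iso Ψ g) {μ : Multiset ℕ} (hf : Jt f μ)
    (hg : Jt g μ) : Sim Φ f Ψ g ↔ ∀ k, Φ.ε * (-1) ^ k = 1 → k + 1 ∈ μ → (Dl Φ f k ↔ Dl Ψ g k) := by
  refine ⟨fun H k hk _ => (H.2 k hk).1, fun H => ⟨hf.trans hg.symm, fun k hk => ⟨?_, iff_of_true
    (dl_zero hn (iso_neg h) (unit_iff.1 (unit_neg (unip_pow hf fun _ => Multiset.le_sup)) k))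
    (dl_zero hn' (iso_neg h') (unit_iff.1 (unit_neg (unip_pow hg fun _ => Multiset.le_sup)) k))⟩⟩⟩
  by_cases hm : k + 1 ∈ μ
  · exact H k hk hm
  · exact iff_of_true (dl_zero hn h (by rwa [Jt.ct hf, Multiset.count_eq_zero]))
      (dl_zero hn' h' (by rwa [Jt.ct hg, Multiset.count_eq_zero]))

theorem reg_both (hΦ : Spu Φ) (hn : Φ.Nondeg) (hk : Odd k) (hV : finrank F V = k + 1) (t : Prop) :
    ∃ f, Iso Φ f ∧ Jt f {k + 1} ∧ (Dl Φ f k ↔ t) := by
  obtain ⟨f, h1, h2⟩ := Eig.alt_real _ hΦ hn hV (μ := {k + 1}) (by simp) (by simp) fun a ha => by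
    rw [Multiset.count_singleton, if_neg]
    · exact Even.zero
    · rintro rfl; exact Nat.not_even_iff_odd.2 ha hk.add_one
  by_cases h3 : Dl Φ f k ↔ t
  · exact ⟨f, h1, h2, h3⟩
  obtain ⟨δ, hδ⟩ := FiniteField.exists_nonsquare (F := F) (ringChar_ne_two two_ne_zero)
  have h0 : δ ≠ 0 := by rintro rfl; simp at hδ
  obtain ⟨e, he, -⟩ := exists_isIso_alt (B := δ • Φ.B) (B' := Φ.B) (hA := fun x => by simp [hΦ.alt rfl])
    (hA' := hΦ.alt rfl) (fun x hx => hn x fun y => (mul_eq_zero.1 (hx y)).resolve_left h0) hn rfl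
  replace he : ∀ a b, Φ.B (e a) (e b) = δ * Φ.B a b := he
  have h4 : Iso Φ (e.conj f) := hΦ.iso.2 fun a b => by
    obtain ⟨a, rfl⟩ := e.surjective a
    obtain ⟨b, rfl⟩ := e.surjective b
    simp [he, h1.1]
  refine ⟨_, h4, (elemDiv_congr e (by simp)).symm.trans h2, ?_⟩
  rw [dl_scale hn h1 h4 e (by simp) h0 he, Jt.ct h2, Multiset.count_singleton_self, pow_one]
  tauto

theorem alt_real' (s : ℕ → Prop) (n : ℕ) : ∀ {V : Type u} [AddCommGroup V] [Module F V] [FiniteDimensional F V]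
    {Φ : Formed (RingHom.id F) V} {μ : Multiset ℕ}, Spu Φ → Φ.Nondeg → finrank F V = n → μ.sum = n →
      (∀ a ∈ μ, 0 < a) → (∀ a, Odd a → Even (μ.count a)) →
      ∃ f, Iso Φ f ∧ Jt f μ ∧ ∀ k, Odd k → k + 1 ∈ μ → (Dl Φ f k ↔ s k) := by
  induction n using Nat.strong_induction_on with
  | _ n ih =>
  intro V _ _ _ Φ μ hΦ hn hV h1 h2 h3
  by_cases h : ∃ k, Odd k ∧ k + 1 ∈ μ; swap
  · obtain ⟨f, h4, h5⟩ := Eig.alt_real _ hΦ hn hV h1 h2 h3
    exact ⟨f, h4, h5, fun k a b => (h ⟨k, a, b⟩).elim⟩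
  obtain ⟨k, hk, h⟩ := h
  obtain ⟨ν, rfl⟩ := Multiset.exists_cons_of_mem h
  rw [Multiset.sum_cons] at h1
  obtain ⟨U, hU, h4⟩ := hΦ.exists_nd hn (l := k + 1) (by omega) fun _ => hk.add_one
  have h5 := hn.finrank_add_finrank_perp U
  obtain ⟨f₁, a1, a2, a3⟩ := reg_both (hΦ.res U) hU hk h4 (k + 1 ∉ ν → s k)
  obtain ⟨f₂, b1, b2, b3⟩ := ih _ (by omega) (hΦ.res _) (hn.restrict_perp hU) rfl (μ := ν) (by omega)
    (fun a ha => h2 a (Multiset.mem_cons_of_mem ha)) fun a ha => by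
      simpa [Multiset.count_cons_of_ne (show a ≠ k + 1 by
        rintro rfl; exact Nat.not_even_iff_odd.2 ha hk.add_one)] using h3 a ha
  obtain ⟨f, a, b, h6, rfl, rfl⟩ := exists_iso_sum hn hU a1 b1
  refine ⟨f, h6, a2.of_isCompl (hn.isCompl_perp hU) b2, fun j hj h7 => ?_⟩
  rw [dl_split hn h6 hU a b]
  by_cases h8 : j + 1 ∈ ν
  · rw [b3 j hj h8]
    by_cases e : j = k
    · subst e; simp [a3, h8]
    · simp [dl_zero hU a1 (k := j) (by simp [Jt.ct a2, e])]
  · obtain rfl : j = k := by simpa [h8] using h7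
    simp [a3, h8, dl_zero (hn.restrict_perp hU) b1 (k := j) (by rwa [Jt.ct b2, Multiset.count_eq_zero])]

omit [NeZero (2 : F)] [FiniteDimensional F V] [Finite F] in
theorem symp_eps {m : ℕ} [NeZero (2 : F)] : (sympFormed m F).ε * (-1) ^ k = 1 ↔ Odd k := by
  change -1 * _ = _ ↔ _
  rw [← pow_succ', neg_one_pow_eq_one_iff_even (by
    rw [ne_eq, neg_eq_iff_add_eq_zero, one_add_one_eq_two]; exact two_ne_zero), Nat.even_add_one,
    Nat.not_even_iff_odd]

theorem isConj_sp {m : ℕ} {x y : Matrix.symplecticGroup (Fin m) F} : IsConj x y ↔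
    Sim (sympFormed m F) (Matrix.toLin' x.1) (sympFormed m F) (Matrix.toLin' y.1) :=
  (isConj_congr (spEquiv m F)).symm.trans (isConj_iff_sim (sympFormed_nondeg m F))

omit [NeZero (2 : F)] in
theorem jt_reg_iff {ι : Type} [Fintype ι] [DecidableEq ι] [Nonempty ι] {A : Matrix ι ι F} {n : ℕ}
    (hn : Fintype.card ι = n) : (A - 1) ^ n = 0 ∧ (A - 1).rank = n - 1 ↔ Jt (Matrix.toLin' A) {n} := by
  have h1 := LinearMap.finrank_range_add_finrank_ker (Matrix.toLin' A - 1)
  have h2 : (A - 1).rank = finrank F (LinearMap.range (Matrix.toLin' A - 1)) := by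
    rw [← pow_one (_ - 1 : End F _), toLin'_sub_one_pow, pow_one]; rfl
  have h3 := hn ▸ Fintype.card_pos (α := ι)
  rw [finrank_fintype_fun_eq_card, hn] at h1
  rw [← Matrix.toLin'.map_eq_zero_iff, ← toLin'_sub_one_pow, h2]
  refine ⟨fun h => ?_, fun h => ⟨unip_pow h (by simp), ?_⟩⟩
  · have := elemDiv_of_reg h.1 (by
      rw [kd, ← pow_one (X - C 1), aeval_X_sub_one_pow, pow_one]; omega)
    rwa [finrank_fintype_fun_eq_card, hn] at this
  · have := h.kd 1
    rw [pow_one, Multiset.map_singleton, Multiset.sum_singleton] at this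
    omega

omit [Finite F] in
theorem card_norm_one {R : Type*} [CommRing R] [Nontrivial R] [Algebra F R] (σ : R →ₐ[F] R)
    (hl : ∀ a : R, ∃ c : F, IsNilpotent (a - algebraMap F R c)) :
    Nat.card {g : R // σ g * g = 1} = 2 * Nat.card {s : R // σ s = -s} := by
  have h0 : ∀ c : F, c ≠ 0 → IsUnit (algebraMap F R c) := fun c hc => (IsUnit.mk0 c hc).map _
  have h2 : IsUnit (2 : R) := by simpa [map_ofNat] using h0 2 two_ne_zero
  have h1 : ∀ a : R, IsUnit a ∨ IsNilpotent a := fun a => by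
    obtain ⟨c, hc⟩ := hl a
    by_cases h : c = 0
    · exact .inr (by simpa [h] using hc)
    · exact .inl (by simpa using hc.isUnit_add_right_of_commute (h0 c h) (Commute.all _ _))
  have h3 : ∀ s : R, σ s = -s → IsNilpotent s := fun s hs => by
    obtain ⟨c, hc⟩ := hl s
    by_cases h : c = 0
    · simpa [h] using hc
    · refine ((h2.mul (h0 c h)).not_isNilpotent ?_).elim
      have := ((Commute.all _ _).isNilpotent_add hc (hc.map σ)).neg
      rw [map_sub, hs, AlgHom.commutes] at this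
      convert this using 1; ring
  have h4 : ∀ s : {s : R // σ s = -s}, (1 - s.1) * Ring.inverse (1 - s.1) = 1 := fun s =>
    Ring.mul_inverse_cancel _ (h3 _ s.2).isUnit_one_sub
  rw [show 2 = Nat.card ℤˣ by simp, ← Nat.card_prod]
  refine (Nat.card_eq_of_bijective (fun x : ℤˣ × {s : R // σ s = -s} => (⟨(x.1 : ℤ) * (1 + x.2.1) *
    Ring.inverse (1 - x.2.1), ?_⟩ : {g : R // σ g * g = 1})) ⟨?_, ?_⟩).symm
  · have h5 := congrArg σ (h4 x.2)
    have h6 : ((x.1 : ℤ) : R) * (x.1 : ℤ) = 1 := by rw [← Int.cast_mul, ← Units.val_mul, Int.units_mul_self]; simp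
    simp only [map_mul, map_sub, map_add, map_one, map_intCast, x.2.2] at h5 ⊢
    linear_combination (1 - x.2.1) * Ring.inverse (1 - x.2.1) * (h5 + (1 + x.2.1) * σ (Ring.inverse (1 - x.2.1)) * h6)
      + h4 x.2
  · rintro ⟨a, s⟩ ⟨b, t⟩ e
    have h5 : ((a : ℤ) : R) * (1 + s.1) * (1 - t.1) = (b : ℤ) * (1 + t.1) * (1 - s.1) := by
      have := congrArg Subtype.val e
      linear_combination (1 - s.1) * (1 - t.1) * this - (a : ℤ) * (1 + s.1) * (1 - t.1) * h4 s +
        (b : ℤ) * (1 + t.1) * (1 - s.1) * h4 t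
    have h6 := h2.mul ((Commute.all _ _).isNilpotent_mul_left (x := t.1) (h3 _ s.2)).isUnit_one_sub
    rcases Int.units_eq_one_or a with rfl | rfl <;> rcases Int.units_eq_one_or b with rfl | rfl <;>
      push_cast at h5
    · exact Prod.ext rfl (Subtype.ext (h2.mul_left_cancel (by linear_combination h5)))
    · exact (h6.ne_zero (by linear_combination h5)).elim
    · exact (h6.ne_zero (by linear_combination -h5)).elim
    · exact Prod.ext rfl (Subtype.ext (h2.mul_left_cancel (by linear_combination -h5)))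
  · rintro ⟨g, hg⟩
    have key : ∀ g : R, σ g * g = 1 → IsUnit (g + 1) →
        ∃ s : {s : R // σ s = -s}, (1 + s.1) * Ring.inverse (1 - s.1) = g := fun g hg hu => by
      obtain ⟨i, hi⟩ := hu.exists_right_inv
      have h5 := congrArg σ hi
      simp only [map_mul, map_add, map_one] at h5
      refine ⟨⟨(g - 1) * i, ?_⟩, ?_⟩
      · simp only [map_mul, map_sub, map_one]
        linear_combination (1 - g) * i * h5 - (σ g - 1) * σ i * hi + 2 * i * σ i * hg
      · have := h4 ⟨(g - 1) * i, by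
          simp only [map_mul, map_sub, map_one]
          linear_combination (1 - g) * i * h5 - (σ g - 1) * σ i * hi + 2 * i * σ i * hg⟩
        linear_combination g * this + (g - 1) * Ring.inverse (1 - (g - 1) * i) * hi
    rcases h1 (g + 1) with h | h
    · obtain ⟨s, hs⟩ := key g hg h
      exact ⟨(1, s), Subtype.ext (by simpa using hs)⟩
    · obtain ⟨s, hs⟩ := key (-g) (by simpa using hg) (by
        convert h.neg.isUnit_add_right_of_commute h2 (Commute.all _ _) using 1; ring)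
      exact ⟨(-1, s), Subtype.ext (by push_cast; linear_combination -hs)⟩

omit [Finite F] [FiniteDimensional F V] [NeZero (2 : F)] in
theorem comm_aeval {z : End F V} (h : Commute z f) (a : F[X]) : Commute z (aeval f a) := by
  rw [aeval_eq_sum_range]
  exact Commute.sum_right _ _ _ fun i _ => (h.pow_right i).smul_right _

theorem card_cent_reg (hΦ : Spu Φ) (hn : Φ.Nondeg) (x : Φ.isom) {m : ℕ} (hm : 2 * m = k + 1)
    (hx : Jt (x.1 : End F V) {k + 1}) : Nat.card (Subgroup.centralizer {x}) = 2 * Nat.card F ^ m := by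
  obtain ⟨f, hf⟩ : ∃ f : End F V, x.1 = f := ⟨_, rfl⟩
  rw [hf] at hx
  have h : Iso Φ f := hf ▸ x.2
  obtain ⟨h0, -, hV, -⟩ := homog_ker (r := 1) hx
  obtain ⟨T, hT⟩ := ((lev h k).perp ⊤).exists_isCompl
  obtain ⟨h1, h2⟩ := (homog_core (r := 1) hn h hx).2 T hT.symm
  obtain ⟨v, -, h3⟩ := finrank_eq_one_iff'.1 h1
  have h4 : ∀ (j : ℕ) w, ∃ (p : F[X]) (u : V), w = aeval f p (v : V) + ((f - 1) ^ j) u := fun j => by
    induction j with
    | zero => exact fun w => ⟨0, w, by simp⟩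
    | succ j ih =>
      intro w
      obtain ⟨t, w, rfl⟩ := h2 w
      obtain ⟨p, u, rfl⟩ := ih w
      obtain ⟨c, rfl⟩ := h3 t
      exact ⟨C c + (X - C 1) * p, u, by simp [pow_succ', add_assoc]; abel⟩
  replace h4 : ∀ w, ∃ p : F[X], aeval f p (v : V) = w := fun w => by simpa [h0, eq_comm] using h4 (k + 1) w
  let R := Subalgebra.centralizer F {f}
  have h5 : ∀ a, a ∈ R ↔ Commute f a := fun a => by simp [R, Subalgebra.mem_centralizer_iff, Commute, SemiconjBy]
  have h6 : ∀ a b : R, a.1 v = b.1 v → a = b := fun a b e => Subtype.ext (LinearMap.ext fun w => by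
    obtain ⟨p, rfl⟩ := h4 w
    rw [← End.mul_apply, (comm_aeval ((h5 _).1 a.2).symm p).eq, End.mul_apply, e, ← End.mul_apply,
      ← (comm_aeval ((h5 _).1 b.2).symm p).eq, End.mul_apply])
  have h7 : ∀ a : R, ∃ p : F[X], a.1 = aeval f p := fun a => (h4 (a.1 v)).imp fun p hp => congrArg Subtype.val
    (h6 a ⟨_, (h5 _).2 (comm_aeval (Commute.refl f) p)⟩ hp.symm)
  have h8 : ∀ a b : R, a * b = b * a := fun a b => Subtype.ext (by
    obtain ⟨p, hp⟩ := h7 b
    exact (hp ▸ comm_aeval ((h5 _).1 a.2).symm p : Commute a.1 b.1).eq)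
  let _ : CommRing R := { (inferInstance : Ring R) with mul_comm := h8 }
  have : Nontrivial V := finrank_pos_iff.1 (show 0 < finrank F V by omega)
  let σ : R →ₐ[F] R :=
    { toFun := fun c => ⟨adj hn c, (h5 _).2 (LinearMap.ext fun a => hn.ext fun b => by
        obtain ⟨b, rfl⟩ := h.surjective hn b
        rw [End.mul_apply, End.mul_apply, h.1, B_adj, B_adj, ← End.mul_apply, ← ((h5 _).1 c.2).eq, End.mul_apply,
          h.1])⟩
      map_one' := Subtype.ext (adj_one hn)
      map_mul' := fun a b => by rw [h8 a b]; exact Subtype.ext (adj_mul hn _ _)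
      map_zero' := Subtype.ext (map_zero _)
      map_add' := fun a b => Subtype.ext (map_add _ _ _)
      commutes' := fun c => Subtype.ext ((adj_eq_iff hn).2 fun a b => by simp) }
  have h9 : ∀ (a : R) x y, Φ.B ((σ a).1 x) y = Φ.B x (a.1 y) := fun a => B_adj hn a
  have h10 : ∀ a, σ (σ a) = a := fun a => Subtype.ext (adj_adj hn _)
  rw [Nat.card_eq_of_bijective (fun g : Subgroup.centralizer {x} => (⟨⟨g.1.1, (h5 _).2 (hf ▸ congrArg
    (fun z : Φ.isom => (z.1 : End F V)) (Subgroup.mem_centralizer_singleton_iff.1 g.2).symm)⟩, Subtype.ext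
      (LinearMap.ext fun a => hn.ext fun b => (h9 _ _ _).trans (g.1.2.1 a b))⟩ : {g : R // σ g * g = 1}))
    ⟨fun a b e => Subtype.ext (Subtype.ext (LinearEquiv.toLinearMap_injective (congrArg (·.1.1) e))),
      fun ⟨g, hg⟩ => ?_⟩, card_norm_one σ fun a => ?_]
  · let ev : R →ₗ[F] V := LinearMap.applyₗ (v : V) ∘ₗ R.val.toLinearMap
    have h11 : ∀ ε : F, ε * ε = 1 → 2 * finrank F (LinearMap.ker (σ.toLinearMap - ε • LinearMap.id)) ≤ 2 * m :=
      fun ε hε => by
      have h12 : (LinearMap.ker (σ.toLinearMap - ε • LinearMap.id)).map ev ≤ Φ.perp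
          ((LinearMap.ker (σ.toLinearMap - ε • LinearMap.id)).map ev) := by
        rintro _ ⟨a, ha, rfl⟩ _ ⟨b, hb, rfl⟩
        replace ha : σ a = ε • a := sub_eq_zero.1 ha
        replace hb : σ b = ε • b := sub_eq_zero.1 hb
        have h13 := h9 (σ b * a) v v
        rw [show σ (σ b * a) = σ b * a by rw [map_mul, h10, ha, hb, smul_mul_assoc, mul_smul_comm],
          Φ.symm, hΦ.elim (·.2.1) (absurd rfl ·.1), RingHom.id_apply] at h13
        change Φ.B (b.1 v) (a.1 v) = 0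
        rw [← h10 b, h9]
        exact mul_left_cancel₀ two_ne_zero ((by linear_combination -h13 :
          2 * Φ.B v ((σ b * a).1 v) = 2 * 0))
      have h13 := Submodule.finrank_mono h12
      have h14 := hn.finrank_add_finrank_perp ((LinearMap.ker (σ.toLinearMap - ε • LinearMap.id)).map ev)
      rw [(Submodule.equivMapOfInjective ev h6 _).finrank_eq]
      omega
    have h12 := h11 1 (mul_one 1)
    have h13 := h11 (-1) (by simp)
    have h14 := Submodule.finrank_add_le_finrank_add_finrank (LinearMap.ker (σ.toLinearMap - (1 : F) • LinearMap.id))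
      (LinearMap.ker (σ.toLinearMap - (-1 : F) • LinearMap.id))
    rw [(eq_top_iff (a := LinearMap.ker _ ⊔ LinearMap.ker _)).2 fun a _ => Submodule.mem_sup.2 ⟨(2 : F)⁻¹ • (a + σ a), by simp [h10, add_comm],
      (2 : F)⁻¹ • (a - σ a), by simp [h10], by
        rw [← smul_add, add_add_sub_cancel, ← two_smul F, inv_smul_smul₀ two_ne_zero]⟩, finrank_top,
      (LinearEquiv.ofBijective ev ⟨h6, fun w => (h4 w).elim fun p hp =>
        ⟨⟨_, (h5 _).2 (comm_aeval (Commute.refl f) p)⟩, hp⟩⟩).finrank_eq] at h14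
    rw [show m = finrank F (LinearMap.ker (σ.toLinearMap - (-1 : F) • LinearMap.id)) by omega,
      ← natCard_eq_pow_finrank]
    exact congrArg _ (Nat.card_congr (Equiv.subtypeEquivRight fun a => by simp [add_eq_zero_iff_eq_neg]))
  · obtain ⟨p, hp⟩ := h7 a
    obtain ⟨r, hr⟩ := X_sub_C_dvd_sub_C_eval (p := p) (a := 1)
    refine ⟨p.eval 1, k + 1, Subtype.ext ?_⟩
    change (a.1 - algebraMap F _ _) ^ (k + 1) = 0
    rw [hp, ← aeval_C f, ← map_sub, hr, ← map_pow, mul_pow, map_mul, aeval_X_sub_one_pow, h0, zero_mul]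
  · obtain ⟨y, hy⟩ := (hΦ.iso.2 fun a b => (h9 g _ _).symm.trans
      (congrArg (fun z : R => Φ.B (z.1 a) b) hg)).exists_isom hn
    exact ⟨⟨y, Subgroup.mem_centralizer_singleton_iff.2 (Subtype.ext (LinearEquiv.toLinearMap_injective
      (by simpa [hf, hy] using ((h5 _).1 g.2).eq.symm)))⟩, Subtype.ext (Subtype.ext hy)⟩

end Cfsg.Agent.Classical.Uc
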