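import Cfsg.Agent.Classical.Uc2

/-! Counting isometries of symplectic and orthogonal spaces (odd characteristic) up to `Sim`: the encoding
bound `card_le_enc` and the numerical bounds for its generating function. -/

set_option autoImplicit false

namespace Cfsg.Agent.Classical.Uc

open Module Function Cfsg.Agent.Elu Cfsg.Agent.Geom Cfsg.Agent.Geom.Formed Cfsg.Agent.Classical.Kn
  Cfsg.Agent.Classical.Eig

/-- `wt` in `ℕ` -/
def wtN (a q : ℕ) : ℕ → ℕ
  | 0 => 1
  | m + 1 => a * q ^ m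

theorem card_le_coeff {ι X : Type*} [Fintype ι] (A Q D : ι → ℕ) (hD : ∀ i, 0 < D i) (w : X → ι → ℕ × ℕ)
    (hw : Injective w) (h1 : ∀ x i, (w x i).2 < wtN (A i) (Q i) (w x i).1) {n : ℕ}
    (h2 : ∀ x, ∑ i, D i * (w x i).1 = n) :
    (Nat.card X : ℝ) ≤ PowerSeries.coeff n (∏ i, Wf (A i) (Q i) (D i)) := by
  have h0 := fun i => gf_mul_le (T := {p : ℕ × ℕ // p.2 < wtN (A i) (Q i) p.1}) (dg := fun p => p.1.1)
    (a := A i) (q := Q i) (fun m => by
      let φ : {x : {p : ℕ × ℕ // p.2 < wtN (A i) (Q i) p.1} // x.1.1 = m} → Fin (wtN (A i) (Q i) m) :=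
        fun x => ⟨_, x.2 ▸ x.1.2⟩
      have h : Injective φ := fun x y e => Subtype.ext (Subtype.ext (Prod.ext (x.2.trans y.2.symm)
        (congrArg Fin.val e)))
      refine ⟨.of_injective _ h, ((Nat.cast_le.2 (Nat.card_le_card_of_injective _ h))).trans ?_⟩
      cases m <;> simp [wt, wtN]) (hD i)
  obtain ⟨h3, h4⟩ := card_tuples _ (fun i => (h0 i).1) n
  refine ((Nat.cast_le.2 (Nat.card_le_card_of_injective (fun x => ⟨fun i => ⟨w x i, h1 x i⟩, h2 x⟩)
    fun x y e => hw (funext fun i => congrArg Subtype.val (congrFun (congrArg Subtype.val e) i)))).trans_eq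
      h4).trans (le_prod _ (fun _ _ => nn_gf _) (fun i _ => (h0 i).2) n)

theorem inv_even {G : Type*} [CommGroup G] [DecidableEq G] (E : Multiset G) (h : E.map (·⁻¹) = E)
    (h1 : ∀ ξ, ξ⁻¹ = ξ → Even (E.count ξ)) : Even E.card ∧ E.prod = 1 := by
  induction E using Multiset.strongInductionOn with
  | _ E ih =>
  rcases E.empty_or_exists_mem with rfl | ⟨ξ, hξ⟩
  · simp
  obtain ⟨E, rfl⟩ := Multiset.exists_cons_of_mem hξ
  obtain ⟨E, rfl⟩ := Multiset.exists_cons_of_mem (s := E) (a := ξ⁻¹) (by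
    by_cases e : ξ⁻¹ = ξ
    · have := h1 ξ e
      rw [Multiset.count_cons_self, Nat.even_add_one] at this
      exact e.symm ▸ Multiset.count_ne_zero.1 fun h => this (by simp [h])
    · exact (Multiset.mem_cons.1 (h ▸ Multiset.mem_map_of_mem _ hξ)).resolve_left e)
  obtain ⟨h2, h3⟩ := ih E ((Multiset.lt_cons_self _ _).trans (Multiset.lt_cons_self _ _)) (by
    simpa [Multiset.cons_swap ξ⁻¹ ξ] using h) fun η e => by
      have := h1 η e
      by_cases e' : η = ξ
      · subst e'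
        simpa [e, parity_simps] using this
      · simpa [e', show η ≠ ξ⁻¹ from fun h => e' (by rw [← e, h, inv_inv])] using this
  simp [h2, h3, parity_simps]

open Polynomial

theorem card_bil' {K : Type*} [Field K] {p : ℕ} [Fact p.Prime] [CharP K p] {j : ℕ} (hj : 1 < p ^ j) (s : Prop)
    [Decidable s] (m : ℕ) : Finite {E : Multiset Kˣ // (E.map (· ^ p ^ j) = E ∧ E.map (·⁻¹) = E ∧
      E.card = 2 * m ∧ E.prod = 1) ∧ (s → 1 ∉ E)} ∧ Nat.card {E : Multiset Kˣ // (E.map (· ^ p ^ j) = E ∧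
      E.map (·⁻¹) = E ∧ E.card = 2 * m ∧ E.prod = 1) ∧ (s → 1 ∉ E)} ≤
        wtN (if s then p ^ j - 1 else p ^ j) (p ^ j) m := by
  obtain ⟨h1, h2⟩ := card_bil (K := K) hj m
  let φ := Subtype.impEmbedding (fun E : Multiset Kˣ => (E.map (· ^ p ^ j) = E ∧ E.map (·⁻¹) = E ∧
    E.card = 2 * m ∧ E.prod = 1) ∧ (s → 1 ∉ E)) _ fun _ h => h.1
  refine ⟨.of_injective _ φ.injective, ?_⟩
  have h3 := (Nat.card_le_card_of_injective _ φ.injective).trans h2
  rcases m with _ | m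
  · exact h3
  split_ifs with hs; swap
  · exact h3.trans_eq (pow_succ' _ _)
  have h4 : ∀ E : Multiset Kˣ, (pP E).eval (-1) = (E.map fun ξ : Kˣ => -1 + (ξ : K)).prod := fun E => by
    simp [pP, eval_multiset_prod]
  have h5 : ∀ E : Multiset Kˣ, 1 ∉ E → (pP E).eval (-1) ≠ 0 := fun E h => h4 E ▸ Multiset.prod_ne_zero (by
    simpa using fun (ξ : Kˣ) hξ (e : -1 + (ξ : K) = 0) => h (Units.val_eq_one.1 (neg_add_eq_zero.1 e).symm ▸ hξ))
  have := (card_fix (1 : K) hj).1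
  have : NeZero (p ^ j - 1) := ⟨by omega⟩
  have h0 : ∀ (E : Multiset Kˣ) k, E.map (·⁻¹) = E ∧ E.card = 2 * (m + 1) ∧ E.prod = 1 →
      k ≤ 2 * (m + 1) → (pP E).coeff (2 * (m + 1) - k) = (pP E).coeff k := fun E k h hk => by
    rw [← h.2.1, pP_inv (by omega), h.2.2, h.1, Units.val_one, one_mul]
  refine (Nat.card_le_card_of_injective (β := rootsOfUnity (p ^ j - 1) K ×
    (Fin m → {a : K // 1 * a ^ p ^ j = a})) (fun E => (⟨Units.mk0 _ (h5 E.1 (E.2.2 hs)), Units.ext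
      (mul_right_cancel₀ (h5 E.1 (E.2.2 hs)) ?_)⟩, fun k => ⟨(pP E.1).coeff (k + 1), by
        rw [one_mul, ← pP_frob, E.2.1.1]⟩)) fun E E' e => Subtype.ext (pP_inj ?_)).trans ?_
  · rw [Units.val_pow_eq_pow_val, Units.val_mk0, ← pow_succ, Nat.sub_add_cancel hj.le, Units.val_one, one_mul,
      h4, ← iterateFrobenius_def, map_multiset_prod]
    conv_rhs => rw [← E.2.1.1]
    simp [iterateFrobenius_def, Multiset.map_map, neg_one_pow_char_pow, comp_def, add_pow_char_pow]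
  · have h6 : (pP E.1).eval (-1) = (pP E'.1).eval (-1) := congrArg (fun x => x.1.1.1) e
    have h7 : ∀ k, k ≤ m → (pP E.1).coeff k = (pP E'.1).coeff k := fun k hk => by
      rcases k with _ | k
      · rw [pP_zero, pP_zero, E.2.1.2.2.2, E'.2.1.2.2.2]
      · exact congrArg (fun x => (x.2 ⟨k, hk⟩).1) e
    have h8 : pP E.1 - pP E'.1 = monomial (m + 1) ((pP E.1 - pP E'.1).coeff (m + 1)) := by
      ext k
      rw [coeff_monomial]
      split_ifs with hk
      · exact hk ▸ rfl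
      rw [coeff_sub, sub_eq_zero]
      by_cases h2 : k ≤ 2 * (m + 1)
      · by_cases h3 : k ≤ m
        · exact h7 k h3
        rw [← h0 _ _ E.2.1.2 h2, ← h0 _ _ E'.2.1.2 h2, h7 _ (by omega)]
      · rw [coeff_eq_zero_of_natDegree_lt, coeff_eq_zero_of_natDegree_lt] <;>
          simp [natDegree_pP, E.2.1.2.2.1, E'.2.1.2.2.1] <;> omega
    have h9 := congrArg (Polynomial.eval (-1)) h8
    rw [eval_sub, h6, sub_self, eval_monomial, eq_comm, mul_eq_zero_iff_right (by simp)] at h9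
    rw [← sub_eq_zero, h8, h9, map_zero]
  · rw [Nat.card_prod, Nat.card_pi]
    exact Nat.mul_le_mul (by simpa using card_rootsOfUnity K (p ^ j - 1))
      (by simpa using Nat.pow_le_pow_left (card_fix (1 : K) hj).2 m)

universe u
variable {F : Type u} [Field F] [Finite F] {V : Type u} [AddCommGroup V] [Module F V] [FiniteDimensional F V]

theorem ct_neg [DecidableEq F] (f : End F V) (k : ℕ) :
    ct (-f) (k + 1) = (elemDiv f).count ((X - C (-1)) ^ (k + 1)) := by
  have h := sum_gdeg_second_diff (fun a => isPP_of_mem (f := f)) (irreducible_X_sub_C (-1)) (monic_X_sub_C _) k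
  have h1 : ∀ j, kd f ((X - C (-1)) ^ j) = finrank F (LinearMap.ker ((-f - 1) ^ j)) := fun j => by
    rw [kd, show -f - 1 = (-1 : F) • aeval f (X - C (-1 : F)) by simp [add_comm, sub_eq_add_neg],
      _root_.smul_pow, LinearMap.ker_smul _ _ (by simp), map_pow]
  have := ct_eq (-f) k
  simp only [← kd_eq, h1, natDegree_X_sub_C, mul_one] at h
  omega

open _root_.Classical in
/-- generating function of the encodings -/
noncomputable def Gf (q : ℕ) (S : ℕ → Prop) (A : ℕ → Fin 4 → ℕ) (N : ℕ) : PowerSeries ℝ :=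
  (∏ k ∈ Finset.range N, Wf (if S k then q - 1 else q : ℕ) q (2 * (k + 1))) *
    ∏ k ∈ Finset.range N, ∏ j, Wf (A k j) 0 (k + 1)

theorem card_le_enc [NeZero (2 : F)] {X : Type*} (Φ : X → Formed (RingHom.id F) V) (f : X → End F V)
    (hn : ∀ x, (Φ x).Nondeg) (hf : ∀ x, Iso (Φ x) (f x)) (S : ℕ → Prop) (A : ℕ → Fin 4 → ℕ)
    (hA : ∀ k j, A k j ≤ 1) (b : X → ℕ → Fin 4 → ℕ) (hb : ∀ x k j, b x k j ≤ A k j)
    (h1 : ∀ x k, ∃ r, ct (f x) (k + 1) = b x k 0 + b x k 1 + 2 * r ∧ (S k → r = 0))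
    (h2 : ∀ x k, ∃ r, ct (-f x) (k + 1) = b x k 2 + b x k 3 + 2 * r)
    (hi : ∀ x y, elemDiv (f x) = elemDiv (f y) → b x = b y → x = y) :
    (Nat.card X : ℝ) ≤ PowerSeries.coeff (finrank F V) (Gf (Nat.card F) S A (finrank F V)) := by
  classical
  obtain ⟨p, _⟩ := CharP.exists F
  have hp := Fact.mk (CharP.char_is_prime F p)
  have := Fintype.ofFinite F
  obtain ⟨j, -, hj⟩ := FiniteField.card F p
  rw [Fintype.card_eq_nat_card] at hj
  have hq : 1 < p ^ (j : ℕ) := hj ▸ Finite.one_lt_card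
  choose u hu using fun x => exists_hasJ (f := f x) (by
    obtain ⟨g, e⟩ := (hf x).exists_isom (hn x)
    exact e ▸ (End.isUnit_iff _).2 g.1.bijective)
  choose r hr hr' using fun k m => exists_rank (card_bil' (K := AlgebraicClosure F) hq (S k) m)
  have h3 : (-1 : Kb F) ≠ 1 := fun e => two_ne_zero (α := F) ((algebraMap F (AlgebraicClosure F)).injective (by
    have : (-1 : AlgebraicClosure F) = 1 := congrArg Units.val e
    rw [map_ofNat, map_zero]
    linear_combination -this))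
  have h4 : ∀ x k, (u x (k + 1)).count 1 = ct (f x) (k + 1) ∧ (u x (k + 1)).count (-1) = ct (-f x) (k + 1) :=
    fun x k => ⟨by convert (hu x).count _ 1 k.succ_pos; rw [mp_one, ct], by
      rw [ct_neg]; convert (hu x).count _ (-1) k.succ_pos; exact (mp_algebraMap (by simp)).symm⟩
  obtain ⟨E, h5, h6⟩ : ∃ E : X → ℕ → Multiset (Kb F), (∀ x k, u x (k + 1) = E x k +
      (.replicate (b x k 0 + b x k 1) 1 + .replicate (b x k 2 + b x k 3) (-1))) ∧ ∀ x k,
      ((E x k).map (· ^ p ^ (j : ℕ)) = E x k ∧ (E x k).map (·⁻¹) = E x k ∧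
        (E x k).card = 2 * ((E x k).card / 2) ∧ (E x k).prod = 1) ∧ (S k → 1 ∉ E x k) := by
    have h5 : ∀ x k, Multiset.replicate (b x k 0 + b x k 1) (1 : Kb F) + .replicate (b x k 2 + b x k 3) (-1) ≤
        u x (k + 1) := fun x k => Multiset.le_iff_count.2 fun ξ => by
      obtain ⟨⟨r, h, -⟩, ⟨s, h'⟩, h4⟩ := And.intro (h1 x k) (And.intro (h2 x k) (h4 x k))
      simp only [Multiset.count_add, Multiset.count_replicate]
      split_ifs with e e' e'
      · exact absurd (e'.trans e.symm) h3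
      all_goals (try subst_vars); omega
    choose E hE using fun x k => Multiset.le_iff_exists_add.1 (h5 x k)
    refine ⟨E, fun x k => (hE x k).trans (add_comm _ _), fun x k => ?_⟩
    obtain ⟨⟨r, h, h6⟩, ⟨s, h'⟩, h4, h4'⟩ := And.intro (h1 x k) (And.intro (h2 x k) (h4 x k))
    have h7 := (hu x).frob hj (k + 1)
    have h8 := (hu x).dual (p := p) (j := 0) (hn x) (by simp) (by simpa using du_neg) (hf x) (k + 1)
    rw [hE] at h4 h4' h7 h8
    simp [h3, h3.symm, Multiset.count_replicate, show (-1 : Kb F) ^ p ^ (j : ℕ) = -1 from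
      Units.ext (by simp [neg_one_pow_char_pow])] at h4 h4' h7 h8
    obtain ⟨h9, h10⟩ := inv_even _ h8 fun ξ e => by
      rcases sq_eq_one_iff.1 (show ξ ^ 2 = 1 by rw [sq, ← inv_eq_iff_mul_eq_one, e]) with rfl | rfl
      · exact ⟨r, by omega⟩
      · exact ⟨s, by omega⟩
    exact ⟨⟨h7, h8, (Nat.two_mul_div_two_of_even h9).symm, h10⟩, fun hS => Multiset.count_eq_zero.1 (by
      have := h6 hS; omega)⟩
  have h7 : ∀ x, (u x).support ⊆ Finset.range (finrank F V + 1) := fun x i hi => Finset.mem_range.2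
    (Nat.lt_succ_of_le ((Nat.le_mul_of_pos_right _ (Multiset.card_pos.2 (Finsupp.mem_support_iff.1 hi))).trans
      ((Finset.single_le_sum (f := fun i => i * (u x i).card) (fun _ _ => Nat.zero_le _) hi).trans_eq (hu x).dim)))
  refine (card_le_coeff (n := finrank F V) (ι := Fin (finrank F V) ⊕ Fin (finrank F V) × Fin 4)
    (Sum.elim (fun k => if S k then p ^ (j : ℕ) - 1 else p ^ (j : ℕ)) fun z => A z.1 z.2)
    (Sum.elim (fun _ => p ^ (j : ℕ)) fun _ => 0) (Sum.elim (fun k => 2 * (k + 1)) fun z => z.1 + 1)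
    (by rintro (_ | _) <;> simp) (fun x => Sum.elim (fun k => ((E x k).card / 2, r k ((E x k).card / 2) (E x k)))
      fun z => (b x z.1 z.2, 0)) (fun x y e => ?_) (fun x => ?_) fun x => ?_).trans_eq ?_
  · have h8 : ∀ x k, finrank F V ≤ k → u x (k + 1) = 0 := fun x k hk =>
      Finsupp.notMem_support_iff.1 fun h => by simpa [hk.not_gt] using h7 x h
    have h9 : ∀ x k, finrank F V ≤ k → b x k = 0 := fun x k hk => funext fun i => by
      have := congrArg Multiset.card ((h5 x k).symm.trans (h8 x k hk))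
      fin_cases i <;> simp at this ⊢ <;> omega
    have h10 : b x = b y := funext fun k => by
      by_cases hk : k < finrank F V
      · exact funext fun i => congrArg Prod.fst (congrFun e (.inr (⟨k, hk⟩, i)))
      · rw [h9 x k (by omega), h9 y k (by omega)]
    refine hi x y ((hu x).elemDiv_eq ((Finsupp.ext fun i => ?_ : u x = u y) ▸ hu y)) h10
    rcases i with _ | k
    · rw [(hu x).zero, (hu y).zero]
    by_cases hk : k < finrank F V
    · obtain ⟨e1, e2⟩ := Prod.ext_iff.1 (congrFun e (.inl ⟨k, hk⟩))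
      simp only [Sum.elim_inl] at e1 e2
      rw [h5, h5, h10, hr' k _ _ _ (h6 x k) (e1 ▸ h6 y k) (e1 ▸ e2)]
    · rw [h8 x k (by omega), h8 y k (by omega)]
  · rintro (k | ⟨k, i⟩)
    · exact hr _ _ _ (h6 x k)
    · have := hb x k i
      have := hA k i
      obtain h | h : b x k i = 0 ∨ b x k i = 1 := by omega
      all_goals simp [h, wtN]
      omega
  · have := (hu x).dim
    rw [Finsupp.sum_of_support_subset _ (h7 x) _ (fun _ _ => rfl), Finset.sum_range_succ', zero_mul, add_zero,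
      Finset.sum_range] at this
    rw [Fintype.sum_sum_type, Fintype.sum_prod_type, ← Finset.sum_add_distrib]
    refine (Finset.sum_congr rfl fun k _ => ?_).trans this
    rw [h5, Multiset.card_add, (h6 x k).1.2.2.1]
    simp [Fin.sum_univ_four]
    ring
  · rw [Gf, hj, Finset.prod_range, Finset.prod_range, Fintype.prod_sum_type, Fintype.prod_prod_type]
    simp

open _root_.Classical in
theorem card_le_sim [NeZero (2 : F)] {X : Type*} (Φ : X → Formed (RingHom.id F) V) (f : X → End F V)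
    (hn : ∀ x, (Φ x).Nondeg) (hf : ∀ x, Iso (Φ x) (f x)) {P : ℕ → Prop} [DecidablePred P]
    (hP : ∀ x k, (Φ x).ε * (-1) ^ k = 1 ↔ P k) (hi : ∀ x y, Sim (Φ x) (f x) (Φ y) (f y) → x = y) : (Nat.card X : ℝ) ≤ PowerSeries.coeff (finrank F V)
      (Gf (Nat.card F) (fun _ => False) (fun k _ => if P k then 1 else 0) (finrank F V)) := by
  have h1 : ∀ x g k, Iso (Φ x) g → ∃ r, ct g (k + 1) = (if P k ∧ (Odd (ct g (k + 1)) ↔ Dl (Φ x) g k) then 1 else 0) +
      (if P k ∧ ¬ Dl (Φ x) g k then 1 else 0) + 2 * r := fun x g k h => by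
    have h2 := dl_zero (k := k) (hn x) h
    have h3 : ¬ P k → Even (ct g (k + 1)) := fun e => even_count (hn x) (fun _ => two_ne_zero) h (by simp) ⟨rfl, by
      rw [pow_succ, ← mul_assoc, (mul_self_eq_one_iff.1 (by
        rw [mul_mul_mul_comm, (Φ x).εε, ← mul_pow]; simp)).resolve_left (mt (hP x k).1 e)]; simp⟩
    refine ⟨(ct g (k + 1) - if P k ∧ ¬ Dl (Φ x) g k then 1 else 0) / 2, ?_⟩
    by_cases h4 : P k <;> by_cases h5 : Dl (Φ x) g k <;>
      simp only [h4, h5, Nat.odd_iff, Nat.even_iff, true_and, false_and, iff_true, iff_false, not_true, not_false_iff,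
        if_true, if_false, imp_false, forall_const] at h2 h3 ⊢ <;> (try split_ifs) <;> omega
  refine card_le_enc Φ f hn hf _ _ (fun k _ => by split_ifs <;> simp) (fun x k => ![if P k ∧ _ then 1 else 0,
    if P k ∧ _ then 1 else 0, if P k ∧ _ then 1 else 0, if P k ∧ _ then 1 else 0]) (fun x k j => ?_) (fun x k => (h1 x _ k (hf x)).imp fun _ h => ⟨h, False.elim⟩)
    (fun x k => h1 x _ k (iso_neg (hf x))) fun x y e e' => hi x y ⟨e, fun k hk => ?_⟩
  · by_cases h : P k <;> fin_cases j <;> simp [h] <;> split_ifs <;> simp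
  · have h2 := congrFun (congrFun e' k) 1
    have h3 := congrFun (congrFun e' k) 3
    simp only [(hP x k).1 hk, true_and, Matrix.cons_val] at h2 h3
    constructor <;> split_ifs at h2 h3 <;> simp_all

end Cfsg.Agent.Classical.Uc

namespace Cfsg.Agent.Classical.Kn

open PowerSeries Finset

variable {f g : ℝ⟦X⟧} {x c d : ℝ}

/-- even series -/
def Ev (f : ℝ⟦X⟧) : Prop := ∀ n, Odd n → coeff n f = 0

theorem Ev.mul (h : Ev f) (h' : Ev g) : Ev (f * g) := fun n hn => by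
  rw [coeff_mul]
  refine sum_eq_zero fun p hp => ?_
  rw [← mem_antidiagonal.1 hp] at hn
  by_cases e : Odd p.1
  · rw [h _ e, zero_mul]
  · rw [h' _ (by grind), mul_zero]

theorem Ev.add (h : Ev f) (h' : Ev g) : Ev (f + g) := fun n hn => by simp [h n hn, h' n hn]

theorem ev_mono (c : ℝ) (k : ℕ) : Ev (C c * X ^ (2 * k)) := fun n hn => by
  rw [coeff_C_mul, coeff_X_pow, if_neg (by grind), mul_zero]

theorem ev_Wf (a q : ℝ) (k : ℕ) : Ev (Wf a q (2 * k)) := fun n hn => by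
  rw [Wf, coeff_mk, if_neg fun h => by grind [Dvd.dvd.trans (dvd_mul_right 2 k) h]]

theorem ev_prod {ι : Type*} (s : Finset ι) {f : ι → ℝ⟦X⟧} (h : ∀ i, Ev (f i)) : Ev (∏ i ∈ s, f i) :=
  prod_induction _ _ (fun _ _ => Ev.mul) (by simpa using ev_mono 1 0) fun i _ => h i

theorem Wf_zero (a : ℝ) {i : ℕ} (hi : 0 < i) : Wf a 0 i = 1 + C a * X ^ i := by simpa using Wf_mul (q := 0) hi

theorem ev_bound {q y a a₀ a₁ : ℝ} (hq : 0 < q) (hy : 0 < y) (hy' : q⁻¹ ≤ y ^ 2) {R F₀ F₁ G : ℝ⟦X⟧} (h : Ev R)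
    (h' : Dm √q⁻¹ R c) (hc : 0 ≤ c) (h0 : Ev F₀) (h1 : Ev F₁) (h2 : Bd √q⁻¹ F₀ a₀) (h3 : Bd √q⁻¹ F₁ a₁)
    (h4 : a₀ ≤ a) (h5 : y * a₁ ≤ a) (h6 : Bd y G d) (n : ℕ) :
    coeff n (R * ((F₀ + X * F₁) * G)) * y ^ (n % 2) ≤ c * a * d * q ^ (n / 2) := by
  have h7 : ∀ m, √q⁻¹ ^ (2 * m) = (q ^ m)⁻¹ := fun m => by rw [pow_mul, Real.sq_sqrt (by positivity), inv_pow]
  have h8 : ∀ n, coeff n (R * (F₀ + X * F₁)) * y ^ (n % 2) ≤ c * a * q ^ (n / 2) := fun n => by
    rw [mul_add, mul_left_comm, map_add, ← div_le_iff₀ (by positivity)]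
    obtain ⟨m, rfl | rfl⟩ := n.even_or_odd'
    · have := h'.mul (by positivity) hc h2 (2 * m)
      rw [show coeff (2 * m) (X * (R * F₁)) = 0 by
        rcases m with _ | m
        · simp
        · exact (coeff_succ_X_mul (2 * m + 1) _).trans (h.mul h1 _ (by simp))]
      simp only [h7, Nat.mul_mod_right, Nat.mul_div_cancel_left _ two_pos] at this ⊢
      rw [div_eq_mul_inv]
      nlinarith
    · have := mul_le_mul_of_nonneg_left (h'.mul (by positivity) hc h3 (2 * m)) hy.le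
      rw [coeff_succ_X_mul, h.mul h0 _ (by simp), show (2 * m + 1) / 2 = m by omega, div_eq_mul_inv]
      simp only [h7, Nat.mul_add_mod] at this ⊢
      nlinarith
  have h9 : 0 ≤ c * a := mul_nonneg hc (h2.nonneg.trans h4)
  rw [← mul_assoc, mul_comm _ G, coeff_mul, sum_mul, Nat.sum_antidiagonal_eq_sum_range_succ
    (fun i j => coeff i G * coeff j (R * (F₀ + X * F₁)) * y ^ (n % 2)), mul_right_comm]
  refine le_trans (sum_le_sum fun i hi => ?_) ((mul_sum ..).symm.trans_le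
    (mul_le_mul_of_nonneg_left (h6.2 (n + 1)) (by positivity)))
  obtain ⟨j, rfl⟩ := Nat.exists_eq_add_of_le (Nat.le_of_lt_succ (mem_range.1 hi))
  have h10 : y ^ ((i + j) % 2) * q ^ (j / 2) ≤ y ^ (j % 2) * (q ^ ((i + j) / 2) * y ^ i) := by
    have h11 : ∀ k, 1 ≤ q ^ k * y ^ (2 * k) := fun k => by
      rw [pow_mul, ← mul_pow]; exact one_le_pow₀ ((inv_le_iff_one_le_mul₀' hq).1 hy')
    obtain ⟨k, hk, hk'⟩ : ∃ k, (i + j) / 2 = j / 2 + k ∧ j % 2 + i = (i + j) % 2 + 2 * k :=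
      ⟨(i + j) / 2 - j / 2, by omega, by omega⟩
    rw [mul_left_comm, ← pow_add, hk, hk', pow_add, pow_add]
    nlinarith [mul_le_mul_of_nonneg_left (h11 k) (show 0 ≤ y ^ ((i + j) % 2) * q ^ (j / 2) by positivity)]
  refine le_of_mul_le_mul_left ?_ (pow_pos hy (j % 2))
  rw [Nat.add_sub_cancel_left]
  linarith [mul_le_mul_of_nonneg_left (h8 j) (mul_nonneg (h6.1 i) (pow_pos hy ((i + j) % 2)).le),
    mul_le_mul_of_nonneg_left h10 (mul_nonneg (h6.1 i) h9)]

theorem bd_Wf {q : ℝ} (hq : 3 ≤ q) (k : ℕ) : Bd √q⁻¹ (Wf q q (2 * (k + 1 + 1))) (1 - (1 / 3 : ℝ) ^ (k + 1))⁻¹ := by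
  have h0 : 0 < q := by linarith
  have h1 : q * √q⁻¹ ^ (2 * (k + 1 + 1)) ≤ (1 / 3) ^ (k + 1) := by
    rw [pow_mul, Real.sq_sqrt (by positivity), pow_succ', mul_inv_cancel_left₀ h0.ne', one_div]
    gcongr
  have h2 : (1 / 3 : ℝ) ^ (k + 1) < 1 := pow_lt_one₀ (by norm_num) (by norm_num) k.succ_ne_zero
  have := bd_of_mul (by positivity) (nn_Wf h0.le h0.le _) h0.le le_rfl
    (by simpa using Wf_mul (a := q) (q := q) (i := 2 * (k + 1 + 1)) (by omega)) (h1.trans_lt h2)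
  refine ⟨this.1, fun n => (this.2 n).trans ?_⟩
  rw [zero_mul, add_zero, one_div]
  gcongr

theorem dm_one {q : ℝ} (hq : 3 ≤ q) : Dm √q⁻¹ (Wf q q 2) 1 := fun n => by
  simp only [Wf, coeff_mk]
  split_ifs with h
  · obtain ⟨m, rfl⟩ := h
    rw [pow_mul, Real.sq_sqrt (by positivity), Nat.mul_div_cancel_left _ two_pos]
    cases m <;> simp [wt, ← pow_succ', show q ≠ 0 by positivity]
  · simp

theorem prod_third (s n : ℕ) (hs : s ≤ 1) : ∏ k ∈ range n, (1 - (1 / 3 : ℝ) ^ (k + s + 1))⁻¹ ≤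
    if s = 0 then 1.786 else 1.191 := by
  have h0 : ∀ i, 0 < 1 - (1 / 3 : ℝ) ^ (i + s + 1) := fun i =>
    sub_pos.2 (pow_lt_one₀ (by norm_num) (by norm_num) (by omega))
  refine prod_le_of_tail (y := 1 / 3) (t := 0.334 * (1 / 3) ^ s) (D := 0.9) (N := 7) (by norm_num)
    (fun i => (one_le_inv₀ (h0 i)).2 (sub_le_self _ (by positivity))) (fun i hi => ?_) (by positivity)
    (by norm_num) ?_ ?_ n
  · have h1 : (1 / 3 : ℝ) ^ (i + s) ≤ (1 / 3) ^ 7 := pow_le_pow_of_le_one (by norm_num) (by norm_num) (by omega)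
    rw [inv_le_iff_one_le_mul₀ (h0 i), mul_assoc, ← pow_add, add_comm s, pow_succ]
    nlinarith [pow_pos (show (0 : ℝ) < 1 / 3 by norm_num) (i + s)]
  all_goals interval_cases s <;> norm_num [prod_range_succ]

theorem dm_R {q : ℝ} (hq : 3 ≤ q) (N : ℕ) : Dm √q⁻¹ (∏ k ∈ range (N + 1), Wf q q (2 * (k + 1))) 1.786 := fun n => by
  rw [prod_range_succ', mul_comm (∏ _ ∈ _, _)]
  exact ((dm_one hq).mul (by positivity) zero_le_one (bd_prod (by positivity) _ fun k _ => bd_Wf hq k) n).trans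
    (by simpa using prod_third 0 N zero_le_one)

theorem dm_R' {q : ℝ} (hq : 3 ≤ q) (N : ℕ) :
    Dm √q⁻¹ (∏ k ∈ range (N + 2), Wf (if k = 0 then q - 1 else q) q (2 * (k + 1))) 1.191 := fun n => by
  have h1 : Dm √q⁻¹ (Wf q q 4 * Wf (q - 1) q 2) 1 := fun n => le_trans (mul_le_mul_of_nonneg_right (by
    have h1 := Wf_mul (a := q) (q := q) two_pos
    have h2 := Wf_mul (a := q - 1) (q := q) two_pos
    have h3 := Wf_mul (a := q) (q := q) four_pos
    simp only [sub_self, map_zero, zero_mul, add_zero, sub_sub_cancel_left, map_neg, map_one] at h1 h2 h3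
    rw [show Wf q q 2 = Wf q q 4 * Wf (q - 1) q 2 + X ^ 2 * Wf q q 4 by
      linear_combination (Wf q q 4 * Wf (q - 1) q 2 + X ^ 2 * Wf q q 4) * h1 - Wf q q 2 * Wf q q 4 * h2 -
        Wf q q 2 * h3, map_add]
    exact le_add_of_nonneg_right ((nn_X_pow 2).nn_mul (nn_Wf (by linarith) (by linarith) 4) n))
      (by positivity)) (dm_one hq n)
  rw [prod_range_succ', prod_range_succ', mul_assoc, mul_comm (∏ _ ∈ _, _)]
  simp only [Nat.succ_ne_zero, if_true, if_false]
  exact (h1.mul (by positivity) zero_le_one (bd_prod (by positivity) _ fun k _ => bd_Wf hq (k + 1)) n).trans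
    (by simpa using prod_third 1 N le_rfl)

theorem bd_bits (s : ℕ) (P : ℕ → Prop) [DecidablePred P] (n : ℕ) {B D : ℝ} (hD : 0 ≤ D)
    (h1 : B * 0.5774 ^ (s + 1) + D * 0.5774 ≤ D)
    (h2 : ∏ k ∈ range 12, (1 + (if P k then 1 else 0 : ℕ) * (0.5774 : ℝ) ^ (k + s + 1)) ≤ B - D * 0.5774 ^ 12) :
    Bd 0.5774 (∏ k ∈ range n, Wf (if P k then 1 else 0 : ℕ) 0 (k + s + 1)) B := by
  have := bd_prod (x := 0.5774) (by norm_num) (range n) fun k _ =>
    Wf_zero (if P k then 1 else 0 : ℕ) (k + s).succ_pos ▸ bd_one.add (bd_mono (by norm_num) (by positivity) _)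
  refine ⟨this.1, fun m => (this.2 m).trans (prod_le_of_tail (by norm_num) (fun i => le_add_of_nonneg_right
    (by positivity)) (fun i _ => ?_) (by positivity) hD h1 h2 n)⟩
  rw [← pow_add, show s + 1 + i = i + s + 1 by omega]
  split_ifs <;> simp
  positivity

open Uc

variable {q : ℕ} (hq : 3 ≤ q) (N n : ℕ)
include hq

theorem gf_aux {A : ℕ → Fin 4 → ℕ} {a₀ a₁ a : ℝ} {F₀ F₁ G : ℝ⟦X⟧}
    (h : ∏ k ∈ range (N + 1), ∏ j, Wf (A k j) 0 (k + 1) = (F₀ + X * F₁) * G) (h0 : Ev F₀) (h1 : Ev F₁)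
    (h2 : Bd √(q : ℝ)⁻¹ F₀ a₀) (h3 : Bd √(q : ℝ)⁻¹ F₁ a₁) (h4 : a₀ ≤ a) (h5 : 0.5774 * a₁ ≤ a)
    (h6 : Bd 0.5774 G d) : coeff n (Gf q (fun _ => False) A (N + 1)) * 0.5774 ^ (n % 2) ≤
      1.786 * a * d * q ^ (n / 2) := by
  have h7 : (3 : ℝ) ≤ q := by exact_mod_cast hq
  simp only [Gf, if_false, h]
  exact ev_bound (by linarith) (by norm_num) ((inv_anti₀ (by norm_num) h7).trans (by norm_num))
    (ev_prod _ fun _ => ev_Wf _ _ _) (dm_R h7 N) (by norm_num) h0 h1 h2 h3 h4 h5 h6 n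

theorem gf_zero : coeff (2 * n) (Gf q (fun _ => False) (fun _ _ => 0) (N + 1)) ≤ 1.786 * q ^ n := by
  simpa using gf_aux hq N (2 * n) (A := fun _ _ => 0) (F₀ := 1) (F₁ := C 0 * X ^ (2 * 0)) (G := 1) (a := 1)
    (by simp [Wf_zero]) (by simpa using ev_mono 1 0) (ev_mono _ _) bd_one (bd_mono (by positivity) le_rfl _)
    le_rfl (by simp) bd_one

theorem gf_sp : coeff (2 * n) (Gf q (fun _ => False) (fun k _ => if Odd k then 1 else 0) (N + 1)) ≤
    10.8 * q ^ n := by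
  have := gf_aux hq N (2 * n) (A := fun k _ => if Odd k then 1 else 0) (F₀ := 1) (F₁ := C 0 * X ^ (2 * 0)) (a := 1)
    (by rw [prod_comm]; simp only [map_zero, zero_mul, mul_zero, add_zero, one_mul]; rfl)
    (by simpa using ev_mono 1 0) (ev_mono _ _) bd_one (bd_mono (by positivity) le_rfl _) le_rfl (by simp)
    (bd_prod (by norm_num) _ fun _ _ => bd_bits 0 Odd (N + 1) (B := 1.568) (D := 2.15) (by norm_num)
      (by norm_num) (by norm_num [prod_range_succ, Nat.odd_iff]))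
  simp only [Nat.mul_mod_right, pow_zero, mul_one, Nat.mul_div_cancel_left _ two_pos] at this
  exact this.trans (mul_le_mul_of_nonneg_right (by norm_num) (by positivity))

omit hq in
theorem bd_H : Bd 0.5774 (∏ k ∈ range N, Wf (if Even (k + 1) then 1 else 0 : ℕ) 0 (k + 1 + 1)) 1.32 :=
  bd_bits 1 (fun k => Even (k + 1)) N (D := 1.05) (by norm_num) (by norm_num)
    (by norm_num [prod_range_succ, Nat.even_iff])

theorem sqrt_le : √(q : ℝ)⁻¹ ^ 2 ≤ 1 / 3 := by
  rw [Real.sq_sqrt (by positivity), one_div]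
  exact inv_anti₀ (by norm_num) (by exact_mod_cast hq)

theorem gf_o : coeff n (Gf q (fun _ => False) (fun k _ => if Even k then 1 else 0) (N + 1)) * 0.5774 ^ (n % 2) ≤
    16.88 * q ^ (n / 2) := by
  have h := sqrt_le hq
  have h0 := Real.sqrt_nonneg (q : ℝ)⁻¹
  refine (gf_aux hq N n (F₀ := C 1 * X ^ (2 * 0) + C 6 * X ^ (2 * 1) + C 1 * X ^ (2 * 2))
    (F₁ := C 4 * X ^ (2 * 0) + C 4 * X ^ (2 * 1)) (a := 28 / 9) ?_
    (((ev_mono _ _).add (ev_mono _ _)).add (ev_mono _ _)) ((ev_mono _ _).add (ev_mono _ _))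
    (((bd_mono h0 (by norm_num) _).add (bd_mono h0 (by norm_num) _)).add (bd_mono h0 (by norm_num) _))
    ((bd_mono h0 (by norm_num) _).add (bd_mono h0 (by norm_num) _)) (by rw [pow_mul _ 2 2]; nlinarith)
    (by nlinarith) (bd_prod (by norm_num) (univ : Finset (Fin 4)) fun _ _ => bd_H N)).trans
    (mul_le_mul_of_nonneg_right (by norm_num) (by positivity))
  rw [prod_range_succ', prod_comm, mul_comm]
  simp [Wf_zero, map_ofNat]
  ring_nf
  simp

theorem gf_spl : coeff n (Gf q (· = 0) (fun k => ![if Even k then 1 else 0, 0, if Even k then 1 else 0, 0])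
    (N + 2)) * 0.5774 ^ (n % 2) ≤ 2.77 * q ^ (n / 2) := by
  have h := sqrt_le hq
  have h0 := Real.sqrt_nonneg (q : ℝ)⁻¹
  have h7 : (3 : ℝ) ≤ q := by exact_mod_cast hq
  have h1 := ev_bound (F₀ := C 1 * X ^ (2 * 0) + C 1 * X ^ (2 * 1)) (F₁ := C 2 * X ^ (2 * 0)) (a := 4 / 3)
    (y := 0.5774) (by linarith) (by norm_num) ((inv_anti₀ (by norm_num) h7).trans (by norm_num))
    (ev_prod _ fun _ => ev_Wf _ _ _) (dm_R' h7 N) (by norm_num) ((ev_mono _ _).add (ev_mono _ _)) (ev_mono _ _)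
    ((bd_mono h0 (by norm_num) _).add (bd_mono h0 (by norm_num) _)) (bd_mono h0 (by norm_num) _) (by nlinarith)
    (by norm_num) ((bd_H (N + 1)).mul (by norm_num) (bd_H (N + 1))) n
  refine le_trans (le_of_eq ?_) (h1.trans (mul_le_mul_of_nonneg_right (by norm_num) (by positivity)))
  rw [Gf, prod_range_succ' (fun k => ∏ j, _) (N + 1), mul_comm (∏ _ ∈ range (N + 1), _), ← prod_mul_distrib]
  refine congrArg (coeff n · * _) (congrArg₂ _ (prod_congr rfl fun k _ => ?_) (congrArg₂ _ ?_ ?_))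
  · split_ifs <;> simp [show 1 ≤ q by omega]
  · simp [Wf_zero, Fin.prod_univ_four, map_ofNat]
    ring
  · simp [Wf_zero, Fin.prod_univ_four]

end Cfsg.Agent.Classical.Kn
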