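import Cfsg.Agent.Classical.Uc3
import Cfsg.Agent.Gen2.ClassCount

/-! Class numbers of the orthogonal groups in odd characteristic: the discriminant in terms of the
invariants `Dl`, upper bounds for `O`, `SO`, `Ω` and lower bounds from semisimple classes. -/

set_option autoImplicit false

namespace Cfsg.Agent.Classical.Uc

open Module Polynomial Cfsg.Agent.Elu Cfsg.Agent.Geom Cfsg.Agent.Geom.Formed Cfsg.Agent.Classical.Kn
  Cfsg.Agent.Classical.Eig

universe u
variable {F : Type u} [Field F] {V W : Type u} [AddCommGroup V] [Module F V] [AddCommGroup W] [Module F W]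
  {Φ : Formed (RingHom.id F) V} {Ψ : Formed (RingHom.id F) W} {f : End F V} {g : End F W} {k : ℕ} {δ : F}

/-- the scaled form -/
def scl (Φ : Formed (RingHom.id F) V) (δ : F) : Formed (RingHom.id F) V where
  B := δ • Φ.B
  Q := fun v => δ * Φ.Q v
  ε := Φ.ε
  τ := Φ.τ
  σσ := Φ.σσ
  εε := Φ.εε
  σε := Φ.σε
  symm := fun x y => by simp [Φ.symm x y, mul_left_comm]
  Q_add := fun x y => by simp [Φ.Q_add]; ring
  Q_smul := fun c x => by rw [Φ.Q_smul]; ring
  τσ := Φ.τσ
  τε := Φ.τε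
  trace := fun x => (Φ.trace x).elim fun d h => ⟨δ * d, by rw [← h.1]; ring, by simp [← h.2]; ring⟩

theorem scl_nd (hn : Φ.Nondeg) (hδ : δ ≠ 0) : (scl Φ δ).Nondeg := fun x h =>
  hn x fun y => (mul_eq_zero.1 (h y)).resolve_left hδ

theorem scl_iso (h : Iso Φ f) : Iso (scl Φ δ) f :=
  ⟨fun x y => congrArg (δ * ·) (h.1 x y), fun x => congrArg (δ * ·) (h.2 x)⟩

theorem not_isSquare_pow (hδ : ¬ IsSquare δ) {r : ℕ} (hr : Odd r) : ¬ IsSquare (δ ^ r) := by
  obtain ⟨m, rfl⟩ := hr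
  rwa [pow_succ, pow_mul', isSquare_sq_mul_iff (pow_ne_zero _ (by rintro rfl; simp at hδ))]

theorem iff_four {a b c d : Prop} : ((a ↔ b) ↔ (c ↔ d)) ↔ ((a ↔ c) ↔ (b ↔ d)) := by tauto

theorem par_even [NeZero (2 : F)] (h : Φ.ε = 1) {a : ℕ} (ha : Par Φ a) : Even a := by
  by_contra e
  have := ha.2
  rw [h, (Nat.not_even_iff_odd.1 e).neg_one_pow] at this
  exact two_ne_zero (α := F) (by linear_combination -this)

theorem eps_even [NeZero (2 : F)] (h : Φ.ε = 1) : Φ.ε * (-1) ^ k = 1 ↔ Even k :=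
  ⟨fun e => par_even h ⟨rfl, e⟩, fun e => by simp [h, e.neg_one_pow]⟩

variable [FiniteDimensional F V] [FiniteDimensional F W] [Finite F]

theorem dq_sim (hn : Φ.Nondeg) (hδ : δ ≠ 0) (e : V ≃ₗ[F] W) (h : ∀ a b, Ψ.B (e a) (e b) = δ * Φ.B a b) :
    Dq Ψ ↔ (IsSquare (δ ^ finrank F V) ↔ Dq Φ) :=
  dq_scale hδ e.toLinearMap h e.surjective (by rw [hn.finrank_perp]; simp)

theorem dq_iso (hn : Φ.Nondeg) (e : V ≃ₗ[F] W) (h : ∀ a b, Ψ.B (e a) (e b) = Φ.B a b) : Dq Ψ ↔ Dq Φ := by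
  simpa using dq_sim hn one_ne_zero e (by simpa using h)

theorem dq_split (hn : Φ.Nondeg) {U : Submodule F V} (hU : Nd Φ U) :
    Dq Φ ↔ (Dq (Φ.restrict U) ↔ Dq (Φ.restrict (Φ.perp U))) :=
  dq_sum U.subtype (Φ.perp U).subtype (fun _ _ => rfl) (fun _ _ => rfl) (fun a b => b.2 a a.2) fun v =>
    exists_add_of_isCompl (hn.isCompl_perp hU) v

variable [NeZero (2 : F)]

theorem exists_sub (hn : Φ.Nondeg) (hε : Φ.ε = 1) (h : Iso Φ f) (hk : Even k) {r s : ℕ}
    (hf : Jt f (.replicate (s + r) (k + 1))) : ∃ (U : Submodule F V) (hU : Inv f U), Nd Φ U ∧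
      Jt hU.res (.replicate s (k + 1)) ∧ Jt (h.inv_perp hn hU).res (.replicate r (k + 1)) := by
  obtain ⟨U, hU, h1, h2⟩ := (unip_main (fun _ => two_ne_zero) _ rfl hn h hf).2.1 (.replicate s (k + 1))
    ((Multiset.replicate_le_replicate _).2 (by omega)) fun a ha => by
      rw [Multiset.count_replicate, if_neg (by rintro rfl; simpa [hk, parity_simps] using par_even hε ha)]; simp
  obtain ⟨ν, ν', h3, h4, h5⟩ := hf.split hn h h1 hU
  rw [h4.unique h2, Multiset.replicate_add, add_right_inj] at h3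
  exact ⟨U, hU, h1, h2, h3 ▸ h5⟩

theorem homog_dq (hk : Even k) (r : ℕ) : ∀ {V W : Type u} [AddCommGroup V] [Module F V] [AddCommGroup W]
    [Module F W] [FiniteDimensional F V] [FiniteDimensional F W] {Φ : Formed (RingHom.id F) V}
    {Ψ : Formed (RingHom.id F) W} {f : End F V} {g : End F W}, Φ.Nondeg → Ψ.Nondeg → Φ.ε = 1 → Ψ.ε = 1 →
    Iso Φ f → Iso Ψ g → Jt f (.replicate r (k + 1)) → Jt g (.replicate r (k + 1)) →
      ((Dl Φ f k ↔ Dl Ψ g k) ↔ (Dq Φ ↔ Dq Ψ)) := by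
  induction r using Nat.strong_induction_on with
  | _ r ih =>
  intro V W _ _ _ _ _ _ Φ Ψ f g hn hn' hε hε' h h' hf hg
  rcases r.even_or_odd with hr | hr; swap
  · by_cases H : Dl Φ f k ↔ Dl Ψ g k
    · obtain ⟨e, -, he⟩ := homog hn hn' (hε'.trans hε.symm) h h' hf hg fun _ => by rwa [← dl_iff, ← dl_iff]
      exact iff_of_true H (dq_iso hn e he).symm
    obtain ⟨δ, hδ⟩ := FiniteField.exists_nonsquare (ringChar_ne_two (F := F) two_ne_zero)
    have h0 : δ ≠ 0 := by rintro rfl; simp at hδ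
    have h1 := dl_scale (k := k) hn' h' (scl_iso (δ := δ) h') (.refl _ _) (fun _ => rfl) h0 fun _ _ => rfl
    rw [Uc.Jt.ct hg, Multiset.count_replicate_self] at h1
    obtain ⟨e, -, he⟩ := homog hn (scl_nd hn' h0) (hε'.trans hε.symm) h (scl_iso h') hf hg fun _ => by
      rw [← dl_iff, ← dl_iff, h1]; have := not_isSquare_pow hδ hr; tauto
    have h2 := dq_sim (Ψ := scl Ψ δ) hn' h0 (.refl _ _) fun _ _ => rfl
    have := not_isSquare_pow hδ ((homog_ker hg).2.2.1 ▸ hk.add_one.mul hr)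
    have := dq_iso hn e he
    tauto
  rcases r with _ | r
  · have h1 : ∀ {V : Type u} [AddCommGroup V] [Module F V] [FiniteDimensional F V] {Φ : Formed (RingHom.id F) V}
        {f : End F V}, Jt f (.replicate 0 (k + 1)) → Dq Φ := fun h => dq_zero fun a _ => by
      simp [finrank_zero_iff_forall_zero.1 h.sum.symm a]
    simp [dl_zero hn h (Uc.Jt.ct hf _), dl_zero hn' h' (Uc.Jt.ct hg _), h1 hf, h1 hg]
  obtain ⟨U, hU, a1, a2, a3⟩ := exists_sub hn hε h hk (add_comm r 1 ▸ hf)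
  obtain ⟨Y, hY, b1, b2, b3⟩ := exists_sub hn' hε' h' hk (add_comm r 1 ▸ hg)
  have h1 := ih 1 (by obtain ⟨m, hm⟩ := hr; omega) a1 b1 hε hε' (h.res hU) (h'.res hY) a2 b2
  have h2 := ih r (by omega) (hn.restrict_perp a1) (hn'.restrict_perp b1) hε hε' (h.res _) (h'.res _) a3 b3
  rw [dl_split hn h a1 hU (h.inv_perp hn hU), dl_split hn' h' b1 hY (h'.inv_perp hn' hY), dq_split hn a1,
    dq_split hn' b1]
  exact iff_four.trans ((iff_congr h1 h2).trans iff_four)

theorem dl_dq (hn : Φ.Nondeg) (hn' : Ψ.Nondeg) (hΦ : Orth Φ) (hΨ : Orth Ψ) (h : Iso Φ f) (h' : Iso Ψ g)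
    (he : elemDiv f = elemDiv g) (hk : Even k) (H : ∀ j, Even j → (j ≠ k → (Dl Φ f j ↔ Dl Ψ g j)) ∧
      (Dl Φ (-f) j ↔ Dl Ψ (-g) j)) : (Dl Φ f k ↔ Dl Ψ g k) ↔ (Dq Φ ↔ Dq Ψ) := by
  obtain ⟨U, hU, hU', a1, a2, a3, a4, a5, a6⟩ := top_spec hn h k
  obtain ⟨Y, hY, hY', b1, b2, b3, b4, b5, b6⟩ := top_spec hn' h' k
  rw [show ct g (k + 1) = ct f (k + 1) by rw [ct, ct, he]] at b2
  obtain ⟨e, -, c⟩ := exists_conj _ rfl (hn.restrict_perp a1) (hn'.restrict_perp b1) (hΨ.1.trans hΦ.1.symm)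
    (hΨ.2.trans hΦ.2.symm) (h.res hU') (h'.res hY') ⟨add_left_cancel (a := elemDiv hU.res) (by
      rw [← elemDiv_of_isCompl (hn.isCompl_perp a1), he, elemDiv_of_isCompl (hn'.isCompl_perp b1) hY hY', a2,
        b2]), fun j hj => by
      have hj := H j ((eps_even hΦ.1).1 hj)
      refine ⟨?_, by rw [a6, b6, hj.2]⟩
      by_cases e : j = k
      · exact e ▸ iff_of_true a4 b4
      · rw [a5 j e, b5 j e, hj.1 e]⟩
  rw [← a3, ← b3, homog_dq hk _ a1 b1 hΦ.1 hΨ.1 (h.res hU) (h'.res hY) a2 b2, dq_split hn a1, dq_split hn' b1,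
    dq_iso (hn.restrict_perp a1) e c.1]
  tauto

theorem ct_even (hn : Φ.Nondeg) (hε : Φ.ε = 1) (h : Iso Φ f) (hk : ¬ Even k) : Even (ct f (k + 1)) := by
  classical
  exact even_count hn (fun _ => two_ne_zero) h (by simp) ⟨rfl, (eps_even hε).2 (Nat.even_add_one.2 hk)⟩

omit [NeZero (2 : F)] in
theorem elemDiv_neg (h : elemDiv f = elemDiv g) : elemDiv (-f) = elemDiv (-g) := by
  obtain ⟨e, he⟩ := exists_equiv_iff.2 h
  exact elemDiv_congr e fun v => by simp [he]

omit [NeZero (2 : F)] in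
theorem ct_congr (h : elemDiv f = elemDiv g) : ct f = ct g ∧ ct (-f) = ct (-g) :=
  ⟨funext fun _ => by rw [ct, ct, h], funext fun _ => by rw [ct, ct, elemDiv_neg h]⟩

open _root_.Classical in
theorem card_le_bits (hn : Φ.Nondeg) (hε : Φ.ε = 1) {X : Type*} (f : X → End F V) (hf : ∀ x, Iso Φ (f x))
    (D D' : X → ℕ → Prop) (hD : ∀ x k, ct (f x) (k + 1) = 0 → D x k) (hD' : ∀ x k, ct (-f x) (k + 1) = 0 → D' x k)
    (hi : ∀ x y, elemDiv (f x) = elemDiv (f y) → (∀ k, Even k → (D x k ↔ D y k) ∧ (D' x k ↔ D' y k)) → x = y) :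
    (Nat.card X : ℝ) ≤ PowerSeries.coeff (finrank F V)
      (Gf (Nat.card F) (fun _ => False) (fun k _ => if Even k then 1 else 0) (finrank F V)) := by
  have h1 : ∀ g k (s : Prop), Iso Φ g → (ct g (k + 1) = 0 → s) → ∃ r, ct g (k + 1) = (if Even k ∧
      (Odd (ct g (k + 1)) ↔ s) then 1 else 0) + (if Even k ∧ ¬ s then 1 else 0) + 2 * r := fun g k s h h2 => by
    have h3 := ct_even (k := k) hn hε h
    refine ⟨(ct g (k + 1) - if Even k ∧ ¬ s then 1 else 0) / 2, ?_⟩
    by_cases h4 : Even k <;> by_cases h5 : s <;>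
      simp only [h4, h5, Nat.odd_iff, Nat.even_iff (n := ct _ _), true_and, false_and, iff_true, iff_false, not_true,
        not_false_iff, if_true, if_false, imp_false, forall_const] at h2 h3 ⊢ <;> (try split_ifs) <;> omega
  refine card_le_enc (fun _ => Φ) f (fun _ => hn) hf _ _ (fun k _ => by split_ifs <;> simp)
    (fun x k => ![if Even k ∧ _ then 1 else 0, if Even k ∧ _ then 1 else 0, if Even k ∧ _ then 1 else 0,
      if Even k ∧ _ then 1 else 0]) (fun x k j => ?_)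
    (fun x k => (h1 _ k _ (hf x) (hD x k)).imp fun _ h => ⟨h, False.elim⟩)
    (fun x k => h1 _ k _ (iso_neg (hf x)) (hD' x k)) fun x y e e' => hi x y e fun k hk => ?_
  · by_cases h : Even k <;> fin_cases j <;> simp [h] <;> split_ifs <;> simp
  · have h2 := congrFun (congrFun e' k) 1
    have h3 := congrFun (congrFun e' k) 3
    simp only [hk, true_and, Matrix.cons_val] at h2 h3
    constructor <;> split_ifs at h2 h3 <;> simp_all

theorem card_O (hn : Φ.Nondeg) (hΦ : Orth Φ) : (2 * Nat.card (ConjClasses Φ.isom) : ℝ) ≤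
    PowerSeries.coeff (finrank F V) (Gf (Nat.card F) (fun _ => False) (fun k _ => if Even k then 1 else 0)
      (finrank F V)) + PowerSeries.coeff (finrank F V) (Gf (Nat.card F) (fun _ => False) (fun _ _ => 0)
      (finrank F V)) := by
  classical
  have := Module.finite_of_finite F (M := V)
  have : Finite (V ≃ₗ[F] V) := .of_injective _ DFunLike.coe_injective
  have : Finite (ConjClasses Φ.isom) := Quotient.finite _
  choose r hr using ConjClasses.mk_surjective (α := Φ.isom)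
  have h0 : ∀ c, Iso Φ ((r c).1 : End F V) := fun c => iso_coe.2 (r c).2
  have h1 : ∀ c d, Sim Φ (r c).1 Φ (r d).1 → c = d := fun c d h => by
    rw [← hr c, ← hr d, ConjClasses.mk_eq_mk_iff_isConj, isConj_iff_sim hn]; exact h
  let P : (ℕ → ℕ) → (ℕ → ℕ) → Bool × ℕ → Prop := fun a b z => Even z.2 ∧ cond z.1 a b (z.2 + 1) ≠ 0
  let R := fun c => P (ct ((r c).1 : End F V)) (ct (-(r c).1 : End F V))
  let c : ConjClasses Φ.isom ⊕ {c // ∃ z, R c z} → _ := Sum.elim id Subtype.val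
  have h2 : ∀ x, x.isRight → R (c x) (Classical.epsilon (R (c x))) := by
    rintro (x | x) h
    · simp at h
    · exact Classical.epsilon_spec x.2
  have h3 := card_le_bits hn hΦ.1 (fun x => ((r (c x)).1 : End F V)) (fun x => h0 _)
    (fun x k => Dl Φ (r (c x)).1 k ↔ ¬ (x.isRight ∧ Classical.epsilon (R (c x)) = (true, k)))
    (fun x k => Dl Φ (-(r (c x)).1) k ↔ ¬ (x.isRight ∧ Classical.epsilon (R (c x)) = (false, k)))
    (fun x k h => iff_of_true (dl_zero hn (h0 _) h) fun e => (e.2 ▸ h2 x e.1).2 h)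
    (fun x k h => iff_of_true (dl_zero hn (iso_neg (h0 _)) h) fun e => (e.2 ▸ h2 x e.1).2 h) fun x y e H => by
      have h3 : R (c x) = R (c y) := by simp only [R, (ct_congr e).1, (ct_congr e).2]
      rw [h3] at H
      have h4 : x.isRight = y.isRight := by
        by_contra h4
        have h5 : Even (Classical.epsilon (R (c y))).2 := by
          by_cases h : x.isRight
          · exact h3 ▸ (h2 x h).1
          · exact (h2 y (by simpa [h] using h4)).1
        generalize Classical.epsilon (R (c y)) = z at H h5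
        obtain ⟨_ | _, k⟩ := z
        · have := (dl_dq hn hn hΦ hΦ (iso_neg (h0 (c x))) (iso_neg (h0 (c y))) (elemDiv_neg e) h5
            fun j hj => ⟨fun e => by simpa [e.symm] using (H j hj).2, by simpa using (H j hj).1⟩).2 .rfl
          have := (H k h5).2
          grind
        · have := (dl_dq hn hn hΦ hΦ (h0 (c x)) (h0 (c y)) e h5
            fun j hj => ⟨fun e => by simpa [e.symm] using (H j hj).1, by simpa using (H j hj).2⟩).2 .rfl
          have := (H k h5).1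
          grind
      have h5 := h1 (c x) (c y) ⟨e, fun k hk => by
        have := H k ((eps_even hΦ.1).1 hk)
        rw [h4] at this
        tauto⟩
      rcases x with x | x <;> rcases y with y | y <;> simp_all [c, Subtype.ext_iff]
  have h4 := card_le_enc (X := {c // ¬ ∃ z, R c z}) (fun _ => Φ) (fun x => ((r x).1 : End F V)) (fun _ => hn)
    (fun _ => h0 _) (fun _ => False) (fun _ _ => 0) (by simp) 0 (by simp) (fun x k => by
      by_cases hk : Even k
      · exact ⟨0, not_not.1 fun h => x.2 ⟨(true, k), hk, h⟩, False.elim⟩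
      · exact (ct_even hn hΦ.1 (h0 x) hk).imp fun _ h => ⟨by simp [h, two_mul], False.elim⟩) (fun x k => by
      by_cases hk : Even k
      · exact ⟨0, not_not.1 fun h => x.2 ⟨(false, k), hk, h⟩⟩
      · exact (ct_even hn hΦ.1 (iso_neg (h0 x)) hk).imp fun _ h => by simp [h, two_mul]) fun x y e _ =>
    Subtype.ext (h1 _ _ ⟨e, fun k hk => by
      have hk := (eps_even hΦ.1).1 hk
      exact ⟨iff_of_true (dl_zero hn (h0 _) (not_not.1 fun h => x.2 ⟨(true, k), hk, h⟩))
        (dl_zero hn (h0 _) (not_not.1 fun h => y.2 ⟨(true, k), hk, h⟩)),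
        iff_of_true (dl_zero hn (iso_neg (h0 _)) (not_not.1 fun h => x.2 ⟨(false, k), hk, h⟩))
        (dl_zero hn (iso_neg (h0 _)) (not_not.1 fun h => y.2 ⟨(false, k), hk, h⟩))⟩⟩)
  have h5 := Nat.card_congr (Equiv.sumCompl fun c => ∃ z, R c z)
  rw [Nat.card_sum] at h3 h5
  rw [← h5] at h3 ⊢
  push_cast at h3 ⊢
  linarith

end Cfsg.Agent.Classical.Uc
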