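import Cfsg.Agent.Classical.Uc4
import Cfsg.Agent.S2385

/-! Class numbers of `O` and `Ω` in odd characteristic: split classes (`Spl`), subgroups of index two
(`idx_two`), semisimple classes (`exists_ss`) and the final bounds. -/

set_option autoImplicit false

namespace Cfsg.Agent.Classical.Uc

open Subgroup Finset in
theorem idx_two {G : Type*} [Group G] [Finite G] {H : Subgroup G} (h : H.index = 2) :
    2 * Nat.card (ConjClasses H) = Nat.card (ConjClasses G) +
      3 * Nat.card {c : ConjClasses G // ∀ x, ConjClasses.mk x = c → centralizer {x} ≤ H} := by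
  classical
  have := Fintype.ofFinite G
  have hN := H.normal_of_index_eq_two h
  let a := fun x : G => #{y | x * y = y * x ∧ y ∈ H}
  let b := fun x : G => #{y | x * y = y * x ∧ y ∉ H}
  have h1 : ∀ x : G, Nat.card (centralizer {x}) = a x + b x := fun x => by
    rw [← Cfsg.Agent.Gen2.card_filter_mem, ← card_filter_add_card_filter_not (· ∈ H), filter_filter,
      filter_filter]
    simp only [mem_centralizer_singleton_iff, eq_comm (a := _ * x), a, b]
  have h2 : ∀ x : G, ¬ centralizer {x} ≤ H → a x = b x := fun x hx => by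
    obtain ⟨z, hz, hz'⟩ := SetLike.not_le_iff_exists.1 hx
    rw [mem_centralizer_singleton_iff] at hz
    refine card_equiv (Equiv.mulLeft z) fun y => ?_
    simp [mul_mem_iff_of_index_two h, hz', ← mul_assoc, ← hz]
    simp [mul_assoc]
  have h3 : ∀ x : G, centralizer {x} ≤ H → x ∈ H ∧ b x = 0 := fun x hx =>
    ⟨hx (mem_centralizer_singleton_iff.2 rfl), card_eq_zero.2 (filter_eq_empty_iff.2 fun y _ hy =>
      hy.2 (hx (mem_centralizer_singleton_iff.2 hy.1.symm)))⟩
  have h4 : Nat.card (ConjClasses H) * Nat.card H = ∑ x with x ∈ H, a x := by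
    rw [Cfsg.Agent.Gen2.card_conjClasses_mul, sum_subtype (p := (· ∈ H)) _ (by simp)]
    refine sum_congr rfl fun x _ => ?_
    rw [← Cfsg.Agent.Gen2.card_filter_mem]
    exact card_bij (fun y _ => y.1) (by simp +contextual [mem_centralizer_singleton_iff, Subtype.ext_iff])
      (by simp) (by simp +contextual [mem_centralizer_singleton_iff, Subtype.ext_iff])
  have h5 : ∑ x with x ∈ H, b x = ∑ x with x ∉ H, a x := by
    simp only [a, b, card_filter, sum_filter]
    conv_lhs => enter [2, x]; rw [← sum_const_zero (s := (univ : Finset G)), ← Finset.sum_ite_irrel]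
    rw [sum_comm]
    refine sum_congr rfl fun y _ => ?_
    split_ifs with hy <;> simp [hy, eq_comm (a := y * _), ← ite_and, and_comm]
  have h6 := Cfsg.Agent.Gen2.card_conjClasses_mul (G := G)
  have h7 := Cfsg.Agent.Gen2.card_classes_mul (G := G) fun c => ∀ x, ConjClasses.mk x = c → centralizer {x} ≤ H
  have h8 : ∀ g : G, (∀ x, ConjClasses.mk x = ConjClasses.mk g → centralizer {x} ≤ H) ↔ centralizer {g} ≤ H :=
    fun g => ⟨fun H => H g rfl, fun H x e y hy => by
      obtain ⟨c, rfl⟩ := isConj_iff.1 (ConjClasses.mk_eq_mk_iff_isConj.1 e)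
      rw [mem_centralizer_singleton_iff] at hy
      simpa [mul_assoc] using hN.conj_mem _ (H (x := c * y * c⁻¹) (mem_centralizer_singleton_iff.2
        (by simp [mul_assoc, hy, ← mul_assoc y]))) c⁻¹⟩
  simp only [h1, h8] at h6 h7
  have h9 : ∑ x with x ∈ H, a x = ∑ x with x ∈ H, b x + ∑ x with centralizer {x} ≤ H, (a x + b x) := by
    simp only [sum_filter, ← sum_add_distrib]
    refine sum_congr rfl fun x _ => ?_
    by_cases e : centralizer {x} ≤ H
    · simp [e, h3 x e]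
    · simp [e, h2 x e]
  have h10 : ∑ x with x ∉ H, b x = ∑ x with x ∉ H, a x :=
    sum_congr rfl fun x hx => (h2 x fun e => (mem_filter.1 hx).2 (h3 x e).1).symm
  rw [sum_add_distrib, ← sum_filter_add_sum_filter_not _ (· ∈ H), ← sum_filter_add_sum_filter_not _ (· ∈ H) b,
    ← H.card_mul_index, h] at h6
  rw [← H.card_mul_index, h] at h7
  refine Nat.eq_of_mul_eq_mul_right (Nat.card_pos (α := H)) ?_
  nlinarith

open Module Polynomial Cfsg.Agent.Elu Cfsg.Agent.Geom Cfsg.Agent.Geom.Formed Cfsg.Agent.Classical.Kn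
  Cfsg.Agent.Classical.Eig

universe u
variable {F : Type u} [Field F] {V : Type u} [AddCommGroup V] [Module F V]
  {Φ : Formed (RingHom.id F) V} {f g : End F V} {k : ℕ} [FiniteDimensional F V]

/-- every invariant nondegenerate subspace of odd dimension has the discriminant of the space -/
def Spl (Φ : Formed (RingHom.id F) V) (f : End F V) : Prop :=
  ∀ (W : Type u) [AddCommGroup W] [Module F W] [FiniteDimensional F W] (Ψ : Formed (RingHom.id F) W) (g : End F W)
    (φ : W →ₗ[F] V), Ψ.Nondeg → (∀ a b, Φ.B (φ a) (φ b) = Ψ.B a b) → (∀ a, φ (g a) = f (φ a)) →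
      Odd (finrank F W) → (Dq Ψ ↔ Dq Φ)

theorem Spl.neg (h : Spl Φ f) : Spl Φ (-f) := fun W _ _ _ Ψ g φ h1 h2 h3 =>
  h W Ψ (-g) φ h1 h2 fun a => by simp [h3]

variable [Finite F] [NeZero (2 : F)]

theorem Spl.ct_le (hn : Φ.Nondeg) (hε : Φ.ε = 1) (h : Iso Φ f) (hs : Spl Φ f) (hk : Even k) :
    ct f (k + 1) ≤ 1 := by
  by_contra H
  obtain ⟨r, hr⟩ := Nat.exists_eq_add_of_le (not_le.1 H)
  obtain ⟨U, hU, a1, a2⟩ := exists_top two_ne_zero hn h k
  obtain ⟨Y, hY, b1, b2, -⟩ := exists_sub a1 hε (h.res hU) hk (hr ▸ a2)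
  have h1 := (h.res hU).res hY
  obtain ⟨W, hW, c1, c2, -⟩ := exists_sub (s := 1) (r := 1) b1 hε h1 hk b2
  obtain ⟨δ, hδ⟩ := FiniteField.exists_nonsquare (ringChar_ne_two (F := F) two_ne_zero)
  have h0 : δ ≠ 0 := by rintro rfl; simp at hδ
  obtain ⟨e, h2, h3⟩ := homog (scl_nd b1 h0) b1 rfl (scl_iso h1) h1 b2 b2 fun _ => by
    rw [← dl_iff, ← dl_iff, dl_scale b1 h1 (scl_iso h1) (.refl _ _) (fun _ => rfl) h0 fun _ _ => rfl,
      Uc.Jt.ct b2, Multiset.count_replicate_self]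
    simp [sq]
  have h4 : Odd (finrank F W) := (homog_ker c2).2.2.1 ▸ hk.add_one.mul odd_one
  have h5 := hs W _ hW.res (U.subtype ∘ₗ Y.subtype ∘ₗ W.subtype) c1 (fun _ _ => rfl) (fun _ => rfl) h4
  have h6 := hs W _ hW.res (U.subtype ∘ₗ Y.subtype ∘ₗ e.toLinearMap ∘ₗ W.subtype) (scl_nd c1 h0) (fun a b => h3 a b)
    (fun a => congrArg (·.1.1) (h2 a)) h4
  rw [dq_sim (Ψ := scl _ δ) c1 h0 (.refl _ _) fun _ _ => rfl, h5] at h6
  have := not_isSquare_pow hδ h4
  tauto

theorem Spl.dl (hn : Φ.Nondeg) (hε : Φ.ε = 1) (h : Iso Φ f) (h' : Iso Φ g) (hs : Spl Φ f) (hs' : Spl Φ g)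
    (he : ct f = ct g) (hk : Even k) : Dl Φ f k ↔ Dl Φ g k := by
  obtain h0 | h0 : ct f (k + 1) = 0 ∨ ct f (k + 1) = 1 := by have := hs.ct_le hn hε h hk; omega
  · exact iff_of_true (dl_zero hn h h0) (dl_zero hn h' (he ▸ h0))
  obtain ⟨U, hU, -, a1, a2, a3, -⟩ := top_spec hn h k
  obtain ⟨Y, hY, -, b1, b2, b3, -⟩ := top_spec hn h' k
  rw [← he] at b2
  rw [h0] at a2 b2
  rw [← a3, ← b3, homog_dq hk _ a1 b1 hε hε (h.res hU) (h'.res hY) a2 b2,
    hs U _ hU.res U.subtype a1 (fun _ _ => rfl) (fun _ => rfl) ((homog_ker a2).2.2.1 ▸ hk.add_one.mul odd_one),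
    hs' Y _ hY.res Y.subtype b1 (fun _ _ => rfl) (fun _ => rfl) ((homog_ker b2).2.2.1 ▸ hk.add_one.mul odd_one)]

theorem card_spl (hn : Φ.Nondeg) (hε : Φ.ε = 1) {P : ConjClasses Φ.isom → Prop}
    (hP : ∀ x : Φ.isom, P (ConjClasses.mk x) → Spl Φ x.1) : (Nat.card {c // P c} : ℝ) ≤
      PowerSeries.coeff (finrank F V) (Gf (Nat.card F) (· = 0)
        (fun k => ![if Even k then 1 else 0, 0, if Even k then 1 else 0, 0]) (finrank F V)) := by
  choose r hr using ConjClasses.mk_surjective (α := Φ.isom)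
  have h0 : ∀ c, Iso Φ ((r c).1 : End F V) := fun c => iso_coe.2 (r c).2
  have h1 : ∀ c : {c // P c}, Spl Φ (r c).1 := fun c => hP _ ((hr c).symm ▸ c.2)
  have h2 : ∀ g k, Iso Φ g → ∃ r, ct g (k + 1) = (if Even k then ct g (k + 1) else 0) + 0 + 2 * r ∧
      (k = 0 → r = 0) := fun g k h => by
    split_ifs with hk
    · exact ⟨0, rfl, fun _ => rfl⟩
    · exact (ct_even hn hε h hk).imp fun _ h => ⟨by simp [h, two_mul], fun e => by simp [e] at hk⟩
  refine card_le_enc (X := {c // P c}) (fun _ => Φ) (fun x => ((r x).1 : End F V)) (fun _ => hn) (fun _ => h0 _) _ _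
    (fun k j => ?_) (fun x k => ![if Even k then _ else 0, 0,
      if Even k then _ else 0, 0]) (fun x k j => ?_) (fun x k => h2 _ k (h0 x))
    (fun x k => (h2 _ k (iso_neg (h0 x))).imp fun _ h => h.1) fun x y e _ => Subtype.ext ?_
  · fin_cases j <;> simp <;> split_ifs <;> simp
  · by_cases hk : Even k <;> fin_cases j <;> simp [hk, (h1 x).ct_le hn hε (h0 x),
      (h1 x).neg.ct_le hn hε (iso_neg (h0 x))]
  · rw [← hr x, ← hr y, ConjClasses.mk_eq_mk_iff_isConj, isConj_iff_sim hn]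
    exact ⟨e, fun k hk => ⟨(h1 x).dl hn hε (h0 x) (h0 y) (h1 y) (ct_congr e).1 ((eps_even hε).1 hk),
      (h1 x).neg.dl hn hε (iso_neg (h0 x)) (iso_neg (h0 y)) (h1 y).neg (ct_congr e).2 ((eps_even hε).1 hk)⟩⟩

variable {Q : QuadraticForm F V}

theorem neg_on (hn : (ofQuad Q).Nondeg) (w : OG Q) {U U' : Submodule F V} (hc : IsCompl U U') (hU : Nd (ofQuad Q) U)
    (h : ∀ u ∈ U, w.1 u = -u) (h' : ∀ u ∈ U', w.1 u = u) :
    w ∈ commutator (OG Q) ↔ Even (finrank F U) ∧ Dq ((ofQuad Q).restrict U) := by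
  rw [mem_commutator_iff_of_neg hn two_ne_zero w (x := U.subtype ∘ finBasis F U)
    ((finBasis F U).linearIndependent.map' _ U.ker_subtype) (fun i => h _ (Subtype.prop _)) fun v => ?_,
    Fintype.card_fin, dq_iff hU .id (fun _ _ => rfl) (fun v => ⟨v, by simp⟩) (finBasis F U)]
  · rfl
  obtain ⟨a, b, rfl⟩ := exists_add_of_isCompl hc v
  rw [Set.range_comp, ← Submodule.map_span, Basis.span_eq, Submodule.map_top, Submodule.range_subtype, map_add,
    h _ a.2, h' _ b.2]
  simpa using add_mem a.2 a.2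

theorem spl_of_cent (hn : (ofQuad Q).Nondeg) (x : OG Q) (h : ∀ w, w * x = x * w →
    w ∈ commutator (OG Q) ∨ negOne Q * w ∈ commutator (OG Q)) : Spl (ofQuad Q) x.1 := by
  intro W _ _ _ Ψ g φ h1 h2 h3 h4
  have h5 : Nd (ofQuad Q) (LinearMap.range φ) := nd_iff.2 (by
    rintro _ ⟨a, rfl⟩ H
    rw [h1 a fun b => (h2 a b).symm.trans (H _ ⟨b, rfl⟩), map_zero])
  have h6 : Inv (x.1 : End F V) (LinearMap.range φ) := by rintro _ ⟨a, rfl⟩; exact ⟨g a, h3 a⟩
  have h7 := (iso_coe.2 x.2).inv_perp hn h6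
  have hc := hn.isCompl_perp h5
  obtain ⟨w, a, b, h8, h9, h10⟩ := exists_iso_sum hn h5 Iso.one (iso_neg Iso.one)
  obtain ⟨w, rfl⟩ := h8.exists_isom hn
  have h11 : ∀ u ∈ LinearMap.range φ, w.1 u = u := fun u hu => congrArg Subtype.val (LinearMap.congr_fun h9 ⟨u, hu⟩)
  have h12 : ∀ u ∈ (ofQuad Q).perp (LinearMap.range φ), w.1 u = -u := fun u hu =>
    congrArg Subtype.val (LinearMap.congr_fun h10 ⟨u, hu⟩)
  have h13 : finrank F (LinearMap.range φ) = finrank F W := LinearMap.finrank_range_of_inj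
    ((injective_iff_map_eq_zero _).2 fun a ha => h1 a fun b => by rw [← h2, ha]; simp)
  rw [dq_sum (β₂ := (ofQuad Q).restrict _) φ ((ofQuad Q).perp (LinearMap.range φ)).subtype h2 (fun _ _ => rfl) (fun a b => b.2 _ ⟨a, rfl⟩)
    fun v => by obtain ⟨⟨_, a, rfl⟩, b, rfl⟩ := exists_add_of_isCompl hc v; exact ⟨a, b, rfl⟩]
  rcases h w (OG.ext fun v => by
    obtain ⟨a, b, rfl⟩ := exists_add_of_isCompl hc v
    simp [h11 _ a.2, h12 _ b.2, h11 (x.1 a) (h6 _ a.2), h12 (x.1 b) (h7 _ b.2)]) with H | H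
  · simp [((neg_on hn w hc.symm (hn.restrict_perp h5) h12 h11).1 H).2]
  · exact absurd ((neg_on hn _ hc h5 (fun u hu => by simp [h11 u hu]) fun u hu => by simp [h12 u hu]).1 H).1
      (h13 ▸ Nat.not_even_iff_odd.2 h4)

omit [NeZero (2 : F)] in
theorem exists_ss (n : ℕ) : ∃ (X : Type u) (A : X → Multiset (Kb F × ℕ)), Nat.card X = Nat.card F ^ n ∧
    (Function.Injective fun x => (fd (A x)).prod) ∧ ∀ x, (∀ z ∈ A x, z.2 = 1) ∧ bdim (A x) = 2 * n ∧
      (fd (A x)).prod.Monic ∧ (fd (A x)).prod.natDegree = 2 * n ∧ (fd (A x)).prod.reverse = (fd (A x)).prod := by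
  classical
  obtain ⟨p, _⟩ := CharP.exists F
  have hp := Fact.mk (CharP.char_is_prime F p)
  have := Fintype.ofFinite F
  have h := S2385.result (Fintype.card_eq_nat_card (α := F)) p n
  choose r h1 h2 using fun c : {c : ConjClasses (Matrix.symplecticGroup (Fin n) F) //
    ∃ g, ConjClasses.mk g = c ∧ (orderOf g).Coprime p} => c.2
  choose A hA using fun c => exists_hasF_id (sympFormed_nondeg n F) (iso_symp.2 (r c).2)
  have h3 : ∀ c, (orderOf (spEquivSpGL (r c)).1).Coprime p := fun c => by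
    rw [Subgroup.orderOf_coe, MulEquiv.orderOf_eq]; exact h2 c
  have h4 : ∀ c, (fd (A c)).prod = (r c).1.charpoly := fun c => by rw [← (hasF_neg.1 (hA c)).2, Mult.prod_elemDiv]
  refine ⟨_, A, h, fun c d e => Subtype.ext ?_, fun c => ⟨fun z hz => by_contra fun e => not_irreducible_pow e
    (Mult.irr_of_coprime p (h3 c) ((hA c).2 ▸ Multiset.mem_map_of_mem blk (mem_bind_ex hz).1)).1,
    (hA c).dim.trans (by simp [two_mul]), h4 c ▸ Matrix.charpoly_monic _, by simp [h4, two_mul], ?_⟩⟩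
  · rw [← h1 c, ← h1 d, ConjClasses.mk_eq_mk_iff_isConj, ← isConj_congr (spEquiv n F)]
    refine (isConj_alt_iff (sympFormed_nondeg n F) (n := orderOf (r c)) (fun e => hp.out.not_dvd_one (h2 c ▸
      Nat.dvd_gcd ((CharP.cast_eq_zero_iff F p _).1 e) dvd_rfl)) ((map_pow (spEquiv n F) _ _).symm.trans (by simp; rfl))).2
      (exists_equiv_iff.2 ((Mult.elemDiv_of_coprime p (h3 c)).trans (Eq.trans ?_
        (Mult.elemDiv_of_coprime p (h3 d)).symm)))
    exact congrArg _ ((h4 c).symm.trans (e.trans (h4 d)))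
  · have h5 := Matrix.charpoly_inv (r c).1 (spEquivSpGL (r c)).1.isUnit
    rw [SymplecticGroup.inv_eq_symplectic_inv _ (r c).2, SymplecticGroup.det_eq_one (r c).2,
      Matrix.charpoly_mul_comm, ← mul_assoc, mul_neg, Matrix.J_squared] at h5
    rw [h4, Matrix.reverse_charpoly]
    simpa using h5.symm

theorem real_of (hn : Φ.Nondeg) (hΦ : Orth Φ) {A : Multiset (Kb F × ℕ)} (h1 : ∀ z ∈ A, z.2 = 1)
    (h2 : ∃ z ∈ A, z.1 ^ 2 = 1) (hd : finrank F V = bdim A) : Real Φ (fd A) := by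
  classical
  have h3 : ∀ B : Multiset (Kb F × ℕ), (∀ z ∈ B, z.1 ^ 2 = 1 ∧ z.2 = 1) → OR B := fun B => by
    induction B using Multiset.induction_on with
    | empty => exact fun _ => OR.sign (one_pow 2) 0
    | cons z B ih =>
      simp only [Multiset.forall_mem_cons]
      obtain ⟨ζ, i⟩ := z
      rintro ⟨⟨h, rfl⟩, h''⟩
      exact (OR.sign h 1).add two_ne_zero (ih h'')
  obtain ⟨z, hz, h4⟩ := h2
  obtain ⟨B, hB⟩ := Multiset.exists_cons_of_mem (Multiset.mem_filter_of_mem (p := (·.1 ^ 2 = 1)) hz h4)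
  have := OR.add_ne (A := A.filter (¬ ·.1 ^ 2 = 1)) (fun z hz => by simp [h1 z (Multiset.mem_of_mem_filter hz)])
    (fun z hz => (Multiset.mem_filter.1 hz).2) (h3 (A.filter (·.1 ^ 2 = 1)) fun z hz =>
      ⟨(Multiset.mem_filter.1 hz).2, h1 z (Multiset.mem_of_mem_filter hz)⟩) (by simp [hB, bdim_cons_sq h4, h1 z hz])
  rw [add_comm, Multiset.filter_add_not] at this
  exact this.2 hΦ hn hd

omit [NeZero (2 : F)] in
theorem card_le_of_real (hn : Φ.Nondeg) {X : Type*} (D : X → Multiset F[X]) (hD : Function.Injective D)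
    (h : ∀ x, Real Φ (D x)) : Nat.card X ≤ Nat.card (ConjClasses Φ.isom) := by
  have := Module.finite_of_finite F (M := V)
  have : Finite (V ≃ₗ[F] V) := .of_injective _ DFunLike.coe_injective
  have : Finite (ConjClasses Φ.isom) := Quotient.finite _
  choose f h1 h2 using h
  choose g hg using fun x => (h1 x).exists_isom hn
  refine Nat.card_le_card_of_injective (fun x => ConjClasses.mk (g x)) fun x y e => hD ?_
  obtain ⟨e, -, he⟩ := isConj_isom_iff.1 (ConjClasses.mk_eq_mk_iff_isConj.1 e)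
  rw [← h2, ← h2, ← hg, ← hg, elemDiv_congr e he]

theorem card_O_odd (hn : Φ.Nondeg) (hΦ : Orth Φ) {n : ℕ} (hV : finrank F V = 2 * n + 1) :
    2 * Nat.card F ^ n ≤ Nat.card (ConjClasses Φ.isom) := by
  obtain ⟨Y, A, h1, h2, h3⟩ := exists_ss (F := F) n
  have h4 : ∀ s : ℤˣ, (Units.map (Int.castRingHom (AlgebraicClosure F)).toMonoidHom s) ^ 2 = 1 := fun s => by
    rw [← map_pow, Int.units_sq, map_one]
  have h5 : ∀ x (s : ℤˣ), (fd ((Units.map (Int.castRingHom _).toMonoidHom s, 1) ::ₘ A x)).prod =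
      (X - C ((s : ℤ) : F)) * (fd (A x)).prod := fun x s => by
    rw [← Multiset.singleton_add, fd_add, fd_of_sq (by simpa using h4 s)]
    simp [blk, mp_algebraMap (c := ((s : ℤ) : F))]
  have h6 : ∀ x, (fd (A x)).prod.coeff 0 = 1 := fun x => by
    rw [← (h3 x).2.2.2.2, coeff_zero_reverse, (h3 x).2.2.1]
  have := card_le_of_real hn (fun x : ℤˣ × Y => fd ((_, 1) ::ₘ A x.2)) (fun x y e => ?_) fun x =>
    real_of hn hΦ (Multiset.forall_mem_cons.2 ⟨rfl, (h3 x.2).1⟩) ⟨_, Multiset.mem_cons_self _ _, h4 x.1⟩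
      (by rw [bdim_cons_sq (h4 _), (h3 _).2.1, hV, add_comm])
  · simpa [h1] using this
  have e := congrArg Multiset.prod e
  simp only [h5] at e
  have h7 : x.1 = y.1 := by
    have := congrArg (coeff · 0) e
    rcases Int.units_eq_one_or x.1 with h | h <;> rcases Int.units_eq_one_or y.1 with h' | h' <;>
      simp [h, h', h6, eq_neg_iff_add_eq_zero, neg_eq_iff_add_eq_zero, one_add_one_eq_two, NeZero.ne] at this ⊢
  rw [h7] at e
  exact Prod.ext h7 (h2 (mul_left_cancel₀ (X_sub_C_ne_zero _) e))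

theorem dq_fpf (hn : (ofQuad Q).Nondeg) (hV : Even (finrank F V)) (h : Iso (ofQuad Q) f)
    (h1 : f.charpoly.eval 1 ≠ 0) (h2 : f.charpoly.eval (-1) ≠ 0) :
    Dq (ofQuad Q) ↔ IsSquare (f.charpoly.eval 1 * f.charpoly.eval (-1)) := by
  obtain ⟨g, rfl⟩ := h.exists_isom hn
  have h3 := spin_mul hn (notExc_of_two_ne_zero two_ne_zero) (negOne Q) g
  have h4 : (1 - ((negOne Q).1 : End F V) : End F V) = (2 : F) • 1 := by ext; simp [two_smul]
  have h5 : (1 - ((negOne Q * g).1 : End F V) : End F V) = 1 + g.1 := by ext; simp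
  have h6 := (nondeg_iff_det_gram _ (finBasis F V)).1 hn
  rw [LinearMap.eval_charpoly, map_one] at h1 ⊢
  rw [LinearMap.eval_charpoly, show algebraMap F (End F V) (-1) - g.1 = (-1 : F) • (1 + g.1) by
    simp [sub_eq_add_neg, add_comm], LinearMap.det_smul, hV.neg_one_pow, one_mul] at h2 ⊢
  have h7 := fun {f : End F V} (h : LinearMap.det f ≠ 0) =>
    ((End.isUnit_iff _).1 ((LinearMap.isUnit_iff_isUnit_det _).2 h.isUnit)).1
  obtain ⟨m, hm⟩ := hV.two_dvd
  rw [spin_fpf hn _ (h5 ▸ h7 h2), spin_fpf hn _ (h4 ▸ smul_right_injective _ two_ne_zero), spin_fpf hn _ (h7 h1),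
    h4, h5, LinearMap.det_smul, map_one, mul_one, congrArg (2 ^ ·) hm, pow_mul', mul_comm _ (_ ^ 2),
    sqSign_sq_mul (by simp [NeZero.ne]), sqSign_mul h6 h1, sqSign_mul h6 h2, mul_right_inj] at h3
  rw [dq_iff hn .id (fun _ _ => rfl) (fun v => ⟨v, by simp⟩) (finBasis F V), ← sqSign_eq_one_iff,
    ← sqSign_eq_one_iff, sqSign_mul h1 h2, h3, mul_left_comm, Int.units_mul_self, mul_one]

omit [NeZero (2 : F)] [Finite F] in
theorem eval_fd {A : Multiset (Kb F × ℕ)} (h : ∀ z ∈ A, z.1 ^ 2 ≠ 1) {c : F} (hc : c ^ 2 = 1) :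
    (fd A).prod.eval c ≠ 0 := by
  rw [eval_multiset_prod]
  refine Multiset.prod_ne_zero fun h0 => ?_
  obtain ⟨_, h1, h2⟩ := Multiset.mem_map.1 h0
  obtain ⟨w, h3, rfl⟩ := Multiset.mem_map.1 h1
  have h4 := aeval_mp w.1
  rw [← mp_eq_of_aeval (ξ := jb F (.ofPowEqOne c 2 hc two_ne_zero)) (by
    simpa [jb, aeval_algebraMap_apply] using congrArg (algebraMap F (AlgebraicClosure F))
      (eq_zero_of_pow_eq_zero ((eval_pow _).symm.trans h2))), mp_algebraMap (c := c) rfl] at h4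
  have h5 : w.1 ^ 2 = 1 := Units.ext (by simp [show w.1.1 = algebraMap F _ c by simpa [sub_eq_zero] using h4,
    ← map_pow, hc])
  obtain ⟨z, hz, rfl | rfl⟩ := of_mem_bind_ex h3
  · exact h _ hz h5
  · exact h _ hz (by simpa [du] using h5)

theorem card_O_even (hn : Φ.Nondeg) (hΦ : Orth Φ) {n : ℕ} (hV : finrank F V = 2 * (n + 2)) :
    Nat.card F ^ (n + 2) ≤ 2 * Nat.card (ConjClasses Φ.isom) := by
  classical
  obtain ⟨Y, A, h1, h2, h3⟩ := exists_ss (F := F) (n + 2)
  have := Nat.finite_of_card_ne_zero (h1.trans_ne (pow_ne_zero _ Nat.card_pos.ne'))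
  have h4 := card_le_of_real hn (fun y : {y // Real Φ (fd (A y))} => fd (A y))
    (fun x y e => Subtype.ext (h2 (congrArg Multiset.prod e))) fun y => y.2
  have h5 : ∀ y : {y // ¬ Real Φ (fd (A y))}, (fd (A y)).prod.eval 1 * (fd (A y)).prod.eval (-1) ≠ 0 ∧
      (IsSquare ((fd (A y)).prod.eval 1 * (fd (A y)).prod.eval (-1)) ↔ ¬ Dq Φ) := fun y => by
    have h5 : ∀ z ∈ A y, z.1 ^ 2 ≠ 1 := fun z hz e => y.2 (real_of hn hΦ (h3 y).1 ⟨z, hz, e⟩ (hV.trans (h3 y).2.1.symm))
    obtain ⟨Q, h6, f, h7, h8⟩ := exists_quad (fun z hz => by simp [(h3 y).1 z hz]) h5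
    have h9 : finrank F (Fin (edim (A y)) ⊕ Fin (edim (A y)) → F) = finrank F V := by
      rw [hV, ← (h3 y).2.1, bdim_of_ne h5]; simp [two_mul]
    have h10 := eval_fd h5 (one_pow 2)
    have h11 := eval_fd h5 neg_one_sq
    refine ⟨mul_ne_zero h10 h11, ?_⟩
    rw [← h8, ← charpoly_eq_prod] at h10 h11 ⊢
    rw [← dq_fpf h6 (by simp [h9, hV]) h7 h10 h11, iff_not_comm, iff_comm, ← not_iff,
      dq_iff hn .id (fun _ _ => rfl) (fun v => ⟨v, by simp⟩) (finBasis F _),
      dq_iff h6 .id (fun _ _ => rfl) (fun v => ⟨v, by simp⟩) (finBasis F _),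
      ← isSquare_mul_iff ((nondeg_iff_det_gram _ _).1 h6) ((nondeg_iff_det_gram _ _).1 hn)]
    intro H
    obtain ⟨e, he⟩ := h6.exists_equiv_of_disc hn two_ne_zero rfl hΦ.1 h9 _ _ H
    exact y.2 (Real.iso (isIso_of_B hΦ.2 he) ⟨f, h7, h8⟩)
  obtain ⟨δ, hδ⟩ := FiniteField.exists_nonsquare (ringChar_ne_two (F := F) two_ne_zero)
  have h0 : δ ≠ 0 := by rintro rfl; simp at hδ
  have h6 := Nat.card_le_card_of_injective (fun x : {y // ¬ Real Φ (fd (A y))} × Bool =>
    ((fun i : Fin n => (fd (A x.1)).prod.coeff (i + 1)), (fd (A x.1)).prod.eval 1,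
      cond x.2 δ 1 * (fd (A x.1)).prod.eval (-1))) fun ⟨x, s⟩ ⟨y, t⟩ e => by
    simp only [Prod.mk.injEq] at e ⊢
    obtain ⟨e1, e2, e3⟩ := e
    obtain rfl : s = t := by
      have h7 := congrArg (IsSquare <| (fd (A x)).prod.eval 1 * ·) e3
      simp only [mul_left_comm _ (cond _ _ _)] at h7
      rw [isSquare_mul_iff (by cases s <;> simp [h0]) (h5 x).1, e2,
        isSquare_mul_iff (by cases t <;> simp [h0]) (h5 y).1, (h5 y).2, ← e2, (h5 x).2] at h7
      cases s <;> cases t <;> simp [hδ] at h7 ⊢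
    replace e3 := mul_left_cancel₀ (by cases s <;> simp [h0]) e3
    refine ⟨Subtype.ext (h2 (sub_eq_zero.1 ?_)), rfl⟩
    have h7 : ∀ y k, k ≤ 2 * (n + 2) → (fd (A y)).prod.coeff (2 * (n + 2) - k) = (fd (A y)).prod.coeff k :=
      fun y k hk => by rw [← revAt_le hk, ← (h3 y).2.2.2.1, ← coeff_reverse, (h3 y).2.2.2.2]
    have h8 : ∀ k ≤ n, (fd (A x)).prod.coeff k = (fd (A y)).prod.coeff k := fun k hk => by
      rcases k with _ | k
      · rw [← (h3 x).2.2.2.2, ← (h3 y).2.2.2.2, coeff_zero_reverse, coeff_zero_reverse, (h3 x).2.2.1, (h3 y).2.2.1]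
      · exact congrFun e1 ⟨k, hk⟩
    rw [← sub_eq_zero, ← eval_sub] at e2 e3
    have h9 : (fd (A x)).prod - (fd (A y)).prod = monomial (n + 1) (((fd (A x)).prod - (fd (A y)).prod).coeff (n + 1))
        + monomial (n + 2) (((fd (A x)).prod - (fd (A y)).prod).coeff (n + 2)) +
        monomial (n + 3) (((fd (A x)).prod - (fd (A y)).prod).coeff (n + 1)) := by
      ext k
      simp only [coeff_add, coeff_monomial, coeff_sub]
      by_cases h9 : k ≤ 2 * (n + 2)
      · have := h7 x k h9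
        have := h7 y k h9
        have := h8 k
        have := h8 (2 * (n + 2) - k)
        grind
      · rw [coeff_eq_zero_of_natDegree_lt, coeff_eq_zero_of_natDegree_lt, if_neg, if_neg, if_neg] <;>
          (try simp [(h3 _).2.2.2.1]) <;> omega
    generalize (fd (A x)).prod - (fd (A y)).prod = d at *
    generalize d.coeff (n + 1) = a at *
    generalize d.coeff (n + 2) = b at *
    subst h9
    simp only [eval_add, eval_monomial, one_pow, mul_one, pow_succ] at e2 e3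
    have h9 : b = 0 := (mul_eq_zero.1 (show 2 * (-1) ^ n * b = 0 by linear_combination (-1) ^ n * e2 + e3)).resolve_left
      (by simp [NeZero.ne])
    simp [h9, show a = 0 from (mul_eq_zero.1 (show 2 * a = 0 by linear_combination e2 - h9)).resolve_left two_ne_zero]
  have h7 := Nat.card_congr (Equiv.sumCompl fun y => Real Φ (fd (A y)))
  simp only [Nat.card_sum, Nat.card_prod, Nat.card_fun, Nat.card_eq_fintype_card (α := Fin _),
    Nat.card_eq_fintype_card (α := Bool), Fintype.card_fin, Fintype.card_bool] at h6 h7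
  rw [h1] at h7
  rw [← sq, ← pow_add] at h6
  omega

theorem three_le_card : 3 ≤ Nat.card F := by
  have := Fintype.ofFinite F
  obtain ⟨k, hk⟩ := odd_card_of_two_ne_zero (F := F) two_ne_zero
  have := Fintype.one_lt_card (α := F)
  rw [← Fintype.card_eq_nat_card]; omega

theorem card_conj_congr {G H : Type*} [Group G] [Group H] (e : G ≃* H) :
    Nat.card (ConjClasses G) = Nat.card (ConjClasses H) := Nat.card_congr (Quotient.congr e.toEquiv fun _ _ =>
  (isConj_congr e).symm)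

theorem card_O_bound (hn : Φ.Nondeg) (hΦ : Orth Φ) {n : ℕ} (h2 : 2 ≤ n) (hV : finrank F V = 2 * n) :
    Nat.card F ^ n ≤ 2 * Nat.card (ConjClasses Φ.isom) ∧
      2 * Nat.card (ConjClasses Φ.isom) ≤ 19 * Nat.card F ^ n := by
  obtain ⟨n, rfl⟩ := Nat.exists_eq_add_of_le' h2
  refine ⟨card_O_even hn hΦ hV, ?_⟩
  have h := card_O hn hΦ
  have h3 := gf_o (three_le_card (F := F)) (2 * n + 3) (2 * (n + 2))
  have h4 := gf_zero (three_le_card (F := F)) (2 * n + 3) (n + 2)
  rw [hV] at h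
  rw [Nat.mul_mod_right, pow_zero, mul_one, Nat.mul_div_cancel_left _ two_pos] at h3
  rw [← Nat.cast_le (α := ℝ)]
  push_cast
  linarith [show (0 : ℝ) ≤ Nat.card F ^ (n + 2) by positivity, h.trans (add_le_add h3 h4)]

theorem card_omega (hn : (ofQuad Q).Nondeg) {n : ℕ} (h1 : 1 ≤ n) (hV : finrank F V = 2 * n + 1) :
    Nat.card F ^ n ≤ 2 * Nat.card (ConjClasses (commutator (OG Q))) ∧
      10 * Nat.card (ConjClasses (commutator (OG Q))) ≤ 73 * Nat.card F ^ n := by
  have := Module.finite_of_finite F (M := V)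
  have : Finite (V ≃ₗ[F] V) := .of_injective _ DFunLike.coe_injective
  have := Fintype.ofFinite F
  have hx : NotExc Q := notExc_of_two_ne_zero two_ne_zero
  have h2 := dick_spin_surjective hn two_ne_zero (by omega)
  have h3 := negOne_notMem_odd hn two_ne_zero ⟨n, hV⟩
  have h4 := commutator_eq_ker hn hx
  generalize (dickHom hn hx).prod (spinHom hn hx) = φ at h2 h4
  have h5 : orderOf (φ (negOne Q)) = 2 := orderOf_eq_prime (Prod.ext (Int.units_sq _) (Int.units_sq _))
    fun e => h3 (h4 ▸ e)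
  have h6 : ((Subgroup.zpowers (φ (negOne Q))).comap φ).index = 2 := by
    have := (Subgroup.zpowers (φ (negOne Q))).card_mul_index
    rw [Nat.card_zpowers, h5] at this
    rw [Subgroup.index_comap_of_surjective _ h2]
    simp at this; omega
  have h7 : commutator (OG Q) ≤ (Subgroup.zpowers (φ (negOne Q))).comap φ := h4 ▸ Subgroup.ker_le_comap _ _
  have h8 := Subgroup.relIndex_mul_index h7
  rw [h6, h4, Subgroup.index_ker, MonoidHom.range_eq_top.2 h2, ← h4] at h8
  have h9 := idx_two (show (commutator (OG Q)).relIndex ((Subgroup.zpowers (φ (negOne Q))).comap φ) = 2 by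
    simp at h8; omega)
  rw [card_conj_congr (Subgroup.subgroupOfEquivOfLe h7), (Nat.card_eq_zero (α := {_c : ConjClasses _ // _})).2 (.inl ⟨fun ⟨c, hc⟩ => by
    obtain ⟨x, rfl⟩ := ConjClasses.mk_surjective c
    exact h3 (@hc x rfl ⟨negOne Q, Subgroup.mem_zpowers _⟩ (Subgroup.mem_centralizer_singleton_iff.2
      (Subtype.ext (OG.ext fun v => by simp))))⟩)] at h9
  have h10 := idx_two h6
  have h11 : _ ≤ Nat.card (ConjClasses (OG Q)) := card_O_odd hn (orth_quad Q) hV
  refine ⟨by omega, ?_⟩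
  have h12 : (Nat.card {c : ConjClasses (OG Q) // ∀ x, ConjClasses.mk x = c → Subgroup.centralizer {x} ≤
      (Subgroup.zpowers (φ (negOne Q))).comap φ} : ℝ) ≤ _ := card_spl hn rfl fun x H => spl_of_cent hn x fun w hw => by
    have := mem_zpowers_iff_mem_range_orderOf.1 (H x rfl (Subgroup.mem_centralizer_singleton_iff.2 hw))
    simp only [h4, MonoidHom.mem_ker, map_mul]
    simp only [h5, Finset.mem_image, Finset.mem_range] at this
    obtain ⟨i, hi, e⟩ := this
    interval_cases i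
    · exact .inl (e.symm.trans (pow_zero _))
    · exact .inr (by rw [← e, pow_one, ← sq, ← h5, pow_orderOf_eq_one])
  have h : (2 * Nat.card (ConjClasses (OG Q)) : ℝ) ≤ _ := card_O hn (orth_quad Q)
  obtain ⟨n, rfl⟩ := Nat.exists_eq_add_of_le' h1
  have h13 := gf_o (three_le_card (F := F)) (2 * n + 2) (2 * (n + 1) + 1)
  have h14 := gf_spl (three_le_card (F := F)) (2 * n + 1) (2 * (n + 1) + 1)
  rw [hV] at h h12
  rw [show PowerSeries.coeff _ (Gf _ _ (fun _ _ => 0) _) = 0 from (ev_prod _ fun _ => ev_Wf _ _ _).mul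
    (by simpa [Wf_zero] using ev_mono 1 0) _ (by simp)] at h
  rw [show (2 * (n + 1) + 1) % 2 = 1 by omega, show (2 * (n + 1) + 1) / 2 = n + 1 by omega] at h13 h14
  rw [← Nat.cast_le (α := ℝ)]
  rw [← Nat.cast_inj (R := ℝ)] at h9 h10
  push_cast at h9 h10 ⊢
  change PowerSeries.coeff _ (Gf _ _ _ (2 * (n + 1) + 1)) * _ ≤ _ at h13 h14
  linarith [show (0 : ℝ) ≤ Nat.card F ^ (n + 1) by positivity]

end Cfsg.Agent.Classical.Uc
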